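import Mathlib
import Cfsg.Agent.H74.BTDefs

/-!
# S0997-B2MOMFIN (helper8, for helper74): the final numerical argument of case B2
-/

set_option autoImplicit false

namespace Cfsg.Agent.H8.BT

open Cfsg Cfsg.Agent.H74.BT

universe u

private lemma int_mul_succ_nonneg (t : ℤ) : (0:ℝ) ≤ (t:ℝ) * ((t:ℝ) + 1) := by
  have : (0:ℤ) ≤ t * (t + 1) := by
    rcases le_or_gt 0 t with h | h
    · positivity
    · have : t + 1 ≤ 0 := by omega
      nlinarith
  exact_mod_cast this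

theorem b2MomFin : Cfsg.Agent.H74.BT.StB2MomFin.{u} := by
  intro G _ _ p e hpe he T S hT1 hS1 hreg h1 h2 h3 h4 h5 h6
  classical
  haveI : Fintype G := Fintype.ofFinite G
  choose! t ht hte s hs hs1 hs2 using hreg
  have hone : ¬ p ∣ orderOf (1 : G) := by
    rw [orderOf_one, Nat.dvd_one]; omega
  obtain ⟨a, ha⟩ : ∃ a : G → ℝ, ∀ g, a g = if p ∣ orderOf g then 0 else (t g : ℝ) :=
    ⟨_, fun _ => rfl⟩
  obtain ⟨b, hb⟩ : ∃ b : G → ℝ, ∀ g, b g = if p ∣ orderOf g then 0 else s g :=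
    ⟨_, fun _ => rfl⟩
  have haS : ∀ g, p ∣ orderOf g → a g = 0 := fun g hg => by rw [ha, if_pos hg]
  have haR : ∀ g, ¬ p ∣ orderOf g → a g = (t g : ℝ) := fun g hg => by rw [ha, if_neg hg]
  have hbS : ∀ g, p ∣ orderOf g → b g = 0 := fun g hg => by rw [hb, if_pos hg]
  have hbR : ∀ g, ¬ p ∣ orderOf g → b g = s g := fun g hg => by rw [hb, if_neg hg]
  have hTa : ∀ g, ¬ p ∣ orderOf g → T g = (a g : ℂ) := fun g hg => by
    rw [haR g hg, ht g hg]; push_cast; rfl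
  have hSb : ∀ g, ¬ p ∣ orderOf g → S g = (b g : ℂ) := fun g hg => by
    rw [hbR g hg, hs g hg]
  have hR : ∀ (F : G → ℂ) (f : G → ℝ), (∀ g, ¬ p ∣ orderOf g → F g = (f g : ℂ)) →
      (∀ g, p ∣ orderOf g → f g = 0) → regSum p F = ((∑ g, f g : ℝ) : ℂ) := by
    intro F f hF hf
    unfold regSum
    rw [finsum_eq_sum_of_fintype, Complex.ofReal_sum]
    refine Finset.sum_congr rfl fun g _ => ?_
    by_cases hg : p ∣ orderOf g
    · rw [if_pos hg, hf g hg]; simp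
    · rw [if_neg hg, hF g hg]
  have e1 : regSum p (fun g => T g) = ((∑ g, a g : ℝ) : ℂ) :=
    hR _ _ (fun g hg => hTa g hg) (fun g hg => haS g hg)
  have e2 : regSum p (fun g => T g ^ 2) = ((∑ g, a g ^ 2 : ℝ) : ℂ) :=
    hR _ _ (fun g hg => by rw [hTa g hg]; push_cast; rfl) (fun g hg => by rw [haS g hg]; ring)
  have e3 : regSum p (fun g => T g ^ 3) = ((∑ g, a g ^ 3 : ℝ) : ℂ) :=
    hR _ _ (fun g hg => by rw [hTa g hg]; push_cast; rfl) (fun g hg => by rw [haS g hg]; ring)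
  have e4 : regSum p (fun g => T g ^ 4) = ((∑ g, a g ^ 4 : ℝ) : ℂ) :=
    hR _ _ (fun g hg => by rw [hTa g hg]; push_cast; rfl) (fun g hg => by rw [haS g hg]; ring)
  have e5 : regSum p (fun g => S g * T g) = ((∑ g, b g * a g : ℝ) : ℂ) :=
    hR _ _ (fun g hg => by rw [hTa g hg, hSb g hg]; push_cast; rfl)
      (fun g hg => by rw [haS g hg]; ring)
  have e6 : regSum p (fun g => S g * T g ^ 2) = ((∑ g, b g * a g ^ 2 : ℝ) : ℂ) :=
    hR _ _ (fun g hg => by rw [hTa g hg, hSb g hg]; push_cast; rfl)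
      (fun g hg => by rw [haS g hg]; ring)
  rw [e1] at h1
  rw [e2] at h2
  rw [e3] at h3
  rw [e4] at h4
  rw [e5] at h5
  rw [e6] at h6
  obtain ⟨R1, hR1⟩ : ∃ R1 : ℝ, R1 = ∑ g, a g := ⟨_, rfl⟩
  obtain ⟨R2, hR2⟩ : ∃ R2 : ℝ, R2 = ∑ g, a g ^ 2 := ⟨_, rfl⟩
  obtain ⟨R3, hR3⟩ : ∃ R3 : ℝ, R3 = ∑ g, a g ^ 3 := ⟨_, rfl⟩
  obtain ⟨R4, hR4⟩ : ∃ R4 : ℝ, R4 = ∑ g, a g ^ 4 := ⟨_, rfl⟩
  obtain ⟨R5, hR5⟩ : ∃ R5 : ℝ, R5 = ∑ g, b g * a g := ⟨_, rfl⟩
  obtain ⟨R6, hR6⟩ : ∃ R6 : ℝ, R6 = ∑ g, b g * a g ^ 2 := ⟨_, rfl⟩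
  rw [← hR1] at h1
  rw [← hR2] at h2
  rw [← hR3] at h3
  rw [← hR4] at h4
  rw [← hR5] at h5
  rw [← hR6] at h6
  obtain ⟨N, hN⟩ : ∃ N : ℝ, N = (Nat.card G : ℝ) := ⟨_, rfl⟩
  have r1 : (p : ℝ) * R1 = -N := by rw [hN]; exact_mod_cast h1
  have r2 : (p : ℝ) * R2 = N * e := by rw [hN]; exact_mod_cast h2
  have r3 : 2 * (p : ℝ) * R3 = N * e := by rw [hN]; exact_mod_cast h3
  have r4 : 2 * (p : ℝ) * R4 = N * ((e : ℝ) ^ 2 + 5 * e + 2) := by rw [hN]; exact_mod_cast h4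
  have r5 : R5 = 0 := by exact_mod_cast h5
  have r6 : R6 = N := by rw [hN]; exact_mod_cast h6
  have hpR : (p : ℝ) = 2 * (e : ℝ) + 1 := by rw [← hpe]; push_cast; ring
  have heR : (2 : ℝ) ≤ (e : ℝ) := by exact_mod_cast he
  have hp0 : (0 : ℝ) < (p : ℝ) := by rw [hpR]; linarith
  -- (A)
  have hA : ∑ g, a g * (a g + 1) * (a g ^ 2 - e * a g + e - b g) =
      R4 + (1 - (e : ℝ)) * R3 + e * R1 - R6 - R5 := by
    rw [hR1, hR3, hR4, hR5, hR6, Finset.mul_sum, Finset.mul_sum, ← Finset.sum_add_distrib,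
      ← Finset.sum_add_distrib, ← Finset.sum_sub_distrib, ← Finset.sum_sub_distrib]
    exact Finset.sum_congr rfl fun g _ => by ring
  have hA0 : ∑ g, a g * (a g + 1) * (a g ^ 2 - e * a g + e - b g) = 0 := by
    rw [hA]
    have : 2 * (p : ℝ) * (R4 + (1 - (e : ℝ)) * R3 + e * R1 - R6 - R5) = 0 := by
      have : 2 * (p : ℝ) * (R4 + (1 - (e : ℝ)) * R3 + e * R1 - R6 - R5) =
          2 * (p : ℝ) * R4 + (1 - (e : ℝ)) * (2 * (p : ℝ) * R3) + 2 * e * ((p : ℝ) * R1)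
            - 2 * p * R6 - 2 * p * R5 := by ring
      rw [this, r4, r3, r1, r6, r5, hpR]; ring
    rcases mul_eq_zero.mp this with h | h
    · linarith
    · exact h
  have hAnn : ∀ g ∈ (Finset.univ : Finset G),
      0 ≤ a g * (a g + 1) * (a g ^ 2 - e * a g + e - b g) := by
    intro g _
    by_cases hg : p ∣ orderOf g
    · rw [haS g hg]; simp
    · rw [haR g hg, hbR g hg]
      apply mul_nonneg (int_mul_succ_nonneg _)
      have := hs2 g hg
      linarith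
  have hAz := (Finset.sum_eq_zero_iff_of_nonneg hAnn).mp hA0
  -- structure of regular elements
  have key : ∀ g, ¬ p ∣ orderOf g →
      (t g : ℝ) * ((t g : ℝ) + 1) = 0 ∨
        ((1 : ℝ) ≤ (t g : ℝ) ∧ s g = (t g : ℝ) ^ 2 - e * (t g : ℝ) + e) := by
    intro g hg
    have h0 := hAz g (Finset.mem_univ g)
    rw [haR g hg, hbR g hg] at h0
    rcases mul_eq_zero.mp h0 with h | h
    · exact Or.inl h
    · by_cases htz : (t g : ℝ) * ((t g : ℝ) + 1) = 0
      · exact Or.inl htz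
      · right
        have hsg : s g = (t g : ℝ) ^ 2 - e * (t g : ℝ) + e := by linarith
        refine ⟨?_, hsg⟩
        have h1' := hs1 g hg
        have : 0 ≤ (e : ℝ) * (t g : ℝ) := by linarith
        have ht0 : (0 : ℝ) ≤ (t g : ℝ) := by
          by_contra hneg
          push_neg at hneg
          nlinarith
        have ht0' : (0 : ℤ) ≤ t g := by exact_mod_cast ht0
        have htne : t g ≠ 0 := by
          intro h0'
          apply htz
          rw [h0']; simp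
        have : (1 : ℤ) ≤ t g := by omega
        exact_mod_cast this
  have ht1 : (t 1 : ℝ) = (e : ℝ) + 1 := by
    have := ht 1 hone
    rw [hT1] at this
    have h' : ((e : ℤ) + 1 : ℤ) = t 1 := by exact_mod_cast this
    rw [← h']; push_cast; ring
  have hs1' : s 1 = 2 * (e : ℝ) + 1 := by
    have := hs 1 hone
    rw [hS1] at this
    have h' : (p : ℝ) = s 1 := by exact_mod_cast this
    rw [← h', hpR]
  -- (B)
  have hB : ∑ g, a g * (a g + 1) * (b g - 2 * a g + 1) =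
      R6 + R5 - 2 * R3 - R2 + R1 := by
    rw [hR1, hR2, hR3, hR5, hR6, Finset.mul_sum, ← Finset.sum_add_distrib,
      ← Finset.sum_sub_distrib, ← Finset.sum_sub_distrib, ← Finset.sum_add_distrib]
    exact Finset.sum_congr rfl fun g _ => by ring
  have hB0 : ∑ g, a g * (a g + 1) * (b g - 2 * a g + 1) = 0 := by
    rw [hB]
    have : (p : ℝ) * (R6 + R5 - 2 * R3 - R2 + R1) = 0 := by
      have : (p : ℝ) * (R6 + R5 - 2 * R3 - R2 + R1) =
          p * R6 + p * R5 - 2 * (p : ℝ) * R3 - (p : ℝ) * R2 + (p : ℝ) * R1 := by ring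
      rw [this, r3, r2, r1, r6, r5, hpR]; ring
    rcases mul_eq_zero.mp this with h | h
    · linarith
    · exact h
  have hBnp : ∀ g ∈ (Finset.univ : Finset G),
      a g * (a g + 1) * (b g - 2 * a g + 1) ≤ 0 := by
    intro g _
    by_cases hg : p ∣ orderOf g
    · rw [haS g hg]; simp
    · rw [haR g hg, hbR g hg]
      by_cases hg1 : g = 1
      · subst hg1
        rw [hs1', ht1]
        have : 2 * (e : ℝ) + 1 - 2 * ((e : ℝ) + 1) + 1 = 0 := by ring
        rw [this, mul_zero]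
      · rcases key g hg with h | ⟨hge, hsg⟩
        · rw [h, zero_mul]
        · have hle : (t g : ℝ) ≤ (e : ℝ) := by exact_mod_cast hte g hg hg1
          rw [hsg]
          have e1' : (t g : ℝ) ^ 2 - e * (t g : ℝ) + e - 2 * (t g : ℝ) + 1 =
              ((t g : ℝ) - 1) * ((t g : ℝ) - e - 1) := by ring
          rw [e1']
          have hpos : 0 ≤ (t g : ℝ) * ((t g : ℝ) + 1) := int_mul_succ_nonneg _
          have h2' : ((t g : ℝ) - 1) * ((t g : ℝ) - e - 1) ≤ 0 :=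
            mul_nonpos_of_nonneg_of_nonpos (by linarith) (by linarith)
          exact mul_nonpos_of_nonneg_of_nonpos hpos h2'
  have hBz := (Finset.sum_eq_zero_iff_of_nonpos hBnp).mp hB0
  -- cubes
  have hcube : ∀ g, g ≠ 1 → a g ^ 3 - a g = 0 := by
    intro g hg1
    by_cases hg : p ∣ orderOf g
    · rw [haS g hg]; ring
    · rw [haR g hg]
      rcases key g hg with h | ⟨hge, hsg⟩
      · have : (t g : ℝ) ^ 3 - (t g : ℝ) = (t g : ℝ) * ((t g : ℝ) + 1) * ((t g : ℝ) - 1) := by ring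
        rw [this, h, zero_mul]
      · have hle : (t g : ℝ) ≤ (e : ℝ) := by exact_mod_cast hte g hg hg1
        have h0 := hBz g (Finset.mem_univ g)
        rw [haR g hg, hbR g hg, hsg] at h0
        have e1' : (t g : ℝ) * ((t g : ℝ) + 1) * ((t g : ℝ) ^ 2 - e * (t g : ℝ) + e - 2 * (t g : ℝ) + 1) =
            ((t g : ℝ) * ((t g : ℝ) + 1) * ((t g : ℝ) - e - 1)) * ((t g : ℝ) - 1) := by ring
        rw [e1'] at h0
        rcases mul_eq_zero.mp h0 with h | h
        · exfalso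
          have hpos : 0 < (t g : ℝ) * ((t g : ℝ) + 1) := by positivity
          have hneg : (t g : ℝ) - e - 1 < 0 := by linarith
          have := mul_neg_of_pos_of_neg hpos hneg
          linarith
        · have : (t g : ℝ) = 1 := by linarith
          rw [this]; ring
  have hC : ∑ g, (a g ^ 3 - a g) = R3 - R1 := by
    rw [hR1, hR3, ← Finset.sum_sub_distrib]
  have hC1 : ∑ g, (a g ^ 3 - a g) = a 1 ^ 3 - a 1 := by
    apply Finset.sum_eq_single 1
    · intro g _ hg1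
      exact hcube g hg1
    · intro h; exact absurd (Finset.mem_univ _) h
  rw [haR 1 hone, ht1] at hC1
  have hfin : 2 * (p : ℝ) * (R3 - R1) = N * ((e : ℝ) + 2) := by
    have : 2 * (p : ℝ) * (R3 - R1) = 2 * (p : ℝ) * R3 - 2 * ((p : ℝ) * R1) := by ring
    rw [this, r3, r1]; ring
  rw [← hC, hC1] at hfin
  have hNr : N = 2 * (p : ℝ) * e * ((e : ℝ) + 1) := by
    have he2 : (0 : ℝ) < (e : ℝ) + 2 := by linarith
    have : (N - 2 * (p : ℝ) * e * ((e : ℝ) + 1)) * ((e : ℝ) + 2) = 0 := by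
      have : (N - 2 * (p : ℝ) * e * ((e : ℝ) + 1)) * ((e : ℝ) + 2) =
        N * ((e : ℝ) + 2) - 2 * (p : ℝ) * (((e : ℝ) + 1) ^ 3 - ((e : ℝ) + 1)) := by ring
      rw [this, ← hfin]; ring
    rcases mul_eq_zero.mp this with h | h
    · linarith
    · linarith
  rw [hN] at hNr
  exact_mod_cast hNr

example : Cfsg.Agent.H74.BT.StB2MomFin.{u} := b2MomFin

end Cfsg.Agent.H8.BT
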