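import Mathlib
import Cfsg.Agent.H74.BTDefs

/-!
# S0997-B2SING (helper8, for helper74): every `p`-singular element is conjugate into `P`
-/

set_option autoImplicit false

namespace Cfsg.Agent.H8.BT

open Cfsg Cfsg.Agent.H74.BT

universe u

theorem b2Sing : Cfsg.Agent.H74.BT.StB2Sing.{u} := by
  intro G _ _ p _ P hP hC g hg
  have hp : p.Prime := Fact.out
  obtain ⟨y, hy⟩ : ∃ y : G, y = g ^ (orderOf g / p) := ⟨_, rfl⟩
  have hgpos : 0 < orderOf g := orderOf_pos g
  have hyo : orderOf y = p := by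
    rw [hy]; exact orderOf_pow_orderOf_div hgpos.ne' hg
  have hpg : IsPGroup p (Subgroup.zpowers y) := by
    apply IsPGroup.of_card (n := 1)
    rw [Nat.card_zpowers, hyo, pow_one]
  obtain ⟨Q, hQ⟩ := hpg.exists_le_sylow
  obtain ⟨h, hh⟩ := MulAction.exists_smul_eq G Q P
  have hyQ : y ∈ (Q : Subgroup G) := hQ (Subgroup.mem_zpowers y)
  have hxP : h * y * h⁻¹ ∈ (P : Subgroup G) := by
    rw [← hh, Sylow.coe_subgroup_smul, Subgroup.mem_pointwise_smul_iff_inv_smul_mem]
    simp only [MulAut.smul_def, MulAut.conj_inv_apply]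
    simpa [mul_assoc] using hyQ
  have hxo : orderOf (h * y * h⁻¹) = p := by
    have hs : SemiconjBy h y (h * y * h⁻¹) := by
      show h * y = h * y * h⁻¹ * h
      group
    rw [← hs.orderOf_eq]; exact hyo
  have hzp : Subgroup.zpowers (h * y * h⁻¹) = (P : Subgroup G) := by
    apply Subgroup.eq_of_le_of_card_ge
    · rw [Subgroup.zpowers_le]; exact hxP
    · rw [Nat.card_zpowers, hxo, hP]
  refine ⟨h, ?_⟩
  rw [← hC, Subgroup.mem_centralizer_iff]
  intro z hz
  have hz' : z ∈ Subgroup.zpowers (h * y * h⁻¹) := by rw [hzp]; exact hz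
  obtain ⟨k, rfl⟩ := Subgroup.mem_zpowers_iff.mp hz'
  have hcomm : Commute (h * y * h⁻¹) (h * g * h⁻¹) := by
    have : Commute y g := by rw [hy]; exact (Commute.refl g).pow_left _
    show h * y * h⁻¹ * (h * g * h⁻¹) = h * g * h⁻¹ * (h * y * h⁻¹)
    have e1 : h * y * h⁻¹ * (h * g * h⁻¹) = h * (y * g) * h⁻¹ := by group
    have e2 : h * g * h⁻¹ * (h * y * h⁻¹) = h * (g * y) * h⁻¹ := by group
    rw [e1, e2, this.eq]
  exact (hcomm.zpow_left k).eq

example : Cfsg.Agent.H74.BT.StB2Sing.{u} := b2Sing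

end Cfsg.Agent.H8.BT
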