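import Mathlib
import Cfsg.Agent.S2426

set_option autoImplicit false

namespace Cfsg.Agent.H8

open Matrix Cfsg.Agent.H85

/-- the braid-type relation makes the square of the Weyl element commute with the root element -/
theorem psl_braid_sq_comm {G : Type*} [Group G] (u w : G) (h : u * (w * u * w⁻¹) * u = w) :
    w * w * u = u * (w * w) := by
  have h1 : w * u * w⁻¹ = u⁻¹ * w * u⁻¹ := by
    have e : u⁻¹ * (u * (w * u * w⁻¹) * u) * u⁻¹ = w * u * w⁻¹ := by group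
    rw [h] at e
    exact e.symm
  have h2 : u * w * u = w * u⁻¹ * w := by
    calc u * w * u = (u * (w * u * w⁻¹) * u) * u⁻¹ * w := by group
      _ = w * u⁻¹ * w := by rw [h]
  calc w * w * u = w * (w * u * w⁻¹) * w := by group
    _ = w * (u⁻¹ * w * u⁻¹) * w := by rw [h1]
    _ = (w * u⁻¹ * w) * u⁻¹ * w := by group
    _ = (u * w * u) * u⁻¹ * w := by rw [← h2]
    _ = u * (w * w) := by group

section

variable {F : Type*} [Field F]

/-- the Weyl element of `SL₂` -/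
def slW : SpecialLinearGroup (Fin 2) F :=
  ⟨!![0, 1; -1, 0], by rw [Matrix.det_fin_two_of]; ring⟩

/-- the diagonal element of `SL₂` -/
def slD (z : F) (hz : z ≠ 0) : SpecialLinearGroup (Fin 2) F :=
  ⟨!![z, 0; 0, z⁻¹], by rw [Matrix.det_fin_two_of]; simp [hz]⟩

@[simp] theorem slW_00 : (slW : SpecialLinearGroup (Fin 2) F).1 0 0 = 0 := rfl
@[simp] theorem slW_01 : (slW : SpecialLinearGroup (Fin 2) F).1 0 1 = 1 := rfl
@[simp] theorem slW_10 : (slW : SpecialLinearGroup (Fin 2) F).1 1 0 = -1 := rfl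
@[simp] theorem slW_11 : (slW : SpecialLinearGroup (Fin 2) F).1 1 1 = 0 := rfl
@[simp] theorem slD_00 (z : F) (hz : z ≠ 0) : (slD z hz).1 0 0 = z := rfl
@[simp] theorem slD_01 (z : F) (hz : z ≠ 0) : (slD z hz).1 0 1 = 0 := rfl
@[simp] theorem slD_10 (z : F) (hz : z ≠ 0) : (slD z hz).1 1 0 = 0 := rfl
@[simp] theorem slD_11 (z : F) (hz : z ≠ 0) : (slD z hz).1 1 1 = z⁻¹ := rfl

theorem slW_mul_sl2U (t : F) : slW * sl2U t = sl2L (-t) * slW := by
  apply sl2_ext <;> simp [sl2_mul_apply]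

theorem slW_sl2U_inv (t : F) : slW * sl2U t * (slW : SpecialLinearGroup (Fin 2) F)⁻¹ =
    sl2L (-t) := by
  rw [slW_mul_sl2U, mul_inv_cancel_right]

theorem slD_mul_sl2U (z : F) (hz : z ≠ 0) (t : F) :
    slD z hz * sl2U t = sl2U (z ^ 2 * t) * slD z hz := by
  apply sl2_ext <;> simp [sl2_mul_apply]
  field_simp

theorem slD_sl2U_inv (z : F) (hz : z ≠ 0) (t : F) :
    slD z hz * sl2U t * (slD z hz)⁻¹ = sl2U (z ^ 2 * t) := by
  rw [slD_mul_sl2U, mul_inv_cancel_right]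

theorem slW_slD (z : F) (hz : z ≠ 0) :
    slW * slD z hz * (slW : SpecialLinearGroup (Fin 2) F)⁻¹ = (slD z hz)⁻¹ := by
  have e : slW * slD z hz = (slD z hz)⁻¹ * slW := by
    apply sl2_ext <;> simp [sl2_mul_apply, sl2_inv_00, sl2_inv_01, sl2_inv_10, sl2_inv_11]
  rw [e, mul_inv_cancel_right]

theorem sl2_bruhat_one : sl2U (1 : F) * (slW * sl2U 1 * slW⁻¹) * sl2U 1 = slW := by
  rw [slW_sl2U_inv]
  apply sl2_ext <;> simp [sl2_mul_apply]

theorem sl2_bruhat_gen (z : F) (hz : z ≠ 0) :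
    sl2U z * (slW * sl2U z⁻¹ * slW⁻¹) * sl2U z = slD z hz * slW := by
  rw [slW_sl2U_inv]
  apply sl2_ext <;> simp [sl2_mul_apply, hz]

end

section

variable {F : Type*} [Field F] [Finite F]

/-- a group with a root group, a torus element and a Weyl element satisfying the rank one
relations, mapping to `SL₂`, is isomorphic to `SL₂` -/
theorem sl2_bruhat_iso {P : Type*} [Group P] (ζ : F) (hζ0 : ζ ≠ 0)
    (hζ : ∀ t : F, t ≠ 0 → ∃ j : ℕ, t = ζ ^ j)
    (X : F → P) (h w : P)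
    (hXadd : ∀ s t, X (s + t) = X s * X t)
    (hXh : ∀ t, h * X t * h⁻¹ = X (ζ ^ 2 * t))
    (hwh : w * h * w⁻¹ = h⁻¹)
    (hW1 : X 1 * (w * X 1 * w⁻¹) * X 1 = w)
    (hWz : X ζ * (w * X ζ⁻¹ * w⁻¹) * X ζ = h * w)
    (hgen : Subgroup.closure {X 1, h, w} = ⊤)
    (ψ : P →* SpecialLinearGroup (Fin 2) F)
    (hψX : ∀ t, ψ (X t) = sl2U t) (hψw : ψ w = slW) :
    Function.Bijective ψ := by
  classical
  obtain ⟨e, he1, he2⟩ := Cfsg.Agent.S2426.result (K := F)
  have hX0 : X 0 = 1 := by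
    have h0 := hXadd 0 0
    rw [add_zero] at h0
    exact (mul_eq_left (a := X 0)).1 h0.symm
  have hXneg : ∀ t, X (-t) = (X t)⁻¹ := by
    intro t
    apply eq_inv_of_mul_eq_one_left
    rw [← hXadd, neg_add_cancel, hX0]
  -- the square of the Weyl element is central
  have hcen : ∀ g : P, w * w * g = g * (w * w) := by
    have hle : Subgroup.closure {X 1, h, w} ≤ Subgroup.centralizer {w * w} := by
      rw [Subgroup.closure_le]
      intro g hg
      rw [SetLike.mem_coe, Subgroup.mem_centralizer_iff]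
      intro y hy
      rw [Set.mem_singleton_iff] at hy
      subst hy
      rcases hg with rfl | rfl | hg
      · exact psl_braid_sq_comm (X 1) w hW1
      · have e1 : w * g = g⁻¹ * w := by
          calc w * g = (w * g * w⁻¹) * w := by group
            _ = g⁻¹ * w := by rw [hwh]
        have e2 : w * g⁻¹ = g * w := by
          calc w * g⁻¹ = (w * g * w⁻¹)⁻¹ * w := by group
            _ = g * w := by rw [hwh, inv_inv]
        calc w * w * g = w * (w * g) := by group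
          _ = w * (g⁻¹ * w) := by rw [e1]
          _ = (w * g⁻¹) * w := by group
          _ = g * w * w := by rw [e2]
          _ = g * (w * w) := by group
      · rw [Set.mem_singleton_iff] at hg
        subst hg
        group
    intro g
    have hg : g ∈ Subgroup.centralizer {w * w} := hle (by rw [hgen]; trivial)
    rw [Subgroup.mem_centralizer_iff] at hg
    exact hg (w * w) rfl
  have hconj2 : ∀ g : P, w * (w * g * w⁻¹) * w⁻¹ = g := by
    intro g
    calc w * (w * g * w⁻¹) * w⁻¹ = (w * w * g) * w⁻¹ * w⁻¹ := by group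
      _ = g * (w * w) * w⁻¹ * w⁻¹ := by rw [hcen]
      _ = g := by group
  have hhw : h * w = w * h⁻¹ := by
    calc h * w = (w * h * w⁻¹)⁻¹ * w := by rw [hwh, inv_inv]
      _ = w * h⁻¹ := by group
  have hwhi : w * h⁻¹ = h * w := hhw.symm
  have hζ2 : ζ ^ 2 ≠ 0 := pow_ne_zero 2 hζ0
  have hXh' : ∀ t, h⁻¹ * X t * h = X ((ζ ^ 2)⁻¹ * t) := by
    intro t
    have e := hXh ((ζ ^ 2)⁻¹ * t)
    rw [mul_inv_cancel_left₀ hζ2] at e
    rw [← e]; group
  obtain ⟨Y, hY⟩ : ∃ Y : F → P, ∀ t, Y t = w * X (-t) * w⁻¹ := ⟨_, fun _ => rfl⟩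
  have hYadd : ∀ s t, Y (s + t) = Y s * Y t := by
    intro s t
    rw [hY, hY, hY, neg_add, hXadd]; group
  have hYh : ∀ t, h * Y t * h⁻¹ = Y ((ζ ^ 2)⁻¹ * t) := by
    intro t
    rw [hY, hY]
    calc h * (w * X (-t) * w⁻¹) * h⁻¹ = (h * w) * X (-t) * (h * w)⁻¹ := by group
      _ = w * (h⁻¹ * X (-t) * h) * w⁻¹ := by rw [hhw]; group
      _ = w * X (-((ζ ^ 2)⁻¹ * t)) * w⁻¹ := by rw [hXh', mul_neg]
  have hYhpow : ∀ (j : ℕ) t, h ^ j * Y t * (h ^ j)⁻¹ = Y (((ζ ^ 2)⁻¹) ^ j * t) := by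
    intro j
    induction j with
    | zero => intro t; simp
    | succ j ih =>
      intro t
      calc h ^ (j + 1) * Y t * (h ^ (j + 1))⁻¹ = h * (h ^ j * Y t * (h ^ j)⁻¹) * h⁻¹ := by
            rw [pow_succ']; group
        _ = Y (((ζ ^ 2)⁻¹) ^ (j + 1) * t) := by rw [ih, hYh]; congr 1; ring
  have hwX : ∀ s, w * X s * w⁻¹ = Y (-s) := by
    intro s; rw [hY, neg_neg]
  have hwY : ∀ s, w * Y s * w⁻¹ = X (-s) := by
    intro s; rw [hY, hconj2]
  -- the elements `W t`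
  obtain ⟨Wt, hWt⟩ : ∃ Wt : F → P, ∀ t, Wt t = X t * Y (-t⁻¹) * X t := ⟨_, fun _ => rfl⟩
  have hWth : ∀ t, t ≠ 0 → h * Wt t * h⁻¹ = Wt (ζ ^ 2 * t) := by
    intro t ht
    rw [hWt, hWt]
    have e : -(ζ ^ 2 * t)⁻¹ = (ζ ^ 2)⁻¹ * (-t⁻¹) := by
      rw [mul_inv]; ring
    calc h * (X t * Y (-t⁻¹) * X t) * h⁻¹ =
          (h * X t * h⁻¹) * (h * Y (-t⁻¹) * h⁻¹) * (h * X t * h⁻¹) := by group
      _ = X (ζ ^ 2 * t) * Y (-(ζ ^ 2 * t)⁻¹) * X (ζ ^ 2 * t) := by rw [hXh, hYh, e]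
  have hWpow : ∀ j : ℕ, Wt (ζ ^ j) = h ^ j * w ∧ Wt (ζ ^ (j + 1)) = h ^ (j + 1) * w := by
    intro j
    induction j with
    | zero =>
      constructor
      · rw [hWt, pow_zero, pow_zero, one_mul, inv_one, hY, neg_neg]
        exact hW1
      · rw [hWt, zero_add, pow_one, pow_one, hY, neg_neg]
        exact hWz
    | succ j ih =>
      refine ⟨ih.2, ?_⟩
      have e : ζ ^ (j + 1 + 1) = ζ ^ 2 * ζ ^ j := by ring
      rw [e, ← hWth _ (pow_ne_zero j hζ0), ih.1]
      calc h * (h ^ j * w) * h⁻¹ = h ^ (j + 1) * (w * h⁻¹) := by rw [pow_succ']; group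
        _ = h ^ (j + 1 + 1) * w := by rw [hwhi, pow_succ (h) (j + 1)]; group
  have hB1 : ∀ t s : F, t ≠ 0 → Wt t * X s * (Wt t)⁻¹ = Y (-(t⁻¹ ^ 2 * s)) := by
    intro t s ht
    obtain ⟨j, rfl⟩ := hζ t ht
    rw [(hWpow j).1]
    calc h ^ j * w * X s * (h ^ j * w)⁻¹ = h ^ j * (w * X s * w⁻¹) * (h ^ j)⁻¹ := by group
      _ = Y (-((ζ ^ j)⁻¹ ^ 2 * s)) := by
        rw [hwX, hYhpow]
        congr 1
        simp only [inv_pow]
        rw [show (ζ ^ 2) ^ j = (ζ ^ j) ^ 2 by ring]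
        ring
  have hB2 : ∀ t s : F, t ≠ 0 →
      (Y t * X (-t⁻¹) * Y t) * Y s * (Y t * X (-t⁻¹) * Y t)⁻¹ = X (-(t⁻¹ ^ 2 * s)) := by
    intro t s ht
    have hnt : -t ≠ 0 := neg_ne_zero.2 ht
    obtain ⟨j, hj⟩ := hζ (-t) hnt
    have e1 : Y t * X (-t⁻¹) * Y t = w * Wt (-t) * w⁻¹ := by
      rw [hWt]
      have e2 : -(-t)⁻¹ = t⁻¹ := by rw [inv_neg, neg_neg]
      rw [e2]
      calc Y t * X (-t⁻¹) * Y t = (w * X (-t) * w⁻¹) * (w * Y t⁻¹ * w⁻¹) * (w * X (-t) * w⁻¹) := by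
            rw [hwY, ← hY]
        _ = w * (X (-t) * Y t⁻¹ * X (-t)) * w⁻¹ := by group
    rw [e1, hj, (hWpow j).1]
    calc w * (h ^ j * w) * w⁻¹ * Y s * (w * (h ^ j * w) * w⁻¹)⁻¹ =
          w * (h ^ j * Y s * (h ^ j)⁻¹) * w⁻¹ := by group
      _ = X (-(t⁻¹ ^ 2 * s)) := by
        rw [hYhpow, hwY]
        congr 2
        have e3 : (ζ ^ j)⁻¹ ^ 2 = t⁻¹ ^ 2 := by
          rw [← hj, inv_neg, neg_sq]
        rw [← e3]
        simp only [inv_pow]
        rw [show (ζ ^ 2) ^ j = (ζ ^ j) ^ 2 by ring]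
  -- the homomorphism from the Steinberg group
  have hrels : ∀ r ∈ ({g : FreeGroup (Bool × F) | ∃ (b : Bool) (t u : F),
        g = FreeGroup.of (b, t) * FreeGroup.of (b, u) * (FreeGroup.of (b, t + u))⁻¹} ∪
      {g | ∃ (b : Bool) (t u : F), t ≠ 0 ∧
        g = (FreeGroup.of (b, t) * FreeGroup.of (!b, -t⁻¹) * FreeGroup.of (b, t)) *
            FreeGroup.of (b, u) *
            (FreeGroup.of (b, t) * FreeGroup.of (!b, -t⁻¹) * FreeGroup.of (b, t))⁻¹ *
            (FreeGroup.of (!b, -(t⁻¹ ^ 2 * u)))⁻¹}),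
      FreeGroup.lift (fun p : Bool × F => if p.1 then X p.2 else Y p.2) r = 1 := by
    intro r hr
    rcases hr with ⟨b, t, u, rfl⟩ | ⟨b, t, u, ht, rfl⟩
    · cases b
      · simp only [map_mul, map_inv, FreeGroup.lift_apply_of, Bool.false_eq_true, if_false]
        rw [hYadd, mul_inv_cancel]
      · simp only [map_mul, map_inv, FreeGroup.lift_apply_of, if_true]
        rw [hXadd, mul_inv_cancel]
    · cases b
      · simp only [map_mul, map_inv, FreeGroup.lift_apply_of, Bool.false_eq_true, if_false,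
          Bool.not_false, if_true]
        rw [hB2 t u ht, mul_inv_cancel]
      · simp only [map_mul, map_inv, FreeGroup.lift_apply_of, if_true, Bool.not_true,
          Bool.false_eq_true, if_false]
        rw [← hWt, hB1 t u ht, mul_inv_cancel]
  obtain ⟨φ, hφ⟩ : ∃ φ : PresentedGroup _ →* P, ∀ p : Bool × F,
      φ (PresentedGroup.of p) = if p.1 then X p.2 else Y p.2 :=
    ⟨PresentedGroup.toGroup hrels, fun p => PresentedGroup.toGroup.of hrels⟩
  have hcomp : ψ.comp φ = e.toMonoidHom := by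
    apply PresentedGroup.ext
    rintro ⟨b, t⟩
    rw [MonoidHom.comp_apply, hφ]
    cases b
    · simp only [Bool.false_eq_true, if_false]
      rw [hY, map_mul, map_mul, map_inv, hψX, hψw, slW_sl2U_inv, neg_neg]
      exact (Subtype.ext (he2 t)).symm
    · simp only [if_true]
      rw [hψX]
      exact (Subtype.ext (he1 t)).symm
  have hφsurj : Function.Surjective φ := by
    rw [← MonoidHom.range_eq_top, eq_top_iff, ← hgen, Subgroup.closure_le]
    have hXr : ∀ t, X t ∈ φ.range := fun t => ⟨PresentedGroup.of (true, t), by rw [hφ]; rfl⟩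
    have hYr : ∀ t, Y t ∈ φ.range := fun t => ⟨PresentedGroup.of (false, t), by rw [hφ]; rfl⟩
    have hWr : ∀ t, Wt t ∈ φ.range := by
      intro t
      rw [hWt]
      exact mul_mem (mul_mem (hXr _) (hYr _)) (hXr _)
    have hwr : w ∈ φ.range := by
      have e1 := (hWpow 0).1
      rw [pow_zero, pow_zero, one_mul] at e1
      rw [← e1]; exact hWr 1
    intro g hg
    rcases hg with rfl | rfl | hg
    · exact hXr 1
    · have e1 := (hWpow 0).2
      rw [zero_add, pow_one, pow_one] at e1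
      have e2 : g = Wt ζ * w⁻¹ := by rw [e1]; group
      rw [SetLike.mem_coe, e2]
      exact mul_mem (hWr ζ) (inv_mem hwr)
    · rw [Set.mem_singleton_iff] at hg
      rw [SetLike.mem_coe, hg]
      exact hwr
  constructor
  · intro p p' hpp
    obtain ⟨s, rfl⟩ := hφsurj p
    obtain ⟨s', rfl⟩ := hφsurj p'
    have e1 : e s = e s' := by
      have a1 : e s = ψ (φ s) := by rw [← MonoidHom.comp_apply, hcomp]; rfl
      have a2 : e s' = ψ (φ s') := by rw [← MonoidHom.comp_apply, hcomp]; rfl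
      rw [a1, a2, hpp]
    rw [e.injective e1]
  · intro g
    obtain ⟨s, hs⟩ := e.surjective g
    refine ⟨φ s, ?_⟩
    rw [← MonoidHom.comp_apply, hcomp]
    exact hs

end

end Cfsg.Agent.H8
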