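import Mathlib

set_option autoImplicit false

namespace Cfsg.Agent.H8

open Polynomial

section cprod

/-- ordered product of the first `n` terms -/
def cprod {M : Type*} [Monoid M] (f : ℕ → M) : ℕ → M
  | 0 => 1
  | n + 1 => cprod f n * f n

theorem cprod_zero {M : Type*} [Monoid M] (f : ℕ → M) : cprod f 0 = 1 := rfl

theorem cprod_succ {M : Type*} [Monoid M] (f : ℕ → M) (n : ℕ) :
    cprod f (n + 1) = cprod f n * f n := rfl

theorem map_cprod {M N : Type*} [Monoid M] [Monoid N] (φ : M →* N) (f : ℕ → M) (n : ℕ) :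
    φ (cprod f n) = cprod (fun i => φ (f i)) n := by
  induction n with
  | zero => rw [cprod_zero, cprod_zero, map_one]
  | succ n ih => rw [cprod_succ, cprod_succ, map_mul, ih]

theorem cprod_mem {G : Type*} [Group G] (H : Subgroup G) (f : ℕ → G) (hf : ∀ i, f i ∈ H)
    (n : ℕ) : cprod f n ∈ H := by
  induction n with
  | zero => exact one_mem H
  | succ n ih => exact mul_mem ih (hf n)

end cprod

section cj

variable {G : Type*} [Group G]

/-- conjugate of `u` by the `i`-th power of `h` -/
def cj (h u : G) (i : ℕ) : G := h ^ i * u * (h ^ i)⁻¹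

theorem cj_zero (h u : G) : cj h u 0 = u := by simp [cj]

theorem cj_succ (h u : G) (i : ℕ) : cj h u (i + 1) = h * cj h u i * h⁻¹ := by
  unfold cj; rw [pow_succ']; group

theorem cj_add (h u : G) (i j : ℕ) : cj h u (i + j) = h ^ i * cj h u j * (h ^ i)⁻¹ := by
  unfold cj; rw [pow_add]; group

theorem cj_eq (h u : G) (i : ℕ) : cj h u i = h ^ i * u * (h ^ i)⁻¹ := rfl

theorem map_cj {H : Type*} [Group H] (φ : G →* H) (h u : G) (i : ℕ) :
    φ (cj h u i) = cj (φ h) (φ u) i := by
  simp [cj]

/-- the word attached to a polynomial -/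
def pw (p : ℕ) (h u : G) (g : (ZMod p)[X]) : G :=
  cprod (fun i => cj h u i ^ (g.coeff i).val) (g.natDegree + 1)

theorem map_pw {H : Type*} [Group H] (φ : G →* H) (p : ℕ) (h u : G) (g : (ZMod p)[X]) :
    φ (pw p h u g) = pw p (φ h) (φ u) g := by
  unfold pw
  rw [map_cprod]
  simp only [map_pow, map_cj]

theorem pw_mem (p : ℕ) (h u : G) (g : (ZMod p)[X]) :
    pw p h u g ∈ Subgroup.closure (Set.range (cj h u)) :=
  cprod_mem _ _ (fun i => pow_mem (Subgroup.subset_closure (Set.mem_range_self i)) _) _

theorem cj_commute_shift (h u : G) (x d : ℕ) :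
    Commute (cj h u x) (cj h u (x + d)) ↔ Commute (cj h u 0) (cj h u d) := by
  rw [cj_add h u x d]
  have e : cj h u x = h ^ x * cj h u 0 * (h ^ x)⁻¹ := by rw [cj_zero]; rfl
  rw [e]
  exact Commute.conj_iff _

/-- commutativity of all conjugates from three relations (odd characteristic shape) -/
theorem cj_comm_odd (h u : G) (K e : ℕ) (hK : 3 ≤ K)
    (h1 : Commute u (cj h u 1)) (h2 : Commute u (cj h u 2))
    (hrel : cj h u K = u * cj h u 1 ^ e * cj h u 2) :
    ∀ i j, cj h u i * cj h u j = cj h u j * cj h u i := by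
  have hv0 : cj h u 0 = u := cj_zero h u
  have hsh := cj_commute_shift h u
  have hrelx : ∀ x, cj h u (x + K) = cj h u x * cj h u (x + 1) ^ e * cj h u (x + 2) := by
    intro x
    rw [cj_add h u x K, hrel, cj_add h u x 1, cj_add h u x 2, conj_pow, cj_eq h u x]
    group
  have hC : ∀ d, Commute (cj h u 0) (cj h u d) → ∀ x, Commute (cj h u x) (cj h u (x + d)) :=
    fun d hd x => (hsh x d).2 hd
  have hD0 : Commute (cj h u 0) (cj h u 0) := Commute.refl _
  have hD1 : Commute (cj h u 0) (cj h u 1) := by rw [hv0]; exact h1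
  have hD2 : Commute (cj h u 0) (cj h u 2) := by rw [hv0]; exact h2
  have hK0 : cj h u K = cj h u 0 * cj h u 1 ^ e * cj h u 2 := by rw [hv0]; exact hrel
  have claim : ∀ n m, n + m = K → Commute (cj h u 0) (cj h u n) ∧ Commute (cj h u 0) (cj h u m) := by
    intro n
    induction n using Nat.strong_induction_on with
    | _ n ih =>
      intro m hm
      by_cases hn0 : n = 0
      · subst hn0
        have : m = K := by omega
        subst this
        refine ⟨hD0, ?_⟩
        rw [hK0]
        exact (hD0.mul_right (hD1.pow_right e)).mul_right hD2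
      by_cases hn1 : n = 1
      · subst hn1
        refine ⟨hD1, ?_⟩
        have c : Commute (cj h u 1) (cj h u (1 + m)) := by
          rw [hm, hK0]
          exact (hD1.symm.mul_right ((Commute.refl _).pow_right e)).mul_right (hC 1 hD1 1)
        exact (hsh 1 m).1 c
      by_cases hn2 : n = 2
      · subst hn2
        refine ⟨hD2, ?_⟩
        have c : Commute (cj h u 2) (cj h u (2 + m)) := by
          rw [hm, hK0]
          exact (hD2.symm.mul_right ((hC 1 hD1 1).symm.pow_right e)).mul_right (Commute.refl _)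
        exact (hsh 2 m).1 c
      obtain ⟨j, rfl⟩ : ∃ j, n = j + 3 := ⟨n - 3, by omega⟩
      obtain ⟨hDj1, hDm2⟩ := ih (j + 1) (by omega) (m + 2) (by omega)
      obtain ⟨hDj, hDm1⟩ := ih (j + 2) (by omega) (m + 1) (by omega)
      have cK : Commute (cj h u (m + 2)) (cj h u K) := by
        have := hC (j + 1) hDj1 (m + 2)
        rwa [show m + 2 + (j + 1) = K by omega] at this
      have c0 : Commute (cj h u (m + 2)) (cj h u 0) := hDm2.symm
      have c1 : Commute (cj h u (m + 2)) (cj h u 1) := by
        have := hC (m + 1) hDm1 1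
        rw [show 1 + (m + 1) = m + 2 by omega] at this
        exact this.symm
      have c2 : Commute (cj h u (m + 2)) (cj h u 2) := by
        have e2 : cj h u 2 = (cj h u 1 ^ e)⁻¹ * (cj h u 0)⁻¹ * cj h u K := by rw [hK0]; group
        rw [e2]
        exact ((c1.pow_right e).inv_right.mul_right c0.inv_right).mul_right cK
      have hDm : Commute (cj h u 0) (cj h u m) := by
        have := c2.symm
        rw [show m + 2 = 2 + m by omega] at this
        exact (hsh 2 m).1 this
      refine ⟨?_, hDm⟩
      have dK : Commute (cj h u (j + 3)) (cj h u K) := by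
        have := hC m hDm (j + 3)
        rwa [show j + 3 + m = K by omega] at this
      have d2 : Commute (cj h u (j + 3)) (cj h u 2) := by
        have := hC (j + 1) hDj1 2
        rw [show 2 + (j + 1) = j + 3 by omega] at this
        exact this.symm
      have d1 : Commute (cj h u (j + 3)) (cj h u 1) := by
        have := hC (j + 2) hDj 1
        rw [show 1 + (j + 2) = j + 3 by omega] at this
        exact this.symm
      have e0 : cj h u 0 = cj h u K * (cj h u 2)⁻¹ * (cj h u 1 ^ e)⁻¹ := by
        rw [hK0]; group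
      have d0 : Commute (cj h u (j + 3)) (cj h u K * (cj h u 2)⁻¹ * (cj h u 1 ^ e)⁻¹) :=
        (dK.mul_right d2.inv_right).mul_right (d1.pow_right e).inv_right
      rw [← e0] at d0
      exact d0.symm
  have hDall : ∀ d, Commute (cj h u 0) (cj h u d) := by
    intro d
    induction d using Nat.strong_induction_on with
    | _ d ih =>
      by_cases hd : d ≤ K
      · exact (claim d (K - d) (by omega)).1
      · obtain ⟨x, rfl⟩ : ∃ x, d = x + K := ⟨d - K, by omega⟩
        rw [hrelx]
        exact ((ih x (by omega)).mul_right ((ih (x + 1) (by omega)).pow_right e)).mul_right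
          (ih (x + 2) (by omega))
  intro i j
  rcases le_total i j with hij | hij
  · obtain ⟨d, rfl⟩ := Nat.exists_eq_add_of_le hij
    exact (hC d (hDall d) i).eq
  · obtain ⟨d, rfl⟩ := Nat.exists_eq_add_of_le hij
    exact (hC d (hDall d) j).eq.symm

/-- commutativity of all conjugates from two relations (characteristic two shape) -/
theorem cj_comm_two (h u : G) (k : ℕ) (hk : 2 ≤ k) (hu : u ^ 2 = 1)
    (hrel : cj h u k = u * cj h u 1) :
    ∀ i j, cj h u i * cj h u j = cj h u j * cj h u i := by
  have hv0 : cj h u 0 = u := cj_zero h u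
  have hsh := cj_commute_shift h u
  have hsq : ∀ i, cj h u i * cj h u i = 1 := by
    intro i
    rw [cj_eq]
    calc h ^ i * u * (h ^ i)⁻¹ * (h ^ i * u * (h ^ i)⁻¹) = h ^ i * (u * u) * (h ^ i)⁻¹ := by group
      _ = 1 := by rw [← pow_two, hu]; group
  have hrelx : ∀ x, cj h u (x + k) = cj h u x * cj h u (x + 1) := by
    intro x
    rw [cj_add h u x k, hrel, cj_add h u x 1, cj_eq h u x]
    group
  have hC : ∀ d, Commute (cj h u 0) (cj h u d) → ∀ x, Commute (cj h u x) (cj h u (x + d)) :=
    fun d hd x => (hsh x d).2 hd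
  have hD0 : Commute (cj h u 0) (cj h u 0) := Commute.refl _
  have hD1 : Commute (cj h u 0) (cj h u 1) := by
    rw [hv0]
    have e1 := hsq k
    rw [hrel] at e1
    have e2 := hsq 1
    have e3 : u * u = 1 := by rw [← pow_two]; exact hu
    show u * cj h u 1 = cj h u 1 * u
    symm
    calc cj h u 1 * u = cj h u 1 * u * (u * cj h u 1 * (u * cj h u 1)) := by rw [e1, mul_one]
      _ = cj h u 1 * (u * u) * cj h u 1 * (u * cj h u 1) := by group
      _ = cj h u 1 * cj h u 1 * (u * cj h u 1) := by rw [e3, mul_one]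
      _ = u * cj h u 1 := by rw [e2, one_mul]
  have hK0 : cj h u k = cj h u 0 * cj h u 1 := by rw [hv0]; exact hrel
  have claim : ∀ n m, n + m = k → Commute (cj h u 0) (cj h u n) ∧ Commute (cj h u 0) (cj h u m) := by
    intro n
    induction n using Nat.strong_induction_on with
    | _ n ih =>
      intro m hm
      by_cases hn0 : n = 0
      · subst hn0
        have : m = k := by omega
        subst this
        refine ⟨hD0, ?_⟩
        rw [hK0]
        exact hD0.mul_right hD1
      by_cases hn1 : n = 1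
      · subst hn1
        refine ⟨hD1, ?_⟩
        have c : Commute (cj h u 1) (cj h u (1 + m)) := by
          rw [hm, hK0]
          exact hD1.symm.mul_right (Commute.refl _)
        exact (hsh 1 m).1 c
      obtain ⟨j, rfl⟩ : ∃ j, n = j + 2 := ⟨n - 2, by omega⟩
      obtain ⟨hDj, hDm1⟩ := ih (j + 1) (by omega) (m + 1) (by omega)
      have cK : Commute (cj h u (m + 1)) (cj h u k) := by
        have := hC (j + 1) hDj (m + 1)
        rwa [show m + 1 + (j + 1) = k by omega] at this
      have c0 : Commute (cj h u (m + 1)) (cj h u 0) := hDm1.symm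
      have c1 : Commute (cj h u (m + 1)) (cj h u 1) := by
        have e2 : cj h u 1 = (cj h u 0)⁻¹ * cj h u k := by rw [hK0]; group
        rw [e2]
        exact c0.inv_right.mul_right cK
      have hDm : Commute (cj h u 0) (cj h u m) := by
        have := c1.symm
        rw [show m + 1 = 1 + m by omega] at this
        exact (hsh 1 m).1 this
      refine ⟨?_, hDm⟩
      have dK : Commute (cj h u (j + 2)) (cj h u k) := by
        have := hC m hDm (j + 2)
        rwa [show j + 2 + m = k by omega] at this
      have d1 : Commute (cj h u (j + 2)) (cj h u 1) := by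
        have := hC (j + 1) hDj 1
        rw [show 1 + (j + 1) = j + 2 by omega] at this
        exact this.symm
      have e0 : cj h u 0 = cj h u k * (cj h u 1)⁻¹ := by
        rw [hK0]; group
      have d0 : Commute (cj h u (j + 2)) (cj h u k * (cj h u 1)⁻¹) :=
        dK.mul_right d1.inv_right
      rw [← e0] at d0
      exact d0.symm
  have hDall : ∀ d, Commute (cj h u 0) (cj h u d) := by
    intro d
    induction d using Nat.strong_induction_on with
    | _ d ih =>
      by_cases hd : d ≤ k
      · exact (claim d (k - d) (by omega)).1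
      · obtain ⟨x, rfl⟩ : ∃ x, d = x + k := ⟨d - k, by omega⟩
        rw [hrelx]
        exact (ih x (by omega)).mul_right (ih (x + 1) (by omega))
  intro i j
  rcases le_total i j with hij | hij
  · obtain ⟨d, rfl⟩ := Nat.exists_eq_add_of_le hij
    exact (hC d (hDall d) i).eq
  · obtain ⟨d, rfl⟩ := Nat.exists_eq_add_of_le hij
    exact (hC d (hDall d) j).eq.symm

end cj

section rootgroup

/-- module version of the root group homomorphism -/
theorem rootgroup_mod1 {p : ℕ} [Fact p.Prime] {F : Type*} [Field F] [Algebra (ZMod p) F]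
    {A : Type*} [AddCommGroup A] [Module (ZMod p) A] (a : F)
    (hsurj : ∀ t : F, ∃ g : (ZMod p)[X], aeval a g = t) (T : A →ₗ[ZMod p] A) (v : A)
    (hmin : aeval T (minpoly (ZMod p) a) v = 0) :
    ∃ X : F → A, (∀ s t, X (s + t) = X s + X t) ∧ X 1 = v ∧ (∀ t, X (a * t) = T (X t)) ∧
      ∀ g : (ZMod p)[X], X (aeval a g) = aeval T g v := by
  classical
  choose Gf hG using hsurj
  have key : ∀ g : (ZMod p)[X], aeval T (Gf (aeval a g)) v = aeval T g v := by
    intro g
    have h0 : aeval a (Gf (aeval a g) - g) = 0 := by rw [map_sub, hG, sub_self]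
    obtain ⟨r, hr⟩ := minpoly.dvd (ZMod p) a h0
    have h1 : aeval T (Gf (aeval a g) - g) v = 0 := by
      rw [hr, mul_comm, map_mul, Module.End.mul_apply, hmin, map_zero]
    rw [map_sub, LinearMap.sub_apply, sub_eq_zero] at h1
    exact h1
  refine ⟨fun t => aeval T (Gf t) v, ?_, ?_, ?_, key⟩
  · intro s t
    show aeval T (Gf (s + t)) v = aeval T (Gf s) v + aeval T (Gf t) v
    have e : s + t = aeval a (Gf s + Gf t) := by rw [map_add, hG, hG]
    rw [e, key, map_add, LinearMap.add_apply]
  · show aeval T (Gf 1) v = v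
    have e : (1 : F) = aeval a (1 : (ZMod p)[X]) := by rw [map_one]
    rw [e, key, map_one, Module.End.one_apply]
  · intro t
    show aeval T (Gf (a * t)) v = T (aeval T (Gf t) v)
    have e : a * t = aeval a (X * Gf t) := by rw [map_mul, aeval_X, hG]
    rw [e, key, map_mul, aeval_X, Module.End.mul_apply]

/-- commutative group version of the root group homomorphism -/
theorem rootgroup_mod2 {p : ℕ} [Fact p.Prime] {F : Type*} [Field F] [Algebra (ZMod p) F]
    {N : Type*} [CommGroup N] {G : Type*} [Group G] [mod : Module (ZMod p) (Additive N)]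
    (ι : N →* G) (hι : Function.Injective ι)
    (a : F) (hsurj : ∀ t : F, ∃ g : (ZMod p)[X], aeval a g = t)
    (T : N →* N) (h : G) (hT : ∀ x, ι (T x) = h * ι x * h⁻¹)
    (v : N) (hmin : pw p h (ι v) (minpoly (ZMod p) a) = 1) :
    ∃ X : F → N, (∀ s t, X (s + t) = X s * X t) ∧ X 1 = v ∧ (∀ t, X (a * t) = T (X t)) ∧
      ∀ g : (ZMod p)[X], ι (X (aeval a g)) = pw p h (ι v) g := by
  classical
  obtain ⟨T', hT'⟩ : ∃ T' : Additive N →ₗ[ZMod p] Additive N,
      ∀ x, T' x = Additive.ofMul (T x.toMul) :=
    ⟨(MonoidHom.toAdditive T).toZModLinearMap p, fun x => rfl⟩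
  have hsm : ∀ (c : ZMod p) (x : Additive N), c • x = c.val • x := by
    intro c x
    rw [← Nat.cast_smul_eq_nsmul (ZMod p), ZMod.natCast_zmod_val]
  have hTpow : ∀ i : ℕ, ι ((T' ^ i) (Additive.ofMul v)).toMul = cj h (ι v) i := by
    intro i
    induction i with
    | zero => rw [pow_zero, Module.End.one_apply, cj_zero]; rfl
    | succ i ih =>
      rw [pow_succ', Module.End.mul_apply, cj_succ, ← ih, hT']
      exact hT _
  have key : ∀ g : (ZMod p)[X], ι (aeval T' g (Additive.ofMul v)).toMul = pw p h (ι v) g := by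
    intro g
    rw [aeval_eq_sum_range, LinearMap.sum_apply]
    unfold pw
    generalize g.natDegree + 1 = n
    induction n with
    | zero => rw [Finset.sum_range_zero, cprod_zero]; exact map_one ι
    | succ n ih =>
      rw [Finset.sum_range_succ, toMul_add, map_mul, ih, cprod_succ]
      congr 1
      rw [LinearMap.smul_apply, hsm, toMul_nsmul, map_pow, hTpow]
  have hmin' : aeval T' (minpoly (ZMod p) a) (Additive.ofMul v) = 0 := by
    have h1 := key (minpoly (ZMod p) a)
    rw [hmin] at h1
    have h2 : (aeval T' (minpoly (ZMod p) a) (Additive.ofMul v)).toMul = 1 :=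
      hι (by rw [h1, map_one])
    exact h2
  obtain ⟨X, hXadd, hX1, hXT, hXf⟩ := rootgroup_mod1 a hsurj T' (Additive.ofMul v) hmin'
  refine ⟨fun t => (X t).toMul, ?_, ?_, ?_, ?_⟩
  · intro s t
    show (X (s + t)).toMul = (X s).toMul * (X t).toMul
    rw [hXadd]; rfl
  · show (X 1).toMul = v
    rw [hX1]; rfl
  · intro t
    show (X (a * t)).toMul = T (X t).toMul
    rw [hXT, hT']; rfl
  · intro g
    show ι (X (aeval a g)).toMul = pw p h (ι v) g
    rw [hXf]; exact key g

/-- commutative group structure on a subgroup whose elements commute -/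
abbrev commGroupOfComm {G : Type*} [Group G] (N : Subgroup G)
    (hN : ∀ x ∈ N, ∀ y ∈ N, x * y = y * x) : CommGroup N :=
  { (inferInstance : Group N) with
    mul_comm := fun x y => Subtype.ext (hN x.1 x.2 y.1 y.2) }

/-- subgroup version of the root group homomorphism -/
theorem rootgroup_mod3 {G : Type*} [Group G] {F : Type*} [Field F] (p : ℕ) [Fact p.Prime]
    [Algebra (ZMod p) F] (a : F) (hsurj : ∀ t : F, ∃ g : (ZMod p)[X], aeval a g = t)
    (N : Subgroup G) (hN : ∀ x ∈ N, ∀ y ∈ N, x * y = y * x) (hexp : ∀ x ∈ N, x ^ p = 1)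
    (h : G) (hT : ∀ x ∈ N, h * x * h⁻¹ ∈ N) (u : G) (hu : u ∈ N)
    (hmin : pw p h u (minpoly (ZMod p) a) = 1) :
    ∃ X : F → G, (∀ s t, X (s + t) = X s * X t) ∧ X 1 = u ∧ (∀ t, h * X t * h⁻¹ = X (a * t)) ∧
      ∀ g : (ZMod p)[X], X (aeval a g) = pw p h u g := by
  classical
  have hexpA : ∀ x : Additive N, p • x = 0 := fun x => Subtype.ext (hexp x.toMul.1 x.toMul.2)
  let T : N →* N :=
    { toFun := fun x => ⟨h * x.1 * h⁻¹, hT x.1 x.2⟩
      map_one' := Subtype.ext (show h * 1 * h⁻¹ = 1 by group)
      map_mul' := fun x y => Subtype.ext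
        (show h * (x.1 * y.1) * h⁻¹ = (h * x.1 * h⁻¹) * (h * y.1 * h⁻¹) by group) }
  obtain ⟨X, hXadd, hX1, hXT, hXf⟩ := @rootgroup_mod2 p _ F _ _ N (commGroupOfComm N hN) G _
    (@AddCommGroup.zmodModule p (Additive N) (@Additive.addCommGroup N (commGroupOfComm N hN))
      hexpA) N.subtype Subtype.val_injective a hsurj T h (fun x => rfl) ⟨u, hu⟩ hmin
  refine ⟨fun t => (X t).1, ?_, ?_, ?_, ?_⟩
  · intro s t
    show (X (s + t)).1 = (X s).1 * (X t).1
    rw [hXadd]; rfl
  · show (X 1).1 = u
    rw [hX1]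
  · intro t
    show h * (X t).1 * h⁻¹ = (X (a * t)).1
    rw [hXT]; rfl
  · intro g
    exact hXf g

/-- the closure of commuting conjugates is commutative -/
theorem cj_closure_comm {G : Type*} [Group G] (u h : G)
    (hcomm : ∀ i j, cj h u i * cj h u j = cj h u j * cj h u i) :
    ∀ x ∈ Subgroup.closure (Set.range (cj h u)),
      ∀ y ∈ Subgroup.closure (Set.range (cj h u)), x * y = y * x := by
  intro x hx y hy
  have hle : Subgroup.closure (Set.range (cj h u)) ≤
      Subgroup.centralizer (Set.range (cj h u)) := by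
    rw [Subgroup.closure_le]
    rintro _ ⟨i, rfl⟩
    rw [SetLike.mem_coe, Subgroup.mem_centralizer_iff]
    rintro _ ⟨j, rfl⟩
    exact hcomm j i
  have hle2 : Subgroup.closure (Set.range (cj h u)) ≤
      Subgroup.centralizer (Subgroup.closure (Set.range (cj h u)) : Set G) := by
    rw [Subgroup.closure_le]
    intro z hz
    rw [SetLike.mem_coe, Subgroup.mem_centralizer_iff]
    intro w hw
    have := hle hw
    rw [Subgroup.mem_centralizer_iff] at this
    exact (this z hz).symm
  have := hle2 hy
  rw [Subgroup.mem_centralizer_iff] at this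
  exact this x hx

/-- the closure of the conjugates is stable under conjugation -/
theorem cj_closure_conj {G : Type*} [Group G] (u h : G) :
    ∀ x ∈ Subgroup.closure (Set.range (cj h u)),
      h * x * h⁻¹ ∈ Subgroup.closure (Set.range (cj h u)) := by
  intro x hx
  induction hx using Subgroup.closure_induction with
  | mem y hy =>
    obtain ⟨i, rfl⟩ := hy
    rw [← cj_succ]
    exact Subgroup.subset_closure (Set.mem_range_self _)
  | one => rw [mul_one, mul_inv_cancel]; exact one_mem _
  | mul x y hx hy ihx ihy =>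
    have e : h * (x * y) * h⁻¹ = (h * x * h⁻¹) * (h * y * h⁻¹) := by group
    rw [e]; exact mul_mem ihx ihy
  | inv x hx ih =>
    have e : h * x⁻¹ * h⁻¹ = (h * x * h⁻¹)⁻¹ := by group
    rw [e]; exact inv_mem ih

/-- the root group homomorphism attached to commuting conjugates -/
theorem rootgroup_hom {G : Type*} [Group G] {F : Type*} [Field F] (p : ℕ) [Fact p.Prime]
    [Algebra (ZMod p) F] (a : F) (hsurj : ∀ t : F, ∃ g : (ZMod p)[X], aeval a g = t)
    (u h : G) (hcomm : ∀ i j, cj h u i * cj h u j = cj h u j * cj h u i)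
    (hexp : u ^ p = 1) (hmin : pw p h u (minpoly (ZMod p) a) = 1) :
    ∃ X : F → G, (∀ s t, X (s + t) = X s * X t) ∧ X 1 = u ∧ (∀ t, h * X t * h⁻¹ = X (a * t)) ∧
      ∀ g : (ZMod p)[X], X (aeval a g) = pw p h u g := by
  classical
  have hcl := cj_closure_comm u h hcomm
  have hexpG : ∀ x ∈ Subgroup.closure (Set.range (cj h u)), x ^ p = 1 := by
    intro x hx
    induction hx using Subgroup.closure_induction with
    | mem y hy =>
      obtain ⟨i, rfl⟩ := hy
      rw [cj_eq, conj_pow, hexp]; group
    | one => exact one_pow _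
    | mul x y hx hy ihx ihy =>
      rw [(show Commute x y from hcl x hx y hy).mul_pow, ihx, ihy, one_mul]
    | inv x hx ih => rw [inv_pow, ih, inv_one]
  exact rootgroup_mod3 p a hsurj _ hcl hexpG h (cj_closure_conj u h) u
    (Subgroup.subset_closure ⟨0, cj_zero h u⟩) hmin

/-- in characteristic two shape, conjugation by `h ^ k` is `x ↦ x * h x h⁻¹` on the closure -/
theorem cj_closure_two {G : Type*} [Group G] (u h : G) (k : ℕ)
    (hcomm : ∀ i j, cj h u i * cj h u j = cj h u j * cj h u i)
    (hrel : cj h u k = u * cj h u 1) :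
    ∀ x ∈ Subgroup.closure (Set.range (cj h u)),
      h ^ k * x * (h ^ k)⁻¹ = x * (h * x * h⁻¹) := by
  have hcl := cj_closure_comm u h hcomm
  have hcj := cj_closure_conj u h
  intro x hx
  induction hx using Subgroup.closure_induction with
  | mem y hy =>
    obtain ⟨i, rfl⟩ := hy
    rw [← cj_succ, ← cj_add, add_comm, cj_add h u i k, hrel, cj_add h u i 1, cj_eq h u i]
    group
  | one => group
  | mul x y hx hy ihx ihy =>
    have e : h ^ k * (x * y) * (h ^ k)⁻¹ = (h ^ k * x * (h ^ k)⁻¹) * (h ^ k * y * (h ^ k)⁻¹) := by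
      group
    have c : (h * x * h⁻¹) * y = y * (h * x * h⁻¹) := hcl _ (hcj x hx) y hy
    rw [e, ihx, ihy]
    calc x * (h * x * h⁻¹) * (y * (h * y * h⁻¹)) = x * ((h * x * h⁻¹) * y) * (h * y * h⁻¹) := by
          group
      _ = x * (y * (h * x * h⁻¹)) * (h * y * h⁻¹) := by rw [c]
      _ = x * y * (h * (x * y) * h⁻¹) := by group
  | inv x hx ih =>
    have e : h ^ k * x⁻¹ * (h ^ k)⁻¹ = (h ^ k * x * (h ^ k)⁻¹)⁻¹ := by group
    have c : (h * x * h⁻¹) * x = x * (h * x * h⁻¹) := hcl _ (hcj x hx) x hx
    rw [e, ih]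
    calc (x * (h * x * h⁻¹))⁻¹ = ((h * x * h⁻¹) * x)⁻¹ := by rw [c]
      _ = x⁻¹ * (h * x⁻¹ * h⁻¹) := by group

end rootgroup

section quot

/-- adding one relator whose image generates a two-element normal subgroup -/
theorem presented_quot {α : Type*} {G : Type*} [Group G] (rels : Set (FreeGroup α))
    (r₀ : FreeGroup α) (e : PresentedGroup rels ≃* G) (Z : Subgroup G) [Z.Normal]
    (hZ : ∀ z ∈ Z, z = 1 ∨ z = e (PresentedGroup.mk rels r₀))
    (hr : e (PresentedGroup.mk rels r₀) ∈ Z) :
    Nonempty (PresentedGroup (insert r₀ rels) ≃* G ⧸ Z) := by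
  have hπ : ∀ r ∈ rels, FreeGroup.lift
      (fun x : α => (PresentedGroup.of x : PresentedGroup (insert r₀ rels))) r = 1 := by
    intro r hr'
    have e1 : FreeGroup.lift (fun x : α => (PresentedGroup.of x : PresentedGroup (insert r₀ rels)))
        = PresentedGroup.mk (insert r₀ rels) := by
      ext x
      rw [FreeGroup.lift_apply_of]; rfl
    rw [e1]
    exact PresentedGroup.one_of_mem (Set.mem_insert_of_mem _ hr')
  obtain ⟨π, hπof⟩ : ∃ π : PresentedGroup rels →* PresentedGroup (insert r₀ rels),
      ∀ x : α, π (PresentedGroup.of x) = PresentedGroup.of x :=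
    ⟨PresentedGroup.toGroup hπ, fun x => PresentedGroup.toGroup.of hπ⟩
  have hπmk : ∀ x : FreeGroup α,
      π (PresentedGroup.mk rels x) = PresentedGroup.mk (insert r₀ rels) x := by
    intro x
    have e1 : π.comp (PresentedGroup.mk rels) = PresentedGroup.mk (insert r₀ rels) := by
      ext a
      exact hπof a
    exact DFunLike.congr_fun e1 x
  have hθ : ∀ r ∈ insert r₀ rels, FreeGroup.lift
      (fun x : α => (QuotientGroup.mk (e (PresentedGroup.of x)) : G ⧸ Z)) r = 1 := by
    have e2 : FreeGroup.lift (fun x : α => (QuotientGroup.mk (e (PresentedGroup.of x)) : G ⧸ Z)) =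
        ((QuotientGroup.mk' Z).comp e.toMonoidHom).comp (PresentedGroup.mk rels) := by
      ext a
      rw [FreeGroup.lift_apply_of]; rfl
    intro r hr'
    rw [e2]
    rcases hr' with rfl | hr'
    · exact (QuotientGroup.eq_one_iff _).2 hr
    · show (QuotientGroup.mk (e (PresentedGroup.mk rels r)) : G ⧸ Z) = 1
      rw [PresentedGroup.one_of_mem hr', map_one]; rfl
  obtain ⟨θ, hθof⟩ : ∃ θ : PresentedGroup (insert r₀ rels) →* G ⧸ Z,
      ∀ x : α, θ (PresentedGroup.of x) = QuotientGroup.mk (e (PresentedGroup.of x)) :=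
    ⟨PresentedGroup.toGroup hθ, fun x => PresentedGroup.toGroup.of hθ⟩
  have hθπ : ∀ x, θ (π x) = QuotientGroup.mk (e x) := by
    intro x
    have e1 : θ.comp π = (QuotientGroup.mk' Z).comp e.toMonoidHom := by
      apply PresentedGroup.ext
      intro a
      rw [MonoidHom.comp_apply, hπof, hθof]; rfl
    exact DFunLike.congr_fun e1 x
  have hπs : Function.Surjective π := by
    intro y
    obtain ⟨x, rfl⟩ := PresentedGroup.mk_surjective _ y
    exact ⟨PresentedGroup.mk rels x, hπmk x⟩
  refine ⟨MulEquiv.ofBijective θ ⟨?_, ?_⟩⟩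
  · rw [injective_iff_map_eq_one]
    intro y hy
    obtain ⟨x, rfl⟩ := hπs y
    rw [hθπ, QuotientGroup.eq_one_iff] at hy
    rcases hZ _ hy with h1 | h1
    · rw [(map_eq_one_iff e e.injective).1 h1, map_one]
    · rw [e.injective h1, hπmk]
      exact PresentedGroup.one_of_mem (Set.mem_insert _ _)
  · intro y
    obtain ⟨g, rfl⟩ := QuotientGroup.mk_surjective y
    obtain ⟨x, rfl⟩ := e.surjective g
    exact ⟨π x, hθπ x⟩

end quot

end Cfsg.Agent.H8
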