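import Mathlib
import Cfsg.Agent.H8.PSL2A
import Cfsg.Agent.H8.PSL2B

set_option autoImplicit false

namespace Cfsg.Agent.H8

open Matrix Cfsg.Agent.H85 Polynomial

section

variable {F : Type*} [Field F]

theorem sl2U_pow (t : F) (n : ℕ) : sl2U t ^ n = sl2U (n • t) := by
  induction n with
  | zero => rw [pow_zero, zero_smul, sl2U_zero]
  | succ n ih => rw [pow_succ, ih, sl2U_mul, succ_nsmul]

theorem cj_slD (ζ : F) (hζ0 : ζ ≠ 0) (t : F) (i : ℕ) :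
    cj (slD ζ hζ0) (sl2U t) i = sl2U ((ζ ^ 2) ^ i * t) := by
  induction i with
  | zero => rw [cj_zero, pow_zero, one_mul]
  | succ i ih =>
    rw [cj_succ, ih, slD_sl2U_inv]
    congr 1
    ring

theorem cprod_sl2U (f : ℕ → F) (n : ℕ) :
    cprod (fun i => sl2U (f i)) n = sl2U (∑ i ∈ Finset.range n, f i) := by
  induction n with
  | zero => rw [cprod_zero, Finset.sum_range_zero, sl2U_zero]
  | succ n ih => rw [cprod_succ, ih, sl2U_mul, Finset.sum_range_succ]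

theorem pw_slD (p : ℕ) [Fact p.Prime] [Algebra (ZMod p) F] (ζ : F) (hζ0 : ζ ≠ 0)
    (g : (ZMod p)[X]) :
    pw p (slD ζ hζ0) (sl2U 1) g = sl2U (aeval (ζ ^ 2) g) := by
  unfold pw
  have e : ∀ i, cj (slD ζ hζ0) (sl2U 1) i ^ (g.coeff i).val =
      sl2U (g.coeff i • (ζ ^ 2) ^ i) := by
    intro i
    rw [cj_slD, mul_one, sl2U_pow]
    congr 1
    rw [← Nat.cast_smul_eq_nsmul (ZMod p), ZMod.natCast_zmod_val]
  simp only [e]
  rw [cprod_sl2U, aeval_eq_sum_range]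

theorem slD_pow (ζ : F) (hζ0 : ζ ≠ 0) (n : ℕ) :
    slD ζ hζ0 ^ n = slD (ζ ^ n) (pow_ne_zero n hζ0) := by
  induction n with
  | zero => apply sl2_ext <;> simp
  | succ n ih =>
    rw [pow_succ, ih]
    apply sl2_ext <;> simp [sl2_mul_apply, pow_succ, mul_comm]

theorem slD_pow_eq_one (ζ : F) (hζ0 : ζ ≠ 0) (n : ℕ) (hn : ζ ^ n = 1) :
    slD ζ hζ0 ^ n = 1 := by
  rw [slD_pow]
  apply sl2_ext <;> simp [hn]

theorem slW_sq_mem_center :
    (slW * slW : SpecialLinearGroup (Fin 2) F) ∈ Subgroup.center (SpecialLinearGroup (Fin 2) F) := by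
  rw [Subgroup.mem_center_iff]
  intro g
  apply sl2_ext <;> simp [sl2_mul_apply]

theorem sl2_center_cases (z : SpecialLinearGroup (Fin 2) F)
    (hz : z ∈ Subgroup.center (SpecialLinearGroup (Fin 2) F)) : z = 1 ∨ z = slW * slW := by
  rw [Matrix.SpecialLinearGroup.mem_center_iff] at hz
  obtain ⟨r, hr, hrz⟩ := hz
  rw [Fintype.card_fin] at hr
  have h00 : z.1 0 0 = r := by rw [← hrz]; simp
  have h01 : z.1 0 1 = 0 := by rw [← hrz]; simp
  have h10 : z.1 1 0 = 0 := by rw [← hrz]; simp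
  have h11 : z.1 1 1 = r := by rw [← hrz]; simp
  have hr2 : (r - 1) * (r + 1) = 0 := by linear_combination hr
  rcases mul_eq_zero.1 hr2 with h1 | h1
  · left
    have hr1 : r = 1 := by linear_combination h1
    apply sl2_ext <;> simp [h00, h01, h10, h11, hr1]
  · right
    have hr1 : r = -1 := by linear_combination h1
    apply sl2_ext <;> simp [h00, h01, h10, h11, hr1, sl2_mul_apply]

theorem sl2_center_char_two [CharP F 2] (z : SpecialLinearGroup (Fin 2) F)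
    (hz : z ∈ Subgroup.center (SpecialLinearGroup (Fin 2) F)) : z = 1 := by
  rcases sl2_center_cases z hz with h | h
  · exact h
  · rw [h]
    have h2 : (2 : F) = 0 := by
      have := CharP.cast_eq_zero F 2
      exact_mod_cast this
    have h1 : (-1 : F) = 1 := by linear_combination -h2
    apply sl2_ext <;> simp [sl2_mul_apply, h1]

end

section

variable {F : Type*} [Field F]

theorem exists_field_gen (F : Type*) [Field F] [Finite F] :
    ∃ ζ : F, ζ ≠ 0 ∧ ∀ t : F, t ≠ 0 → ∃ j : ℕ, t = ζ ^ j := by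
  obtain ⟨g, hg⟩ := IsCyclic.exists_generator (α := Fˣ)
  refine ⟨g, g.ne_zero, fun t ht => ?_⟩
  have h1 := hg (Units.mk0 t ht)
  rw [← mem_powers_iff_mem_zpowers] at h1
  obtain ⟨j, hj⟩ := h1
  refine ⟨j, ?_⟩
  have h2 := congrArg Units.val hj
  simp only [Units.val_pow_eq_pow_val, Units.val_mk0] at h2
  exact h2.symm

theorem field_sum_two [Fintype F] (ζ : F)
    (hζ : ∀ t : F, t ≠ 0 → ∃ j : ℕ, t = ζ ^ j) (t : F) :
    ∃ s1 s2 : F, t = s1 + s2 ∧ (s1 = 0 ∨ ∃ j : ℕ, s1 = (ζ ^ 2) ^ j) ∧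
      (s2 = 0 ∨ ∃ j : ℕ, s2 = (ζ ^ 2) ^ j) := by
  have hsq : ∀ x : F, x ^ 2 = 0 ∨ ∃ j : ℕ, x ^ 2 = (ζ ^ 2) ^ j := by
    intro x
    by_cases hx : x = 0
    · left; rw [hx]; ring
    · right
      obtain ⟨j, hj⟩ := hζ x hx
      exact ⟨j, by rw [hj]; ring⟩
  by_cases h2 : ringChar F = 2
  · obtain ⟨r, hr⟩ := FiniteField.isSquare_of_char_two h2 t
    exact ⟨r ^ 2, 0, by rw [hr]; ring, hsq r, Or.inl rfl⟩
  · have hodd := FiniteField.odd_card_of_char_ne_two h2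
    obtain ⟨x, y, hxy⟩ := FiniteField.exists_root_sum_quadratic (f := (X : F[X]) ^ 2)
      (g := X ^ 2 - C t) (degree_X_pow 2) (degree_X_pow_sub_C (by decide) _) hodd
    refine ⟨x ^ 2, y ^ 2, ?_, hsq x, hsq y⟩
    simp only [eval_pow, eval_X, eval_sub, eval_C] at hxy
    linear_combination -hxy

end

section

variable {F : Type*} [Field F] [Finite F]

/-- the core criterion: relations in an abstract group forcing an isomorphism with `SL₂` -/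
theorem sl2_pres_core {P : Type*} [Group P] (p : ℕ) [Fact p.Prime]
    [Algebra (ZMod p) F] (ζ : F) (hζ0 : ζ ≠ 0) (hζ : ∀ t : F, t ≠ 0 → ∃ j : ℕ, t = ζ ^ j)
    (hsum : ∀ t : F, ∃ s1 s2 : F, t = s1 + s2 ∧ (s1 = 0 ∨ ∃ j : ℕ, s1 = (ζ ^ 2) ^ j) ∧
      (s2 = 0 ∨ ∃ j : ℕ, s2 = (ζ ^ 2) ^ j))
    (u h w : P) (hgen : Subgroup.closure {u, h, w} = ⊤)
    (hcomm : ∀ i j, cj h u i * cj h u j = cj h u j * cj h u i)
    (hexp : u ^ p = 1) (hmin : pw p h u (minpoly (ZMod p) (ζ ^ 2)) = 1)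
    (hwh : w * h * w⁻¹ = h⁻¹) (hW1 : u * (w * u * w⁻¹) * u = w)
    (hWz : ∀ X : F → P, (∀ s t, X (s + t) = X s * X t) → X 1 = u →
      (∀ t, h * X t * h⁻¹ = X (ζ ^ 2 * t)) →
      (∀ g : (ZMod p)[X], X (aeval (ζ ^ 2) g) = pw p h u g) →
      X ζ * (w * X ζ⁻¹ * w⁻¹) * X ζ = h * w)
    (ψ : P →* SpecialLinearGroup (Fin 2) F) (hψu : ψ u = sl2U 1) (hψh : ψ h = slD ζ hζ0)
    (hψw : ψ w = slW) : Function.Bijective ψ := by
  have hpoly : ∀ s : F, (s = 0 ∨ ∃ j : ℕ, s = (ζ ^ 2) ^ j) →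
      ∃ g : (ZMod p)[X], aeval (ζ ^ 2) g = s := by
    rintro s (rfl | ⟨j, rfl⟩)
    · exact ⟨0, map_zero _⟩
    · exact ⟨X ^ j, by rw [map_pow, aeval_X]⟩
  have hsurj : ∀ t : F, ∃ g : (ZMod p)[X], aeval (ζ ^ 2) g = t := by
    intro t
    obtain ⟨s1, s2, rfl, h1, h2⟩ := hsum t
    obtain ⟨g1, hg1⟩ := hpoly s1 h1
    obtain ⟨g2, hg2⟩ := hpoly s2 h2
    exact ⟨g1 + g2, by rw [map_add, hg1, hg2]⟩
  obtain ⟨X, hXadd, hX1, hXh, hXf⟩ := rootgroup_hom p (ζ ^ 2) hsurj u h hcomm hexp hmin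
  have hX0 : X 0 = 1 := by
    have h0 := hXadd 0 0
    rw [add_zero] at h0
    exact (mul_eq_left (a := X 0)).1 h0.symm
  have hXpow : ∀ j : ℕ, X ((ζ ^ 2) ^ j) = cj h u j := by
    intro j
    induction j with
    | zero => rw [pow_zero, hX1, cj_zero]
    | succ j ih => rw [cj_succ, ← ih, hXh, pow_succ']
  have hψs : ∀ s : F, (s = 0 ∨ ∃ j : ℕ, s = (ζ ^ 2) ^ j) → ψ (X s) = sl2U s := by
    rintro s (rfl | ⟨j, rfl⟩)
    · rw [hX0, map_one, sl2U_zero]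
    · rw [hXpow, map_cj, hψh, hψu, cj_slD, mul_one]
  have hψX : ∀ t, ψ (X t) = sl2U t := by
    intro t
    obtain ⟨s1, s2, rfl, h1, h2⟩ := hsum t
    rw [hXadd, map_mul, hψs s1 h1, hψs s2 h2, sl2U_mul]
  exact sl2_bruhat_iso ζ hζ0 hζ X h w hXadd hXh hwh (by rw [hX1]; exact hW1)
    (hWz X hXadd hX1 hXh hXf) (by rw [hX1]; exact hgen) ψ hψX hψw

end

section

variable {F : Type*} [Field F]

theorem field_poly_surj (p : ℕ) [Algebra (ZMod p) F] (ζ : F)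
    (hsum : ∀ t : F, ∃ s1 s2 : F, t = s1 + s2 ∧ (s1 = 0 ∨ ∃ j : ℕ, s1 = (ζ ^ 2) ^ j) ∧
      (s2 = 0 ∨ ∃ j : ℕ, s2 = (ζ ^ 2) ^ j)) (t : F) :
    ∃ g : (ZMod p)[X], aeval (ζ ^ 2) g = t := by
  have hpoly : ∀ s : F, (s = 0 ∨ ∃ j : ℕ, s = (ζ ^ 2) ^ j) →
      ∃ g : (ZMod p)[X], aeval (ζ ^ 2) g = s := by
    rintro s (rfl | ⟨j, rfl⟩)
    · exact ⟨0, map_zero _⟩
    · exact ⟨X ^ j, by rw [map_pow, aeval_X]⟩
  obtain ⟨s1, s2, rfl, h1, h2⟩ := hsum t
  obtain ⟨g1, hg1⟩ := hpoly s1 h1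
  obtain ⟨g2, hg2⟩ := hpoly s2 h2
  exact ⟨g1 + g2, by rw [map_add, hg1, hg2]⟩

theorem presented_fin3_gen (rels : Set (FreeGroup (Fin 3))) :
    Subgroup.closure {PresentedGroup.mk rels (FreeGroup.of 0),
      PresentedGroup.mk rels (FreeGroup.of 1), PresentedGroup.mk rels (FreeGroup.of 2)} = ⊤ := by
  rw [eq_top_iff]
  intro x _
  refine PresentedGroup.generated_by rels _ ?_ x
  intro j
  fin_cases j
  · exact Subgroup.subset_closure (Set.mem_insert _ _)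
  · exact Subgroup.subset_closure (Set.mem_insert_of_mem _ (Set.mem_insert _ _))
  · exact Subgroup.subset_closure
      (Set.mem_insert_of_mem _ (Set.mem_insert_of_mem _ (Set.mem_singleton _)))

end

end Cfsg.Agent.H8
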