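import Mathlib
import Cfsg.Agent.H8.PSL2C

set_option autoImplicit false

namespace Cfsg.Agent.H8

open Matrix Cfsg.Agent.H85 Polynomial

section

variable {F : Type*} [Field F] [Fintype F]

/-- `SL₂` over the field with two elements -/
theorem sl2_pres_two (hq : Fintype.card F = 2) :
    ∃ rels : Finset (FreeGroup (Fin 3)), rels.card ≤ 5 ∧
      Nonempty (PresentedGroup (↑rels : Set (FreeGroup (Fin 3))) ≃*
        SpecialLinearGroup (Fin 2) F) := by
  classical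
  have h01 : ∀ t : F, t = 0 ∨ t = 1 := by
    obtain ⟨x, y, hxy, huniv⟩ := Nat.card_eq_two_iff.1 (Nat.card_eq_fintype_card.trans hq)
    have hm : ∀ t : F, t = x ∨ t = y := by
      intro t
      have := Set.mem_univ t
      rw [← huniv] at this
      simpa using this
    intro t
    rcases hm 0 with h0 | h0 <;> rcases hm 1 with h1 | h1 <;> rcases hm t with ht | ht
    · exact absurd (h0.trans h1.symm) zero_ne_one
    · exact absurd (h0.trans h1.symm) zero_ne_one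
    · left; rw [ht, h0]
    · right; rw [ht, h1]
    · right; rw [ht, h1]
    · left; rw [ht, h0]
    · exact absurd (h0.trans h1.symm) zero_ne_one
    · exact absurd (h0.trans h1.symm) zero_ne_one
  have h2 : (1 : F) + 1 = 0 := by
    rcases h01 (1 + 1) with h | h
    · exact h
    · exact absurd (by linear_combination h) (one_ne_zero (α := F))
  obtain ⟨r1, hr1⟩ : ∃ r : FreeGroup (Fin 3), r = FreeGroup.of 0 ^ 2 := ⟨_, rfl⟩
  obtain ⟨r2, hr2⟩ : ∃ r : FreeGroup (Fin 3), r = FreeGroup.of 1 := ⟨_, rfl⟩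
  obtain ⟨r3, hr3⟩ : ∃ r : FreeGroup (Fin 3), r = FreeGroup.of 0 * FreeGroup.of 2 *
      FreeGroup.of 0 * (FreeGroup.of 2)⁻¹ * FreeGroup.of 0 * (FreeGroup.of 2)⁻¹ := ⟨_, rfl⟩
  obtain ⟨rels, hrels⟩ : ∃ rels : Finset (FreeGroup (Fin 3)), rels = [r1, r2, r3].toFinset :=
    ⟨_, rfl⟩
  refine ⟨rels, ?_, ?_⟩
  · rw [hrels]
    exact (List.toFinset_card_le _).trans (by simp)
  have hmem : ∀ r, r ∈ (↑rels : Set (FreeGroup (Fin 3))) ↔ r = r1 ∨ r = r2 ∨ r = r3 := by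
    intro r
    rw [hrels]
    simp
  obtain ⟨u, hu⟩ : ∃ u : PresentedGroup (↑rels : Set (FreeGroup (Fin 3))),
      u = PresentedGroup.mk _ (FreeGroup.of 0) := ⟨_, rfl⟩
  obtain ⟨h, hh⟩ : ∃ u : PresentedGroup (↑rels : Set (FreeGroup (Fin 3))),
      u = PresentedGroup.mk _ (FreeGroup.of 1) := ⟨_, rfl⟩
  obtain ⟨w, hw⟩ : ∃ u : PresentedGroup (↑rels : Set (FreeGroup (Fin 3))),
      u = PresentedGroup.mk _ (FreeGroup.of 2) := ⟨_, rfl⟩
  have e1 : u ^ 2 = 1 := by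
    have := PresentedGroup.one_of_mem ((hmem r1).2 (Or.inl rfl))
    rw [hr1, map_pow, ← hu] at this
    exact this
  have e2 : h = 1 := by
    have := PresentedGroup.one_of_mem ((hmem r2).2 (Or.inr (Or.inl rfl)))
    rw [hr2, ← hh] at this
    exact this
  have e3 : u * (w * u * w⁻¹) * u = w := by
    have := PresentedGroup.one_of_mem ((hmem r3).2 (Or.inr (Or.inr rfl)))
    rw [hr3] at this
    simp only [map_mul, map_inv] at this
    rw [← hu, ← hw, mul_inv_eq_one] at this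
    calc u * (w * u * w⁻¹) * u = u * w * u * w⁻¹ * u := by group
      _ = w := this
  have hgen : Subgroup.closure {u, h, w} = ⊤ := by
    rw [hu, hh, hw]; exact presented_fin3_gen _
  obtain ⟨f, hf0, hf1, hf2⟩ : ∃ f : Fin 3 → SpecialLinearGroup (Fin 2) F,
      f 0 = sl2U 1 ∧ f 1 = 1 ∧ f 2 = slW := ⟨![sl2U 1, 1, slW], rfl, rfl, rfl⟩
  have hf : ∀ r ∈ (↑rels : Set (FreeGroup (Fin 3))), FreeGroup.lift f r = 1 := by
    intro r hr
    rcases (hmem r).1 hr with rfl | rfl | rfl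
    · rw [hr1, map_pow, FreeGroup.lift_apply_of, hf0, sl2U_pow]
      rw [two_nsmul, h2, sl2U_zero]
    · rw [hr2, FreeGroup.lift_apply_of, hf1]
    · rw [hr3]
      simp only [map_mul, map_inv, FreeGroup.lift_apply_of]
      rw [hf0, hf2, mul_inv_eq_one]
      calc sl2U (1 : F) * slW * sl2U 1 * slW⁻¹ * sl2U 1 =
            sl2U 1 * (slW * sl2U 1 * slW⁻¹) * sl2U 1 := by group
        _ = slW := sl2_bruhat_one
  obtain ⟨ψ, hψ⟩ : ∃ ψ : PresentedGroup (↑rels : Set (FreeGroup (Fin 3))) →*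
      SpecialLinearGroup (Fin 2) F, ∀ i, ψ (PresentedGroup.mk _ (FreeGroup.of i)) = f i :=
    ⟨PresentedGroup.toGroup hf, fun i => PresentedGroup.toGroup.of hf⟩
  obtain ⟨X, hX⟩ : ∃ X : F → PresentedGroup (↑rels : Set (FreeGroup (Fin 3))),
      ∀ t, X t = if t = 0 then 1 else u := ⟨_, fun _ => rfl⟩
  have hX0 : X 0 = 1 := by rw [hX, if_pos rfl]
  have hX1 : X 1 = u := by rw [hX, if_neg one_ne_zero]
  have hbij : Function.Bijective ψ := by
    refine sl2_bruhat_iso (1 : F) one_ne_zero ?_ X h w ?_ ?_ ?_ ?_ ?_ ?_ ψ ?_ ?_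
    · intro t ht
      rcases h01 t with h | h
      · exact absurd h ht
      · exact ⟨0, by rw [h, pow_zero]⟩
    · intro s t
      rcases h01 s with rfl | rfl <;> rcases h01 t with rfl | rfl
      · rw [add_zero, hX0, one_mul]
      · rw [zero_add, hX0, one_mul]
      · rw [add_zero, hX0, mul_one]
      · rw [h2, hX0, hX1, ← pow_two, e1]
    · intro t
      rw [e2, one_pow, one_mul, one_mul, inv_one, mul_one]
    · rw [e2, mul_one, mul_inv_cancel, inv_one]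
    · rw [hX1]; exact e3
    · rw [inv_one, hX1, e2, one_mul]; exact e3
    · rw [hX1]; exact hgen
    · intro t
      rcases h01 t with rfl | rfl
      · rw [hX0, map_one, sl2U_zero]
      · rw [hX1, hu, hψ, hf0]
    · rw [hw, hψ, hf2]
  exact ⟨MulEquiv.ofBijective ψ hbij⟩

end

section

variable {F : Type*} [Field F] [Fintype F]

/-- `SL₂` over a field of characteristic two with more than two elements -/
theorem sl2_pres_even [CharP F 2] [Algebra (ZMod 2) F] (hq : Fintype.card F ≠ 2) :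
    ∃ rels : Finset (FreeGroup (Fin 3)), rels.card ≤ 5 ∧
      Nonempty (PresentedGroup (↑rels : Set (FreeGroup (Fin 3))) ≃*
        SpecialLinearGroup (Fin 2) F) := by
  classical
  have : Fact (Nat.Prime 2) := ⟨Nat.prime_two⟩
  obtain ⟨ζ, hζ0, hζ⟩ := exists_field_gen F
  have hsum := field_sum_two ζ hζ
  have h2 : (2 : F) = 0 := by
    have := CharP.cast_eq_zero F 2
    exact_mod_cast this
  obtain ⟨a, ha⟩ : ∃ a : F, a = ζ ^ 2 := ⟨_, rfl⟩
  have ha0 : a ≠ 0 := by rw [ha]; exact pow_ne_zero 2 hζ0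
  have hapow : ∀ t : F, t ≠ 0 → ∃ j : ℕ, t = a ^ j := by
    intro t ht
    obtain ⟨r, hr⟩ := FiniteField.isSquare_of_char_two (ringChar.eq F 2) t
    have hr0 : r ≠ 0 := by rintro rfl; exact ht (by rw [hr, mul_zero])
    obtain ⟨j, hj⟩ := hζ r hr0
    exact ⟨j, by rw [hr, hj, ha]; ring⟩
  have ha1 : a ≠ 1 := by
    intro h1
    apply hq
    rw [← Nat.card_eq_fintype_card, Nat.card_eq_two_iff]
    refine ⟨0, 1, zero_ne_one, ?_⟩
    ext t
    simp only [Set.mem_insert_iff, Set.mem_singleton_iff, Set.mem_univ, iff_true]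
    by_cases ht : t = 0
    · exact Or.inl ht
    · right
      obtain ⟨j, hj⟩ := hapow t ht
      rw [hj, h1, one_pow]
  have h1a : 1 + a ≠ 0 := by
    intro h
    apply ha1
    linear_combination h - h2
  obtain ⟨k0, hk0⟩ := hapow (1 + a) h1a
  have hq1 : a ^ (Fintype.card F - 1) = 1 := FiniteField.pow_card_sub_one_eq_one a ha0
  have hζq1 : ζ ^ (Fintype.card F - 1) = 1 := FiniteField.pow_card_sub_one_eq_one ζ hζ0
  have hcard1 : 1 < Fintype.card F := Fintype.one_lt_card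
  obtain ⟨k, hk⟩ : ∃ k : ℕ, k = k0 + 2 * (Fintype.card F - 1) := ⟨_, rfl⟩
  have hk2 : 2 ≤ k := by omega
  have hak : a ^ k = 1 + a := by
    rw [hk, pow_add, pow_mul', hq1, one_pow, mul_one, ← hk0]
  obtain ⟨q2, hq2⟩ : ∃ q2 : ℕ, Fintype.card F = 2 * q2 := by
    obtain ⟨n, -, hn⟩ := FiniteField.card F 2
    refine ⟨2 ^ ((n : ℕ) - 1), ?_⟩
    rw [hn, ← pow_succ']
    congr 1
    have := n.pos
    omega
  have hq2pos : 1 ≤ q2 := by omega
  obtain ⟨m, hm⟩ : ∃ m : (ZMod 2)[X], m = minpoly (ZMod 2) a := ⟨_, rfl⟩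
  obtain ⟨fu, hfu⟩ : ∃ x : FreeGroup (Fin 3), x = FreeGroup.of 0 := ⟨_, rfl⟩
  obtain ⟨fh, hfh⟩ : ∃ x : FreeGroup (Fin 3), x = FreeGroup.of 1 := ⟨_, rfl⟩
  obtain ⟨fw, hfw⟩ : ∃ x : FreeGroup (Fin 3), x = FreeGroup.of 2 := ⟨_, rfl⟩
  obtain ⟨r1, hr1⟩ : ∃ r : FreeGroup (Fin 3), r = fu ^ 2 := ⟨_, rfl⟩
  obtain ⟨r2, hr2⟩ : ∃ r : FreeGroup (Fin 3), r = cj fh fu k * (fu * cj fh fu 1)⁻¹ := ⟨_, rfl⟩
  obtain ⟨r3, hr3⟩ : ∃ r : FreeGroup (Fin 3), r = fh ^ (Fintype.card F - 1) * pw 2 fh fu m :=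
    ⟨_, rfl⟩
  obtain ⟨r4, hr4⟩ : ∃ r : FreeGroup (Fin 3), r = fw * fh * fw⁻¹ * fh := ⟨_, rfl⟩
  obtain ⟨r5, hr5⟩ : ∃ r : FreeGroup (Fin 3), r = fu * fw * fu * fw⁻¹ * fu * fw⁻¹ := ⟨_, rfl⟩
  obtain ⟨rels, hrels⟩ : ∃ rels : Finset (FreeGroup (Fin 3)),
      rels = [r1, r2, r3, r4, r5].toFinset := ⟨_, rfl⟩
  refine ⟨rels, ?_, ?_⟩
  · rw [hrels]
    exact (List.toFinset_card_le _).trans (by simp)
  have hmem : ∀ r, r ∈ (↑rels : Set (FreeGroup (Fin 3))) ↔
      r = r1 ∨ r = r2 ∨ r = r3 ∨ r = r4 ∨ r = r5 := by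
    intro r
    rw [hrels]
    simp
  obtain ⟨u, hu⟩ : ∃ u : PresentedGroup (↑rels : Set (FreeGroup (Fin 3))),
      u = PresentedGroup.mk _ fu := ⟨_, rfl⟩
  obtain ⟨h, hh⟩ : ∃ u : PresentedGroup (↑rels : Set (FreeGroup (Fin 3))),
      u = PresentedGroup.mk _ fh := ⟨_, rfl⟩
  obtain ⟨w, hw⟩ : ∃ u : PresentedGroup (↑rels : Set (FreeGroup (Fin 3))),
      u = PresentedGroup.mk _ fw := ⟨_, rfl⟩
  have e1 : u ^ 2 = 1 := by
    have := PresentedGroup.one_of_mem ((hmem r1).2 (Or.inl rfl))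
    rw [hr1, map_pow, ← hu] at this
    exact this
  have e2 : cj h u k = u * cj h u 1 := by
    have := PresentedGroup.one_of_mem ((hmem r2).2 (Or.inr (Or.inl rfl)))
    rw [hr2] at this
    simp only [map_mul, map_inv, map_cj] at this
    rw [← hu, ← hh, mul_inv_eq_one] at this
    exact this
  have e3 : h ^ (Fintype.card F - 1) * pw 2 h u m = 1 := by
    have := PresentedGroup.one_of_mem ((hmem r3).2 (Or.inr (Or.inr (Or.inl rfl))))
    rw [hr3] at this
    simp only [map_mul, map_pow, map_pw] at this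
    rw [← hu, ← hh] at this
    exact this
  have e4 : w * h * w⁻¹ = h⁻¹ := by
    have := PresentedGroup.one_of_mem ((hmem r4).2 (Or.inr (Or.inr (Or.inr (Or.inl rfl)))))
    rw [hr4] at this
    simp only [map_mul, map_inv] at this
    rw [← hh, ← hw] at this
    exact mul_eq_one_iff_eq_inv.1 this
  have e5 : u * (w * u * w⁻¹) * u = w := by
    have := PresentedGroup.one_of_mem ((hmem r5).2 (Or.inr (Or.inr (Or.inr (Or.inr rfl)))))
    rw [hr5] at this
    simp only [map_mul, map_inv] at this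
    rw [← hu, ← hw, mul_inv_eq_one] at this
    calc u * (w * u * w⁻¹) * u = u * w * u * w⁻¹ * u := by group
      _ = w := this
  have hgen : Subgroup.closure {u, h, w} = ⊤ := by
    rw [hu, hh, hw, hfu, hfh, hfw]; exact presented_fin3_gen _
  have hcomm := cj_comm_two h u k hk2 e1 e2
  have hcl2 := cj_closure_two u h k hcomm e2
  have hc : h ^ (Fintype.card F - 1) = 1 := by
    have hmemN : h ^ (Fintype.card F - 1) ∈ Subgroup.closure (Set.range (cj h u)) := by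
      have e : h ^ (Fintype.card F - 1) = (pw 2 h u m)⁻¹ := eq_inv_of_mul_eq_one_left e3
      rw [e]
      exact inv_mem (pw_mem 2 h u m)
    have e8 := hcl2 _ hmemN
    have e6 : h ^ k * h ^ (Fintype.card F - 1) * (h ^ k)⁻¹ = h ^ (Fintype.card F - 1) := by group
    have e7 : h * h ^ (Fintype.card F - 1) * h⁻¹ = h ^ (Fintype.card F - 1) := by group
    rw [e6, e7] at e8
    exact (mul_eq_left (a := h ^ (Fintype.card F - 1))).1 e8.symm
  have hmin : pw 2 h u (minpoly (ZMod 2) (ζ ^ 2)) = 1 := by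
    rw [← ha, ← hm]
    rw [hc, one_mul] at e3
    exact e3
  have hWz : ∀ X : F → PresentedGroup (↑rels : Set (FreeGroup (Fin 3))),
      (∀ s t, X (s + t) = X s * X t) → X 1 = u → (∀ t, h * X t * h⁻¹ = X (ζ ^ 2 * t)) →
      (∀ g : (ZMod 2)[X], X (aeval (ζ ^ 2) g) = pw 2 h u g) →
      X ζ * (w * X ζ⁻¹ * w⁻¹) * X ζ = h * w := by
    intro X hXadd hX1 hXh _
    have hXpow : ∀ j : ℕ, X ((ζ ^ 2) ^ j) = cj h u j := by
      intro j
      induction j with
      | zero => rw [pow_zero, hX1, cj_zero]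
      | succ j ih => rw [cj_succ, ← ih, hXh, pow_succ']
    have hz1 : (ζ ^ 2) ^ q2 = ζ := by
      rw [← pow_mul, ← hq2, FiniteField.pow_card]
    have hz2 : (ζ ^ 2) ^ (q2 - 1) = ζ⁻¹ := by
      symm
      apply inv_eq_of_mul_eq_one_right
      rw [← pow_mul, ← pow_succ', show 2 * (q2 - 1) + 1 = Fintype.card F - 1 by omega]
      exact hζq1
    have hA : X ζ = cj h u q2 := by
      have := hXpow q2
      rw [hz1] at this
      exact this
    have hB : X ζ⁻¹ = cj h u (q2 - 1) := by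
      have := hXpow (q2 - 1)
      rw [hz2] at this
      exact this
    rw [hA, hB, cj_eq, cj_eq]
    have hBA : h ^ (q2 - 1) = (h ^ q2)⁻¹ := by
      apply eq_inv_of_mul_eq_one_left
      rw [← pow_add, show q2 - 1 + q2 = Fintype.card F - 1 by omega, hc]
    have hAA : h ^ q2 * h ^ q2 = h := by
      rw [← pow_add, show q2 + q2 = (Fintype.card F - 1) + 1 by omega, pow_succ, hc, one_mul]
    have hwA : w * h ^ q2 * w⁻¹ = (h ^ q2)⁻¹ := by
      rw [← conj_pow, e4, inv_pow]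
    rw [hBA, inv_inv]
    generalize h ^ q2 = A at hAA hwA ⊢
    have k1 : A⁻¹ * w = w * A := by rw [← hwA]; group
    have k2 : A * w⁻¹ = w⁻¹ * A⁻¹ := by
      calc A * w⁻¹ = w⁻¹ * (w * A * w⁻¹) := by group
        _ = w⁻¹ * A⁻¹ := by rw [hwA]
    have k3 : w * A⁻¹ = A * w := by
      calc w * A⁻¹ = (w * A * w⁻¹)⁻¹ * w := by group
        _ = A * w := by rw [hwA, inv_inv]
    calc A * u * A⁻¹ * (w * (A⁻¹ * u * A) * w⁻¹) * (A * u * A⁻¹)
        = A * u * (A⁻¹ * w) * A⁻¹ * u * (A * w⁻¹) * A * u * A⁻¹ := by group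
      _ = A * u * (w * A) * A⁻¹ * u * (w⁻¹ * A⁻¹) * A * u * A⁻¹ := by rw [k1, k2]
      _ = A * (u * (w * u * w⁻¹) * u) * A⁻¹ := by group
      _ = A * w * A⁻¹ := by rw [e5]
      _ = A * (w * A⁻¹) := by group
      _ = A * (A * w) := by rw [k3]
      _ = (A * A) * w := by group
      _ = h * w := by rw [hAA]
  obtain ⟨f, hf0, hf1, hf2⟩ : ∃ f : Fin 3 → SpecialLinearGroup (Fin 2) F,
      f 0 = sl2U 1 ∧ f 1 = slD ζ hζ0 ∧ f 2 = slW := ⟨![sl2U 1, slD ζ hζ0, slW], rfl, rfl, rfl⟩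
  have hlu : FreeGroup.lift f fu = sl2U 1 := by rw [hfu, FreeGroup.lift_apply_of, hf0]
  have hlh : FreeGroup.lift f fh = slD ζ hζ0 := by rw [hfh, FreeGroup.lift_apply_of, hf1]
  have hlw : FreeGroup.lift f fw = slW := by rw [hfw, FreeGroup.lift_apply_of, hf2]
  have hf : ∀ r ∈ (↑rels : Set (FreeGroup (Fin 3))), FreeGroup.lift f r = 1 := by
    intro r hr
    rcases (hmem r).1 hr with rfl | rfl | rfl | rfl | rfl
    · rw [hr1, map_pow, hlu, sl2U_pow, two_nsmul]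
      rw [show (1 : F) + 1 = 0 by linear_combination h2, sl2U_zero]
    · rw [hr2]
      simp only [map_mul, map_inv, map_cj]
      rw [hlu, hlh, cj_slD, cj_slD, sl2U_mul, mul_inv_eq_one]
      congr 1
      rw [mul_one, mul_one, pow_one, ← ha, hak]
    · rw [hr3]
      simp only [map_mul, map_pow, map_pw]
      rw [hlu, hlh, slD_pow_eq_one ζ hζ0 _ hζq1, one_mul, pw_slD, hm, ← ha, minpoly.aeval,
        sl2U_zero]
    · rw [hr4]
      simp only [map_mul, map_inv]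
      rw [hlh, hlw, slW_slD, inv_mul_cancel]
    · rw [hr5]
      simp only [map_mul, map_inv]
      rw [hlu, hlw, mul_inv_eq_one]
      calc sl2U (1 : F) * slW * sl2U 1 * slW⁻¹ * sl2U 1 =
            sl2U 1 * (slW * sl2U 1 * slW⁻¹) * sl2U 1 := by group
        _ = slW := sl2_bruhat_one
  obtain ⟨ψ, hψ⟩ : ∃ ψ : PresentedGroup (↑rels : Set (FreeGroup (Fin 3))) →*
      SpecialLinearGroup (Fin 2) F, ∀ x, ψ (PresentedGroup.mk _ x) = FreeGroup.lift f x :=
    ⟨PresentedGroup.toGroup hf, fun x => rfl⟩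
  have hbij : Function.Bijective ψ := by
    refine sl2_pres_core 2 ζ hζ0 hζ hsum u h w hgen hcomm e1 hmin e4 e5 hWz ψ ?_ ?_ ?_
    · rw [hu, hψ, hlu]
    · rw [hh, hψ, hlh]
    · rw [hw, hψ, hlw]
  exact ⟨MulEquiv.ofBijective ψ hbij⟩

end

section

variable {F : Type*} [Field F] [Fintype F]

/-- `SL₂` over a finite field of odd characteristic -/
theorem sl2_pres_odd (p : ℕ) [Fact p.Prime] [CharP F p] [Algebra (ZMod p) F] :
    ∃ rels : Finset (FreeGroup (Fin 3)), rels.card ≤ 8 ∧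
      ∃ e : PresentedGroup (↑rels : Set (FreeGroup (Fin 3))) ≃* SpecialLinearGroup (Fin 2) F,
        e (PresentedGroup.mk _ (FreeGroup.of 2)) = slW := by
  classical
  obtain ⟨ζ, hζ0, hζ⟩ := exists_field_gen F
  have hsum := field_sum_two ζ hζ
  obtain ⟨a, ha⟩ : ∃ a : F, a = ζ ^ 2 := ⟨_, rfl⟩
  have ha0 : a ≠ 0 := by rw [ha]; exact pow_ne_zero 2 hζ0
  have hq1 : a ^ (Fintype.card F - 1) = 1 := FiniteField.pow_card_sub_one_eq_one a ha0
  have hcard1 : 1 < Fintype.card F := Fintype.one_lt_card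
  obtain ⟨K, e, hK3, hKrel⟩ : ∃ K e : ℕ, 3 ≤ K ∧ a ^ K = 1 + e • a + a ^ 2 := by
    by_cases h1a : 1 + a = 0
    · refine ⟨3 * (Fintype.card F - 1), 1, by omega, ?_⟩
      rw [pow_mul', hq1, one_pow, one_nsmul, h1a, zero_add]
      have : a = -1 := by linear_combination h1a
      rw [this]; ring
    · obtain ⟨m, hm⟩ := hζ (1 + a) h1a
      refine ⟨m + 3 * (Fintype.card F - 1), 2, by omega, ?_⟩
      have e1 : a ^ m = (ζ ^ m) ^ 2 := by rw [ha]; ring
      rw [pow_add, pow_mul', hq1, one_pow, mul_one, e1, ← hm, two_nsmul]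
      ring
  obtain ⟨g1, hg1⟩ := field_poly_surj p ζ hsum ζ
  obtain ⟨g2, hg2⟩ := field_poly_surj p ζ hsum ζ⁻¹
  obtain ⟨m, hm⟩ : ∃ m : (ZMod p)[X], m = minpoly (ZMod p) a := ⟨_, rfl⟩
  obtain ⟨fu, hfu⟩ : ∃ x : FreeGroup (Fin 3), x = FreeGroup.of 0 := ⟨_, rfl⟩
  obtain ⟨fh, hfh⟩ : ∃ x : FreeGroup (Fin 3), x = FreeGroup.of 1 := ⟨_, rfl⟩
  obtain ⟨fw, hfw⟩ : ∃ x : FreeGroup (Fin 3), x = FreeGroup.of 2 := ⟨_, rfl⟩
  obtain ⟨r1, hr1⟩ : ∃ r : FreeGroup (Fin 3), r = fu ^ p := ⟨_, rfl⟩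
  obtain ⟨r2, hr2⟩ : ∃ r : FreeGroup (Fin 3),
      r = fu * cj fh fu 1 * fu⁻¹ * (cj fh fu 1)⁻¹ := ⟨_, rfl⟩
  obtain ⟨r3, hr3⟩ : ∃ r : FreeGroup (Fin 3),
      r = fu * cj fh fu 2 * fu⁻¹ * (cj fh fu 2)⁻¹ := ⟨_, rfl⟩
  obtain ⟨r4, hr4⟩ : ∃ r : FreeGroup (Fin 3),
      r = cj fh fu K * (fu * cj fh fu 1 ^ e * cj fh fu 2)⁻¹ := ⟨_, rfl⟩
  obtain ⟨r5, hr5⟩ : ∃ r : FreeGroup (Fin 3), r = pw p fh fu m := ⟨_, rfl⟩
  obtain ⟨r6, hr6⟩ : ∃ r : FreeGroup (Fin 3), r = fw * fh * fw⁻¹ * fh := ⟨_, rfl⟩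
  obtain ⟨r7, hr7⟩ : ∃ r : FreeGroup (Fin 3), r = fu * fw * fu * fw⁻¹ * fu * fw⁻¹ := ⟨_, rfl⟩
  obtain ⟨r8, hr8⟩ : ∃ r : FreeGroup (Fin 3),
      r = pw p fh fu g1 * fw * pw p fh fu g2 * fw⁻¹ * pw p fh fu g1 * (fh * fw)⁻¹ := ⟨_, rfl⟩
  obtain ⟨rels, hrels⟩ : ∃ rels : Finset (FreeGroup (Fin 3)),
      rels = [r1, r2, r3, r4, r5, r6, r7, r8].toFinset := ⟨_, rfl⟩
  refine ⟨rels, ?_, ?_⟩
  · rw [hrels]
    exact (List.toFinset_card_le _).trans (by simp)
  have hmem : ∀ r, r ∈ (↑rels : Set (FreeGroup (Fin 3))) ↔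
      r = r1 ∨ r = r2 ∨ r = r3 ∨ r = r4 ∨ r = r5 ∨ r = r6 ∨ r = r7 ∨ r = r8 := by
    intro r
    rw [hrels]
    simp
  obtain ⟨u, hu⟩ : ∃ u : PresentedGroup (↑rels : Set (FreeGroup (Fin 3))),
      u = PresentedGroup.mk _ fu := ⟨_, rfl⟩
  obtain ⟨h, hh⟩ : ∃ u : PresentedGroup (↑rels : Set (FreeGroup (Fin 3))),
      u = PresentedGroup.mk _ fh := ⟨_, rfl⟩
  obtain ⟨w, hw⟩ : ∃ u : PresentedGroup (↑rels : Set (FreeGroup (Fin 3))),
      u = PresentedGroup.mk _ fw := ⟨_, rfl⟩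
  have e1 : u ^ p = 1 := by
    have := PresentedGroup.one_of_mem ((hmem r1).2 (Or.inl rfl))
    rw [hr1, map_pow, ← hu] at this
    exact this
  have e2 : Commute u (cj h u 1) := by
    have := PresentedGroup.one_of_mem ((hmem r2).2 (Or.inr (Or.inl rfl)))
    rw [hr2] at this
    simp only [map_mul, map_inv, map_cj] at this
    rw [← hu, ← hh] at this
    exact mul_inv_eq_iff_eq_mul.1 (mul_inv_eq_one.1 this)
  have e3 : Commute u (cj h u 2) := by
    have := PresentedGroup.one_of_mem ((hmem r3).2 (Or.inr (Or.inr (Or.inl rfl))))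
    rw [hr3] at this
    simp only [map_mul, map_inv, map_cj] at this
    rw [← hu, ← hh] at this
    exact mul_inv_eq_iff_eq_mul.1 (mul_inv_eq_one.1 this)
  have e4 : cj h u K = u * cj h u 1 ^ e * cj h u 2 := by
    have := PresentedGroup.one_of_mem ((hmem r4).2 (Or.inr (Or.inr (Or.inr (Or.inl rfl)))))
    rw [hr4] at this
    simp only [map_mul, map_inv, map_pow, map_cj] at this
    rw [← hu, ← hh, mul_inv_eq_one] at this
    exact this
  have e5 : pw p h u (minpoly (ZMod p) (ζ ^ 2)) = 1 := by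
    have := PresentedGroup.one_of_mem
      ((hmem r5).2 (Or.inr (Or.inr (Or.inr (Or.inr (Or.inl rfl))))))
    rw [hr5, map_pw, ← hu, ← hh, hm, ha] at this
    exact this
  have e6 : w * h * w⁻¹ = h⁻¹ := by
    have := PresentedGroup.one_of_mem
      ((hmem r6).2 (Or.inr (Or.inr (Or.inr (Or.inr (Or.inr (Or.inl rfl)))))))
    rw [hr6] at this
    simp only [map_mul, map_inv] at this
    rw [← hh, ← hw] at this
    exact mul_eq_one_iff_eq_inv.1 this
  have e7 : u * (w * u * w⁻¹) * u = w := by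
    have := PresentedGroup.one_of_mem
      ((hmem r7).2 (Or.inr (Or.inr (Or.inr (Or.inr (Or.inr (Or.inr (Or.inl rfl))))))))
    rw [hr7] at this
    simp only [map_mul, map_inv] at this
    rw [← hu, ← hw, mul_inv_eq_one] at this
    calc u * (w * u * w⁻¹) * u = u * w * u * w⁻¹ * u := by group
      _ = w := this
  have e8 : pw p h u g1 * (w * pw p h u g2 * w⁻¹) * pw p h u g1 = h * w := by
    have := PresentedGroup.one_of_mem
      ((hmem r8).2 (Or.inr (Or.inr (Or.inr (Or.inr (Or.inr (Or.inr (Or.inr rfl))))))))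
    rw [hr8] at this
    simp only [map_mul, map_inv, map_pw] at this
    rw [← hu, ← hh, ← hw, mul_inv_eq_one] at this
    calc pw p h u g1 * (w * pw p h u g2 * w⁻¹) * pw p h u g1 =
          pw p h u g1 * w * pw p h u g2 * w⁻¹ * pw p h u g1 := by group
      _ = h * w := this
  have hgen : Subgroup.closure {u, h, w} = ⊤ := by
    rw [hu, hh, hw, hfu, hfh, hfw]; exact presented_fin3_gen _
  have hcomm := cj_comm_odd h u K e hK3 e2 e3 e4
  have hWz : ∀ X : F → PresentedGroup (↑rels : Set (FreeGroup (Fin 3))),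
      (∀ s t, X (s + t) = X s * X t) → X 1 = u → (∀ t, h * X t * h⁻¹ = X (ζ ^ 2 * t)) →
      (∀ g : (ZMod p)[X], X (aeval (ζ ^ 2) g) = pw p h u g) →
      X ζ * (w * X ζ⁻¹ * w⁻¹) * X ζ = h * w := by
    intro X _ _ _ hXf
    have h1 : X ζ = pw p h u g1 := by rw [← hXf, hg1]
    have h2 : X ζ⁻¹ = pw p h u g2 := by rw [← hXf, hg2]
    rw [h1, h2]
    exact e8
  obtain ⟨f, hf0, hf1, hf2⟩ : ∃ f : Fin 3 → SpecialLinearGroup (Fin 2) F,
      f 0 = sl2U 1 ∧ f 1 = slD ζ hζ0 ∧ f 2 = slW := ⟨![sl2U 1, slD ζ hζ0, slW], rfl, rfl, rfl⟩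
  have hlu : FreeGroup.lift f fu = sl2U 1 := by rw [hfu, FreeGroup.lift_apply_of, hf0]
  have hlh : FreeGroup.lift f fh = slD ζ hζ0 := by rw [hfh, FreeGroup.lift_apply_of, hf1]
  have hlw : FreeGroup.lift f fw = slW := by rw [hfw, FreeGroup.lift_apply_of, hf2]
  have hcomm2 : ∀ x y : F, sl2U x * sl2U y * (sl2U x)⁻¹ * (sl2U y)⁻¹ = 1 := by
    intro x y
    rw [sl2U_inv, sl2U_inv, sl2U_mul, sl2U_mul, sl2U_mul]
    rw [show x + y + -x + -y = 0 by ring, sl2U_zero]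
  have hf : ∀ r ∈ (↑rels : Set (FreeGroup (Fin 3))), FreeGroup.lift f r = 1 := by
    intro r hr
    rcases (hmem r).1 hr with rfl | rfl | rfl | rfl | rfl | rfl | rfl | rfl
    · rw [hr1, map_pow, hlu, sl2U_pow, nsmul_one, CharP.cast_eq_zero, sl2U_zero]
    · rw [hr2]
      simp only [map_mul, map_inv, map_cj]
      rw [hlu, hlh, cj_slD]
      exact hcomm2 _ _
    · rw [hr3]
      simp only [map_mul, map_inv, map_cj]
      rw [hlu, hlh, cj_slD]
      exact hcomm2 _ _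
    · rw [hr4]
      simp only [map_mul, map_inv, map_pow, map_cj]
      rw [hlu, hlh, cj_slD, cj_slD, cj_slD, sl2U_pow, sl2U_mul, sl2U_mul, mul_inv_eq_one]
      congr 1
      rw [mul_one, mul_one, mul_one, pow_one, ← ha, hKrel]
    · rw [hr5, map_pw, hlu, hlh, pw_slD, hm, ← ha, minpoly.aeval, sl2U_zero]
    · rw [hr6]
      simp only [map_mul, map_inv]
      rw [hlh, hlw, slW_slD, inv_mul_cancel]
    · rw [hr7]
      simp only [map_mul, map_inv]
      rw [hlu, hlw, mul_inv_eq_one]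
      calc sl2U (1 : F) * slW * sl2U 1 * slW⁻¹ * sl2U 1 =
            sl2U 1 * (slW * sl2U 1 * slW⁻¹) * sl2U 1 := by group
        _ = slW := sl2_bruhat_one
    · rw [hr8]
      simp only [map_mul, map_inv, map_pw]
      rw [hlu, hlh, hlw, pw_slD, pw_slD, hg1, hg2, mul_inv_eq_one]
      calc sl2U ζ * slW * sl2U ζ⁻¹ * slW⁻¹ * sl2U ζ =
            sl2U ζ * (slW * sl2U ζ⁻¹ * slW⁻¹) * sl2U ζ := by group
        _ = slD ζ hζ0 * slW := sl2_bruhat_gen ζ hζ0
  obtain ⟨ψ, hψ⟩ : ∃ ψ : PresentedGroup (↑rels : Set (FreeGroup (Fin 3))) →*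
      SpecialLinearGroup (Fin 2) F, ∀ x, ψ (PresentedGroup.mk _ x) = FreeGroup.lift f x :=
    ⟨PresentedGroup.toGroup hf, fun x => rfl⟩
  have hbij : Function.Bijective ψ := by
    refine sl2_pres_core p ζ hζ0 hζ hsum u h w hgen hcomm e1 e5 e6 e7 hWz ψ ?_ ?_ ?_
    · rw [hu, hψ, hlu]
    · rw [hh, hψ, hlh]
    · rw [hw, hψ, hlw]
  refine ⟨MulEquiv.ofBijective ψ hbij, ?_⟩
  show ψ (PresentedGroup.mk _ (FreeGroup.of 2)) = slW
  rw [hψ, FreeGroup.lift_apply_of, hf2]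

/-- presentations of `SL₂` and `PSL₂` over a finite field on three generators -/
theorem sl2_psl2_pres (F : Type*) [Field F] [Fintype F] :
    (∃ rels : Finset (FreeGroup (Fin 3)), rels.card ≤ 9 ∧
      Nonempty (PresentedGroup (↑rels : Set (FreeGroup (Fin 3))) ≃*
        Matrix.SpecialLinearGroup (Fin 2) F)) ∧
    (∃ rels : Finset (FreeGroup (Fin 3)), rels.card ≤ 9 ∧
      Nonempty (PresentedGroup (↑rels : Set (FreeGroup (Fin 3))) ≃*
        Matrix.ProjectiveSpecialLinearGroup (Fin 2) F)) ∧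
    (CharP F 2 → ∃ rels : Finset (FreeGroup (Fin 3)), rels.card ≤ 5 ∧
      Nonempty (PresentedGroup (↑rels : Set (FreeGroup (Fin 3))) ≃*
        Matrix.ProjectiveSpecialLinearGroup (Fin 2) F)) := by
  classical
  obtain ⟨p, hp⟩ := CharP.exists F
  have hprime : p.Prime := CharP.char_is_prime F p
  have hfact : Fact p.Prime := ⟨hprime⟩
  by_cases h2 : p = 2
  · subst h2
    have hSL : ∃ rels : Finset (FreeGroup (Fin 3)), rels.card ≤ 5 ∧
        Nonempty (PresentedGroup (↑rels : Set (FreeGroup (Fin 3))) ≃*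
          Matrix.SpecialLinearGroup (Fin 2) F) := by
      by_cases hq : Fintype.card F = 2
      · exact sl2_pres_two hq
      · exact @sl2_pres_even F _ _ hp (ZMod.algebra F 2) hq
    have hbot : Subgroup.center (Matrix.SpecialLinearGroup (Fin 2) F) = ⊥ := by
      rw [eq_bot_iff]
      intro z hz
      exact Subgroup.mem_bot.2 (sl2_center_char_two z hz)
    obtain ⟨rels, hc, ⟨e⟩⟩ := hSL
    have e2 : Matrix.SpecialLinearGroup (Fin 2) F ≃*
        Matrix.ProjectiveSpecialLinearGroup (Fin 2) F :=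
      (QuotientGroup.quotientBot.symm).trans (QuotientGroup.quotientMulEquivOfEq hbot.symm)
    exact ⟨⟨rels, by omega, ⟨e⟩⟩, ⟨rels, by omega, ⟨e.trans e2⟩⟩,
      fun _ => ⟨rels, hc, ⟨e.trans e2⟩⟩⟩
  · obtain ⟨rels, hc, e, he⟩ := @sl2_pres_odd F _ _ p hfact hp (ZMod.algebra F p)
    refine ⟨⟨rels, by omega, ⟨e⟩⟩, ?_, ?_⟩
    · have hr0 : e (PresentedGroup.mk (↑rels : Set (FreeGroup (Fin 3)))
          (FreeGroup.of 2 * FreeGroup.of 2)) = slW * slW := by
        rw [map_mul, map_mul, he]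
      have h3 := presented_quot (↑rels : Set (FreeGroup (Fin 3)))
        (FreeGroup.of 2 * FreeGroup.of 2) e
        (Subgroup.center (Matrix.SpecialLinearGroup (Fin 2) F))
        (fun z hz => by rw [hr0]; exact sl2_center_cases z hz)
        (by rw [hr0]; exact slW_sq_mem_center)
      refine ⟨insert (FreeGroup.of 2 * FreeGroup.of 2) rels,
        (Finset.card_insert_le _ _).trans (by omega), ?_⟩
      rw [Finset.coe_insert]
      exact h3
    · intro hc2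
      exact absurd (CharP.eq F hp hc2) h2

end

end Cfsg.Agent.H8
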