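import Mathlib
import Cfsg.Agent.H45.S8Defs0
import Cfsg.Agent.H73.S8Part
import Cfsg.Agent.H15.S8C24

/-!
# S2357 (helper45's team project), pieces SPLITCNT / QUARTCNT1 / QUARTCNT2 (helper8): common part

`Cfsg.Agent.H45.S7Defs` imports the Ree library, so (as allowed in the project post) the
statements are restated here VERBATIM on top of `Cfsg.Agent.H45.S8Defs0` only; they are
definitionally equal to `Cfsg.Agent.H45.S7.StOrdCount`, `StSplitCnt`, `StQuartCnt1`,
`StQuartCnt2`.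
-/

set_option autoImplicit false

namespace Cfsg.Agent.H8.S7

open Cfsg.Agent.H45.S8

universe u

/-- (ORDCLS), verbatim copy of `Cfsg.Agent.H45.S7.StOrdCount`. -/
def StOrdCount : Prop :=
  ∀ (G : Type u) [Group G] [Finite G] (C : Subgroup G) (i : ℕ),
    (∀ x ∈ C, orderOf x = i → Subgroup.centralizer ({x} : Set G) = C) →
    Nat.card {g : G // orderOf g = i ∧ ∃ c : G, c * g * c⁻¹ ∈ C} *
        Nat.card ↥(Subgroup.normalizer (C : Set G)) =
      Nat.card G * Nat.card {x : G // x ∈ C ∧ orderOf x = i}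

/-- (SPLITCNT), verbatim copy of `Cfsg.Agent.H45.S7.StSplitCnt`. -/
def StSplitCnt : Prop :=
  ∀ (G : Type u) [Group G] [Finite G] (m : ℕ), 1 ≤ m → Nat.card G = GG m → HSplit G m →
    HSyl G ((qq m - 1) / 2) → StHConj.{u} → StOrdCount.{u} → StArCop →
    ∀ Hd : Subgroup G, IsCyclic ↥Hd → Nat.card ↥Hd = qq m - 1 →
      Nat.card ↥(Subgroup.normalizer (Hd : Set G)) = 2 * (qq m - 1) →
      ∀ i : ℕ, 2 < i → i ∣ qq m - 1 →
        2 * Nat.card {g : G // orderOf g = i} = Nat.totient i * qq m ^ 3 * (qq m ^ 3 + 1)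

/-- (QUARTCNT1), verbatim copy of `Cfsg.Agent.H45.S7.StQuartCnt1`. -/
def StQuartCnt1 : Prop :=
  ∀ (G : Type u) [Group G] [Finite G] (m : ℕ), 1 ≤ m → Nat.card G = GG m → HQuarter G m →
    HSyl G (kk m) → StOrdCount.{u} → StArCop →
    ∀ A : Subgroup G, IsCyclic ↥A → Nat.card ↥A = kk m →
      Nat.card ↥(Subgroup.normalizer
        ((Subgroup.centralizer (A : Set G) : Subgroup G) : Set G)) = 6 * (qq m + 1) →
      ∀ i : ℕ, 1 < i → i ∣ kk m →
        6 * Nat.card {g : G // orderOf g = i} =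
          Nat.totient i * qq m ^ 3 * (qq m - 1) * (qq m ^ 2 - qq m + 1)

/-- (QUARTCNT2), verbatim copy of `Cfsg.Agent.H45.S7.StQuartCnt2`. -/
def StQuartCnt2 : Prop :=
  ∀ (G : Type u) [Group G] [Finite G] (m : ℕ), 1 ≤ m → Nat.card G = GG m → HQuarter G m →
    HSyl G (kk m) → StOrdCount.{u} → StArCop →
    ∀ A : Subgroup G, IsCyclic ↥A → Nat.card ↥A = kk m →
      Nat.card ↥(Subgroup.normalizer
        ((Subgroup.centralizer (A : Set G) : Subgroup G) : Set G)) = 6 * (qq m + 1) →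
      ∀ i : ℕ, 1 < i → i ∣ kk m →
        2 * Nat.card {g : G // orderOf g = 2 * i} =
          Nat.totient i * qq m ^ 3 * (qq m - 1) * (qq m ^ 2 - qq m + 1)

theorem three_le_qq (m : ℕ) : 3 ≤ qq m := by
  unfold qq
  calc 3 = 3 ^ 1 := by norm_num
    _ ≤ 3 ^ (2 * m + 1) := Nat.pow_le_pow_right (by norm_num) (by omega)

theorem qq_cube_add_one (m : ℕ) :
    qq m ^ 3 + 1 = (qq m + 1) * (qq m ^ 2 - qq m + 1) := by
  obtain ⟨t, ht⟩ : ∃ t, qq m = t + 1 := ⟨qq m - 1, by have := three_le_qq m; omega⟩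
  rw [ht]
  have : (t + 1) ^ 2 - (t + 1) = t ^ 2 + t := by
    apply Nat.sub_eq_of_eq_add
    ring
  rw [this]
  ring

/-- the number of elements of order `i` in a cyclic subgroup -/
theorem card_orderOf_eq_totient_sub {G : Type u} [Group G] [Finite G] (A : Subgroup G)
    (hA : IsCyclic ↥A) (i : ℕ) (hi : i ∣ Nat.card ↥A) :
    Nat.card {x : G // x ∈ A ∧ orderOf x = i} = Nat.totient i := by
  classical
  haveI := Fintype.ofFinite ↥A
  have e : {x : G // x ∈ A ∧ orderOf x = i} ≃ {y : ↥A // orderOf y = i} :=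
    { toFun := fun x => ⟨⟨x.1, x.2.1⟩, by rw [Subgroup.orderOf_mk]; exact x.2.2⟩
      invFun := fun y => ⟨y.1.1, y.1.2, by rw [Subgroup.orderOf_coe]; exact y.2⟩
      left_inv := fun x => rfl
      right_inv := fun y => rfl }
  rw [Nat.card_congr e, Nat.card_eq_fintype_card, Fintype.card_subtype]
  exact IsCyclic.card_orderOf_eq_totient (by rwa [← Nat.card_eq_fintype_card])

theorem centralizer_singleton_eq_zpowers {G : Type u} [Group G] (z : G) :
    Subgroup.centralizer ({z} : Set G) =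
      Subgroup.centralizer ((Subgroup.zpowers z : Subgroup G) : Set G) := by
  apply le_antisymm
  · intro g hg
    rw [Subgroup.mem_centralizer_iff] at hg ⊢
    intro y hy
    obtain ⟨j, rfl⟩ := Subgroup.mem_zpowers_iff.mp hy
    have hzg : Commute z g := hg z rfl
    exact (hzg.zpow_left j).eq
  · exact Subgroup.centralizer_le (by
      intro y hy
      rw [Set.mem_singleton_iff.mp hy]
      exact Subgroup.mem_zpowers z)

theorem centralizer_le_pow {G : Type u} [Group G] (x : G) (n : ℕ) :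
    Subgroup.centralizer ({x} : Set G) ≤ Subgroup.centralizer ({x ^ n} : Set G) := by
  intro g hg
  rw [Subgroup.mem_centralizer_iff] at hg ⊢
  intro y hy
  rw [Set.mem_singleton_iff.mp hy]
  have hxg : Commute x g := hg x rfl
  exact (hxg.pow_left n).eq

/-- conjugating into the centraliser of a cyclic subgroup `A` (cyclic Sylow subgroups) -/
theorem exists_conj_mem_centralizer {G : Type u} [Group G] [Finite G] (A : Subgroup G)
    (hsub : ∀ A₀ : Subgroup G, A₀ ≤ A → A₀ ≠ ⊥ →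
      Subgroup.centralizer (A₀ : Set G) = Subgroup.centralizer (A : Set G))
    (s : ℕ) (hs : s.Prime) (hsA : s ∣ Nat.card ↥A)
    (hcyc : ∀ P : Sylow s G, IsCyclic ↥(P : Subgroup G)) (g : G) (hsg : s ∣ orderOf g) :
    ∃ c : G, c * g * c⁻¹ ∈ Subgroup.centralizer (A : Set G) := by
  haveI : Fact s.Prime := ⟨hs⟩
  have hg0 : orderOf g ≠ 0 := (orderOf_pos g).ne'
  obtain ⟨z, hz⟩ : ∃ z : G, z = g ^ (orderOf g / s) := ⟨_, rfl⟩
  have hzo : orderOf z = s := by rw [hz]; exact orderOf_pow_orderOf_div hg0 hsg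
  obtain ⟨w', hw'⟩ := exists_prime_orderOf_dvd_card' (G := ↥A) s hsA
  have hwo : orderOf (w' : G) = s := by rw [Subgroup.orderOf_coe]; exact hw'
  obtain ⟨c, hc⟩ := Cfsg.Agent.H73.S8.exists_conj_mem_zpowers s hcyc z (w' : G) hzo hwo
  have hczA : c * z * c⁻¹ ∈ A := by
    have : Subgroup.zpowers (w' : G) ≤ A := by rw [Subgroup.zpowers_le]; exact w'.2
    exact this hc
  have hcz1 : c * z * c⁻¹ ≠ 1 := by
    intro h
    have hz1 : z = 1 := by
      have : z = c⁻¹ * (c * z * c⁻¹) * c := by group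
      rw [this, h]; group
    rw [hz1, orderOf_one] at hzo
    exact hs.one_lt.ne hzo
  have hC := hsub (Subgroup.zpowers (c * z * c⁻¹)) (by rw [Subgroup.zpowers_le]; exact hczA)
    (by rw [Ne, Subgroup.zpowers_eq_bot]; exact hcz1)
  refine ⟨c, ?_⟩
  rw [← hC, ← centralizer_singleton_eq_zpowers, Subgroup.mem_centralizer_iff]
  intro y hy
  rw [Set.mem_singleton_iff.mp hy]
  have hgz : Commute z g := by rw [hz]; exact (Commute.refl g).pow_left _
  have e1 : c * z * c⁻¹ * (c * g * c⁻¹) = c * (z * g) * c⁻¹ := by group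
  have e2 : c * g * c⁻¹ * (c * z * c⁻¹) = c * (g * z) * c⁻¹ := by group
  rw [e1, e2, hgz.eq]

/-- the facts about `C₁ = C(A)` extracted from `HQuarter` -/
theorem quarter_facts {G : Type u} [Group G] [Finite G] (m : ℕ) (hm : 1 ≤ m)
    (hQ : HQuarter G m) (hAr : StArCop) (A : Subgroup G) (hAc : IsCyclic ↥A)
    (hAk : Nat.card ↥A = kk m) :
    (∀ x ∈ Subgroup.centralizer (A : Set G), ∀ y ∈ Subgroup.centralizer (A : Set G),
      x * y = y * x) ∧
    A ≤ Subgroup.centralizer (A : Set G) ∧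
    (∀ x ∈ Subgroup.centralizer (A : Set G), ∀ j : ℕ, Odd j → x ^ j = 1 → x ∈ A) ∧
    (∀ x ∈ A, x ≠ 1 →
      Subgroup.centralizer ({x} : Set G) = Subgroup.centralizer (A : Set G)) := by
  obtain ⟨hcomm, hcard, hno4, hsub⟩ := hQ A hAc hAk
  obtain ⟨-, -, -, h4k, hkodd, hk1, -, -, -, -, -, -, -, -, -, -⟩ := hAr m hm
  obtain ⟨C₁, hC₁⟩ : ∃ C₁ : Subgroup G, C₁ = Subgroup.centralizer (A : Set G) := ⟨_, rfl⟩
  rw [← hC₁] at hcomm hcard hno4 hsub ⊢
  have hkpos : 0 < kk m := by omega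
  have hk : Nat.card C₁ = 4 * kk m := by rw [hcard, h4k]
  have hAC : A ≤ C₁ := by
    intro x hx
    rw [hC₁, Subgroup.mem_centralizer_iff]
    intro y hy
    have := (IsCyclic.isMulCommutative (α := ↥A)).is_comm.comm ⟨y, hy⟩ ⟨x, hx⟩
    exact congrArg Subtype.val this
  have hindex : (A.subgroupOf C₁).index = 4 := by
    have h1 := Subgroup.card_mul_index (A.subgroupOf C₁)
    rw [Nat.card_congr (Subgroup.subgroupOfEquivOfLe hAC).toEquiv, hAk, hk] at h1
    have h2 : kk m * (A.subgroupOf C₁).index = kk m * 4 := by rw [h1]; ring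
    exact Nat.eq_of_mul_eq_mul_left hkpos h2
  have hnorm : (A.subgroupOf C₁).Normal := by
    constructor
    intro n hn g
    rw [Subgroup.mem_subgroupOf] at hn ⊢
    have h1 : ((g * n * g⁻¹ : ↥C₁) : G) = (n : G) := by
      have h2 : (g : G) * (n : G) = (n : G) * (g : G) := hcomm _ g.2 _ n.2
      simp only [Subgroup.coe_mul, Subgroup.coe_inv]
      rw [h2, mul_inv_cancel_right]
    rw [h1]; exact hn
  have hpow4 : ∀ x ∈ C₁, x ^ 4 ∈ A := by
    intro x hx
    have h1 := Subgroup.pow_index_mem (A.subgroupOf C₁) (⟨x, hx⟩ : ↥C₁)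
    rw [hindex, Subgroup.mem_subgroupOf] at h1
    exact h1
  refine ⟨hcomm, hAC, ?_, ?_⟩
  · intro x hx j hj hxj
    have h4 := hpow4 x hx
    have hj4 : j % 4 = 1 ∨ j % 4 = 3 := by
      obtain ⟨t, rfl⟩ := hj
      omega
    rcases hj4 with h1 | h3
    · obtain ⟨u, hu⟩ : ∃ u, j = 4 * u + 1 := ⟨j / 4, by omega⟩
      have h5 : (x ^ 4) ^ u = x⁻¹ := by
        rw [← pow_mul, ← mul_eq_one_iff_eq_inv, ← pow_succ, ← hu]
        exact hxj
      have h6 : x⁻¹ ∈ A := by rw [← h5]; exact A.pow_mem h4 u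
      exact A.inv_mem_iff.mp h6
    · obtain ⟨u, hu⟩ : ∃ u, j + 1 = 4 * u := ⟨(j + 1) / 4, by omega⟩
      have h5 : x = (x ^ 4) ^ u := by
        rw [← pow_mul, ← hu, pow_succ, hxj, one_mul]
      rw [h5]; exact A.pow_mem h4 u
  · intro x hx hx1
    rw [centralizer_singleton_eq_zpowers]
    exact hsub _ (by rw [Subgroup.zpowers_le]; exact hx)
      (by rw [Ne, Subgroup.zpowers_eq_bot]; exact hx1)

end Cfsg.Agent.H8.S7
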