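import Mathlib
import Cfsg.Agent.H8.S7Common

/-!
# S7-QuartCnt2 (helper8, for helper45, S2357): the elements of order `2i`, `i > 1` dividing
`k = (q+1)/4`

`quartCnt2 : StQuartCnt2`, where `Cfsg.Agent.H8.S7.StQuartCnt2` is the verbatim copy (in
`H8/S7Common.lean`) of `Cfsg.Agent.H45.S7.StQuartCnt2`.
-/

set_option autoImplicit false

namespace Cfsg.Agent.H8.S7

open Cfsg.Agent.H45.S8

universe u

theorem quartCnt2 : StQuartCnt2.{u} := by
  intro G _ _ m hm hG hQ hSyl hOC hAr A hAc hAk hN i hi1 hidvd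
  classical
  obtain ⟨hcomm, hAC, hmemA, hcentA⟩ := quarter_facts m hm hQ hAr A hAc hAk
  obtain ⟨-, hcard, hno4, hsub⟩ := hQ A hAc hAk
  obtain ⟨-, -, -, h4k, hkodd, hk1, -, -, -, -, -, -, -, -, -, -⟩ := hAr m hm
  have hQ3 := three_le_qq m
  have hiodd : Odd i := by
    obtain ⟨d, hd⟩ := hidvd
    rw [hd] at hkodd
    exact (Nat.odd_mul.mp hkodd).1
  have hi0 : i ≠ 0 := by omega
  -- claim B (before renaming the centraliser)
  have hB : ∀ g : G, orderOf g = 2 * i →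
      ∃ c : G, c * g * c⁻¹ ∈ Subgroup.centralizer (A : Set G) := by
    intro g hgo
    obtain ⟨s, hs, hsi⟩ := Nat.exists_prime_and_dvd (by omega : i ≠ 1)
    have hsk : s ∣ kk m := hsi.trans hidvd
    exact exists_conj_mem_centralizer A hsub s hs (by rw [hAk]; exact hsk) (@hSyl s ⟨hs⟩ hsk) g
      (by rw [hgo]; exact Dvd.dvd.mul_left hsi 2)
  obtain ⟨C₁, hC₁⟩ : ∃ C₁ : Subgroup G, C₁ = Subgroup.centralizer (A : Set G) := ⟨_, rfl⟩
  rw [← hC₁] at hcomm hAC hmemA hcentA hcard hno4 hN hB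
  -- claim A
  have hA : ∀ x ∈ C₁, orderOf x = 2 * i → Subgroup.centralizer ({x} : Set G) = C₁ := by
    intro x hx hxo
    have hx2C : x ^ 2 ∈ C₁ := C₁.pow_mem hx 2
    have hx2A : x ^ 2 ∈ A :=
      hmemA (x ^ 2) hx2C i hiodd (by rw [← pow_mul, ← hxo]; exact pow_orderOf_eq_one x)
    have hx21 : x ^ 2 ≠ 1 := by
      intro h
      have h2 := orderOf_dvd_of_pow_eq_one h
      rw [hxo] at h2
      have := Nat.le_of_dvd (by norm_num) h2
      omega
    apply le_antisymm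
    · rw [← hcentA (x ^ 2) hx2A hx21]
      exact centralizer_le_pow x 2
    · intro g hg
      rw [Subgroup.mem_centralizer_iff]
      intro y hy
      rw [Set.mem_singleton_iff.mp hy]
      exact hcomm x hx g hg
  -- the elements of order `2 i` of `C₁`
  obtain ⟨I, hI⟩ : ∃ I : Set G, ∀ z : G, z ∈ I ↔ z ≠ 1 ∧ z * z = 1 ∧ z ∈ C₁ :=
    ⟨{z | z ≠ 1 ∧ z * z = 1 ∧ z ∈ C₁}, fun z => Iff.rfl⟩
  have hI3 : Nat.card ↥I = 3 :=
    Cfsg.Agent.H15.S8.three_invs C₁ (kk m) hkodd hcomm (by rw [hcard, h4k]) hno4 I hI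
  have F1 : ∀ x ∈ C₁, orderOf x = 2 * i → x ^ i ≠ 1 ∧ x ^ i * x ^ i = 1 ∧ x ^ i ∈ C₁ := by
    intro x hx hxo
    refine ⟨pow_ne_one_of_lt_orderOf hi0 (by rw [hxo]; omega), ?_, C₁.pow_mem hx i⟩
    rw [← pow_add, ← two_mul, ← hxo]
    exact pow_orderOf_eq_one x
  have F2 : ∀ x ∈ C₁, orderOf x = 2 * i → x ^ (i + 1) ∈ A ∧ orderOf (x ^ (i + 1)) = i := by
    intro x hx hxo
    have ho : orderOf (x ^ (i + 1)) = i := by
      rw [orderOf_pow' x (Nat.succ_ne_zero i), hxo]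
      have hcop : Nat.Coprime i (i + 1) := by simp
      have hg : Nat.gcd (2 * i) (i + 1) = 2 := by
        rw [Nat.Coprime.gcd_mul_right_cancel 2 hcop]
        apply Nat.gcd_eq_left
        obtain ⟨u, hu⟩ := hiodd
        exact ⟨u + 1, by omega⟩
      rw [hg]
      exact Nat.mul_div_cancel_left i (by norm_num)
    refine ⟨hmemA (x ^ (i + 1)) (C₁.pow_mem hx _) i hiodd ?_, ho⟩
    have := pow_orderOf_eq_one (x ^ (i + 1))
    rwa [ho] at this
  have F3 : ∀ t ∈ I, ∀ y ∈ A, orderOf y = i → t * y ∈ C₁ ∧ orderOf (t * y) = 2 * i := by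
    intro t ht y hy hyo
    obtain ⟨ht1, ht2, htC⟩ := (hI t).mp ht
    have hto : orderOf t = 2 := orderOf_eq_prime (by rw [pow_two]; exact ht2) ht1
    have hc : Commute t y := hcomm t htC y (hAC hy)
    refine ⟨C₁.mul_mem htC (hAC hy), ?_⟩
    rw [hc.orderOf_mul_eq_mul_orderOf_of_coprime (by
      rw [hto, hyo]; exact Nat.coprime_two_left.mpr hiodd), hto, hyo]
  have F4 : ∀ x : G, orderOf x = 2 * i → x ^ i * x ^ (i + 1) = x := by
    intro x hxo
    rw [← pow_add, show i + (i + 1) = 2 * i + 1 by ring, pow_succ, ← hxo, pow_orderOf_eq_one,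
      one_mul]
  have F5 : ∀ t ∈ I, ∀ y ∈ A, orderOf y = i →
      (t * y) ^ i = t ∧ (t * y) ^ (i + 1) = y := by
    intro t ht y hy hyo
    obtain ⟨ht1, ht2, htC⟩ := (hI t).mp ht
    have hc : Commute t y := hcomm t htC y (hAC hy)
    have hyi : y ^ i = 1 := by rw [← hyo]; exact pow_orderOf_eq_one y
    have ht2' : t ^ 2 = 1 := by rw [pow_two]; exact ht2
    obtain ⟨u, hu⟩ := hiodd
    have hti : t ^ i = t := by
      rw [hu, pow_succ, pow_mul, ht2', one_pow, one_mul]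
    have hti1 : t ^ (i + 1) = 1 := by
      rw [pow_succ, hti, ← pow_two, ht2']
    constructor
    · rw [hc.mul_pow, hyi, mul_one, hti]
    · rw [hc.mul_pow, hti1, one_mul, pow_succ, hyi, one_mul]
  have e : {x : G // x ∈ C₁ ∧ orderOf x = 2 * i} ≃ ↥I × {y : G // y ∈ A ∧ orderOf y = i} :=
    { toFun := fun x => (⟨x.1 ^ i, (hI _).mpr (F1 x.1 x.2.1 x.2.2)⟩,
        ⟨x.1 ^ (i + 1), F2 x.1 x.2.1 x.2.2⟩)
      invFun := fun p => ⟨p.1.1 * p.2.1, F3 p.1.1 p.1.2 p.2.1 p.2.2.1 p.2.2.2⟩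
      left_inv := fun x => Subtype.ext (F4 x.1 x.2.2)
      right_inv := fun p => Prod.ext (Subtype.ext (F5 p.1.1 p.1.2 p.2.1 p.2.2.1 p.2.2.2).1)
        (Subtype.ext (F5 p.1.1 p.1.2 p.2.1 p.2.2.1 p.2.2.2).2) }
  have e2 : Nat.card {x : G // x ∈ C₁ ∧ orderOf x = 2 * i} = 3 * Nat.totient i := by
    rw [Nat.card_congr e, Nat.card_prod, hI3,
      card_orderOf_eq_totient_sub A hAc i (by rw [hAk]; exact hidvd)]
  have h1 := hOC G C₁ (2 * i) hA
  have e1 : Nat.card {g : G // orderOf g = 2 * i ∧ ∃ c : G, c * g * c⁻¹ ∈ C₁} =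
      Nat.card {g : G // orderOf g = 2 * i} :=
    Nat.card_congr (Equiv.subtypeEquivRight (fun g => ⟨fun h => h.1, fun h => ⟨h, hB g h⟩⟩))
  rw [e1, e2, hN, hG] at h1
  unfold GG at h1
  rw [qq_cube_add_one] at h1
  apply Nat.eq_of_mul_eq_mul_right (show 0 < 3 * (qq m + 1) by omega)
  calc 2 * Nat.card {g : G // orderOf g = 2 * i} * (3 * (qq m + 1))
      = Nat.card {g : G // orderOf g = 2 * i} * (6 * (qq m + 1)) := by ring
    _ = qq m ^ 3 * (qq m - 1) * ((qq m + 1) * (qq m ^ 2 - qq m + 1)) * (3 * Nat.totient i) := h1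
    _ = Nat.totient i * qq m ^ 3 * (qq m - 1) * (qq m ^ 2 - qq m + 1) * (3 * (qq m + 1)) := by
        ring

example : StQuartCnt2.{u} := quartCnt2

end Cfsg.Agent.H8.S7
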