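import Mathlib
import Cfsg.Agent.H8.S7Common

/-!
# S7-SplitCnt (helper8, for helper45, S2357): the elements of order `i > 2` dividing `q - 1`

`splitCnt : StSplitCnt`, where `Cfsg.Agent.H8.S7.StSplitCnt` is the verbatim copy (in
`H8/S7Common.lean`) of `Cfsg.Agent.H45.S7.StSplitCnt`.
-/

set_option autoImplicit false

namespace Cfsg.Agent.H8.S7

open Cfsg.Agent.H45.S8

universe u

theorem splitCnt : StSplitCnt.{u} := by
  intro G _ _ m hm hG hSplit hSyl hHC hOC hAr Hd hHdc hHdcard hN i hi2 hidvd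
  obtain ⟨-, -, -, -, -, -, -, -, -, hhodd, h2h, hh1, -, -, -, -⟩ := hAr m hm
  have hQ3 := three_le_qq m
  obtain ⟨h, hh⟩ : ∃ h : ℕ, (qq m - 1) / 2 = h := ⟨_, rfl⟩
  have hhodd' : Odd h := hh ▸ hhodd
  have h2h' : 2 * h = qq m - 1 := hh ▸ h2h
  have hh1' : 1 < h := hh ▸ hh1
  -- a prime `s` dividing `i` and `h`
  obtain ⟨s, hs, hsi, hsh⟩ : ∃ s : ℕ, s.Prime ∧ s ∣ i ∧ s ∣ h := by
    have hne : Nat.gcd i h ≠ 1 := by
      intro hcop
      have hi2h : i ∣ 2 * h := by rw [h2h']; exact hidvd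
      have h2 : i ∣ 2 := Nat.Coprime.dvd_of_dvd_mul_right hcop hi2h
      have := Nat.le_of_dvd (by norm_num) h2
      omega
    obtain ⟨s, hs, hsd⟩ := Nat.exists_prime_and_dvd hne
    exact ⟨s, hs, hsd.trans (Nat.gcd_dvd_left i h), hsd.trans (Nat.gcd_dvd_right i h)⟩
  have hi0 : i ≠ 0 := by omega
  -- a generator of `Hd`
  obtain ⟨g₀', hg₀'⟩ := IsCyclic.exists_generator (α := ↥Hd)
  have hg₀o' : orderOf g₀' = Nat.card ↥Hd := orderOf_eq_card_of_forall_mem_zpowers hg₀'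
  obtain ⟨g₀, hg₀⟩ : ∃ g₀ : G, g₀ = (g₀' : G) := ⟨_, rfl⟩
  have hg₀Hd : g₀ ∈ Hd := by rw [hg₀]; exact g₀'.2
  have hg₀o : orderOf g₀ = 2 * h := by
    rw [hg₀, Subgroup.orderOf_coe, hg₀o', hHdcard, h2h']
  have hgen : ∀ x ∈ Hd, ∃ j : ℤ, g₀ ^ j = x := by
    intro x hx
    obtain ⟨j, hj⟩ := Subgroup.mem_zpowers_iff.mp (hg₀' ⟨x, hx⟩)
    refine ⟨j, ?_⟩
    have := congrArg Subtype.val hj
    rw [hg₀]
    simpa using this
  have hHdcomm : ∀ x ∈ Hd, ∀ y ∈ Hd, x * y = y * x := by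
    intro x hx y hy
    have := (IsCyclic.isMulCommutative (α := ↥Hd)).is_comm.comm ⟨x, hx⟩ ⟨y, hy⟩
    exact congrArg Subtype.val this
  -- the subgroup of order `h`
  obtain ⟨H, hH⟩ : ∃ H : Subgroup G, H = Subgroup.zpowers (g₀ ^ 2) := ⟨_, rfl⟩
  have hHc : IsCyclic ↥H := by rw [hH]; infer_instance
  have hHcard : Nat.card ↥H = (qq m - 1) / 2 := by
    rw [hH, Nat.card_zpowers, orderOf_pow_of_dvd (by norm_num)
      (by rw [hg₀o]; exact Dvd.intro _ rfl), hg₀o, hh]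
    exact Nat.mul_div_cancel_left h (by norm_num)
  have hHHd : H ≤ Hd := by rw [hH, Subgroup.zpowers_le]; exact Hd.pow_mem hg₀Hd 2
  obtain ⟨-, hCHcard, hCHsub⟩ := hSplit H hHc hHcard
  have hCH : Subgroup.centralizer (H : Set G) = Hd := by
    symm
    apply Subgroup.eq_of_le_of_card_ge
    · intro x hx
      rw [Subgroup.mem_centralizer_iff]
      intro y hy
      exact hHdcomm y (hHHd hy) x hx
    · rw [hCHcard, hHdcard]
  -- claim A
  have hA : ∀ x ∈ Hd, orderOf x = i → Subgroup.centralizer ({x} : Set G) = Hd := by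
    intro x hx hxo
    obtain ⟨z, hz⟩ : ∃ z : G, z = x ^ (i / s) := ⟨_, rfl⟩
    have hzo : orderOf z = s := by
      rw [hz, ← hxo]
      exact orderOf_pow_orderOf_div (by rw [hxo]; exact hi0) (by rw [hxo]; exact hsi)
    have hzHd : z ∈ Hd := by rw [hz]; exact Hd.pow_mem hx _
    have hz1 : z ≠ 1 := by
      intro h1
      rw [h1, orderOf_one] at hzo
      exact hs.one_lt.ne hzo
    have hzH : z ∈ H := by
      obtain ⟨j, hj⟩ := hgen z hzHd
      have h1 : g₀ ^ (j * (h : ℤ)) = 1 := by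
        rw [zpow_mul, hj, zpow_natCast]
        have : orderOf z ∣ h := by rw [hzo]; exact hsh
        exact orderOf_dvd_iff_pow_eq_one.mp this
      have h2 : ((orderOf g₀ : ℕ) : ℤ) ∣ j * (h : ℤ) := orderOf_dvd_iff_zpow_eq_one.mpr h1
      rw [hg₀o] at h2
      push_cast at h2
      have hh0 : (h : ℤ) ≠ 0 := by
        have : h ≠ 0 := by omega
        exact_mod_cast this
      have h3 : (2 : ℤ) ∣ j := Int.dvd_of_mul_dvd_mul_right hh0 h2
      obtain ⟨j', rfl⟩ := h3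
      rw [hH, ← hj, zpow_mul]
      have : g₀ ^ (2 : ℤ) = g₀ ^ 2 := by
        rw [← zpow_natCast]; rfl
      rw [this]
      exact Subgroup.zpow_mem_zpowers _ _
    have hCz := hCHsub (Subgroup.zpowers z) (by rw [Subgroup.zpowers_le]; exact hzH)
      (by rw [Ne, Subgroup.zpowers_eq_bot]; exact hz1)
    rw [hCH, ← centralizer_singleton_eq_zpowers] at hCz
    apply le_antisymm
    · rw [← hCz, hz]
      exact centralizer_le_pow x _
    · intro g hg
      rw [Subgroup.mem_centralizer_iff]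
      intro y hy
      rw [Set.mem_singleton_iff.mp hy]
      exact hHdcomm x hx g hg
  -- claim B
  have hB : ∀ g : G, orderOf g = i → ∃ c : G, c * g * c⁻¹ ∈ Hd := by
    intro g hgo
    have hzo : orderOf (g ^ (i / s)) = s := by
      rw [← hgo]
      exact orderOf_pow_orderOf_div (by rw [hgo]; exact hi0) (by rw [hgo]; exact hsi)
    exact hHC G m hm hG hSplit hSyl Hd hHdc hHdcard (g ^ (i / s)) g (by rw [hzo]; exact hs)
      (by rw [hzo, hh]; exact hsh) ((Commute.refl g).pow_right _).eq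
  -- the count
  have h1 := hOC G Hd i hA
  have e1 : Nat.card {g : G // orderOf g = i ∧ ∃ c : G, c * g * c⁻¹ ∈ Hd} =
      Nat.card {g : G // orderOf g = i} :=
    Nat.card_congr (Equiv.subtypeEquivRight (fun g => ⟨fun h => h.1, fun h => ⟨h, hB g h⟩⟩))
  rw [e1, hN, hG, card_orderOf_eq_totient_sub Hd hHdc i (by rw [hHdcard]; exact hidvd)] at h1
  unfold GG at h1
  have ha : 0 < qq m - 1 := by omega
  apply Nat.eq_of_mul_eq_mul_right ha
  calc 2 * Nat.card {g : G // orderOf g = i} * (qq m - 1)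
      = Nat.card {g : G // orderOf g = i} * (2 * (qq m - 1)) := by ring
    _ = qq m ^ 3 * (qq m - 1) * (qq m ^ 3 + 1) * Nat.totient i := h1
    _ = Nat.totient i * qq m ^ 3 * (qq m ^ 3 + 1) * (qq m - 1) := by ring

example : StSplitCnt.{u} := splitCnt

end Cfsg.Agent.H8.S7
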