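import Mathlib
import Cfsg.Agent.H8.PSL2B

set_option autoImplicit false
set_option linter.unusedSimpArgs false

namespace Cfsg.Agent.H8

open Matrix Polynomial

section

variable {F : Type*} [Field F]

/-- entries of an element of `SL₃` -/
def s3m (A : SpecialLinearGroup (Fin 3) F) (i j : Fin 3) : F :=
  (A : Matrix (Fin 3) (Fin 3) F) i j

theorem s3_ext (A B : SpecialLinearGroup (Fin 3) F) (h : ∀ i j, s3m A i j = s3m B i j) :
    A = B :=
  Subtype.ext (Matrix.ext h)

theorem s3_mul_apply (A B : SpecialLinearGroup (Fin 3) F) (i j : Fin 3) :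
    s3m (A * B) i j = s3m A i 0 * s3m B 0 j + s3m A i 1 * s3m B 1 j + s3m A i 2 * s3m B 2 j := by
  unfold s3m
  simp [Matrix.mul_apply, Fin.sum_univ_three]

theorem s3_one_apply (i j : Fin 3) :
    s3m (1 : SpecialLinearGroup (Fin 3) F) i j = if i = j then 1 else 0 := by
  unfold s3m
  simp [Matrix.one_apply]

/-- root elements of `SL₃` (trivial on the diagonal) -/
def s3x (i j : Fin 3) (t : F) : SpecialLinearGroup (Fin 3) F :=
  ⟨Matrix.transvection i j (if i = j then 0 else t), by
    by_cases h : i = j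
    · rw [if_pos h, Matrix.transvection_zero, Matrix.det_one]
    · rw [if_neg h, Matrix.det_transvection_of_ne i j h]⟩

theorem s3x_val (i j : Fin 3) (h : i ≠ j) (t : F) :
    (s3x i j t : Matrix (Fin 3) (Fin 3) F) = Matrix.transvection i j t := by
  show Matrix.transvection i j (if i = j then 0 else t) = _
  rw [if_neg h]

theorem s3x_apply (i j : Fin 3) (t : F) (a b : Fin 3) :
    s3m (s3x i j t) a b = (if a = b then 1 else 0) +
      (if i = a ∧ j = b then (if i = j then 0 else t) else 0) := by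
  show Matrix.transvection i j (if i = j then 0 else t) a b = _
  rw [Matrix.transvection, Matrix.add_apply, Matrix.one_apply, Matrix.single_apply]

/-- the cyclic permutation matrix -/
def s3V : SpecialLinearGroup (Fin 3) F :=
  ⟨!![0, 0, 1; 1, 0, 0; 0, 1, 0], by simp [Matrix.det_fin_three]⟩

/-- the Weyl element of the first root -/
def s3W : SpecialLinearGroup (Fin 3) F :=
  ⟨!![0, 1, 0; -1, 0, 0; 0, 0, 1], by simp [Matrix.det_fin_three]⟩

/-- diagonal elements -/
def s3D (a b c : F) (h : a * b * c = 1) : SpecialLinearGroup (Fin 3) F :=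
  ⟨!![a, 0, 0; 0, b, 0; 0, 0, c], by simp [Matrix.det_fin_three, h]⟩

theorem s3V_apply (a b : Fin 3) :
    s3m (s3V : SpecialLinearGroup (Fin 3) F) a b =
      (!![0, 0, 1; 1, 0, 0; 0, 1, 0] : Matrix _ _ F) a b :=
  rfl

theorem s3W_apply (a b : Fin 3) :
    s3m (s3W : SpecialLinearGroup (Fin 3) F) a b =
      (!![0, 1, 0; -1, 0, 0; 0, 0, 1] : Matrix _ _ F) a b :=
  rfl

theorem s3D_apply (x y z : F) (h : x * y * z = 1) (a b : Fin 3) :
    s3m (s3D x y z h) a b = (!![x, 0, 0; 0, y, 0; 0, 0, z] : Matrix _ _ F) a b :=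
  rfl

theorem s3x_zero (i j : Fin 3) : s3x i j (0 : F) = 1 := by
  apply s3_ext
  intro a b
  rw [s3x_apply, s3_one_apply]
  simp

theorem s3x_add (i j : Fin 3) (s t : F) : s3x i j s * s3x i j t = s3x i j (s + t) := by
  apply Subtype.ext
  show Matrix.transvection i j (if i = j then 0 else s) *
    Matrix.transvection i j (if i = j then 0 else t) = Matrix.transvection i j (if i = j then 0 else s + t)
  by_cases h : i = j
  · simp [h, Matrix.transvection_zero]
  · rw [if_neg h, if_neg h, if_neg h, Matrix.transvection_mul_transvection_same i j h]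

theorem s3x_inv (i j : Fin 3) (t : F) : (s3x i j t)⁻¹ = s3x i j (-t) := by
  apply inv_eq_of_mul_eq_one_right
  rw [s3x_add, add_neg_cancel, s3x_zero]

theorem s3x_pow (i j : Fin 3) (t : F) (n : ℕ) : s3x i j t ^ n = s3x i j (n • t) := by
  induction n with
  | zero => rw [pow_zero, zero_smul, s3x_zero]
  | succ n ih => rw [pow_succ, ih, s3x_add, succ_nsmul]

theorem s3V_x (i j : Fin 3) (t : F) : s3V * s3x i j t = s3x (i + 1) (j + 1) t * s3V := by
  apply s3_ext
  intro a b
  simp only [s3_mul_apply, s3_one_apply, s3x_apply, s3V_apply, s3W_apply, s3D_apply]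
  fin_cases i <;> fin_cases j <;> fin_cases a <;> fin_cases b <;> simp

theorem s3V_cube : (s3V * s3V * s3V : SpecialLinearGroup (Fin 3) F) = 1 := by
  apply s3_ext
  intro a b
  simp only [s3_mul_apply, s3_one_apply, s3x_apply, s3V_apply, s3W_apply, s3D_apply]
  fin_cases a <;> fin_cases b <;> simp

theorem s3W_x20 (t : F) : s3W * s3x 2 0 t = s3x 2 1 (-t) * s3W := by
  apply s3_ext
  intro a b
  simp only [s3_mul_apply, s3_one_apply, s3x_apply, s3V_apply, s3W_apply, s3D_apply]
  fin_cases a <;> fin_cases b <;> simp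

theorem s3D_x01 (x y z : F) (h : x * y * z = 1) (t : F) :
    s3D x y z h * s3x 0 1 t = s3x 0 1 (x * y⁻¹ * t) * s3D x y z h := by
  have hy : y ≠ 0 := by
    rintro rfl
    rw [mul_zero, zero_mul] at h
    exact zero_ne_one h
  apply s3_ext
  intro a b
  simp only [s3_mul_apply, s3_one_apply, s3x_apply, s3V_apply, s3W_apply, s3D_apply]
  fin_cases a <;> fin_cases b <;> simp
  field_simp

theorem s3D_mul (x y z : F) (h : x * y * z = 1) (x' y' z' : F) (h' : x' * y' * z' = 1) :
    s3D x y z h * s3D x' y' z' h' =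
      s3D (x * x') (y * y') (z * z') (by linear_combination (x' * y' * z') * h + h') := by
  apply s3_ext
  intro a b
  simp only [s3_mul_apply, s3_one_apply, s3x_apply, s3V_apply, s3W_apply, s3D_apply]
  fin_cases a <;> fin_cases b <;> simp

theorem s3D_one : s3D (1 : F) 1 1 (by ring) = 1 := by
  apply s3_ext
  intro a b
  simp only [s3_mul_apply, s3_one_apply, s3x_apply, s3V_apply, s3W_apply, s3D_apply]
  fin_cases a <;> fin_cases b <;> simp

theorem s3V_D (x y z : F) (h : x * y * z = 1) :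
    s3V * s3D x y z h = s3D z x y (by linear_combination h) * s3V := by
  apply s3_ext
  intro a b
  simp only [s3_mul_apply, s3_one_apply, s3x_apply, s3V_apply, s3W_apply, s3D_apply]
  fin_cases a <;> fin_cases b <;> simp

theorem s3W_D (x y z : F) (h : x * y * z = 1) :
    s3W * s3D x y z h = s3D y x z (by linear_combination h) * s3W := by
  apply s3_ext
  intro a b
  simp only [s3_mul_apply, s3_one_apply, s3x_apply, s3V_apply, s3W_apply, s3D_apply]
  fin_cases a <;> fin_cases b <;> simp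

theorem s3W_V : (s3W * s3V * s3V * s3W : SpecialLinearGroup (Fin 3) F) = s3V := by
  apply s3_ext
  intro a b
  simp only [s3_mul_apply, s3_one_apply, s3x_apply, s3V_apply, s3W_apply, s3D_apply]
  fin_cases a <;> fin_cases b <;> simp

theorem s3_braid : s3x 0 1 (1 : F) * s3W * s3x 0 1 1 = s3W * s3x 0 1 (-1) * s3W := by
  apply s3_ext
  intro a b
  simp only [s3_mul_apply, s3_one_apply, s3x_apply, s3V_apply, s3W_apply, s3D_apply]
  fin_cases a <;> fin_cases b <;> simp

theorem s3_comm_B1 (s t : F) :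
    s3x 0 1 s * s3x 1 2 t = s3x 0 2 (s * t) * s3x 1 2 t * s3x 0 1 s := by
  apply s3_ext
  intro a b
  simp only [s3_mul_apply, s3_one_apply, s3x_apply, s3V_apply, s3W_apply, s3D_apply]
  fin_cases a <;> fin_cases b <;> simp

theorem s3_comm_C1 (s t : F) : s3x 0 1 s * s3x 0 2 t = s3x 0 2 t * s3x 0 1 s := by
  apply s3_ext
  intro a b
  simp only [s3_mul_apply, s3_one_apply, s3x_apply, s3V_apply, s3W_apply, s3D_apply]
  fin_cases a <;> fin_cases b <;> simp

theorem s3_comm_C2 (s t : F) : s3x 1 2 s * s3x 0 2 t = s3x 0 2 t * s3x 1 2 s := by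
  apply s3_ext
  intro a b
  simp only [s3_mul_apply, s3_one_apply, s3x_apply, s3V_apply, s3W_apply, s3D_apply]
  fin_cases a <;> fin_cases b <;> simp

theorem s3x_diag (i : Fin 3) (t : F) : s3x i i t = 1 := by
  apply s3_ext
  intro a b
  rw [s3x_apply, s3_one_apply]
  simp

theorem s3V_conj (i j : Fin 3) (t : F) :
    s3V * s3x i j t * (s3V : SpecialLinearGroup (Fin 3) F)⁻¹ = s3x (i + 1) (j + 1) t := by
  rw [s3V_x, mul_inv_cancel_right]

theorem s3D_conj01 (x y z : F) (h : x * y * z = 1) (t : F) :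
    s3D x y z h * s3x 0 1 t * (s3D x y z h)⁻¹ = s3x 0 1 (x * y⁻¹ * t) := by
  rw [s3D_x01, mul_inv_cancel_right]

theorem s3V_D_conj (x y z : F) (h : x * y * z = 1) :
    s3V * s3D x y z h * (s3V : SpecialLinearGroup (Fin 3) F)⁻¹ =
      s3D z x y (by linear_combination h) := by
  rw [s3V_D, mul_inv_cancel_right]

theorem s3Vi_D_conj (x y z : F) (h : x * y * z = 1) :
    (s3V : SpecialLinearGroup (Fin 3) F)⁻¹ * s3D x y z h * s3V =
      s3D y z x (by linear_combination h) := by
  have e := s3V_D y z x (by linear_combination h)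
  calc (s3V : SpecialLinearGroup (Fin 3) F)⁻¹ * s3D x y z h * s3V
      = (s3V : SpecialLinearGroup (Fin 3) F)⁻¹ * (s3V * s3D y z x (by linear_combination h)) := by
        rw [e]; group
    _ = s3D y z x (by linear_combination h) := by group

theorem s3W_conj20 (t : F) :
    s3W * s3x 2 0 t * (s3W : SpecialLinearGroup (Fin 3) F)⁻¹ = s3x 2 1 (-t) := by
  rw [s3W_x20, mul_inv_cancel_right]

theorem s3W_D_conj (x y z : F) (h : x * y * z = 1) :
    s3W * s3D x y z h * (s3W : SpecialLinearGroup (Fin 3) F)⁻¹ =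
      s3D y x z (by linear_combination h) := by
  rw [s3W_D, mul_inv_cancel_right]

theorem s3Vi_conj01 (t : F) :
    (s3V : SpecialLinearGroup (Fin 3) F)⁻¹ * s3x 0 1 t * s3V = s3x 2 0 t := by
  have e := s3V_x 2 0 t
  have e2 : s3x (2 + 1) (0 + 1) t = s3x 0 1 t := rfl
  rw [e2] at e
  calc (s3V : SpecialLinearGroup (Fin 3) F)⁻¹ * s3x 0 1 t * s3V
      = (s3V : SpecialLinearGroup (Fin 3) F)⁻¹ * (s3x 0 1 t * s3V) := by group
    _ = (s3V : SpecialLinearGroup (Fin 3) F)⁻¹ * (s3V * s3x 2 0 t) := by rw [e]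
    _ = s3x 2 0 t := by group

/-- the second Weyl element maps the first root group to the highest root group -/
theorem s3Wp_conj (t : F) :
    (s3V * s3W * (s3V : SpecialLinearGroup (Fin 3) F)⁻¹) * s3x 0 1 (-t) *
      (s3V * s3W * (s3V : SpecialLinearGroup (Fin 3) F)⁻¹)⁻¹ = s3x 0 2 t := by
  have e3 : s3x (2 + 1) (1 + 1) t = s3x 0 2 t := rfl
  calc (s3V * s3W * (s3V : SpecialLinearGroup (Fin 3) F)⁻¹) * s3x 0 1 (-t) *
        (s3V * s3W * (s3V : SpecialLinearGroup (Fin 3) F)⁻¹)⁻¹
      = s3V * (s3W * ((s3V : SpecialLinearGroup (Fin 3) F)⁻¹ * s3x 0 1 (-t) * s3V) * s3W⁻¹) *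
          s3V⁻¹ := by group
    _ = s3x 0 2 t := by rw [s3Vi_conj01, s3W_conj20, neg_neg, s3V_conj, e3]

end

end Cfsg.Agent.H8
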