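import Mathlib
import Cfsg.Agent.H8.PSL2A
import Cfsg.Agent.H8.PSL2B

set_option autoImplicit false

namespace Cfsg.Agent.H8

section addfam

variable {P : Type*} [Group P] {F : Type*} [Field F]

theorem addfam_zero (Z : F → P) (hZ : ∀ s t, Z (s + t) = Z s * Z t) : Z 0 = 1 := by
  have h0 := hZ 0 0
  rw [add_zero] at h0
  exact (mul_eq_left (a := Z 0)).1 h0.symm

theorem addfam_neg (Z : F → P) (hZ : ∀ s t, Z (s + t) = Z s * Z t) (t : F) :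
    Z (-t) = (Z t)⁻¹ := by
  apply eq_inv_of_mul_eq_one_left
  rw [← hZ, neg_add_cancel, addfam_zero Z hZ]

theorem addfam_comm (Z : F → P) (hZ : ∀ s t, Z (s + t) = Z s * Z t) (s t : F) :
    Z s * Z t = Z t * Z s := by
  rw [← hZ, ← hZ, add_comm]

theorem addfam_conj (Z : F → P) (hZ : ∀ s t, Z (s + t) = Z s * Z t) (g : P) (s t : F) :
    g * Z (s + t) * g⁻¹ = (g * Z s * g⁻¹) * (g * Z t * g⁻¹) := by
  rw [hZ]; group

/-- inverse conjugation acts by the inverse scalar -/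
theorem conj_act_inv (Z : F → P) (g : P) (c : F) (hc : c ≠ 0)
    (h : ∀ t, g * Z t * g⁻¹ = Z (c * t)) (t : F) : g⁻¹ * Z t * g = Z (c⁻¹ * t) := by
  have h1 := h (c⁻¹ * t)
  rw [mul_inv_cancel_left₀ hc] at h1
  rw [← h1]; group

/-- powers act by powers of the scalar -/
theorem conj_act_pow (Z : F → P) (g : P) (c : F)
    (h : ∀ t, g * Z t * g⁻¹ = Z (c * t)) (n : ℕ) (t : F) :
    g ^ n * Z t * (g ^ n)⁻¹ = Z (c ^ n * t) := by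
  induction n generalizing t with
  | zero => simp
  | succ n ih =>
    calc g ^ (n + 1) * Z t * (g ^ (n + 1))⁻¹ = g * (g ^ n * Z t * (g ^ n)⁻¹) * g⁻¹ := by
          rw [pow_succ']; group
      _ = Z (c ^ (n + 1) * t) := by rw [ih, h, pow_succ', mul_assoc]

/-- products act by products of the scalars -/
theorem conj_act_mul (Z : F → P) (g g' : P) (c c' : F)
    (h : ∀ t, g * Z t * g⁻¹ = Z (c * t)) (h' : ∀ t, g' * Z t * g'⁻¹ = Z (c' * t)) (t : F) :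
    (g * g') * Z t * (g * g')⁻¹ = Z (c * c' * t) := by
  calc (g * g') * Z t * (g * g')⁻¹ = g * (g' * Z t * g'⁻¹) * g⁻¹ := by group
    _ = Z (c * c' * t) := by rw [h', h, mul_assoc]

end addfam

/-- relations in an abstract group forcing a copy of `SL₃` -/
structure S3Rel (P : Type*) [Group P] (F : Type*) [Field F] where
  u : P
  h : P
  w : P
  v : P
  b : F
  X : F → P
  L : Set F
  hb0 : b ≠ 0
  hb : ∀ t : F, t ≠ 0 → ∃ j : ℕ, t = b ^ j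
  hsum : ∀ t : F, ∃ s1 s2 : F, t = s1 + s2 ∧ (s1 = 0 ∨ ∃ j : ℕ, s1 = ((b⁻¹) ^ 2) ^ j) ∧
      (s2 = 0 ∨ ∃ j : ℕ, s2 = ((b⁻¹) ^ 2) ^ j)
  hspan : ∀ Q : F → Prop, Q 0 → (∀ x y, Q x → Q y → Q (x + y)) → (∀ x, Q x → Q (-x)) →
      (∀ c ∈ L, ∀ m : ℕ, Q (c * (b ^ 3) ^ m)) → ∀ t, Q t
  Xadd : ∀ s t, X (s + t) = X s * X t
  X1 : X 1 = u
  Xk : ∀ t, (v⁻¹ * h * v) * X t * (v⁻¹ * h * v)⁻¹ = X (b * t)
  v3 : v * v * v = 1
  r5 : (v⁻¹ * h * v)⁻¹ * (v * h * v⁻¹) * u = u * ((v⁻¹ * h * v)⁻¹ * (v * h * v⁻¹))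
  r6 : h * (v⁻¹ * h * v) = (v⁻¹ * h * v) * h
  r7 : h * v * (h * v) * (h * v) = 1
  r8 : w * v⁻¹ * (w * v⁻¹) = 1
  r9 : w * h * w⁻¹ = h⁻¹
  r10 : u * (w * u * w⁻¹) * u = w
  rB : ∀ c ∈ L, X c * (v * u * v⁻¹) * (X c)⁻¹ * (v * u * v⁻¹)⁻¹ =
      (v * w * v⁻¹) * X (-c) * (v * w * v⁻¹)⁻¹
  rC1 : ∀ c ∈ L, X c * ((v * w * v⁻¹) * u⁻¹ * (v * w * v⁻¹)⁻¹) =
      ((v * w * v⁻¹) * u⁻¹ * (v * w * v⁻¹)⁻¹) * X c
  rC2 : ∀ c ∈ L, (v * X c * v⁻¹) * ((v * w * v⁻¹) * u⁻¹ * (v * w * v⁻¹)⁻¹) =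
      ((v * w * v⁻¹) * u⁻¹ * (v * w * v⁻¹)⁻¹) * (v * X c * v⁻¹)

namespace S3Rel

variable {P : Type*} [Group P] {F : Type*} [Field F] (D : S3Rel P F)

/-- second torus generator -/
def k : P := D.v⁻¹ * D.h * D.v

/-- third torus generator -/
def hp : P := D.v * D.h * D.v⁻¹

/-- second Weyl element -/
def wp : P := D.v * D.w * D.v⁻¹

/-- opposite root group -/
def Y (t : F) : P := D.w * D.X (-t) * D.w⁻¹

/-- second simple root group -/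
def X23 (t : F) : P := D.v * D.X t * D.v⁻¹

/-- highest root group -/
def X13 (t : F) : P := D.wp * D.X (-t) * D.wp⁻¹

theorem X0 : D.X 0 = 1 := addfam_zero D.X D.Xadd

theorem Xneg (t : F) : D.X (-t) = (D.X t)⁻¹ := addfam_neg D.X D.Xadd t

theorem Xcomm (s t : F) : D.X s * D.X t = D.X t * D.X s := addfam_comm D.X D.Xadd s t

theorem vinv2 : D.v⁻¹ * D.v⁻¹ = D.v := by
  calc D.v⁻¹ * D.v⁻¹ = D.v⁻¹ * D.v⁻¹ * (D.v * D.v * D.v) := by rw [D.v3, mul_one]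
    _ = D.v := by group

theorem vsq : D.v * D.v = D.v⁻¹ := by
  calc D.v * D.v = (D.v * D.v * D.v) * D.v⁻¹ := by group
    _ = D.v⁻¹ := by rw [D.v3, one_mul]

theorem Xk' (t : F) : D.k * D.X t * D.k⁻¹ = D.X (D.b * t) := D.Xk t

theorem v_k : D.v * D.k * D.v⁻¹ = D.h := by unfold k; group

theorem vi_hp : D.v⁻¹ * D.hp * D.v = D.h := by unfold hp; group

theorem v_hp : D.v * D.hp * D.v⁻¹ = D.k := by
  unfold hp k
  calc D.v * (D.v * D.h * D.v⁻¹) * D.v⁻¹ = (D.v * D.v) * D.h * (D.v * D.v)⁻¹ := by group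
    _ = D.v⁻¹ * D.h * D.v := by rw [D.vsq, inv_inv]

theorem vi_k : D.v⁻¹ * D.k * D.v = D.hp := by
  rw [← D.v_hp]; group

theorem h_k : D.h * D.k = D.k * D.h := D.r6

theorem hp_h : D.hp * D.h = D.h * D.hp := by
  have e := D.r6
  calc D.hp * D.h = D.v * (D.h * (D.v⁻¹ * D.h * D.v)) * D.v⁻¹ := by unfold hp; group
    _ = D.v * ((D.v⁻¹ * D.h * D.v) * D.h) * D.v⁻¹ := by rw [e]
    _ = D.h * D.hp := by unfold hp; group

theorem k_hp : D.k * D.hp = D.hp * D.k := by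
  have e := D.hp_h
  calc D.k * D.hp = D.v * (D.hp * D.h) * D.v⁻¹ := by
        rw [← D.v_hp]; unfold hp; group
    _ = D.v * (D.h * D.hp) * D.v⁻¹ := by rw [e]
    _ = D.hp * D.k := by rw [← D.v_hp]; unfold hp; group

theorem h_hp_k : D.h * D.hp * D.k = 1 := by
  have e := D.r7
  unfold hp k
  calc D.h * (D.v * D.h * D.v⁻¹) * (D.v⁻¹ * D.h * D.v)
      = D.h * D.v * D.h * (D.v⁻¹ * D.v⁻¹) * D.h * D.v := by group
    _ = D.h * D.v * (D.h * D.v) * (D.h * D.v) := by rw [D.vinv2]; group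
    _ = 1 := e

theorem h_eq : D.h = D.k⁻¹ * D.hp⁻¹ := by
  have e := D.h_hp_k
  calc D.h = (D.h * D.hp * D.k) * D.k⁻¹ * D.hp⁻¹ := by group
    _ = D.k⁻¹ * D.hp⁻¹ := by rw [e, one_mul]

theorem Xpow (j : ℕ) : D.X (D.b ^ j) = D.k ^ j * D.u * (D.k ^ j)⁻¹ := by
  have := conj_act_pow D.X D.k D.b D.Xk' j 1
  rw [mul_one, D.X1] at this
  exact this.symm

theorem hpX (t : F) : D.hp * D.X t * D.hp⁻¹ = D.X (D.b * t) := by
  obtain ⟨c, hc⟩ : ∃ c, c = D.k⁻¹ * D.hp := ⟨_, rfl⟩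
  have hcu : Commute c D.u := by rw [hc]; exact D.r5
  have hck : Commute c D.k := by
    rw [hc]
    show D.k⁻¹ * D.hp * D.k = D.k * (D.k⁻¹ * D.hp)
    rw [mul_assoc, ← D.k_hp]; group
  have hcX : ∀ t, Commute c (D.X t) := by
    intro t
    by_cases ht : t = 0
    · rw [ht, D.X0]; exact Commute.one_right c
    · obtain ⟨j, rfl⟩ := D.hb t ht
      rw [D.Xpow]
      exact ((hck.pow_right j).mul_right hcu).mul_right (hck.pow_right j).inv_right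
  have e : D.hp = D.k * c := by rw [hc]; group
  calc D.hp * D.X t * D.hp⁻¹ = D.k * (c * D.X t) * c⁻¹ * D.k⁻¹ := by rw [e]; group
    _ = D.k * (D.X t * c) * c⁻¹ * D.k⁻¹ := by rw [(hcX t).eq]
    _ = D.k * D.X t * D.k⁻¹ := by group
    _ = D.X (D.b * t) := D.Xk' t

theorem hX (t : F) : D.h * D.X t * D.h⁻¹ = D.X ((D.b⁻¹) ^ 2 * t) := by
  have e1 := conj_act_inv D.X D.k D.b D.hb0 D.Xk'
  have e2 := conj_act_inv D.X D.hp D.b D.hb0 D.hpX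
  calc D.h * D.X t * D.h⁻¹ = D.k⁻¹ * (D.hp⁻¹ * D.X t * D.hp) * D.k := by
        rw [D.h_eq]; group
    _ = D.X ((D.b⁻¹) ^ 2 * t) := by rw [e2, e1, pow_two, mul_assoc]

theorem w2u : D.w * D.w * D.u = D.u * (D.w * D.w) := psl_braid_sq_comm D.u D.w D.r10

theorem w2h : D.w * D.w * D.h = D.h * (D.w * D.w) := by
  have e := D.r9
  calc D.w * D.w * D.h = D.w * (D.w * D.h * D.w⁻¹) * D.w := by group
    _ = D.w * D.h⁻¹ * D.w := by rw [e]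
    _ = (D.w * D.h * D.w⁻¹)⁻¹ * (D.w * D.w) := by group
    _ = D.h * (D.w * D.w) := by rw [e, inv_inv]

theorem w2X (t : F) : D.w * D.w * D.X t = D.X t * (D.w * D.w) := by
  have hu : Commute (D.w * D.w) D.u := D.w2u
  have hh : Commute (D.w * D.w) D.h := D.w2h
  have hs : ∀ s : F, (s = 0 ∨ ∃ j : ℕ, s = ((D.b⁻¹) ^ 2) ^ j) → Commute (D.w * D.w) (D.X s) := by
    rintro s (rfl | ⟨j, rfl⟩)
    · rw [D.X0]; exact Commute.one_right _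
    · have := conj_act_pow D.X D.h ((D.b⁻¹) ^ 2) D.hX j 1
      rw [mul_one, D.X1] at this
      rw [← this]
      exact ((hh.pow_right j).mul_right hu).mul_right (hh.pow_right j).inv_right
  obtain ⟨s1, s2, rfl, h1, h2⟩ := D.hsum t
  rw [D.Xadd]
  exact ((hs s1 h1).mul_right (hs s2 h2)).eq

theorem Y_eq (t : F) : D.Y t = D.w⁻¹ * D.X (-t) * D.w := by
  unfold Y
  calc D.w * D.X (-t) * D.w⁻¹ = D.w⁻¹ * (D.w * D.w * D.X (-t)) * D.w⁻¹ := by group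
    _ = D.w⁻¹ * (D.X (-t) * (D.w * D.w)) * D.w⁻¹ := by rw [D.w2X]
    _ = D.w⁻¹ * D.X (-t) * D.w := by group

theorem Yadd (s t : F) : D.Y (s + t) = D.Y s * D.Y t := by
  unfold Y
  rw [neg_add, D.Xadd]; group

theorem n1 : D.w * D.v⁻¹ * D.w = D.v := by
  have e := D.r8
  calc D.w * D.v⁻¹ * D.w = (D.w * D.v⁻¹ * (D.w * D.v⁻¹)) * D.v := by group
    _ = D.v := by rw [e, one_mul]

theorem wi_v : D.w⁻¹ * D.v = D.v⁻¹ * D.w := by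
  have e := D.n1
  calc D.w⁻¹ * D.v = D.w⁻¹ * (D.w * D.v⁻¹ * D.w) := by rw [e]
    _ = D.v⁻¹ * D.w := by group

theorem wi_h : D.w⁻¹ * D.h * D.w = D.h⁻¹ := by
  have e := D.r9
  calc D.w⁻¹ * D.h * D.w = D.w⁻¹ * (D.h⁻¹)⁻¹ * D.w := by rw [inv_inv]
    _ = D.w⁻¹ * (D.w * D.h * D.w⁻¹)⁻¹ * D.w := by rw [e]
    _ = D.h⁻¹ := by group

theorem Wa : D.w⁻¹ * D.hp * D.w = D.k⁻¹ := by
  have e1 := D.wi_v
  unfold hp k
  calc D.w⁻¹ * (D.v * D.h * D.v⁻¹) * D.w = (D.w⁻¹ * D.v) * D.h * (D.w⁻¹ * D.v)⁻¹ := by group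
    _ = (D.v⁻¹ * D.w) * D.h * (D.v⁻¹ * D.w)⁻¹ := by rw [e1]
    _ = D.v⁻¹ * (D.w * D.h * D.w⁻¹) * D.v := by group
    _ = D.v⁻¹ * D.h⁻¹ * D.v := by rw [D.r9]
    _ = (D.v⁻¹ * D.h * D.v)⁻¹ := by group

theorem Wb : D.w * D.k * D.w⁻¹ = D.hp⁻¹ := by
  have e := D.Wa
  calc D.w * D.k * D.w⁻¹ = D.w * (D.k⁻¹)⁻¹ * D.w⁻¹ := by group
    _ = D.w * (D.w⁻¹ * D.hp * D.w)⁻¹ * D.w⁻¹ := by rw [e]
    _ = D.hp⁻¹ := by group

theorem kY (t : F) : D.k * D.Y t * D.k⁻¹ = D.Y (D.b⁻¹ * t) := by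
  have e2 := conj_act_inv D.X D.hp D.b D.hb0 D.hpX
  rw [D.Y_eq, D.Y_eq]
  calc D.k * (D.w⁻¹ * D.X (-t) * D.w) * D.k⁻¹
      = D.w⁻¹ * ((D.w * D.k * D.w⁻¹) * D.X (-t) * (D.w * D.k * D.w⁻¹)⁻¹) * D.w := by group
    _ = D.w⁻¹ * (D.hp⁻¹ * D.X (-t) * D.hp) * D.w := by rw [D.Wb, inv_inv]
    _ = D.w⁻¹ * D.X (-(D.b⁻¹ * t)) * D.w := by rw [e2, mul_neg]

theorem Wt_pow (j : ℕ) :
    D.X (D.b ^ j) * D.Y (-(D.b ^ j)⁻¹) * D.X (D.b ^ j) = D.k ^ j * D.w * (D.k ^ j)⁻¹ := by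
  induction j with
  | zero =>
    rw [pow_zero, inv_one, D.X1]
    unfold Y
    rw [neg_neg, D.X1]
    simp only [pow_zero, one_mul, inv_one, mul_one]
    exact D.r10
  | succ j ih =>
    have e : -(D.b ^ (j + 1))⁻¹ = D.b⁻¹ * (-(D.b ^ j)⁻¹) := by
      rw [pow_succ', mul_inv]; ring
    calc D.X (D.b ^ (j + 1)) * D.Y (-(D.b ^ (j + 1))⁻¹) * D.X (D.b ^ (j + 1))
        = (D.k * D.X (D.b ^ j) * D.k⁻¹) * (D.k * D.Y (-(D.b ^ j)⁻¹) * D.k⁻¹) *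
            (D.k * D.X (D.b ^ j) * D.k⁻¹) := by
          rw [D.Xk', D.kY, ← e, ← pow_succ']
      _ = D.k * (D.X (D.b ^ j) * D.Y (-(D.b ^ j)⁻¹) * D.X (D.b ^ j)) * D.k⁻¹ := by group
      _ = D.k ^ (j + 1) * D.w * (D.k ^ (j + 1))⁻¹ := by rw [ih, pow_succ']; group

/-- the square of the second Weyl element inverts the first root group -/
theorem wp2X (t : F) : (D.wp * D.wp) * D.X t * (D.wp * D.wp)⁻¹ = D.X (-t) := by
  obtain ⟨j, hj⟩ := D.hb (-1) (neg_ne_zero.2 one_ne_zero)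
  have e1 := D.Wt_pow j
  rw [← hj] at e1
  have e2 : D.X (-1) * D.Y (-(-1 : F)⁻¹) * D.X (-1) = D.w⁻¹ := by
    have e3 : -(-1 : F)⁻¹ = 1 := by rw [inv_neg, inv_one, neg_neg]
    rw [e3]
    unfold Y
    rw [D.Xneg, D.X1]
    calc D.u⁻¹ * (D.w * D.u⁻¹ * D.w⁻¹) * D.u⁻¹ = (D.u * (D.w * D.u * D.w⁻¹) * D.u)⁻¹ := by group
      _ = D.w⁻¹ := by rw [D.r10]
  rw [e2] at e1
  -- e1 : w⁻¹ = k^j w k^-j
  have e4 : D.w * (D.k ^ j)⁻¹ * D.w⁻¹ = D.hp ^ j := by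
    calc D.w * (D.k ^ j)⁻¹ * D.w⁻¹ = ((D.w * D.k * D.w⁻¹) ^ j)⁻¹ := by rw [conj_pow]; group
      _ = D.hp ^ j := by rw [D.Wb, inv_pow, inv_inv]
  have e5 : (D.w * D.w)⁻¹ = D.k ^ j * D.hp ^ j := by
    calc (D.w * D.w)⁻¹ = D.w⁻¹ * D.w⁻¹ := by group
      _ = (D.k ^ j * D.w * (D.k ^ j)⁻¹) * D.w⁻¹ := by rw [← e1]
      _ = D.k ^ j * (D.w * (D.k ^ j)⁻¹ * D.w⁻¹) := by group
      _ = D.k ^ j * D.hp ^ j := by rw [e4]
  have e6 : (D.wp * D.wp)⁻¹ = D.h ^ j * D.k ^ j := by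
    calc (D.wp * D.wp)⁻¹ = D.v * (D.w * D.w)⁻¹ * D.v⁻¹ := by unfold wp; group
      _ = D.v * (D.k ^ j * D.hp ^ j) * D.v⁻¹ := by rw [e5]
      _ = (D.v * D.k * D.v⁻¹) ^ j * (D.v * D.hp * D.v⁻¹) ^ j := by
          rw [conj_pow, conj_pow]; group
      _ = D.h ^ j * D.k ^ j := by rw [D.v_k, D.v_hp]
  have e7 : ∀ s, (D.h ^ j * D.k ^ j) * D.X s * (D.h ^ j * D.k ^ j)⁻¹ = D.X (-s) := by
    intro s
    have a1 := conj_act_pow D.X D.h _ D.hX j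
    have a2 := conj_act_pow D.X D.k _ D.Xk' j
    rw [conj_act_mul D.X _ _ _ _ a1 a2]
    congr 1
    have e9 : ((D.b⁻¹) ^ 2) ^ j * D.b ^ j = -1 := by
      calc ((D.b⁻¹) ^ 2) ^ j * D.b ^ j = ((D.b ^ j)⁻¹) ^ 2 * D.b ^ j := by
            rw [← pow_mul, mul_comm 2 j, pow_mul, inv_pow]
        _ = -1 := by rw [← hj]; norm_num
    rw [e9, neg_one_mul]
  have e8 := e7 (-t)
  rw [neg_neg, ← e6] at e8
  rw [← e8]; group

end S3Rel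

end Cfsg.Agent.H8
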