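import Mathlib
import Cfsg.Agent.H8.SL3B

set_option autoImplicit false

namespace Cfsg.Agent.H8

namespace S3Rel

variable {P : Type*} [Group P] {F : Type*} [Field F] (D : S3Rel P F)

theorem X23add (s t : F) : D.X23 (s + t) = D.X23 s * D.X23 t := by
  unfold X23; rw [D.Xadd]; group

theorem X13add (s t : F) : D.X13 (s + t) = D.X13 s * D.X13 t := by
  unfold X13; rw [neg_add, D.Xadd]; group

theorem X23zero : D.X23 0 = 1 := addfam_zero D.X23 D.X23add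

theorem X13zero : D.X13 0 = 1 := addfam_zero D.X13 D.X13add

theorem X13neg (t : F) : D.X13 (-t) = (D.X13 t)⁻¹ := addfam_neg D.X13 D.X13add t

theorem X23neg (t : F) : D.X23 (-t) = (D.X23 t)⁻¹ := addfam_neg D.X23 D.X23add t

/-- torus action on the three positive root groups -/
def Act (τ : P) (c1 c2 c3 : F) : Prop :=
  c1 ≠ 0 ∧ c2 ≠ 0 ∧ c3 ≠ 0 ∧ (∀ t, τ * D.X t * τ⁻¹ = D.X (c1 * t)) ∧
    (∀ t, τ * D.X23 t * τ⁻¹ = D.X23 (c2 * t)) ∧ (∀ t, τ * D.X13 t * τ⁻¹ = D.X13 (c3 * t))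

theorem Act_one : D.Act 1 1 1 1 :=
  ⟨one_ne_zero, one_ne_zero, one_ne_zero, fun t => by simp, fun t => by simp, fun t => by simp⟩

theorem Act_mul {τ σ : P} {c1 c2 c3 d1 d2 d3 : F} (h1 : D.Act τ c1 c2 c3)
    (h2 : D.Act σ d1 d2 d3) : D.Act (τ * σ) (c1 * d1) (c2 * d2) (c3 * d3) :=
  ⟨mul_ne_zero h1.1 h2.1, mul_ne_zero h1.2.1 h2.2.1, mul_ne_zero h1.2.2.1 h2.2.2.1,
    conj_act_mul D.X τ σ c1 d1 h1.2.2.2.1 h2.2.2.2.1,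
    conj_act_mul D.X23 τ σ c2 d2 h1.2.2.2.2.1 h2.2.2.2.2.1,
    conj_act_mul D.X13 τ σ c3 d3 h1.2.2.2.2.2 h2.2.2.2.2.2⟩

theorem Act_inv {τ : P} {c1 c2 c3 : F} (h1 : D.Act τ c1 c2 c3) :
    D.Act τ⁻¹ c1⁻¹ c2⁻¹ c3⁻¹ := by
  refine ⟨inv_ne_zero h1.1, inv_ne_zero h1.2.1, inv_ne_zero h1.2.2.1, fun t => ?_, fun t => ?_,
    fun t => ?_⟩
  · rw [inv_inv]; exact conj_act_inv D.X τ c1 h1.1 h1.2.2.2.1 t
  · rw [inv_inv]; exact conj_act_inv D.X23 τ c2 h1.2.1 h1.2.2.2.2.1 t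
  · rw [inv_inv]; exact conj_act_inv D.X13 τ c3 h1.2.2.1 h1.2.2.2.2.2 t

theorem Act_pow {τ : P} {c1 c2 c3 : F} (h1 : D.Act τ c1 c2 c3) (n : ℕ) :
    D.Act (τ ^ n) (c1 ^ n) (c2 ^ n) (c3 ^ n) :=
  ⟨pow_ne_zero n h1.1, pow_ne_zero n h1.2.1, pow_ne_zero n h1.2.2.1,
    conj_act_pow D.X τ c1 h1.2.2.2.1 n, conj_act_pow D.X23 τ c2 h1.2.2.2.2.1 n,
    conj_act_pow D.X13 τ c3 h1.2.2.2.2.2 n⟩

theorem Act_congr {τ : P} {c1 c2 c3 d1 d2 d3 : F} (h1 : D.Act τ c1 c2 c3) (e1 : c1 = d1)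
    (e2 : c2 = d2) (e3 : c3 = d3) : D.Act τ d1 d2 d3 := by
  subst e1 e2 e3; exact h1

theorem wpi_hp : D.wp⁻¹ * D.hp * D.wp = D.hp⁻¹ := by
  unfold wp hp
  calc (D.v * D.w * D.v⁻¹)⁻¹ * (D.v * D.h * D.v⁻¹) * (D.v * D.w * D.v⁻¹)
      = D.v * (D.w⁻¹ * D.h * D.w) * D.v⁻¹ := by group
    _ = D.v * D.h⁻¹ * D.v⁻¹ := by rw [D.wi_h]
    _ = (D.v * D.h * D.v⁻¹)⁻¹ := by group

theorem wpi_k : D.wp⁻¹ * D.k * D.wp = D.h⁻¹ := by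
  calc D.wp⁻¹ * D.k * D.wp = D.v * (D.w⁻¹ * (D.v⁻¹ * D.k * D.v) * D.w) * D.v⁻¹ := by
        unfold wp; group
    _ = D.v * (D.w⁻¹ * D.hp * D.w) * D.v⁻¹ := by rw [D.vi_k]
    _ = D.v * D.k⁻¹ * D.v⁻¹ := by rw [D.Wa]
    _ = (D.v * D.k * D.v⁻¹)⁻¹ := by group
    _ = D.h⁻¹ := by rw [D.v_k]

theorem Act_hp : D.Act D.hp D.b ((D.b⁻¹) ^ 2) D.b⁻¹ := by
  refine ⟨D.hb0, pow_ne_zero 2 (inv_ne_zero D.hb0), inv_ne_zero D.hb0, D.hpX, fun t => ?_,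
    fun t => ?_⟩
  · calc D.hp * D.X23 t * D.hp⁻¹
        = D.v * ((D.v⁻¹ * D.hp * D.v) * D.X t * (D.v⁻¹ * D.hp * D.v)⁻¹) * D.v⁻¹ := by
          unfold X23; group
      _ = D.X23 ((D.b⁻¹) ^ 2 * t) := by rw [D.vi_hp, D.hX]; rfl
  · have e2 := conj_act_inv D.X D.hp D.b D.hb0 D.hpX
    calc D.hp * D.X13 t * D.hp⁻¹
        = D.wp * ((D.wp⁻¹ * D.hp * D.wp) * D.X (-t) * (D.wp⁻¹ * D.hp * D.wp)⁻¹) * D.wp⁻¹ := by
          unfold X13; group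
      _ = D.wp * (D.hp⁻¹ * D.X (-t) * D.hp) * D.wp⁻¹ := by rw [D.wpi_hp, inv_inv]
      _ = D.X13 (D.b⁻¹ * t) := by rw [e2, mul_neg]; rfl

theorem Act_k : D.Act D.k D.b D.b (D.b ^ 2) := by
  refine ⟨D.hb0, D.hb0, pow_ne_zero 2 D.hb0, D.Xk', fun t => ?_, fun t => ?_⟩
  · calc D.k * D.X23 t * D.k⁻¹
        = D.v * ((D.v⁻¹ * D.k * D.v) * D.X t * (D.v⁻¹ * D.k * D.v)⁻¹) * D.v⁻¹ := by
          unfold X23; group
      _ = D.X23 (D.b * t) := by rw [D.vi_k, D.hpX]; rfl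
  · have e2 := conj_act_inv D.X D.h ((D.b⁻¹) ^ 2) (pow_ne_zero 2 (inv_ne_zero D.hb0)) D.hX
    calc D.k * D.X13 t * D.k⁻¹
        = D.wp * ((D.wp⁻¹ * D.k * D.wp) * D.X (-t) * (D.wp⁻¹ * D.k * D.wp)⁻¹) * D.wp⁻¹ := by
          unfold X13; group
      _ = D.wp * (D.h⁻¹ * D.X (-t) * D.h) * D.wp⁻¹ := by rw [D.wpi_k, inv_inv]
      _ = D.X13 (D.b ^ 2 * t) := by rw [e2, inv_pow, inv_inv, mul_neg]; rfl

theorem Act_hpi : D.Act D.hp⁻¹ D.b⁻¹ (D.b ^ 2) D.b :=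
  D.Act_congr (D.Act_inv D.Act_hp) rfl (by rw [inv_pow, inv_inv]) (inv_inv _)

theorem Act_e3 : D.Act (D.hp ^ 2 * D.k) (D.b ^ 3) ((D.b⁻¹) ^ 3) 1 := by
  have hb0 := D.hb0
  refine D.Act_congr (D.Act_mul (D.Act_pow D.Act_hp 2) D.Act_k) (by ring) ?_ ?_
  · field_simp
  · field_simp

theorem Act_e3i : D.Act (D.hp ^ 2 * D.k)⁻¹ ((D.b ^ 3)⁻¹) (D.b ^ 3) 1 :=
  D.Act_congr (D.Act_inv D.Act_e3) rfl (by rw [inv_pow, inv_inv]) inv_one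

theorem Act_e2 : D.Act (D.hp * D.k ^ 2) (D.b ^ 3) 1 (D.b ^ 3) := by
  have hb0 := D.hb0
  refine D.Act_congr (D.Act_mul D.Act_hp (D.Act_pow D.Act_k 2)) (by ring) ?_ ?_
  · field_simp
  · field_simp

theorem baseC1 (c : F) (hc : c ∈ D.L) : Commute (D.X c) (D.X13 1) := by
  have e := D.rC1 c hc
  unfold X13
  rw [D.Xneg, D.X1]
  exact e

theorem baseC2 (c : F) (hc : c ∈ D.L) : Commute (D.X23 c) (D.X13 1) := by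
  have e := D.rC2 c hc
  unfold X13 X23
  rw [D.Xneg, D.X1]
  exact e

theorem baseB (c : F) (hc : c ∈ D.L) :
    D.X c * D.X23 1 * (D.X c)⁻¹ * (D.X23 1)⁻¹ = D.X13 c := by
  have e := D.rB c hc
  unfold X13 X23
  rw [D.X1]
  exact e

theorem C1 (s t : F) : Commute (D.X s) (D.X13 t) := by
  by_cases ht : t = 0
  · rw [ht, D.X13zero]; exact Commute.one_right _
  obtain ⟨j, rfl⟩ := D.hb t ht
  have key := D.hspan (fun s => Commute (D.X ((D.b⁻¹) ^ j * s)) (D.X13 (D.b ^ j))) ?_ ?_ ?_ ?_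
  · have hne : (D.b⁻¹) ^ j ≠ 0 := pow_ne_zero j (inv_ne_zero D.hb0)
    have := key (((D.b⁻¹) ^ j)⁻¹ * s)
    rw [mul_inv_cancel_left₀ hne] at this
    exact this
  · show Commute (D.X ((D.b⁻¹) ^ j * 0)) (D.X13 (D.b ^ j))
    rw [mul_zero, D.X0]; exact Commute.one_left _
  · intro x y hx hy
    show Commute (D.X ((D.b⁻¹) ^ j * (x + y))) (D.X13 (D.b ^ j))
    rw [mul_add, D.Xadd]; exact Commute.mul_left hx hy
  · intro x hx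
    show Commute (D.X ((D.b⁻¹) ^ j * -x)) (D.X13 (D.b ^ j))
    rw [mul_neg, D.Xneg]; exact Commute.inv_left hx
  · intro c hc m
    show Commute (D.X ((D.b⁻¹) ^ j * (c * (D.b ^ 3) ^ m))) (D.X13 (D.b ^ j))
    have hA := D.Act_mul (D.Act_pow D.Act_e3 m) (D.Act_pow D.Act_hpi j)
    have h0 := (Commute.conj_iff ((D.hp ^ 2 * D.k) ^ m * D.hp⁻¹ ^ j)).2 (D.baseC1 c hc)
    rw [hA.2.2.2.1, hA.2.2.2.2.2] at h0
    have e1 : (D.b ^ 3) ^ m * D.b⁻¹ ^ j * c = (D.b⁻¹) ^ j * (c * (D.b ^ 3) ^ m) := by ring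
    have e2 : (1 : F) ^ m * D.b ^ j * 1 = D.b ^ j := by rw [one_pow, one_mul, mul_one]
    rw [e1, e2] at h0
    exact h0

theorem C2 (s t : F) : Commute (D.X23 s) (D.X13 t) := by
  by_cases ht : t = 0
  · rw [ht, D.X13zero]; exact Commute.one_right _
  obtain ⟨j, rfl⟩ := D.hb t ht
  have key := D.hspan (fun s => Commute (D.X23 ((D.b ^ 2) ^ j * s)) (D.X13 (D.b ^ j))) ?_ ?_ ?_ ?_
  · have hne : (D.b ^ 2) ^ j ≠ 0 := pow_ne_zero j (pow_ne_zero 2 D.hb0)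
    have := key (((D.b ^ 2) ^ j)⁻¹ * s)
    rw [mul_inv_cancel_left₀ hne] at this
    exact this
  · show Commute (D.X23 ((D.b ^ 2) ^ j * 0)) (D.X13 (D.b ^ j))
    rw [mul_zero, D.X23zero]; exact Commute.one_left _
  · intro x y hx hy
    show Commute (D.X23 ((D.b ^ 2) ^ j * (x + y))) (D.X13 (D.b ^ j))
    rw [mul_add, D.X23add]; exact Commute.mul_left hx hy
  · intro x hx
    show Commute (D.X23 ((D.b ^ 2) ^ j * -x)) (D.X13 (D.b ^ j))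
    rw [mul_neg, D.X23neg]; exact Commute.inv_left hx
  · intro c hc m
    show Commute (D.X23 ((D.b ^ 2) ^ j * (c * (D.b ^ 3) ^ m))) (D.X13 (D.b ^ j))
    have hA := D.Act_mul (D.Act_pow D.Act_e3i m) (D.Act_pow D.Act_hpi j)
    have h0 := (Commute.conj_iff ((D.hp ^ 2 * D.k)⁻¹ ^ m * D.hp⁻¹ ^ j)).2 (D.baseC2 c hc)
    rw [hA.2.2.2.2.1, hA.2.2.2.2.2] at h0
    have e1 : (D.b ^ 3) ^ m * (D.b ^ 2) ^ j * c = (D.b ^ 2) ^ j * (c * (D.b ^ 3) ^ m) := by ring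
    have e2 : (1 : F) ^ m * D.b ^ j * 1 = D.b ^ j := by rw [one_pow, one_mul, mul_one]
    rw [e1, e2] at h0
    exact h0

theorem B1 (s t : F) : D.X s * D.X23 t * (D.X s)⁻¹ * (D.X23 t)⁻¹ = D.X13 (s * t) := by
  by_cases ht : t = 0
  · rw [ht, D.X23zero, mul_zero, D.X13zero]; group
  obtain ⟨j, rfl⟩ := D.hb t ht
  have key := D.hspan (fun s => D.X (D.b ^ j * s) * D.X23 (D.b ^ j) * (D.X (D.b ^ j * s))⁻¹ *
    (D.X23 (D.b ^ j))⁻¹ = D.X13 (D.b ^ j * s * D.b ^ j)) ?_ ?_ ?_ ?_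
  · have hne : D.b ^ j ≠ 0 := pow_ne_zero j D.hb0
    have := key ((D.b ^ j)⁻¹ * s)
    rw [mul_inv_cancel_left₀ hne] at this
    exact this
  · show D.X (D.b ^ j * 0) * D.X23 (D.b ^ j) * (D.X (D.b ^ j * 0))⁻¹ *
      (D.X23 (D.b ^ j))⁻¹ = D.X13 (D.b ^ j * 0 * D.b ^ j)
    rw [mul_zero, zero_mul, D.X0, D.X13zero]; group
  · intro x y hx hy
    show D.X (D.b ^ j * (x + y)) * D.X23 (D.b ^ j) * (D.X (D.b ^ j * (x + y)))⁻¹ *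
      (D.X23 (D.b ^ j))⁻¹ = D.X13 (D.b ^ j * (x + y) * D.b ^ j)
    have hx' : D.X (D.b ^ j * x) * D.X23 (D.b ^ j) * (D.X (D.b ^ j * x))⁻¹ *
      (D.X23 (D.b ^ j))⁻¹ = D.X13 (D.b ^ j * x * D.b ^ j) := hx
    have hy' : D.X (D.b ^ j * y) * D.X23 (D.b ^ j) * (D.X (D.b ^ j * y))⁻¹ *
      (D.X23 (D.b ^ j))⁻¹ = D.X13 (D.b ^ j * y * D.b ^ j) := hy
    have hc := (D.C1 (D.b ^ j * x) (D.b ^ j * y * D.b ^ j)).eq
    rw [mul_add, D.Xadd, add_mul, D.X13add]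
    generalize D.X (D.b ^ j * x) = a at hx' hc ⊢
    generalize D.X (D.b ^ j * y) = a' at hy' ⊢
    generalize D.X23 (D.b ^ j) = z at hx' hy' ⊢
    calc a * a' * z * (a * a')⁻¹ * z⁻¹
        = a * (a' * z * a'⁻¹ * z⁻¹) * a⁻¹ * (a * z * a⁻¹ * z⁻¹) := by group
      _ = (a * D.X13 (D.b ^ j * y * D.b ^ j)) * a⁻¹ * D.X13 (D.b ^ j * x * D.b ^ j) := by
          rw [hx', hy']
      _ = (D.X13 (D.b ^ j * y * D.b ^ j) * a) * a⁻¹ * D.X13 (D.b ^ j * x * D.b ^ j) := by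
          rw [hc]
      _ = D.X13 (D.b ^ j * y * D.b ^ j) * D.X13 (D.b ^ j * x * D.b ^ j) := by group
      _ = D.X13 (D.b ^ j * x * D.b ^ j) * D.X13 (D.b ^ j * y * D.b ^ j) :=
          addfam_comm D.X13 D.X13add _ _
  · intro x hx
    show D.X (D.b ^ j * -x) * D.X23 (D.b ^ j) * (D.X (D.b ^ j * -x))⁻¹ *
      (D.X23 (D.b ^ j))⁻¹ = D.X13 (D.b ^ j * -x * D.b ^ j)
    have hx' : D.X (D.b ^ j * x) * D.X23 (D.b ^ j) * (D.X (D.b ^ j * x))⁻¹ *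
      (D.X23 (D.b ^ j))⁻¹ = D.X13 (D.b ^ j * x * D.b ^ j) := hx
    have hc := (D.C1 (D.b ^ j * x) (D.b ^ j * x * D.b ^ j)).eq
    rw [mul_neg, D.Xneg, neg_mul, D.X13neg]
    generalize D.X (D.b ^ j * x) = a at hx' hc ⊢
    generalize D.X23 (D.b ^ j) = z at hx' ⊢
    calc a⁻¹ * z * a⁻¹⁻¹ * z⁻¹ = a⁻¹ * (a * z * a⁻¹ * z⁻¹)⁻¹ * a := by group
      _ = a⁻¹ * ((D.X13 (D.b ^ j * x * D.b ^ j))⁻¹ * a) := by rw [hx']; group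
      _ = a⁻¹ * (a * (D.X13 (D.b ^ j * x * D.b ^ j))⁻¹) := by
          rw [(Commute.inv_right (show Commute a (D.X13 (D.b ^ j * x * D.b ^ j)) from hc)).eq]
      _ = (D.X13 (D.b ^ j * x * D.b ^ j))⁻¹ := by group
  · intro c hc m
    show D.X (D.b ^ j * (c * (D.b ^ 3) ^ m)) * D.X23 (D.b ^ j) *
      (D.X (D.b ^ j * (c * (D.b ^ 3) ^ m)))⁻¹ * (D.X23 (D.b ^ j))⁻¹ =
      D.X13 (D.b ^ j * (c * (D.b ^ 3) ^ m) * D.b ^ j)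
    have hA := D.Act_mul (D.Act_pow D.Act_e2 m) (D.Act_pow D.Act_k j)
    have h0 := D.baseB c hc
    obtain ⟨τ, hτ⟩ : ∃ τ, τ = (D.hp * D.k ^ 2) ^ m * D.k ^ j := ⟨_, rfl⟩
    rw [← hτ] at hA
    have h1 : (τ * D.X c * τ⁻¹) * (τ * D.X23 1 * τ⁻¹) * (τ * D.X c * τ⁻¹)⁻¹ *
        (τ * D.X23 1 * τ⁻¹)⁻¹ = τ * D.X13 c * τ⁻¹ := by
      rw [← h0]; group
    rw [hA.2.2.2.1, hA.2.2.2.2.1, hA.2.2.2.2.2] at h1
    have e1 : (D.b ^ 3) ^ m * D.b ^ j * c = D.b ^ j * (c * (D.b ^ 3) ^ m) := by ring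
    have e2 : (1 : F) ^ m * D.b ^ j * 1 = D.b ^ j := by rw [one_pow, one_mul, mul_one]
    have e3 : (D.b ^ 3) ^ m * (D.b ^ 2) ^ j * c = D.b ^ j * (c * (D.b ^ 3) ^ m) * D.b ^ j := by
      ring
    rw [e1, e2, e3] at h1
    exact h1

/-- the sixth root group -/
def X32 (t : F) : P := D.v⁻¹ * D.X13 t * D.v

theorem wp_v : D.wp * D.v = D.v⁻¹ * D.wp * (D.w * D.w) := by
  calc D.wp * D.v = D.v * D.w := by unfold wp; group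
    _ = (D.w * D.v⁻¹ * D.w) * D.w := by rw [D.n1]
    _ = D.v⁻¹ * D.wp * (D.w * D.w) := by unfold wp; group

theorem wp_X23 (t : F) : D.wp * D.X23 t * D.wp⁻¹ = D.X32 (-t) := by
  unfold X32 X13 X23
  rw [neg_neg]
  calc D.wp * (D.v * D.X t * D.v⁻¹) * D.wp⁻¹ = (D.wp * D.v) * D.X t * (D.wp * D.v)⁻¹ := by group
    _ = D.v⁻¹ * D.wp * (D.w * D.w * D.X t) * (D.w * D.w)⁻¹ * D.wp⁻¹ * D.v := by
        rw [D.wp_v]; group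
    _ = D.v⁻¹ * D.wp * (D.X t * (D.w * D.w)) * (D.w * D.w)⁻¹ * D.wp⁻¹ * D.v := by rw [D.w2X]
    _ = D.v⁻¹ * (D.wp * D.X t * D.wp⁻¹) * D.v := by group

theorem wp_X13 (t : F) : D.wp * D.X13 t * D.wp⁻¹ = D.X t := by
  have e := D.wp2X (-t)
  rw [neg_neg] at e
  unfold X13
  rw [← e]; group

theorem B2 (s t : F) : D.X13 s * D.X32 t * (D.X13 s)⁻¹ * (D.X32 t)⁻¹ = D.X (s * t) := by
  have h0 := D.B1 (-s) (-t)
  have h1 : (D.wp * D.X (-s) * D.wp⁻¹) * (D.wp * D.X23 (-t) * D.wp⁻¹) *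
      (D.wp * D.X (-s) * D.wp⁻¹)⁻¹ * (D.wp * D.X23 (-t) * D.wp⁻¹)⁻¹ =
      D.wp * D.X13 (-s * -t) * D.wp⁻¹ := by
    rw [← h0]; group
  rw [D.wp_X23, D.wp_X13, neg_neg, neg_mul_neg] at h1
  exact h1

end S3Rel

end Cfsg.Agent.H8
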