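import Mathlib
import Cfsg.Agent.H8.SL3A
import Cfsg.Agent.H8.SL3C
import Cfsg.Agent.S2401

set_option autoImplicit false

namespace Cfsg.Agent.H8

open Matrix

theorem fin3_shift_ind (Q : Fin 3 → Prop) (h0 : Q 0) (hs : ∀ i, Q i → Q (i + 1)) :
    ∀ i, Q i := by
  intro i
  fin_cases i
  · exact h0
  · exact hs 0 h0
  · exact hs 1 (hs 0 h0)

theorem lift_from_equiv {α : Type*} {rels : Set (FreeGroup α)} {G : Type*} {P : Type*}
    [Group G] [Group P] (e : PresentedGroup rels ≃* G) (f : α → P)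
    (hf : ∀ r ∈ rels, FreeGroup.lift f r = 1) :
    ∃ Φ : G →* P, ∀ a, Φ (e (PresentedGroup.of a)) = f a :=
  ⟨(PresentedGroup.toGroup hf).comp e.symm.toMonoidHom, fun a => by
    show PresentedGroup.toGroup hf (e.symm (e (PresentedGroup.of a))) = f a
    rw [MulEquiv.symm_apply_apply, PresentedGroup.toGroup.of]⟩

/-- homomorphisms out of `SL₃` of a finite field are determined on root elements -/
theorem s3_hom_ext {F : Type*} [Field F] [Finite F] {N : Type*} [Group N]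
    (θ₁ θ₂ : SpecialLinearGroup (Fin 3) F →* N)
    (h : ∀ i j : Fin 3, i ≠ j → ∀ t : F, θ₁ (s3x i j t) = θ₂ (s3x i j t)) : θ₁ = θ₂ := by
  obtain ⟨e, he⟩ := Cfsg.Agent.S2401.result (K := F) 3 le_rfl
  have e1 : θ₁.comp e.toMonoidHom = θ₂.comp e.toMonoidHom := by
    apply PresentedGroup.ext
    rintro ⟨⟨⟨i, j⟩, hij⟩, t⟩
    have e2 : e (PresentedGroup.of ((⟨(i, j), hij⟩ : {ij : Fin 3 × Fin 3 // ij.1 ≠ ij.2}), t)) =
        s3x i j t := by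
      apply Subtype.ext
      rw [he]
      exact (s3x_val i j hij t).symm
    show θ₁ (e (PresentedGroup.of (⟨(i, j), hij⟩, t))) = θ₂ (e (PresentedGroup.of (⟨(i, j), hij⟩, t)))
    rw [e2]
    exact h i j hij t
  ext g
  obtain ⟨y, rfl⟩ := e.surjective g
  exact DFunLike.congr_fun e1 y

namespace S3Rel

variable {P : Type*} [Group P] {F : Type*} [Field F] (D : S3Rel P F)

/-- root groups by distance from the diagonal -/
def Z (d : Fin 3) (t : F) : P := if d = 1 then D.X t else if d = 2 then D.X13 t else 1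

/-- the six root groups -/
def Xf (i j : Fin 3) (t : F) : P := D.v ^ (i : ℕ) * D.Z (j - i) t * (D.v ^ (i : ℕ))⁻¹

theorem Zadd (d : Fin 3) (s t : F) : D.Z d (s + t) = D.Z d s * D.Z d t := by
  unfold Z
  by_cases h1 : d = 1
  · rw [if_pos h1, if_pos h1, if_pos h1, D.Xadd]
  · rw [if_neg h1, if_neg h1, if_neg h1]
    by_cases h2 : d = 2
    · rw [if_pos h2, if_pos h2, if_pos h2, D.X13add]
    · rw [if_neg h2, if_neg h2, if_neg h2, one_mul]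

theorem Xfadd (i j : Fin 3) (s t : F) : D.Xf i j (s + t) = D.Xf i j s * D.Xf i j t := by
  unfold Xf; rw [D.Zadd]; group

theorem vpow_succ (i : Fin 3) : D.v ^ ((i + 1 : Fin 3) : ℕ) = D.v * D.v ^ (i : ℕ) := by
  fin_cases i
  · show D.v ^ 1 = D.v * D.v ^ 0
    rw [pow_one, pow_zero, mul_one]
  · show D.v ^ 2 = D.v * D.v ^ 1
    rw [pow_succ']
  · show D.v ^ 0 = D.v * D.v ^ 2
    rw [pow_zero, pow_two, ← mul_assoc, D.v3]

theorem Xf_shift (i j : Fin 3) (t : F) :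
    D.Xf (i + 1) (j + 1) t = D.v * D.Xf i j t * D.v⁻¹ := by
  unfold Xf
  rw [add_sub_add_right_eq_sub, D.vpow_succ]; group

theorem Xf00 (t : F) : D.Xf 0 0 t = 1 := by
  show D.v ^ 0 * D.Z 0 t * (D.v ^ 0)⁻¹ = 1
  unfold Z
  rw [if_neg (by decide), if_neg (by decide)]; group

theorem Xf01 (t : F) : D.Xf 0 1 t = D.X t := by
  show D.v ^ 0 * D.Z 1 t * (D.v ^ 0)⁻¹ = D.X t
  unfold Z
  rw [if_pos rfl]; group

theorem Xf02 (t : F) : D.Xf 0 2 t = D.X13 t := by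
  show D.v ^ 0 * D.Z 2 t * (D.v ^ 0)⁻¹ = D.X13 t
  unfold Z
  rw [if_neg (by decide), if_pos rfl]; group

theorem Xf12 (t : F) : D.Xf 1 2 t = D.X23 t := by
  show D.v ^ 1 * D.Z 1 t * (D.v ^ 1)⁻¹ = D.X23 t
  unfold Z X23
  rw [if_pos rfl, pow_one]

theorem Xf20 (t : F) : D.Xf 2 0 t = D.v⁻¹ * D.X t * D.v := by
  show D.v ^ 2 * D.Z 1 t * (D.v ^ 2)⁻¹ = D.v⁻¹ * D.X t * D.v
  unfold Z
  rw [if_pos rfl, pow_two, D.vsq, inv_inv]

theorem Xf21 (t : F) : D.Xf 2 1 t = D.X32 t := by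
  show D.v ^ 2 * D.Z 2 t * (D.v ^ 2)⁻¹ = D.X32 t
  unfold Z X32
  rw [if_neg (by decide), if_pos rfl, pow_two, D.vsq, inv_inv]

theorem v_wp : D.v * D.wp = D.w⁻¹ := by
  have e := D.wi_v
  calc D.v * D.wp = (D.v * D.v) * D.w * D.v⁻¹ := by unfold wp; group
    _ = (D.v⁻¹ * D.w) * D.v⁻¹ := by rw [D.vsq]
    _ = (D.w⁻¹ * D.v) * D.v⁻¹ := by rw [e]
    _ = D.w⁻¹ := by group

theorem Y_eq13 (t : F) : D.Y t = D.v * D.X13 t * D.v⁻¹ := by
  rw [D.Y_eq]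
  unfold X13
  calc D.w⁻¹ * D.X (-t) * D.w = D.w⁻¹ * D.X (-t) * (D.w⁻¹)⁻¹ := by rw [inv_inv]
    _ = (D.v * D.wp) * D.X (-t) * (D.v * D.wp)⁻¹ := by rw [D.v_wp]
    _ = D.v * (D.wp * D.X (-t) * D.wp⁻¹) * D.v⁻¹ := by group

theorem Xf10 (t : F) : D.Xf 1 0 t = D.Y t := by
  show D.v ^ 1 * D.Z 2 t * (D.v ^ 1)⁻¹ = D.Y t
  unfold Z
  rw [if_neg (by decide), if_pos rfl, pow_one, D.Y_eq13]

theorem X_X32 (s t : F) : Commute (D.X s) (D.X32 t) := by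
  have h := (Commute.conj_iff D.v⁻¹).2 (D.C2 s t)
  have e1 : D.v⁻¹ * D.X23 s * D.v⁻¹⁻¹ = D.X s := by unfold X23; group
  have e2 : D.v⁻¹ * D.X13 t * D.v⁻¹⁻¹ = D.X32 t := by unfold X32; group
  rw [e1, e2] at h
  exact h

theorem R2_zero (j k l : Fin 3) (h1 : (0 : Fin 3) ≠ j) (h2 : k ≠ l) (h3 : (0 : Fin 3) ≠ l)
    (h4 : j ≠ k) (t u : F) : Commute (D.Xf 0 j t) (D.Xf k l u) := by
  fin_cases j <;> fin_cases k <;> fin_cases l <;>
    first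
    | exact absurd rfl h1
    | exact absurd rfl h2
    | exact absurd rfl h3
    | exact absurd rfl h4
    | skip
  · show Commute (D.Xf 0 1 t) (D.Xf 0 1 u)
    rw [D.Xf01, D.Xf01]; exact D.Xcomm t u
  · show Commute (D.Xf 0 1 t) (D.Xf 0 2 u)
    rw [D.Xf01, D.Xf02]; exact D.C1 t u
  · show Commute (D.Xf 0 1 t) (D.Xf 2 1 u)
    rw [D.Xf01, D.Xf21]; exact D.X_X32 t u
  · show Commute (D.Xf 0 2 t) (D.Xf 0 1 u)
    rw [D.Xf01, D.Xf02]; exact (D.C1 u t).symm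
  · show Commute (D.Xf 0 2 t) (D.Xf 0 2 u)
    rw [D.Xf02, D.Xf02]; exact addfam_comm D.X13 D.X13add t u
  · show Commute (D.Xf 0 2 t) (D.Xf 1 2 u)
    rw [D.Xf02, D.Xf12]; exact (D.C2 u t).symm

theorem R2 (i j k l : Fin 3) (h1 : i ≠ j) (h2 : k ≠ l) (h3 : i ≠ l) (h4 : j ≠ k) (t u : F) :
    Commute (D.Xf i j t) (D.Xf k l u) := by
  revert j k l
  refine fin3_shift_ind (fun i => ∀ j k l : Fin 3, i ≠ j → k ≠ l → i ≠ l → j ≠ k →
    Commute (D.Xf i j t) (D.Xf k l u)) ?_ ?_ i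
  · intro j k l h1 h2 h3 h4
    exact D.R2_zero j k l h1 h2 h3 h4 t u
  · intro i ih j k l h1 h2 h3 h4
    obtain ⟨j, rfl⟩ : ∃ j', j = j' + 1 := ⟨j - 1, (sub_add_cancel j 1).symm⟩
    obtain ⟨k, rfl⟩ : ∃ k', k = k' + 1 := ⟨k - 1, (sub_add_cancel k 1).symm⟩
    obtain ⟨l, rfl⟩ : ∃ l', l = l' + 1 := ⟨l - 1, (sub_add_cancel l 1).symm⟩
    rw [D.Xf_shift, D.Xf_shift]
    exact (Commute.conj_iff D.v).2 (ih j k l (fun h => h1 (by rw [h])) (fun h => h2 (by rw [h]))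
      (fun h => h3 (by rw [h])) (fun h => h4 (by rw [h])))

theorem R3_zero (j l : Fin 3) (h1 : (0 : Fin 3) ≠ j) (h2 : j ≠ l) (h3 : (0 : Fin 3) ≠ l)
    (t u : F) :
    D.Xf 0 j t * D.Xf j l u * (D.Xf 0 j t)⁻¹ * (D.Xf j l u)⁻¹ = D.Xf 0 l (t * u) := by
  fin_cases j <;> fin_cases l <;>
    first
    | exact absurd rfl h1
    | exact absurd rfl h2
    | exact absurd rfl h3
    | skip
  · show D.Xf 0 1 t * D.Xf 1 2 u * (D.Xf 0 1 t)⁻¹ * (D.Xf 1 2 u)⁻¹ = D.Xf 0 2 (t * u)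
    rw [D.Xf01, D.Xf12, D.Xf02]; exact D.B1 t u
  · show D.Xf 0 2 t * D.Xf 2 1 u * (D.Xf 0 2 t)⁻¹ * (D.Xf 2 1 u)⁻¹ = D.Xf 0 1 (t * u)
    rw [D.Xf01, D.Xf21, D.Xf02]; exact D.B2 t u

theorem R3 (i j l : Fin 3) (h1 : i ≠ j) (h2 : j ≠ l) (h3 : i ≠ l) (t u : F) :
    D.Xf i j t * D.Xf j l u * (D.Xf i j t)⁻¹ * (D.Xf j l u)⁻¹ = D.Xf i l (t * u) := by
  revert j l
  refine fin3_shift_ind (fun i => ∀ j l : Fin 3, i ≠ j → j ≠ l → i ≠ l →
    D.Xf i j t * D.Xf j l u * (D.Xf i j t)⁻¹ * (D.Xf j l u)⁻¹ = D.Xf i l (t * u)) ?_ ?_ i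
  · intro j l h1 h2 h3
    exact D.R3_zero j l h1 h2 h3 t u
  · intro i ih j l h1 h2 h3
    obtain ⟨j, rfl⟩ : ∃ j', j = j' + 1 := ⟨j - 1, (sub_add_cancel j 1).symm⟩
    obtain ⟨l, rfl⟩ : ∃ l', l = l' + 1 := ⟨l - 1, (sub_add_cancel l 1).symm⟩
    rw [D.Xf_shift, D.Xf_shift, D.Xf_shift,
      ← ih j l (fun h => h1 (by rw [h])) (fun h => h2 (by rw [h])) (fun h => h3 (by rw [h]))]
    group

theorem steinberg_hom [Finite F] : ∃ Φ : SpecialLinearGroup (Fin 3) F →* P,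
    ∀ i j : Fin 3, i ≠ j → ∀ t : F, Φ (s3x i j t) = D.Xf i j t := by
  obtain ⟨e, he⟩ := Cfsg.Agent.S2401.result (K := F) 3 le_rfl
  have hex := lift_from_equiv e
    (fun x : {ij : Fin 3 × Fin 3 // ij.1 ≠ ij.2} × F => D.Xf x.1.1.1 x.1.1.2 x.2) (by
    rintro r ((⟨a, t, u, rfl⟩ | ⟨a, b, t, u, h1, h2, rfl⟩) | ⟨a, b, h, t, u, h1, rfl⟩)
    · simp only [map_mul, map_inv, FreeGroup.lift_apply_of]
      rw [D.Xfadd, mul_inv_cancel]
    · simp only [map_mul, map_inv, FreeGroup.lift_apply_of]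
      have := D.R2 a.1.1 a.1.2 b.1.1 b.1.2 a.2 b.2 h1 h2 t u
      rw [this.eq]; group
    · simp only [map_mul, map_inv, FreeGroup.lift_apply_of]
      obtain ⟨⟨i, j⟩, hij⟩ := a
      obtain ⟨⟨k, l⟩, hkl⟩ := b
      dsimp only at h h1 hij hkl ⊢
      subst h1
      rw [D.R3 i j l hij hkl h t u, mul_inv_cancel])
  obtain ⟨Φ, hΦ⟩ := hex
  refine ⟨Φ, fun i j hij t => ?_⟩
  have e2 : e (PresentedGroup.of ((⟨(i, j), hij⟩ : {ij : Fin 3 × Fin 3 // ij.1 ≠ ij.2}), t)) =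
      s3x i j t := by
    apply Subtype.ext
    rw [he]
    exact (s3x_val i j hij t).symm
  rw [← e2, hΦ]

/-- the relations force an isomorphism with `SL₃` -/
theorem core [Finite F] (hgen : Subgroup.closure {D.u, D.h, D.w, D.v} = ⊤)
    (ψ : P →* SpecialLinearGroup (Fin 3) F) (hu : ψ D.u = s3x 0 1 1)
    (hh : ψ D.h = s3D D.b⁻¹ D.b 1 (by rw [inv_mul_cancel₀ D.hb0, mul_one]))
    (hw : ψ D.w = s3W) (hv : ψ D.v = s3V) : Function.Bijective ψ := by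
  obtain ⟨Φ, hΦ⟩ := D.steinberg_hom
  have hk : ψ D.k = s3D D.b 1 D.b⁻¹ (by rw [mul_one, mul_inv_cancel₀ D.hb0]) := by
    unfold k
    rw [map_mul, map_mul, map_inv, hv, hh]
    exact s3Vi_D_conj _ _ _ _
  have hψX : ∀ t, ψ (D.X t) = s3x 0 1 t := by
    intro t
    by_cases ht : t = 0
    · rw [ht, D.X0, map_one, s3x_zero]
    · obtain ⟨j, rfl⟩ := D.hb t ht
      rw [D.Xpow, map_mul, map_mul, map_inv, map_pow, hk, hu]
      have := conj_act_pow (fun t : F => s3x 0 1 t)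
        (s3D D.b 1 D.b⁻¹ (by rw [mul_one, mul_inv_cancel₀ D.hb0])) D.b
        (fun t => by rw [s3D_conj01, inv_one, mul_one]) j 1
      rw [show D.b ^ j * 1 = D.b ^ j from mul_one _] at this
      exact this
  have hψ13 : ∀ t, ψ (D.X13 t) = s3x 0 2 t := by
    intro t
    unfold X13 wp
    simp only [map_mul, map_inv]
    rw [hψX, hv, hw]
    exact s3Wp_conj t
  have hψXf : ∀ i j t, ψ (D.Xf i j t) = s3x i j t := by
    intro i
    refine fin3_shift_ind (fun i => ∀ j t, ψ (D.Xf i j t) = s3x i j t) ?_ ?_ i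
    · intro j t
      fin_cases j
      · show ψ (D.Xf 0 0 t) = s3x 0 0 t
        rw [s3x_diag, D.Xf00, map_one]
      · show ψ (D.Xf 0 1 t) = s3x 0 1 t
        rw [D.Xf01, hψX]
      · show ψ (D.Xf 0 2 t) = s3x 0 2 t
        rw [D.Xf02, hψ13]
    · intro i ih j t
      obtain ⟨j, rfl⟩ : ∃ j', j = j' + 1 := ⟨j - 1, (sub_add_cancel j 1).symm⟩
      rw [D.Xf_shift, map_mul, map_mul, map_inv, ih, hv, s3V_conj]
  have hψΦ : ∀ g, ψ (Φ g) = g := by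
    have := s3_hom_ext (ψ.comp Φ) (MonoidHom.id _) (fun i j hij t => by
      rw [MonoidHom.comp_apply, hΦ i j hij, hψXf, MonoidHom.id_apply])
    intro g
    exact DFunLike.congr_fun this g
  have hR : ∀ i j : Fin 3, i ≠ j → ∀ t, D.Xf i j t ∈ Φ.range := fun i j hij t =>
    ⟨_, hΦ i j hij t⟩
  have hXr : ∀ t, D.X t ∈ Φ.range := fun t => by
    rw [← D.Xf01]; exact hR 0 1 (by decide) t
  have hYr : ∀ t, D.Y t ∈ Φ.range := fun t => by
    rw [← D.Xf10]; exact hR 1 0 (by decide) t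
  have hur : D.u ∈ Φ.range := by rw [← D.X1]; exact hXr 1
  have ew : D.w = D.X 1 * D.Y (-1) * D.X 1 := by
    unfold Y
    rw [neg_neg, D.X1]
    exact D.r10.symm
  have hwr : D.w ∈ Φ.range := by
    rw [ew]; exact mul_mem (mul_mem (hXr 1) (hYr _)) (hXr 1)
  have hhr : D.h ∈ Φ.range := by
    have e1 := D.Wt_pow 1
    have e2 : D.h⁻¹ = (D.k ^ 1 * D.w * (D.k ^ 1)⁻¹) * D.w⁻¹ := by
      rw [pow_one]
      calc D.h⁻¹ = D.hp * D.k := by rw [D.h_eq]; group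
        _ = D.k * D.hp := D.k_hp.symm
        _ = D.k * (D.w * D.k * D.w⁻¹)⁻¹ := by rw [D.Wb, inv_inv]
        _ = D.k * D.w * D.k⁻¹ * D.w⁻¹ := by group
    rw [← e1] at e2
    have h3 : D.h⁻¹ ∈ Φ.range := by
      rw [e2]
      exact mul_mem (mul_mem (mul_mem (hXr _) (hYr _)) (hXr _)) (inv_mem hwr)
    exact inv_mem_iff.1 h3
  have hvr : D.v ∈ Φ.range := by
    have e0 : D.v⁻¹ * D.w * D.v = D.Xf 2 0 1 * D.Xf 0 2 (-1) * D.Xf 2 0 1 := by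
      rw [D.Xf20, D.Xf02]
      calc D.v⁻¹ * D.w * D.v = D.v⁻¹ * (D.X 1 * D.Y (-1) * D.X 1) * D.v := by rw [← ew]
        _ = (D.v⁻¹ * D.X 1 * D.v) * (D.v⁻¹ * D.Y (-1) * D.v) * (D.v⁻¹ * D.X 1 * D.v) := by
            group
        _ = (D.v⁻¹ * D.X 1 * D.v) * D.X13 (-1) * (D.v⁻¹ * D.X 1 * D.v) := by
            rw [D.Y_eq13]; group
    have e1 : D.v * D.v = D.w * (D.v⁻¹ * D.w * D.v) := by
      calc D.v * D.v = (D.w * D.v⁻¹ * D.w) * D.v := by rw [D.n1]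
        _ = D.w * (D.v⁻¹ * D.w * D.v) := by group
    have e2 : D.v = (D.v * D.v) * (D.v * D.v) := by
      calc D.v = D.v * (D.v * D.v * D.v) := by rw [D.v3, mul_one]
        _ = (D.v * D.v) * (D.v * D.v) := by group
    have h1 : D.v * D.v ∈ Φ.range := by
      rw [e1, e0]
      exact mul_mem hwr (mul_mem (mul_mem (hR 2 0 (by decide) _) (hR 0 2 (by decide) _))
        (hR 2 0 (by decide) _))
    rw [e2]
    exact mul_mem h1 h1
  have hsurj : Function.Surjective Φ := by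
    have htop : Φ.range = ⊤ := by
      rw [eq_top_iff, ← hgen, Subgroup.closure_le]
      intro x hx
      rcases hx with rfl | rfl | rfl | rfl
      exacts [hur, hhr, hwr, hvr]
    intro x
    have hx : x ∈ Φ.range := by rw [htop]; trivial
    exact hx
  constructor
  · intro x y hxy
    obtain ⟨a, rfl⟩ := hsurj x
    obtain ⟨b, rfl⟩ := hsurj y
    rw [hψΦ, hψΦ] at hxy
    rw [hxy]
  · intro g
    exact ⟨Φ g, hψΦ g⟩

end S3Rel

end Cfsg.Agent.H8
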