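import Mathlib
import Cfsg.Agent.H8.SL3D
import Cfsg.Agent.H8.PSL2C

set_option autoImplicit false
set_option linter.unusedSimpArgs false

namespace Cfsg.Agent.H8

open Matrix Polynomial

section

variable {F : Type*} [Field F] [Fintype F]

/-- a subring of a finite field containing all cubes is everything, unless the field has four elements -/
theorem cube_mem_subring (hq4 : Fintype.card F ≠ 4) (R : Subring F) (hR : ∀ x : F, x ^ 3 ∈ R) :
    ∀ t : F, t ∈ R := by
  classical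
  have hinv : ∀ x ∈ R, x ≠ 0 → x⁻¹ ∈ R := by
    intro x hx hx0
    have h1 : x ^ (Fintype.card F - 1) = 1 := FiniteField.pow_card_sub_one_eq_one x hx0
    have hc : 1 < Fintype.card F := Fintype.one_lt_card
    have h2 : x⁻¹ = x ^ (Fintype.card F - 2) := by
      apply inv_eq_of_mul_eq_one_left
      rw [← pow_succ, show Fintype.card F - 2 + 1 = Fintype.card F - 1 by omega, h1]
    rw [h2]
    exact pow_mem hx _
  have hdiv : ∀ c t : F, c ∈ R → c ≠ 0 → c * t ∈ R → t ∈ R := by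
    intro c t hc hc0 hct
    have : t = c⁻¹ * (c * t) := by rw [inv_mul_cancel_left₀ hc0]
    rw [this]
    exact mul_mem (hinv c hc hc0) hct
  have h1R : (1 : F) ∈ R := one_mem R
  by_cases h6 : (6 : F) = 0
  · have h23 : (2 : F) = 0 ∨ (3 : F) = 0 := by
      have : (2 : F) * 3 = 0 := by rw [← h6]; norm_num
      exact mul_eq_zero.1 this
    rcases h23 with h2 | h3
    · -- characteristic two
      have ha : ∀ t : F, t ^ 2 + t ∈ R := by
        intro t
        have e : t ^ 2 + t = (t + 1) ^ 3 - t ^ 3 - 1 := by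
          linear_combination (-(t ^ 2 + t)) * h2
        rw [e]
        exact sub_mem (sub_mem (hR _) (hR _)) h1R
      have key1 : ∀ t : F, 1 + (t ^ 2 + t) ≠ 0 → t ∈ R := by
        intro t ht
        refine hdiv (1 + (t ^ 2 + t)) t (add_mem h1R (ha t)) ht ?_
        have e : (1 + (t ^ 2 + t)) * t = t ^ 3 + (t ^ 2 + t) := by ring
        rw [e]
        exact add_mem (hR t) (ha t)
      intro t
      by_cases ht : 1 + (t ^ 2 + t) = 0
      · have h11 : (1 : F) + 1 = 0 := by linear_combination h2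
        have ht0 : t ≠ 0 := by
          rintro rfl
          apply one_ne_zero (α := F)
          linear_combination ht
        have ht1 : t ≠ 1 := by
          rintro rfl
          apply one_ne_zero (α := F)
          linear_combination ht - h2
        obtain ⟨s, hs⟩ : ∃ s : F, s ∉ ({0, 1, t, t + 1} : Finset F) := by
          by_contra hall
          push Not at hall
          apply hq4
          have hB : ({0, 1, t, t + 1} : Finset F).card = 4 := by
            rw [Finset.card_insert_of_notMem, Finset.card_insert_of_notMem,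
              Finset.card_insert_of_notMem, Finset.card_singleton]
            · simp
            · simp only [Finset.mem_insert, Finset.mem_singleton, not_or]
              refine ⟨fun h => ht1 h.symm, fun h => ht0 ?_⟩
              linear_combination -h
            · simp only [Finset.mem_insert, Finset.mem_singleton, not_or]
              refine ⟨zero_ne_one, fun h => ht0 h.symm, fun h => ht1 ?_⟩
              linear_combination -h - h2
          rw [← hB, ← Finset.card_univ]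
          congr 1
          symm
          exact Finset.eq_univ_iff_forall.2 hall
        simp only [Finset.mem_insert, Finset.mem_singleton, not_or] at hs
        obtain ⟨hs0, hs1, hst, hst1⟩ := hs
        have hsR : s ∈ R := by
          apply key1
          intro h
          have e : (s - t) * (s - (t + 1)) = 0 := by
            linear_combination h - ht + (-s * t + t ^ 2 - s + t) * h2
          rcases mul_eq_zero.1 e with h' | h'
          · exact hst (by linear_combination h')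
          · exact hst1 (by linear_combination h')
        have hstR : s + t ∈ R := by
          apply key1
          intro h
          have e : s * (s - 1) = 0 := by
            linear_combination h - ht - (s * t + s) * h2
          rcases mul_eq_zero.1 e with h' | h'
          · exact hs0 h'
          · exact hs1 (by linear_combination h')
        have : t = (s + t) - s := by ring
        rw [this]
        exact sub_mem hstR hsR
      · exact key1 t ht
    · -- characteristic three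
      have hinj : Function.Injective (fun x : F => x ^ 3) := by
        intro x y hxy
        have hxy' : x ^ 3 = y ^ 3 := hxy
        have e : (x - y) ^ 3 = 0 := by
          linear_combination hxy' + (-x ^ 2 * y + x * y ^ 2) * h3
        have := pow_eq_zero_iff (n := 3) (by norm_num) |>.1 e
        linear_combination this
      have hsurj := Finite.injective_iff_surjective.1 hinj
      intro t
      obtain ⟨x, rfl⟩ := hsurj t
      exact hR x
  · intro t
    have h6R : (6 : F) ∈ R := by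
      have := natCast_mem R 6
      exact_mod_cast this
    refine hdiv 6 t h6R h6 ?_
    have e : 6 * t = (t + 1) ^ 3 + (t - 1) ^ 3 - 2 * t ^ 3 := by ring
    rw [e]
    refine sub_mem (add_mem (hR _) (hR _)) ?_
    have h2R : (2 : F) ∈ R := by
      have := natCast_mem R 2
      exact_mod_cast this
    exact mul_mem h2R (hR t)

/-- additive spanning by cubes -/
theorem cube_span (hq4 : Fintype.card F ≠ 4) (Q : F → Prop) (h0 : Q 0)
    (hadd : ∀ x y, Q x → Q y → Q (x + y)) (hneg : ∀ x, Q x → Q (-x))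
    (hcube : ∀ x : F, Q (x ^ 3)) : ∀ t, Q t := by
  intro t
  have ht := cube_mem_subring hq4 (Subring.closure (Set.range (fun x : F => x ^ 3)))
    (fun x => Subring.subset_closure ⟨x, rfl⟩) t
  rw [Subring.mem_closure_iff] at ht
  have hS : (Submonoid.closure (Set.range (fun x : F => x ^ 3)) : Set F) =
      Set.range (fun x : F => x ^ 3) := by
    have e : Set.range (fun x : F => x ^ 3) = (MonoidHom.mrange (powMonoidHom 3 : F →* F) : Set F) := by
      ext y
      simp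
    rw [e, Submonoid.closure_eq]
  rw [hS] at ht
  induction ht using AddSubgroup.closure_induction with
  | mem x hx =>
    obtain ⟨y, rfl⟩ := hx
    exact hcube y
  | zero => exact h0
  | add x y _ _ ihx ihy => exact hadd x y ihx ihy
  | neg x _ ih => exact hneg x ih

end


section free4

/-- the four generators -/
def f4u : FreeGroup (Fin 4) := FreeGroup.of 0

/-- second generator -/
def f4h : FreeGroup (Fin 4) := FreeGroup.of 1

/-- third generator -/
def f4w : FreeGroup (Fin 4) := FreeGroup.of 2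

/-- fourth generator -/
def f4v : FreeGroup (Fin 4) := FreeGroup.of 3

/-- torus word -/
def f4k : FreeGroup (Fin 4) := f4v⁻¹ * f4h * f4v

/-- torus word -/
def f4hp : FreeGroup (Fin 4) := f4v * f4h * f4v⁻¹

/-- second simple root element -/
def f4u2 : FreeGroup (Fin 4) := f4v * f4u * f4v⁻¹

/-- second Weyl word -/
def f4wp : FreeGroup (Fin 4) := f4v * f4w * f4v⁻¹

/-- highest root element -/
def f4y : FreeGroup (Fin 4) := f4wp * f4u⁻¹ * f4wp⁻¹

/-- the ten common relators -/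
def f4common (p : ℕ) : List (FreeGroup (Fin 4)) :=
  [f4v * f4v * f4v * f4u ^ p,
   (f4k⁻¹ * f4hp) * f4u * (f4k⁻¹ * f4hp)⁻¹ * f4u⁻¹,
   f4h * f4k * f4h⁻¹ * f4k⁻¹,
   f4h * f4v * (f4h * f4v) * (f4h * f4v),
   f4w * f4v⁻¹ * (f4w * f4v⁻¹),
   f4w * f4h * f4w⁻¹ * f4h,
   f4u * f4w * f4u * f4w⁻¹ * f4u * f4w⁻¹,
   f4u * f4u2 * f4u⁻¹ * f4u2⁻¹ * f4y⁻¹,
   f4u * f4y * f4u⁻¹ * f4y⁻¹,
   f4u2 * f4y * f4u2⁻¹ * f4y⁻¹]

variable {G : Type*} [Group G] (a b c d : G)

theorem lift4_u : FreeGroup.lift ![a, b, c, d] f4u = a := by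
  unfold f4u; rw [FreeGroup.lift_apply_of]; rfl

theorem lift4_h : FreeGroup.lift ![a, b, c, d] f4h = b := by
  unfold f4h; rw [FreeGroup.lift_apply_of]; rfl

theorem lift4_w : FreeGroup.lift ![a, b, c, d] f4w = c := by
  unfold f4w; rw [FreeGroup.lift_apply_of]; rfl

theorem lift4_v : FreeGroup.lift ![a, b, c, d] f4v = d := by
  unfold f4v; rw [FreeGroup.lift_apply_of]; rfl

theorem lift4_k : FreeGroup.lift ![a, b, c, d] f4k = d⁻¹ * b * d := by
  unfold f4k; rw [map_mul, map_mul, map_inv, lift4_v, lift4_h]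

theorem lift4_hp : FreeGroup.lift ![a, b, c, d] f4hp = d * b * d⁻¹ := by
  unfold f4hp; rw [map_mul, map_mul, map_inv, lift4_v, lift4_h]

theorem lift4_u2 : FreeGroup.lift ![a, b, c, d] f4u2 = d * a * d⁻¹ := by
  unfold f4u2; rw [map_mul, map_mul, map_inv, lift4_v, lift4_u]

theorem lift4_wp : FreeGroup.lift ![a, b, c, d] f4wp = d * c * d⁻¹ := by
  unfold f4wp; rw [map_mul, map_mul, map_inv, lift4_v, lift4_w]

theorem lift4_y : FreeGroup.lift ![a, b, c, d] f4y =
    (d * c * d⁻¹) * a⁻¹ * (d * c * d⁻¹)⁻¹ := by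
  unfold f4y; rw [map_mul, map_mul, map_inv, map_inv, lift4_wp, lift4_u]

theorem presented_fin4_gen (rels : Set (FreeGroup (Fin 4))) :
    Subgroup.closure {PresentedGroup.mk rels f4u, PresentedGroup.mk rels f4h,
      PresentedGroup.mk rels f4w, PresentedGroup.mk rels f4v} = ⊤ := by
  rw [eq_top_iff]
  intro x _
  refine PresentedGroup.generated_by rels _ ?_ x
  intro j
  fin_cases j
  · exact Subgroup.subset_closure (Set.mem_insert _ _)
  · exact Subgroup.subset_closure (Set.mem_insert_of_mem _ (Set.mem_insert _ _))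
  · exact Subgroup.subset_closure
      (Set.mem_insert_of_mem _ (Set.mem_insert_of_mem _ (Set.mem_insert _ _)))
  · exact Subgroup.subset_closure
      (Set.mem_insert_of_mem _ (Set.mem_insert_of_mem _ (Set.mem_insert_of_mem _
        (Set.mem_singleton _))))

theorem lift4_mk (rels : Set (FreeGroup (Fin 4))) (r : FreeGroup (Fin 4)) :
    FreeGroup.lift ![PresentedGroup.mk rels f4u, PresentedGroup.mk rels f4h,
      PresentedGroup.mk rels f4w, PresentedGroup.mk rels f4v] r = PresentedGroup.mk rels r := by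
  have e : FreeGroup.lift ![PresentedGroup.mk rels f4u, PresentedGroup.mk rels f4h,
      PresentedGroup.mk rels f4w, PresentedGroup.mk rels f4v] = PresentedGroup.mk rels := by
    ext i
    fin_cases i
    · exact lift4_u _ _ _ _
    · exact lift4_h _ _ _ _
    · exact lift4_w _ _ _ _
    · exact lift4_v _ _ _ _
  rw [e]

end free4

/-- the common relations -/
structure S3Pre (P : Type*) [Group P] (p : ℕ) where
  u : P
  h : P
  w : P
  v : P
  up : u ^ p = 1
  v3 : v * v * v = 1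
  r5 : (v⁻¹ * h * v)⁻¹ * (v * h * v⁻¹) * u = u * ((v⁻¹ * h * v)⁻¹ * (v * h * v⁻¹))
  r6 : h * (v⁻¹ * h * v) = (v⁻¹ * h * v) * h
  r7 : h * v * (h * v) * (h * v) = 1
  r8 : w * v⁻¹ * (w * v⁻¹) = 1
  r9 : w * h * w⁻¹ = h⁻¹
  r10 : u * (w * u * w⁻¹) * u = w
  rB : u * (v * u * v⁻¹) * u⁻¹ * (v * u * v⁻¹)⁻¹ = (v * w * v⁻¹) * u⁻¹ * (v * w * v⁻¹)⁻¹
  rC1 : u * ((v * w * v⁻¹) * u⁻¹ * (v * w * v⁻¹)⁻¹) =
      ((v * w * v⁻¹) * u⁻¹ * (v * w * v⁻¹)⁻¹) * u
  rC2 : (v * u * v⁻¹) * ((v * w * v⁻¹) * u⁻¹ * (v * w * v⁻¹)⁻¹) =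
      ((v * w * v⁻¹) * u⁻¹ * (v * w * v⁻¹)⁻¹) * (v * u * v⁻¹)

/-- the order relations follow from the merged relator -/
theorem s3_step0 {P : Type*} [Group P] (u v w' : P) (p : ℕ) (h1 : v * v * v * u ^ p = 1)
    (h12 : u * (v * u * v⁻¹) * u⁻¹ * (v * u * v⁻¹)⁻¹ = w' * u⁻¹ * w'⁻¹)
    (h14 : (v * u * v⁻¹) * (w' * u⁻¹ * w'⁻¹) = (w' * u⁻¹ * w'⁻¹) * (v * u * v⁻¹)) :
    u ^ p = 1 ∧ v * v * v = 1 := by
  have hup : u ^ p = (v * v * v)⁻¹ := eq_inv_of_mul_eq_one_right h1
  have hvu : v * u ^ p * v⁻¹ = u ^ p := by rw [hup]; group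
  have hu2 : (v * u * v⁻¹) ^ p = u ^ p := by rw [conj_pow, hvu]
  obtain ⟨u2, hu2def⟩ : ∃ u2, u2 = v * u * v⁻¹ := ⟨_, rfl⟩
  obtain ⟨y, hydef⟩ : ∃ y, y = w' * u⁻¹ * w'⁻¹ := ⟨_, rfl⟩
  rw [← hu2def, ← hydef] at h12 h14
  rw [← hu2def] at hu2
  have e1 : u * u2 * u⁻¹ = y * u2 := by rw [← h12]; group
  have e2 : (u * u2 * u⁻¹) ^ p = u ^ p := by
    rw [conj_pow, hu2]; group
  have hc : Commute y u2 := h14.symm
  rw [e1, hc.mul_pow, hu2] at e2
  have hy : y ^ p = 1 := by
    have := congrArg (fun z => z * (u ^ p)⁻¹) e2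
    simpa using this
  have hu : u ^ p = 1 := by
    rw [hydef, conj_pow, inv_pow] at hy
    have : (u ^ p)⁻¹ = 1 := by
      calc (u ^ p)⁻¹ = w'⁻¹ * (w' * (u ^ p)⁻¹ * w'⁻¹) * w' := by group
        _ = 1 := by rw [hy]; group
    exact inv_eq_one.1 this
  refine ⟨hu, ?_⟩
  rw [hu, mul_one] at h1
  exact h1

/-- the common relators give the common relations -/
theorem pre_of_common {P : Type*} [Group P] (p : ℕ) (u h w v : P)
    (hc : ∀ r ∈ f4common p, FreeGroup.lift ![u, h, w, v] r = 1) :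
    ∃ E : S3Pre P p, E.u = u ∧ E.h = h ∧ E.w = w ∧ E.v = v := by
  have hm : ∀ r, r ∈ f4common p → FreeGroup.lift ![u, h, w, v] r = 1 := hc
  have e1 := hm (f4v * f4v * f4v * f4u ^ p) (by simp [f4common])
  have e2 := hm ((f4k⁻¹ * f4hp) * f4u * (f4k⁻¹ * f4hp)⁻¹ * f4u⁻¹) (by simp [f4common])
  have e3 := hm (f4h * f4k * f4h⁻¹ * f4k⁻¹) (by simp [f4common])
  have e4 := hm (f4h * f4v * (f4h * f4v) * (f4h * f4v)) (by simp [f4common])
  have e5 := hm (f4w * f4v⁻¹ * (f4w * f4v⁻¹)) (by simp [f4common])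
  have e6 := hm (f4w * f4h * f4w⁻¹ * f4h) (by simp [f4common])
  have e7 := hm (f4u * f4w * f4u * f4w⁻¹ * f4u * f4w⁻¹) (by simp [f4common])
  have e8 := hm (f4u * f4u2 * f4u⁻¹ * f4u2⁻¹ * f4y⁻¹) (by simp [f4common])
  have e9 := hm (f4u * f4y * f4u⁻¹ * f4y⁻¹) (by simp [f4common])
  have e10 := hm (f4u2 * f4y * f4u2⁻¹ * f4y⁻¹) (by simp [f4common])
  simp only [map_mul, map_inv, map_pow, lift4_u, lift4_h, lift4_w, lift4_v, lift4_k, lift4_hp,
    lift4_u2, lift4_y] at e1 e2 e3 e4 e5 e6 e7 e8 e9 e10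
  have e8' := mul_inv_eq_one.1 e8
  have e10' := mul_inv_eq_iff_eq_mul.1 (mul_inv_eq_one.1 e10)
  obtain ⟨hup, hv3⟩ := s3_step0 u v (v * w * v⁻¹) p e1 e8' e10'
  refine ⟨{ u := u, h := h, w := w, v := v, up := hup, v3 := hv3,
            r5 := mul_inv_eq_iff_eq_mul.1 (mul_inv_eq_one.1 e2),
            r6 := mul_inv_eq_iff_eq_mul.1 (mul_inv_eq_one.1 e3),
            r7 := e4, r8 := e5, r9 := mul_eq_one_iff_eq_inv.1 e6,
            r10 := ?_, rB := e8',
            rC1 := mul_inv_eq_iff_eq_mul.1 (mul_inv_eq_one.1 e9),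
            rC2 := e10' }, rfl, rfl, rfl, rfl⟩
  have := mul_inv_eq_one.1 e7
  calc u * (w * u * w⁻¹) * u = u * w * u * w⁻¹ * u := by group
    _ = w := this

section matrices

variable {F : Type*} [Field F]

/-- the matrices assigned to the four generators -/
def fmat (b : F) (hb0 : b ≠ 0) : Fin 4 → SpecialLinearGroup (Fin 3) F :=
  ![s3x 0 1 1, s3D b⁻¹ b 1 (by rw [inv_mul_cancel₀ hb0, mul_one]), s3W, s3V]

variable (b : F) (hb0 : b ≠ 0)

theorem fmat_u : FreeGroup.lift (fmat b hb0) f4u = s3x 0 1 1 := lift4_u _ _ _ _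

theorem fmat_h : FreeGroup.lift (fmat b hb0) f4h =
    s3D b⁻¹ b 1 (by rw [inv_mul_cancel₀ hb0, mul_one]) := lift4_h _ _ _ _

theorem fmat_w : FreeGroup.lift (fmat b hb0) f4w = s3W := lift4_w _ _ _ _

theorem fmat_v : FreeGroup.lift (fmat b hb0) f4v = s3V := lift4_v _ _ _ _

theorem fmat_k : FreeGroup.lift (fmat b hb0) f4k =
    s3D b 1 b⁻¹ (by rw [mul_one, mul_inv_cancel₀ hb0]) := by
  unfold f4k
  rw [map_mul, map_mul, map_inv, fmat_v, fmat_h]
  exact s3Vi_D_conj _ _ _ _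

theorem fmat_hp : FreeGroup.lift (fmat b hb0) f4hp =
    s3D 1 b⁻¹ b (by rw [one_mul, inv_mul_cancel₀ hb0]) := by
  unfold f4hp
  rw [map_mul, map_mul, map_inv, fmat_v, fmat_h]
  exact s3V_D_conj _ _ _ _

theorem fmat_u2 : FreeGroup.lift (fmat b hb0) f4u2 = s3x 1 2 1 := by
  unfold f4u2
  rw [map_mul, map_mul, map_inv, fmat_v, fmat_u]
  exact s3V_conj 0 1 1

theorem fmat_wp : FreeGroup.lift (fmat b hb0) f4wp =
    s3V * s3W * (s3V : SpecialLinearGroup (Fin 3) F)⁻¹ := by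
  unfold f4wp
  rw [map_mul, map_mul, map_inv, fmat_v, fmat_w]

theorem s3Wp_conj' (t : F) :
    (s3V * s3W * (s3V : SpecialLinearGroup (Fin 3) F)⁻¹) * (s3x 0 1 t)⁻¹ *
      (s3V * s3W * (s3V : SpecialLinearGroup (Fin 3) F)⁻¹)⁻¹ = s3x 0 2 t := by
  rw [s3x_inv]; exact s3Wp_conj t

theorem fmat_y : FreeGroup.lift (fmat b hb0) f4y = s3x 0 2 1 := by
  unfold f4y
  rw [map_mul, map_mul, map_inv, map_inv, fmat_wp, fmat_u]
  exact s3Wp_conj' 1

theorem s3k_conj (t : F) :
    s3D b 1 b⁻¹ (by rw [mul_one, mul_inv_cancel₀ hb0]) * s3x 0 1 t *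
      (s3D b 1 b⁻¹ (by rw [mul_one, mul_inv_cancel₀ hb0]))⁻¹ = s3x 0 1 (b * t) := by
  rw [s3D_conj01, inv_one, mul_one]

theorem s3hp_conj (t : F) :
    s3D 1 b⁻¹ b (by rw [one_mul, inv_mul_cancel₀ hb0]) * s3x 0 1 t *
      (s3D 1 b⁻¹ b (by rw [one_mul, inv_mul_cancel₀ hb0]))⁻¹ = s3x 0 1 (b * t) := by
  rw [s3D_conj01, inv_inv, one_mul]

theorem fmat_cj (t : F) (i : ℕ) :
    cj (s3D b 1 b⁻¹ (by rw [mul_one, mul_inv_cancel₀ hb0])) (s3x 0 1 t) i =
      s3x 0 1 (b ^ i * t) := by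
  have := conj_act_pow (fun t : F => s3x 0 1 t)
    (s3D b 1 b⁻¹ (by rw [mul_one, mul_inv_cancel₀ hb0])) b (s3k_conj b hb0) i t
  exact this

theorem cprod_s3x (f : ℕ → F) (n : ℕ) :
    cprod (fun i => s3x 0 1 (f i)) n = s3x 0 1 (∑ i ∈ Finset.range n, f i) := by
  induction n with
  | zero => rw [cprod_zero, Finset.sum_range_zero, s3x_zero]
  | succ n ih => rw [cprod_succ, ih, s3x_add, Finset.sum_range_succ]

theorem fmat_pw (p : ℕ) [Fact p.Prime] [Algebra (ZMod p) F] (g : (ZMod p)[X]) :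
    pw p (s3D b 1 b⁻¹ (by rw [mul_one, mul_inv_cancel₀ hb0])) (s3x 0 1 1) g =
      s3x 0 1 (aeval b g) := by
  unfold pw
  have e : ∀ i, cj (s3D b 1 b⁻¹ (by rw [mul_one, mul_inv_cancel₀ hb0])) (s3x 0 1 1) i ^
      (g.coeff i).val = s3x 0 1 (g.coeff i • b ^ i) := by
    intro i
    rw [fmat_cj b hb0, mul_one, s3x_pow]
    congr 1
    rw [← Nat.cast_smul_eq_nsmul (ZMod p), ZMod.natCast_zmod_val]
  simp only [e]
  rw [cprod_s3x, aeval_eq_sum_range]

theorem s3x_comm (i j : Fin 3) (s t : F) :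
    s3x i j s * s3x i j t * (s3x i j s)⁻¹ * (s3x i j t)⁻¹ = 1 := by
  rw [s3x_inv, s3x_inv, s3x_add, s3x_add, s3x_add,
    show s + t + -s + -t = 0 by ring, s3x_zero]

theorem s3_B1' (s t : F) :
    s3x 0 1 s * s3x 1 2 t * (s3x 0 1 s)⁻¹ * (s3x 1 2 t)⁻¹ = s3x 0 2 (s * t) := by
  rw [s3_comm_B1]; group

theorem s3_C1' (s t : F) : s3x 0 1 s * s3x 0 2 t * (s3x 0 1 s)⁻¹ * (s3x 0 2 t)⁻¹ = 1 := by
  rw [s3_comm_C1]; group

theorem s3_C2' (s t : F) : s3x 1 2 s * s3x 0 2 t * (s3x 1 2 s)⁻¹ * (s3x 0 2 t)⁻¹ = 1 := by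
  rw [s3_comm_C2]; group

theorem s3D_eq_one (x y z : F) (h : x * y * z = 1) (hx : x = 1) (hy : y = 1) (hz : z = 1) :
    s3D x y z h = 1 := by
  subst hx hy hz
  exact s3D_one

theorem s3D_comm (x y z : F) (h : x * y * z = 1) (x' y' z' : F) (h' : x' * y' * z' = 1) :
    s3D x y z h * s3D x' y' z' h' = s3D x' y' z' h' * s3D x y z h := by
  apply s3_ext
  intro a b
  simp only [s3_mul_apply, s3D_apply]
  fin_cases a <;> fin_cases b <;> simp [mul_comm]

theorem s3DV_cube (x y z : F) (h : x * y * z = 1) :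
    s3D x y z h * s3V * (s3D x y z h * s3V) * (s3D x y z h * s3V) = 1 := by
  have e1 : s3V * s3D x y z h = s3D z x y (by linear_combination h) * s3V := s3V_D x y z h
  have e2 : s3V * s3D z x y (by linear_combination h) =
      s3D y z x (by linear_combination h) * s3V := s3V_D z x y _
  calc s3D x y z h * s3V * (s3D x y z h * s3V) * (s3D x y z h * s3V)
      = s3D x y z h * (s3V * s3D x y z h) * (s3V * s3D x y z h) * s3V := by group
    _ = s3D x y z h * s3D z x y (by linear_combination h) *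
          (s3V * s3D z x y (by linear_combination h)) * s3V * s3V := by rw [e1]; group
    _ = s3D x y z h * s3D z x y (by linear_combination h) *
          s3D y z x (by linear_combination h) * (s3V * s3V * s3V) := by rw [e2]; group
    _ = 1 := by
        rw [s3V_cube, mul_one, s3D_mul, s3D_mul]
        apply s3D_eq_one
        · linear_combination h
        · linear_combination h
        · linear_combination h

theorem s3_r8 : s3W * (s3V : SpecialLinearGroup (Fin 3) F)⁻¹ * (s3W * s3V⁻¹) = 1 := by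
  have e1 : (s3V : SpecialLinearGroup (Fin 3) F)⁻¹ = s3V * s3V := by
    apply inv_eq_of_mul_eq_one_right
    rw [← mul_assoc]; exact s3V_cube
  rw [e1]
  calc (s3W : SpecialLinearGroup (Fin 3) F) * (s3V * s3V) * (s3W * (s3V * s3V))
      = (s3W * s3V * s3V * s3W) * s3V * s3V := by group
    _ = 1 := by rw [s3W_V]; exact s3V_cube

theorem s3_r10 : s3x 0 1 (1 : F) * s3W * s3x 0 1 1 * s3W⁻¹ * s3x 0 1 1 * s3W⁻¹ = 1 := by
  rw [s3_braid]
  calc (s3W : SpecialLinearGroup (Fin 3) F) * s3x 0 1 (-1) * s3W * s3W⁻¹ * s3x 0 1 1 * s3W⁻¹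
      = s3W * (s3x 0 1 (-1) * s3x 0 1 1) * s3W⁻¹ := by group
    _ = 1 := by rw [s3x_add, neg_add_cancel, s3x_zero]; group

/-- the matrices satisfy the common relators -/
theorem fmat_common (p : ℕ) [CharP F p] :
    ∀ r ∈ f4common p, FreeGroup.lift (fmat b hb0) r = 1 := by
  intro r hr
  simp only [f4common, List.mem_cons, List.mem_nil_iff, or_false] at hr
  rcases hr with rfl | rfl | rfl | rfl | rfl | rfl | rfl | rfl | rfl | rfl
  · simp only [map_mul, map_pow, fmat_v, fmat_u]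
    rw [s3V_cube, s3x_pow, nsmul_one, CharP.cast_eq_zero, s3x_zero, mul_one]
  · simp only [map_mul, map_inv, fmat_k, fmat_hp, fmat_u]
    have e1 := conj_act_inv (fun t : F => s3x 0 1 t) _ b hb0 (s3k_conj b hb0)
    have e2 := s3hp_conj b hb0 1
    rw [mul_inv_eq_one]
    calc (s3D b 1 b⁻¹ (by rw [mul_one, mul_inv_cancel₀ hb0]))⁻¹ *
          s3D 1 b⁻¹ b (by rw [one_mul, inv_mul_cancel₀ hb0]) * s3x 0 1 1 *
          ((s3D b 1 b⁻¹ (by rw [mul_one, mul_inv_cancel₀ hb0]))⁻¹ *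
            s3D 1 b⁻¹ b (by rw [one_mul, inv_mul_cancel₀ hb0]))⁻¹
        = (s3D b 1 b⁻¹ (by rw [mul_one, mul_inv_cancel₀ hb0]))⁻¹ *
          (s3D 1 b⁻¹ b (by rw [one_mul, inv_mul_cancel₀ hb0]) * s3x 0 1 1 *
            (s3D 1 b⁻¹ b (by rw [one_mul, inv_mul_cancel₀ hb0]))⁻¹) *
          s3D b 1 b⁻¹ (by rw [mul_one, mul_inv_cancel₀ hb0]) := by group
      _ = s3x 0 1 1 := by rw [e2, e1, mul_one, inv_mul_cancel₀ hb0]
  · simp only [map_mul, map_inv, fmat_k, fmat_h]
    rw [s3D_comm]; group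
  · simp only [map_mul, fmat_h, fmat_v]
    exact s3DV_cube _ _ _ _
  · simp only [map_mul, map_inv, fmat_w, fmat_v]
    exact s3_r8
  · simp only [map_mul, map_inv, fmat_w, fmat_h]
    rw [s3W_D_conj, s3D_mul]
    apply s3D_eq_one
    · exact mul_inv_cancel₀ hb0
    · exact inv_mul_cancel₀ hb0
    · exact mul_one 1
  · simp only [map_mul, map_inv, fmat_w, fmat_u]
    exact s3_r10
  · simp only [map_mul, map_inv, fmat_u, fmat_u2, fmat_y]
    rw [s3_B1', mul_one, mul_inv_cancel]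
  · simp only [map_mul, map_inv, fmat_u, fmat_y]
    exact s3_C1' 1 1
  · simp only [map_mul, map_inv, fmat_u2, fmat_y]
    exact s3_C2' 1 1

end matrices

section main

variable {F : Type*} [Field F] [Fintype F]

/-- the extra data to be produced from the extra relators -/
def S3Extra {P : Type*} [Group P] {p : ℕ} (E : S3Pre P p) (b : F) : Prop :=
  ∃ (X : F → P) (L : Set F), (∀ s t, X (s + t) = X s * X t) ∧ X 1 = E.u ∧
    (∀ t, (E.v⁻¹ * E.h * E.v) * X t * (E.v⁻¹ * E.h * E.v)⁻¹ = X (b * t)) ∧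
    (∀ Q : F → Prop, Q 0 → (∀ x y, Q x → Q y → Q (x + y)) → (∀ x, Q x → Q (-x)) →
      (∀ c ∈ L, ∀ m : ℕ, Q (c * (b ^ 3) ^ m)) → ∀ t, Q t) ∧
    (∀ c ∈ L, X c * (E.v * E.u * E.v⁻¹) * (X c)⁻¹ * (E.v * E.u * E.v⁻¹)⁻¹ =
      (E.v * E.w * E.v⁻¹) * X (-c) * (E.v * E.w * E.v⁻¹)⁻¹) ∧
    (∀ c ∈ L, X c * ((E.v * E.w * E.v⁻¹) * E.u⁻¹ * (E.v * E.w * E.v⁻¹)⁻¹) =
      ((E.v * E.w * E.v⁻¹) * E.u⁻¹ * (E.v * E.w * E.v⁻¹)⁻¹) * X c) ∧
    (∀ c ∈ L, (E.v * X c * E.v⁻¹) * ((E.v * E.w * E.v⁻¹) * E.u⁻¹ * (E.v * E.w * E.v⁻¹)⁻¹) =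
      ((E.v * E.w * E.v⁻¹) * E.u⁻¹ * (E.v * E.w * E.v⁻¹)⁻¹) * (E.v * X c * E.v⁻¹))

/-- presentation of `SL₃` from ten common relators and at most four extra ones -/
theorem s3_pres_of_extra (p : ℕ) [CharP F p] (b : F) (hb0 : b ≠ 0)
    (hb : ∀ t : F, t ≠ 0 → ∃ j : ℕ, t = b ^ j) (extra : List (FreeGroup (Fin 4)))
    (hlen : extra.length ≤ 4)
    (hψ : ∀ r ∈ extra, FreeGroup.lift (fmat b hb0) r = 1)
    (hD : ∀ (P : Type) [Group P] (E : S3Pre P p),
      (∀ r ∈ extra, FreeGroup.lift ![E.u, E.h, E.w, E.v] r = 1) → S3Extra E b) :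
    ∃ rels : Finset (FreeGroup (Fin 4)), rels.card ≤ 14 ∧
      Nonempty (PresentedGroup (↑rels : Set (FreeGroup (Fin 4))) ≃*
        SpecialLinearGroup (Fin 3) F) := by
  classical
  obtain ⟨rels, hrels⟩ : ∃ rels : Finset (FreeGroup (Fin 4)),
      rels = (f4common p ++ extra).toFinset := ⟨_, rfl⟩
  refine ⟨rels, ?_, ?_⟩
  · rw [hrels]
    refine (List.toFinset_card_le _).trans ?_
    rw [List.length_append]
    have : (f4common p).length = 10 := rfl
    omega
  have hmem : ∀ r, r ∈ (↑rels : Set (FreeGroup (Fin 4))) ↔ r ∈ f4common p ∨ r ∈ extra := by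
    intro r
    rw [hrels]
    simp
  obtain ⟨u, hu⟩ : ∃ u : PresentedGroup (↑rels : Set (FreeGroup (Fin 4))),
      u = PresentedGroup.mk _ f4u := ⟨_, rfl⟩
  obtain ⟨h, hh⟩ : ∃ u : PresentedGroup (↑rels : Set (FreeGroup (Fin 4))),
      u = PresentedGroup.mk _ f4h := ⟨_, rfl⟩
  obtain ⟨w, hw⟩ : ∃ u : PresentedGroup (↑rels : Set (FreeGroup (Fin 4))),
      u = PresentedGroup.mk _ f4w := ⟨_, rfl⟩
  obtain ⟨v, hv⟩ : ∃ u : PresentedGroup (↑rels : Set (FreeGroup (Fin 4))),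
      u = PresentedGroup.mk _ f4v := ⟨_, rfl⟩
  have hl : ∀ r ∈ (↑rels : Set (FreeGroup (Fin 4))), FreeGroup.lift ![u, h, w, v] r = 1 := by
    intro r hr
    rw [hu, hh, hw, hv, lift4_mk]
    exact PresentedGroup.one_of_mem hr
  obtain ⟨E, hEu, hEh, hEw, hEv⟩ := pre_of_common p u h w v
    (fun r hr => hl r ((hmem r).2 (Or.inl hr)))
  obtain ⟨X, L, hXadd, hX1, hXk, hspan, hB, hC1, hC2⟩ := hD _ E (by
    rw [hEu, hEh, hEw, hEv]
    exact fun r hr => hl r ((hmem r).2 (Or.inr hr)))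
  have hbi : ∀ t : F, t ≠ 0 → ∃ j : ℕ, t = (b⁻¹) ^ j := by
    intro t ht
    obtain ⟨j, hj⟩ := hb t⁻¹ (inv_ne_zero ht)
    exact ⟨j, by rw [inv_pow, ← hj, inv_inv]⟩
  have hsum := field_sum_two b⁻¹ hbi
  have hgen : Subgroup.closure {E.u, E.h, E.w, E.v} = ⊤ := by
    rw [hEu, hEh, hEw, hEv, hu, hh, hw, hv]
    exact presented_fin4_gen _
  have hf : ∀ r ∈ (↑rels : Set (FreeGroup (Fin 4))), FreeGroup.lift (fmat b hb0) r = 1 := by
    intro r hr
    rcases (hmem r).1 hr with h1 | h1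
    · exact fmat_common b hb0 p r h1
    · exact hψ r h1
  obtain ⟨ψ, hψ'⟩ : ∃ ψ : PresentedGroup (↑rels : Set (FreeGroup (Fin 4))) →*
      SpecialLinearGroup (Fin 3) F,
      ∀ x, ψ (PresentedGroup.mk _ x) = FreeGroup.lift (fmat b hb0) x :=
    ⟨PresentedGroup.toGroup hf, fun x => rfl⟩
  have hu' : ψ E.u = s3x 0 1 1 := by rw [hEu, hu, hψ', fmat_u]
  have hh' : ψ E.h = s3D b⁻¹ b 1 (by rw [inv_mul_cancel₀ hb0, mul_one]) := by
    rw [hEh, hh, hψ', fmat_h]
  have hw' : ψ E.w = s3W := by rw [hEw, hw, hψ', fmat_w]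
  have hv' : ψ E.v = s3V := by rw [hEv, hv, hψ', fmat_v]
  have key := S3Rel.core (P := PresentedGroup (↑rels : Set (FreeGroup (Fin 4)))) (F := F)
    { u := E.u, h := E.h, w := E.w, v := E.v, b := b, X := X, L := L, hb0 := hb0, hb := hb,
      hsum := hsum, hspan := hspan, Xadd := hXadd, X1 := hX1, Xk := hXk, v3 := E.v3,
      r5 := E.r5, r6 := E.r6, r7 := E.r7, r8 := E.r8, r9 := E.r9, r10 := E.r10,
      rB := hB, rC1 := hC1, rC2 := hC2 } hgen ψ hu' hh' hw' hv'
  exact ⟨MulEquiv.ofBijective ψ key⟩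

end main

end Cfsg.Agent.H8
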