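import Mathlib
import Cfsg.Agent.H8.SL3E

set_option autoImplicit false
set_option linter.unusedSimpArgs false

namespace Cfsg.Agent.H8

open Matrix Polynomial

theorem zmod2_cases : ∀ y : ZMod 2, y = 0 ∨ y = 1 := by decide

section

variable {F : Type*} [Field F] [Fintype F]

/-- `SL₃` over a finite field with other than four elements -/
theorem s3_pres_generic (p : ℕ) [Fact p.Prime] [CharP F p] [Algebra (ZMod p) F]
    (hq4 : Fintype.card F ≠ 4) :
    ∃ rels : Finset (FreeGroup (Fin 4)), rels.card ≤ 14 ∧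
      Nonempty (PresentedGroup (↑rels : Set (FreeGroup (Fin 4))) ≃*
        SpecialLinearGroup (Fin 3) F) := by
  classical
  obtain ⟨b, hb0, hb⟩ := exists_field_gen F
  have hq1 : b ^ (Fintype.card F - 1) = 1 := FiniteField.pow_card_sub_one_eq_one b hb0
  have hcard1 : 1 < Fintype.card F := Fintype.one_lt_card
  obtain ⟨K, e, hK3, hKrel⟩ : ∃ K e : ℕ, 3 ≤ K ∧ b ^ K = 1 + e • b + b ^ 2 := by
    by_cases h1b : 1 + b = 0
    · refine ⟨2 + 3 * (Fintype.card F - 1), 1, by omega, ?_⟩
      rw [pow_add, pow_mul', hq1, one_pow, mul_one, one_nsmul, h1b, zero_add]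
    · obtain ⟨m, hm⟩ := hb (1 + b) h1b
      refine ⟨2 * m + 3 * (Fintype.card F - 1), 2, by omega, ?_⟩
      calc b ^ (2 * m + 3 * (Fintype.card F - 1))
          = (b ^ m) ^ 2 * (b ^ (Fintype.card F - 1)) ^ 3 := by
            rw [pow_add, pow_mul', pow_mul']
        _ = 1 + 2 • b + b ^ 2 := by
            rw [hq1, one_pow, mul_one, ← hm, two_nsmul]; ring
  have hsurj : ∀ t : F, ∃ g : (ZMod p)[X], aeval b g = t := by
    intro t
    by_cases ht : t = 0
    · exact ⟨0, by rw [map_zero, ht]⟩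
    · obtain ⟨j, hj⟩ := hb t ht
      exact ⟨X ^ j, by rw [map_pow, aeval_X, hj]⟩
  obtain ⟨m, hm⟩ : ∃ m : (ZMod p)[X], m = minpoly (ZMod p) b := ⟨_, rfl⟩
  refine s3_pres_of_extra p b hb0 hb
    [f4u * cj f4k f4u 1 * f4u⁻¹ * (cj f4k f4u 1)⁻¹,
     f4u * cj f4k f4u 2 * f4u⁻¹ * (cj f4k f4u 2)⁻¹,
     cj f4k f4u K * (f4u * cj f4k f4u 1 ^ e * cj f4k f4u 2)⁻¹,
     pw p f4k f4u m] (by simp) ?_ ?_
  · intro r hr
    simp only [List.mem_cons, List.mem_nil_iff, or_false] at hr
    rcases hr with rfl | rfl | rfl | rfl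
    · simp only [map_mul, map_inv, map_cj, fmat_k, fmat_u]
      rw [fmat_cj b hb0]
      exact s3x_comm _ _ _ _
    · simp only [map_mul, map_inv, map_cj, fmat_k, fmat_u]
      rw [fmat_cj b hb0]
      exact s3x_comm _ _ _ _
    · simp only [map_mul, map_inv, map_pow, map_cj, fmat_k, fmat_u]
      rw [fmat_cj b hb0, fmat_cj b hb0, fmat_cj b hb0, s3x_pow, s3x_add, s3x_add,
        mul_inv_eq_one]
      congr 1
      rw [mul_one, mul_one, mul_one, pow_one, hKrel]
    · rw [map_pw, fmat_k, fmat_u, fmat_pw b hb0, hm, minpoly.aeval, s3x_zero]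
  · intro P _ E hext
    have e2 := hext _ List.mem_cons_self
    have e3 := hext _ (List.mem_cons_of_mem _ List.mem_cons_self)
    have e4 := hext _ (List.mem_cons_of_mem _ (List.mem_cons_of_mem _ List.mem_cons_self))
    have e5 := hext _ (List.mem_cons_of_mem _ (List.mem_cons_of_mem _
      (List.mem_cons_of_mem _ List.mem_cons_self)))
    simp only [map_mul, map_inv, map_pow, map_cj, map_pw, lift4_u, lift4_k] at e2 e3 e4 e5
    have e2' : Commute E.u (cj (E.v⁻¹ * E.h * E.v) E.u 1) :=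
      mul_inv_eq_iff_eq_mul.1 (mul_inv_eq_one.1 e2)
    have e3' : Commute E.u (cj (E.v⁻¹ * E.h * E.v) E.u 2) :=
      mul_inv_eq_iff_eq_mul.1 (mul_inv_eq_one.1 e3)
    have e4' := mul_inv_eq_one.1 e4
    have hcomm := cj_comm_odd (E.v⁻¹ * E.h * E.v) E.u K e hK3 e2' e3' e4'
    rw [hm] at e5
    obtain ⟨X, hXadd, hX1, hXk, -⟩ :=
      rootgroup_hom p b hsurj E.u (E.v⁻¹ * E.h * E.v) hcomm E.up e5
    refine ⟨X, {1}, hXadd, hX1, hXk, ?_, ?_, ?_, ?_⟩
    · intro Q h0 hadd hneg hL
      apply cube_span hq4 Q h0 hadd hneg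
      intro x
      by_cases hx : x = 0
      · rw [hx, zero_pow (by norm_num)]; exact h0
      · obtain ⟨j, rfl⟩ := hb x hx
        have := hL 1 rfl j
        rw [one_mul] at this
        rw [← pow_mul, mul_comm, pow_mul]
        exact this
    · intro c hc
      rw [Set.mem_singleton_iff] at hc
      subst hc
      rw [addfam_neg X hXadd, hX1]
      exact E.rB
    · intro c hc
      rw [Set.mem_singleton_iff] at hc
      subst hc
      rw [hX1]
      exact E.rC1
    · intro c hc
      rw [Set.mem_singleton_iff] at hc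
      subst hc
      rw [hX1]
      exact E.rC2

/-- `SL₃` over the field with four elements -/
theorem s3_pres_four [CharP F 2] [Algebra (ZMod 2) F] (hq : Fintype.card F = 4) :
    ∃ rels : Finset (FreeGroup (Fin 4)), rels.card ≤ 14 ∧
      Nonempty (PresentedGroup (↑rels : Set (FreeGroup (Fin 4))) ≃*
        SpecialLinearGroup (Fin 3) F) := by
  classical
  have : Fact (Nat.Prime 2) := ⟨Nat.prime_two⟩
  have h2 : (2 : F) = 0 := by
    have := CharP.cast_eq_zero F 2
    exact_mod_cast this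
  obtain ⟨b, hb0, hb⟩ := exists_field_gen F
  have hb3 : b ^ 3 = 1 := by
    have := FiniteField.pow_card_sub_one_eq_one b hb0
    rw [hq] at this
    exact this
  have hb1 : b ≠ 1 := by
    intro h1
    have hc2 : Fintype.card F = 2 := by
      rw [← Nat.card_eq_fintype_card, Nat.card_eq_two_iff]
      refine ⟨0, 1, zero_ne_one, ?_⟩
      ext t
      simp only [Set.mem_insert_iff, Set.mem_singleton_iff, Set.mem_univ, iff_true]
      by_cases ht : t = 0
      · exact Or.inl ht
      · right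
        obtain ⟨j, hj⟩ := hb t ht
        rw [hj, h1, one_pow]
    omega
  have hb2 : b ^ 2 = 1 + b := by
    have e : (b - 1) * (b ^ 2 + b + 1) = 0 := by linear_combination hb3
    rcases mul_eq_zero.1 e with h' | h'
    · exact absurd (by linear_combination h') hb1
    · linear_combination h' - (1 + b) * h2
  have hall : ∀ t : F, t = 0 ∨ t = 1 ∨ t = b ∨ t = 1 + b := by
    intro t
    by_cases ht : t = 0
    · exact Or.inl ht
    · obtain ⟨j, hj⟩ := hb t ht
      rw [hj, pow_eq_pow_mod j hb3]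
      have hj3 : j % 3 < 3 := Nat.mod_lt _ (by norm_num)
      obtain ⟨i, hi⟩ : ∃ i, i = j % 3 := ⟨_, rfl⟩
      rw [← hi] at hj3 ⊢
      interval_cases i
      · right; left; exact pow_zero b
      · right; right; left; exact pow_one b
      · right; right; right; exact hb2
  have hsurj : ∀ t : F, ∃ g : (ZMod 2)[X], aeval b g = t := by
    intro t
    by_cases ht : t = 0
    · exact ⟨0, by rw [map_zero, ht]⟩
    · obtain ⟨j, hj⟩ := hb t ht
      exact ⟨X ^ j, by rw [map_pow, aeval_X, hj]⟩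
  have hmon : (X ^ 2 + X + 1 : (ZMod 2)[X]).Monic := by monicity!
  have hdeg : (X ^ 2 + X + 1 : (ZMod 2)[X]).natDegree = 2 := by compute_degree!
  have hmp : minpoly (ZMod 2) b = X ^ 2 + X + 1 := by
    have hint : IsIntegral (ZMod 2) b := IsIntegral.of_finite (ZMod 2) b
    have hroot : aeval b (X ^ 2 + X + 1 : (ZMod 2)[X]) = 0 := by
      simp only [map_add, map_pow, aeval_X, map_one]
      linear_combination hb2 + (1 + b) * h2
    have hdvd := minpoly.dvd (ZMod 2) b hroot
    have h2le : 2 ≤ (minpoly (ZMod 2) b).natDegree := by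
      rw [minpoly.two_le_natDegree_iff hint]
      rintro ⟨x, hx⟩
      rcases zmod2_cases x with rfl | rfl
      · rw [map_zero] at hx
        exact hb0 hx.symm
      · rw [map_one] at hx
        exact hb1 hx.symm
    exact (Polynomial.eq_of_monic_of_dvd_of_natDegree_le (minpoly.monic hint) hmon hdvd
      (by rw [hdeg]; exact h2le)).symm
  have hc0 : (X ^ 2 + X + 1 : (ZMod 2)[X]).coeff 0 = 1 := by simp [coeff_X, coeff_one]
  have hc1 : (X ^ 2 + X + 1 : (ZMod 2)[X]).coeff 1 = 1 := by simp [coeff_X, coeff_one]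
  have hc2 : (X ^ 2 + X + 1 : (ZMod 2)[X]).coeff 2 = 1 := by simp [coeff_X, coeff_one]
  have hval : (1 : ZMod 2).val = 1 := rfl
  refine s3_pres_of_extra 2 b hb0 hb
    [cj f4k f4u 2 * (f4u * cj f4k f4u 1)⁻¹,
     cj f4k f4u 1 * f4u2 * (cj f4k f4u 1)⁻¹ * f4u2⁻¹ *
       (f4wp * (cj f4k f4u 1)⁻¹ * f4wp⁻¹)⁻¹,
     cj f4k f4u 1 * f4y * (cj f4k f4u 1)⁻¹ * f4y⁻¹,
     (f4v * cj f4k f4u 1 * f4v⁻¹) * f4y * (f4v * cj f4k f4u 1 * f4v⁻¹)⁻¹ * f4y⁻¹]
    (by simp) ?_ ?_
  · intro r hr
    simp only [List.mem_cons, List.mem_nil_iff, or_false] at hr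
    rcases hr with rfl | rfl | rfl | rfl
    · simp only [map_mul, map_inv, map_cj, fmat_k, fmat_u]
      rw [fmat_cj b hb0, fmat_cj b hb0, s3x_add, mul_inv_eq_one]
      congr 1
      rw [mul_one, mul_one, pow_one, hb2]
    · simp only [map_mul, map_inv, map_cj, fmat_k, fmat_u, fmat_u2, fmat_wp]
      rw [fmat_cj b hb0, pow_one, mul_one, s3Wp_conj', s3_B1', mul_one, mul_inv_cancel]
    · simp only [map_mul, map_inv, map_cj, fmat_k, fmat_u, fmat_y]
      rw [fmat_cj b hb0]
      exact s3_C1' _ _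
    · simp only [map_mul, map_inv, map_cj, fmat_k, fmat_u, fmat_v, fmat_y]
      rw [fmat_cj b hb0, s3V_conj]
      exact s3_C2' _ _
  · intro P _ E hext
    have e1 := hext _ List.mem_cons_self
    have e2 := hext _ (List.mem_cons_of_mem _ List.mem_cons_self)
    have e3 := hext _ (List.mem_cons_of_mem _ (List.mem_cons_of_mem _ List.mem_cons_self))
    have e4 := hext _ (List.mem_cons_of_mem _ (List.mem_cons_of_mem _
      (List.mem_cons_of_mem _ List.mem_cons_self)))
    simp only [map_mul, map_inv, map_pow, map_cj, lift4_u, lift4_k, lift4_u2, lift4_wp,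
      lift4_y, lift4_v] at e1 e2 e3 e4
    obtain ⟨k, hk⟩ : ∃ k, k = E.v⁻¹ * E.h * E.v := ⟨_, rfl⟩
    rw [← hk] at e1 e2 e3 e4
    have e1' := mul_inv_eq_one.1 e1
    have hcomm := cj_comm_two k E.u 2 le_rfl E.up e1'
    have huu : E.u * E.u = 1 := by rw [← pow_two]; exact E.up
    have hcc : cj k E.u 1 * cj k E.u 1 = 1 := by
      rw [cj_eq]
      calc k ^ 1 * E.u * (k ^ 1)⁻¹ * (k ^ 1 * E.u * (k ^ 1)⁻¹)
          = k ^ 1 * (E.u * E.u) * (k ^ 1)⁻¹ := by group
        _ = 1 := by rw [huu]; group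
    have hcm : E.u * cj k E.u 1 = cj k E.u 1 * E.u := by
      have := hcomm 0 1
      rwa [cj_zero] at this
    have hmin : pw 2 k E.u (minpoly (ZMod 2) b) = 1 := by
      rw [hmp]
      unfold pw
      rw [hdeg]
      simp only [cprod_succ, cprod_zero, hc0, hc1, hc2, hval, pow_one, one_mul, cj_zero]
      rw [e1']
      calc E.u * cj k E.u 1 * (E.u * cj k E.u 1)
          = E.u * (cj k E.u 1 * E.u) * cj k E.u 1 := by group
        _ = E.u * (E.u * cj k E.u 1) * cj k E.u 1 := by rw [← hcm]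
        _ = (E.u * E.u) * (cj k E.u 1 * cj k E.u 1) := by group
        _ = 1 := by rw [huu, hcc, one_mul]
    obtain ⟨X, hXadd, hX1, hXk, -⟩ := rootgroup_hom 2 b hsurj E.u k hcomm E.up hmin
    have hXb : X b = cj k E.u 1 := by
      have := hXk 1
      rw [mul_one, hX1] at this
      rw [← this, cj_eq, pow_one]
    rw [hk] at hXk
    refine ⟨X, {1, b}, hXadd, hX1, hXk, ?_, ?_, ?_, ?_⟩
    · intro Q h0 hadd hneg hL t
      have Q1 : Q 1 := by
        have := hL 1 (Set.mem_insert _ _) 0
        rwa [pow_zero, mul_one] at this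
      have Qb : Q b := by
        have := hL b (Set.mem_insert_of_mem _ rfl) 0
        rwa [pow_zero, mul_one] at this
      rcases hall t with rfl | rfl | rfl | rfl
      exacts [h0, Q1, Qb, hadd _ _ Q1 Qb]
    · intro c hc
      rcases hc with rfl | hc
      · rw [addfam_neg X hXadd, hX1]
        exact E.rB
      · rw [Set.mem_singleton_iff] at hc
        subst hc
        rw [addfam_neg X hXadd, hXb]
        exact mul_inv_eq_one.1 e2
    · intro c hc
      rcases hc with rfl | hc
      · rw [hX1]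
        exact E.rC1
      · rw [Set.mem_singleton_iff] at hc
        subst hc
        rw [hXb]
        exact mul_inv_eq_iff_eq_mul.1 (mul_inv_eq_one.1 e3)
    · intro c hc
      rcases hc with rfl | hc
      · rw [hX1]
        exact E.rC2
      · rw [Set.mem_singleton_iff] at hc
        subst hc
        rw [hXb]
        exact mul_inv_eq_iff_eq_mul.1 (mul_inv_eq_one.1 e4)

/-- `SL₃` over any finite field is presented by four generators and fourteen relators -/
theorem s3_pres (F : Type*) [Field F] [Fintype F] :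
    ∃ rels : Finset (FreeGroup (Fin 4)), rels.card ≤ 14 ∧
      Nonempty (PresentedGroup (↑rels : Set (FreeGroup (Fin 4))) ≃*
        Matrix.SpecialLinearGroup (Fin 3) F) := by
  classical
  obtain ⟨p, hp⟩ := CharP.exists F
  have hprime : p.Prime := CharP.char_is_prime F p
  have hfact : Fact p.Prime := ⟨hprime⟩
  by_cases hq : Fintype.card F = 4
  · have hd : p ∣ 2 ^ 2 := by
      have h0 : ((Fintype.card F : ℕ) : F) = 0 := Nat.cast_card_eq_zero F
      rw [hq] at h0
      exact (CharP.cast_eq_zero_iff F p 4).1 h0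
    have h2 : p = 2 := (Nat.prime_dvd_prime_iff_eq hprime Nat.prime_two).1
      (hprime.dvd_of_dvd_pow hd)
    subst h2
    exact @s3_pres_four F _ _ hp (ZMod.algebra F 2) hq
  · exact @s3_pres_generic F _ _ p hfact hp (ZMod.algebra F p) hq

end

end Cfsg.Agent.H8
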