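import Mathlib

set_option autoImplicit false
set_option linter.unusedVariables false

/-! Helper lemmas (helper8): an abstract group with root elements of type `B₂` built from two root
homomorphisms, two Weyl elements and two torus elements; Weyl equivariance and torus action. -/

namespace Cfsg.Agent.H8

/-- the data and relations -/
structure SpDat (P : Type*) [Group P] (F : Type*) [Field F] where
  ua : P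
  ub : P
  na : P
  nb : P
  h : P
  k : P
  ζ : F
  A : F → P
  B : F → P
  hζ0 : ζ ≠ 0
  hζ : ∀ t : F, t ≠ 0 → ∃ j : ℕ, t = ζ ^ j
  Aadd : ∀ s t, A s * A t = A (s + t)
  Badd : ∀ s t, B s * B t = B (s + t)
  A1 : A 1 = ua
  B1 : B 1 = ub
  kA : ∀ t, k * A t * k⁻¹ = A (ζ * t)
  hA : ∀ t, h * A t * h⁻¹ = A (ζ⁻¹ * t)
  hB : ∀ t, h * B t * h⁻¹ = B (ζ ^ 2 * t)
  kB : ∀ t, k * B t * k⁻¹ = B t
  zA : ∀ t, (na * na) * A t * (na * na)⁻¹ = A t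
  zB : ∀ t, (na * na) * B t * (na * na)⁻¹ = B t
  znb : (na * na) * nb * (na * na)⁻¹ = nb
  zh : (na * na) * h * (na * na)⁻¹ = h
  yA : ∀ t, (nb * nb) * A t * (nb * nb)⁻¹ = A (-t)
  yB : ∀ t, (nb * nb) * B t * (nb * nb)⁻¹ = B t
  W1 : (nb * nb) * na * (nb * nb)⁻¹ = na⁻¹
  braid : na * nb * na * nb = nb * na * nb * na
  m1A : ∀ t, (nb⁻¹ * na * nb) * A t * (nb⁻¹ * na * nb)⁻¹ = A (-t)
  m4B : ∀ t, (na⁻¹ * nb * na) * B t * (na⁻¹ * nb * na)⁻¹ = B t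
  kdef : k = na * h * na⁻¹
  hk : h * k = k * h
  nbh : nb * h * nb⁻¹ = h⁻¹
  nbk : nb * k * nb⁻¹ = k
  r1a : ua * (na * ua * na⁻¹) * ua = na
  r1b : ub * (nb * ub * nb⁻¹) * ub = nb
  hdef : B ζ * (nb * B ζ⁻¹ * nb⁻¹) * B ζ * nb⁻¹ = h
  C1 : ub⁻¹ * ua⁻¹ * ub * ua = (nb * ua * nb⁻¹) * (na * ub * na⁻¹)
  C2 : (nb * ua * nb⁻¹)⁻¹ * ua⁻¹ * (nb * ua * nb⁻¹) * ua = (na * ub * na⁻¹) * (na * ub * na⁻¹)
  C3 : ua * (na * ub * na⁻¹) = (na * ub * na⁻¹) * ua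
  C4 : ub * (na * ub * na⁻¹) = (na * ub * na⁻¹) * ub

namespace SpDat

variable {P : Type*} [Group P] {F : Type*} [Field F] (D : SpDat P F)

/-- the eight root homomorphisms, indexed as in the tables of type `B₂` -/
def X (r : ℕ) (t : F) : P :=
  match r with
  | 0 => D.na * (D.nb * D.B t * D.nb⁻¹) * D.na⁻¹
  | 1 => D.nb * (D.na * D.A (-t) * D.na⁻¹) * D.nb⁻¹
  | 2 => D.na * D.A (-t) * D.na⁻¹
  | 3 => D.nb * D.B (-t) * D.nb⁻¹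
  | 4 => D.B t
  | 5 => D.A t
  | 6 => D.nb * D.A t * D.nb⁻¹
  | 7 => D.na * D.B (-t) * D.na⁻¹
  | _ => 1

theorem X_ge (r : ℕ) (hr : 8 ≤ r) (t : F) : D.X r t = 1 := by
  match r, hr with
  | r + 8, _ => rfl

theorem A0 : D.A 0 = 1 := by
  have h := D.Aadd 0 0
  rw [add_zero] at h
  exact mul_left_cancel (a := D.A 0) (by rw [h, mul_one])

theorem B0 : D.B 0 = 1 := by
  have h := D.Badd 0 0
  rw [add_zero] at h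
  exact mul_left_cancel (a := D.B 0) (by rw [h, mul_one])

theorem Aneg (t : F) : D.A (-t) = (D.A t)⁻¹ := by
  symm
  apply inv_eq_of_mul_eq_one_right
  rw [D.Aadd, add_neg_cancel, D.A0]

theorem Bneg (t : F) : D.B (-t) = (D.B t)⁻¹ := by
  symm
  apply inv_eq_of_mul_eq_one_right
  rw [D.Badd, add_neg_cancel, D.B0]

/-- conjugation lemmas in a group -/
theorem cj3 {G : Type*} [Group G] (n a b : G) :
    n * (a * b) * n⁻¹ = (n * a * n⁻¹) * (n * b * n⁻¹) := by group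

theorem cjinv {G : Type*} [Group G] (n a : G) : n * a⁻¹ * n⁻¹ = (n * a * n⁻¹)⁻¹ := by group

theorem cjone {G : Type*} [Group G] (n : G) : n * 1 * n⁻¹ = 1 := by group

/-- additivity of all root homomorphisms -/
theorem Xadd (r : ℕ) (s t : F) : D.X r s * D.X r t = D.X r (s + t) := by
  match r with
  | 0 =>
    show D.na * (D.nb * D.B s * D.nb⁻¹) * D.na⁻¹ * (D.na * (D.nb * D.B t * D.nb⁻¹) * D.na⁻¹) =
      D.na * (D.nb * D.B (s + t) * D.nb⁻¹) * D.na⁻¹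
    rw [← D.Badd]; group
  | 1 =>
    show D.nb * (D.na * D.A (-s) * D.na⁻¹) * D.nb⁻¹ * (D.nb * (D.na * D.A (-t) * D.na⁻¹) * D.nb⁻¹) =
      D.nb * (D.na * D.A (-(s + t)) * D.na⁻¹) * D.nb⁻¹
    rw [neg_add, ← D.Aadd]; group
  | 2 =>
    show D.na * D.A (-s) * D.na⁻¹ * (D.na * D.A (-t) * D.na⁻¹) = D.na * D.A (-(s + t)) * D.na⁻¹
    rw [neg_add, ← D.Aadd]; group
  | 3 =>
    show D.nb * D.B (-s) * D.nb⁻¹ * (D.nb * D.B (-t) * D.nb⁻¹) = D.nb * D.B (-(s + t)) * D.nb⁻¹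
    rw [neg_add, ← D.Badd]; group
  | 4 => exact D.Badd s t
  | 5 => exact D.Aadd s t
  | 6 =>
    show D.nb * D.A s * D.nb⁻¹ * (D.nb * D.A t * D.nb⁻¹) = D.nb * D.A (s + t) * D.nb⁻¹
    rw [← D.Aadd]; group
  | 7 =>
    show D.na * D.B (-s) * D.na⁻¹ * (D.na * D.B (-t) * D.na⁻¹) = D.na * D.B (-(s + t)) * D.na⁻¹
    rw [neg_add, ← D.Badd]; group
  | r + 8 => exact mul_one 1

theorem X0' (r : ℕ) : D.X r 0 = 1 := by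
  have h := D.Xadd r 0 0
  rw [add_zero] at h
  exact mul_left_cancel (a := D.X r 0) (by rw [h, mul_one])

theorem Xneg (r : ℕ) (t : F) : D.X r (-t) = (D.X r t)⁻¹ := by
  symm
  apply inv_eq_of_mul_eq_one_right
  rw [D.Xadd, add_neg_cancel, D.X0']

theorem Xcongr (r : ℕ) {a b : F} (h : a = b) : D.X r a = D.X r b := by rw [h]

/-! ### torus and Weyl elements -/

theorem na_inv_h : D.na⁻¹ * D.h * D.na = D.k := by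
  rw [D.kdef]
  calc D.na⁻¹ * D.h * D.na = D.na⁻¹ * ((D.na * D.na) * D.h * (D.na * D.na)⁻¹) * D.na := by rw [D.zh]
    _ = D.na * D.h * D.na⁻¹ := by group

theorem na_k : D.na * D.k * D.na⁻¹ = D.h := by
  rw [D.kdef]
  calc D.na * (D.na * D.h * D.na⁻¹) * D.na⁻¹ = (D.na * D.na) * D.h * (D.na * D.na)⁻¹ := by group
    _ = D.h := D.zh

theorem na_inv_k : D.na⁻¹ * D.k * D.na = D.h := by
  rw [D.kdef]; group

theorem nb_inv_h : D.nb⁻¹ * D.h * D.nb = D.h⁻¹ := by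
  have e := D.nbh
  have e2 : D.nb⁻¹ * D.h⁻¹ * D.nb = D.h := by rw [← e]; group
  calc D.nb⁻¹ * D.h * D.nb = (D.nb⁻¹ * D.h⁻¹ * D.nb)⁻¹ := by group
    _ = D.h⁻¹ := by rw [e2]

theorem nb_inv_k : D.nb⁻¹ * D.k * D.nb = D.k := by
  have e := D.nbk
  calc D.nb⁻¹ * D.k * D.nb = D.nb⁻¹ * (D.nb * D.k * D.nb⁻¹) * D.nb := by rw [e]
    _ = D.k := by group

theorem h_inv_A (t : F) : D.h⁻¹ * D.A t * D.h = D.A (D.ζ * t) := by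
  have e := D.hA (D.ζ * t)
  rw [← mul_assoc, inv_mul_cancel₀ D.hζ0, one_mul] at e
  rw [← e]; group

/-- the square of `na` commutes with `nb` -/
theorem z_nb : (D.na * D.na) * D.nb = D.nb * (D.na * D.na) := by
  have e := D.znb
  calc (D.na * D.na) * D.nb = ((D.na * D.na) * D.nb * (D.na * D.na)⁻¹) * (D.na * D.na) := by group
    _ = D.nb * (D.na * D.na) := by rw [e]

/-! ### Weyl equivariance for `na` -/

theorem eqA5 (t : F) : D.na * D.X 5 t * D.na⁻¹ = D.X 2 (-t) := by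
  show D.na * D.A t * D.na⁻¹ = D.na * D.A (- -t) * D.na⁻¹
  rw [neg_neg]

theorem eqA2 (t : F) : D.na * D.X 2 t * D.na⁻¹ = D.X 5 (-t) := by
  show D.na * (D.na * D.A (-t) * D.na⁻¹) * D.na⁻¹ = D.A (-t)
  calc D.na * (D.na * D.A (-t) * D.na⁻¹) * D.na⁻¹ = (D.na * D.na) * D.A (-t) * (D.na * D.na)⁻¹ := by
        group
    _ = D.A (-t) := D.zA _

theorem eqA4 (t : F) : D.na * D.X 4 t * D.na⁻¹ = D.X 7 (-t) := by
  show D.na * D.B t * D.na⁻¹ = D.na * D.B (- -t) * D.na⁻¹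
  rw [neg_neg]

theorem eqA7 (t : F) : D.na * D.X 7 t * D.na⁻¹ = D.X 4 (-t) := by
  show D.na * (D.na * D.B (-t) * D.na⁻¹) * D.na⁻¹ = D.B (-t)
  calc D.na * (D.na * D.B (-t) * D.na⁻¹) * D.na⁻¹ = (D.na * D.na) * D.B (-t) * (D.na * D.na)⁻¹ := by
        group
    _ = D.B (-t) := D.zB _

theorem eqA3 (t : F) : D.na * D.X 3 t * D.na⁻¹ = D.X 0 (-t) := rfl

theorem eqA0 (t : F) : D.na * D.X 0 t * D.na⁻¹ = D.X 3 (-t) := by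
  show D.na * (D.na * (D.nb * D.B t * D.nb⁻¹) * D.na⁻¹) * D.na⁻¹ = D.nb * D.B (- -t) * D.nb⁻¹
  rw [neg_neg]
  have e := D.z_nb
  calc D.na * (D.na * (D.nb * D.B t * D.nb⁻¹) * D.na⁻¹) * D.na⁻¹
      = ((D.na * D.na) * D.nb) * D.B t * ((D.na * D.na) * D.nb)⁻¹ := by group
    _ = (D.nb * (D.na * D.na)) * D.B t * (D.nb * (D.na * D.na))⁻¹ := by rw [e]
    _ = D.nb * ((D.na * D.na) * D.B t * (D.na * D.na)⁻¹) * D.nb⁻¹ := by group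
    _ = D.nb * D.B t * D.nb⁻¹ := by rw [D.zB]

theorem eqA6 (t : F) : D.na * D.X 6 t * D.na⁻¹ = D.X 6 (-t) := by
  show D.na * (D.nb * D.A t * D.nb⁻¹) * D.na⁻¹ = D.nb * D.A (-t) * D.nb⁻¹
  calc D.na * (D.nb * D.A t * D.nb⁻¹) * D.na⁻¹
      = D.nb * ((D.nb⁻¹ * D.na * D.nb) * D.A t * (D.nb⁻¹ * D.na * D.nb)⁻¹) * D.nb⁻¹ := by group
    _ = D.nb * D.A (-t) * D.nb⁻¹ := by rw [D.m1A]

theorem m2_eq : D.na⁻¹ * D.nb⁻¹ * D.na * D.nb * D.na = D.nb * D.na * D.nb⁻¹ := by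
  have e := D.braid
  calc D.na⁻¹ * D.nb⁻¹ * D.na * D.nb * D.na
      = D.na⁻¹ * D.nb⁻¹ * (D.na * D.nb * D.na * D.nb) * D.nb⁻¹ := by group
    _ = D.na⁻¹ * D.nb⁻¹ * (D.nb * D.na * D.nb * D.na) * D.nb⁻¹ := by rw [e]
    _ = D.nb * D.na * D.nb⁻¹ := by group

theorem y_inv_A (t : F) : (D.nb * D.nb)⁻¹ * D.A t * (D.nb * D.nb) = D.A (-t) := by
  have e := D.yA (-t)
  rw [neg_neg] at e
  rw [← e]; group

theorem m3A (t : F) : (D.nb * D.na * D.nb⁻¹) * D.A t * (D.nb * D.na * D.nb⁻¹)⁻¹ = D.A (-t) := by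
  calc (D.nb * D.na * D.nb⁻¹) * D.A t * (D.nb * D.na * D.nb⁻¹)⁻¹
      = (D.nb * D.nb) * ((D.nb⁻¹ * D.na * D.nb) * ((D.nb * D.nb)⁻¹ * D.A t * (D.nb * D.nb)) *
          (D.nb⁻¹ * D.na * D.nb)⁻¹) * (D.nb * D.nb)⁻¹ := by group
    _ = (D.nb * D.nb) * ((D.nb⁻¹ * D.na * D.nb) * D.A (-t) * (D.nb⁻¹ * D.na * D.nb)⁻¹) *
          (D.nb * D.nb)⁻¹ := by rw [D.y_inv_A]
    _ = (D.nb * D.nb) * D.A (- -t) * (D.nb * D.nb)⁻¹ := by rw [D.m1A]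
    _ = D.A (- - -t) := D.yA _
    _ = D.A (-t) := by rw [neg_neg]

theorem eqA1 (t : F) : D.na * D.X 1 t * D.na⁻¹ = D.X 1 (-t) := by
  show D.na * (D.nb * (D.na * D.A (-t) * D.na⁻¹) * D.nb⁻¹) * D.na⁻¹ =
    D.nb * (D.na * D.A (- -t) * D.na⁻¹) * D.nb⁻¹
  have e := D.m2_eq
  calc D.na * (D.nb * (D.na * D.A (-t) * D.na⁻¹) * D.nb⁻¹) * D.na⁻¹
      = (D.nb * D.na) * ((D.na⁻¹ * D.nb⁻¹ * D.na * D.nb * D.na) * D.A (-t) *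
          (D.na⁻¹ * D.nb⁻¹ * D.na * D.nb * D.na)⁻¹) * (D.nb * D.na)⁻¹ := by group
    _ = (D.nb * D.na) * ((D.nb * D.na * D.nb⁻¹) * D.A (-t) * (D.nb * D.na * D.nb⁻¹)⁻¹) *
          (D.nb * D.na)⁻¹ := by rw [e]
    _ = (D.nb * D.na) * D.A (- -t) * (D.nb * D.na)⁻¹ := by rw [D.m3A]
    _ = D.nb * (D.na * D.A (- -t) * D.na⁻¹) * D.nb⁻¹ := by group

/-! ### Weyl equivariance for `nb` -/

theorem eqB5 (t : F) : D.nb * D.X 5 t * D.nb⁻¹ = D.X 6 t := rfl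

theorem eqB6 (t : F) : D.nb * D.X 6 t * D.nb⁻¹ = D.X 5 (-t) := by
  show D.nb * (D.nb * D.A t * D.nb⁻¹) * D.nb⁻¹ = D.A (-t)
  calc D.nb * (D.nb * D.A t * D.nb⁻¹) * D.nb⁻¹ = (D.nb * D.nb) * D.A t * (D.nb * D.nb)⁻¹ := by group
    _ = D.A (-t) := D.yA _

theorem eqB4 (t : F) : D.nb * D.X 4 t * D.nb⁻¹ = D.X 3 (-t) := by
  show D.nb * D.B t * D.nb⁻¹ = D.nb * D.B (- -t) * D.nb⁻¹
  rw [neg_neg]

theorem eqB3 (t : F) : D.nb * D.X 3 t * D.nb⁻¹ = D.X 4 (-t) := by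
  show D.nb * (D.nb * D.B (-t) * D.nb⁻¹) * D.nb⁻¹ = D.B (-t)
  calc D.nb * (D.nb * D.B (-t) * D.nb⁻¹) * D.nb⁻¹ = (D.nb * D.nb) * D.B (-t) * (D.nb * D.nb)⁻¹ := by
        group
    _ = D.B (-t) := D.yB _

theorem eqB2 (t : F) : D.nb * D.X 2 t * D.nb⁻¹ = D.X 1 t := rfl

theorem z_inv_A (t : F) : (D.na * D.na)⁻¹ * D.A t * (D.na * D.na) = D.A t := by
  have e := D.zA t
  calc (D.na * D.na)⁻¹ * D.A t * (D.na * D.na)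
      = (D.na * D.na)⁻¹ * ((D.na * D.na) * D.A t * (D.na * D.na)⁻¹) * (D.na * D.na) := by rw [e]
    _ = D.A t := by group

theorem eqB1 (t : F) : D.nb * D.X 1 t * D.nb⁻¹ = D.X 2 (-t) := by
  show D.nb * (D.nb * (D.na * D.A (-t) * D.na⁻¹) * D.nb⁻¹) * D.nb⁻¹ = D.na * D.A (- -t) * D.na⁻¹
  have e := D.W1
  have e' : (D.nb * D.nb) * D.na = D.na⁻¹ * (D.nb * D.nb) := by
    calc (D.nb * D.nb) * D.na = ((D.nb * D.nb) * D.na * (D.nb * D.nb)⁻¹) * (D.nb * D.nb) := by group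
      _ = D.na⁻¹ * (D.nb * D.nb) := by rw [e]
  calc D.nb * (D.nb * (D.na * D.A (-t) * D.na⁻¹) * D.nb⁻¹) * D.nb⁻¹
      = ((D.nb * D.nb) * D.na) * D.A (-t) * ((D.nb * D.nb) * D.na)⁻¹ := by group
    _ = (D.na⁻¹ * (D.nb * D.nb)) * D.A (-t) * (D.na⁻¹ * (D.nb * D.nb))⁻¹ := by rw [e']
    _ = D.na⁻¹ * ((D.nb * D.nb) * D.A (-t) * (D.nb * D.nb)⁻¹) * D.na := by group
    _ = D.na⁻¹ * D.A (- -t) * D.na := by rw [D.yA]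
    _ = D.na * ((D.na * D.na)⁻¹ * D.A (- -t) * (D.na * D.na)) * D.na⁻¹ := by group
    _ = D.na * D.A (- -t) * D.na⁻¹ := by rw [D.z_inv_A]

theorem eqB7 (t : F) : D.nb * D.X 7 t * D.nb⁻¹ = D.X 7 t := by
  show D.nb * (D.na * D.B (-t) * D.na⁻¹) * D.nb⁻¹ = D.na * D.B (-t) * D.na⁻¹
  calc D.nb * (D.na * D.B (-t) * D.na⁻¹) * D.nb⁻¹
      = D.na * ((D.na⁻¹ * D.nb * D.na) * D.B (-t) * (D.na⁻¹ * D.nb * D.na)⁻¹) * D.na⁻¹ := by group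
    _ = D.na * D.B (-t) * D.na⁻¹ := by rw [D.m4B]

theorem m5_eq : D.nb⁻¹ * D.na⁻¹ * D.nb * D.na * D.nb = D.na * D.nb * D.na⁻¹ := by
  have e := D.braid
  calc D.nb⁻¹ * D.na⁻¹ * D.nb * D.na * D.nb
      = D.nb⁻¹ * D.na⁻¹ * (D.nb * D.na * D.nb * D.na) * D.na⁻¹ := by group
    _ = D.nb⁻¹ * D.na⁻¹ * (D.na * D.nb * D.na * D.nb) * D.na⁻¹ := by rw [e]
    _ = D.na * D.nb * D.na⁻¹ := by group

theorem z_inv_B (t : F) : (D.na * D.na)⁻¹ * D.B t * (D.na * D.na) = D.B t := by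
  have e := D.zB t
  calc (D.na * D.na)⁻¹ * D.B t * (D.na * D.na)
      = (D.na * D.na)⁻¹ * ((D.na * D.na) * D.B t * (D.na * D.na)⁻¹) * (D.na * D.na) := by rw [e]
    _ = D.B t := by group

theorem m6B (t : F) : (D.na * D.nb * D.na⁻¹) * D.B t * (D.na * D.nb * D.na⁻¹)⁻¹ = D.B t := by
  calc (D.na * D.nb * D.na⁻¹) * D.B t * (D.na * D.nb * D.na⁻¹)⁻¹
      = (D.na * D.na) * ((D.na⁻¹ * D.nb * D.na) * ((D.na * D.na)⁻¹ * D.B t * (D.na * D.na)) *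
          (D.na⁻¹ * D.nb * D.na)⁻¹) * (D.na * D.na)⁻¹ := by group
    _ = (D.na * D.na) * ((D.na⁻¹ * D.nb * D.na) * D.B t * (D.na⁻¹ * D.nb * D.na)⁻¹) *
          (D.na * D.na)⁻¹ := by rw [D.z_inv_B]
    _ = (D.na * D.na) * D.B t * (D.na * D.na)⁻¹ := by rw [D.m4B]
    _ = D.B t := D.zB t

theorem eqB0 (t : F) : D.nb * D.X 0 t * D.nb⁻¹ = D.X 0 t := by
  show D.nb * (D.na * (D.nb * D.B t * D.nb⁻¹) * D.na⁻¹) * D.nb⁻¹ =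
    D.na * (D.nb * D.B t * D.nb⁻¹) * D.na⁻¹
  have e := D.m5_eq
  calc D.nb * (D.na * (D.nb * D.B t * D.nb⁻¹) * D.na⁻¹) * D.nb⁻¹
      = (D.na * D.nb) * ((D.nb⁻¹ * D.na⁻¹ * D.nb * D.na * D.nb) * D.B t *
          (D.nb⁻¹ * D.na⁻¹ * D.nb * D.na * D.nb)⁻¹) * (D.na * D.nb)⁻¹ := by group
    _ = (D.na * D.nb) * ((D.na * D.nb * D.na⁻¹) * D.B t * (D.na * D.nb * D.na⁻¹)⁻¹) *
          (D.na * D.nb)⁻¹ := by rw [e]
    _ = (D.na * D.nb) * D.B t * (D.na * D.nb)⁻¹ := by rw [D.m6B]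
    _ = D.na * (D.nb * D.B t * D.nb⁻¹) * D.na⁻¹ := by group

/-! ### torus action on the positive root homomorphisms -/

theorem kX5 (t : F) : D.k * D.X 5 t * D.k⁻¹ = D.X 5 (D.ζ * t) := D.kA t

theorem hiX5 (t : F) : D.h⁻¹ * D.X 5 t * D.h⁻¹⁻¹ = D.X 5 (D.ζ * t) := by
  rw [inv_inv]; exact D.h_inv_A t

theorem hX4 (t : F) : D.h * D.X 4 t * D.h⁻¹ = D.X 4 (D.ζ ^ 2 * t) := D.hB t

theorem kX4 (t : F) : D.k * D.X 4 t * D.k⁻¹ = D.X 4 t := D.kB t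

theorem kX6 (t : F) : D.k * D.X 6 t * D.k⁻¹ = D.X 6 (D.ζ * t) := by
  show D.k * (D.nb * D.A t * D.nb⁻¹) * D.k⁻¹ = D.nb * D.A (D.ζ * t) * D.nb⁻¹
  calc D.k * (D.nb * D.A t * D.nb⁻¹) * D.k⁻¹
      = D.nb * ((D.nb⁻¹ * D.k * D.nb) * D.A t * (D.nb⁻¹ * D.k * D.nb)⁻¹) * D.nb⁻¹ := by group
    _ = D.nb * (D.k * D.A t * D.k⁻¹) * D.nb⁻¹ := by rw [D.nb_inv_k]
    _ = D.nb * D.A (D.ζ * t) * D.nb⁻¹ := by rw [D.kA]

theorem hX6 (t : F) : D.h * D.X 6 t * D.h⁻¹ = D.X 6 (D.ζ * t) := by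
  show D.h * (D.nb * D.A t * D.nb⁻¹) * D.h⁻¹ = D.nb * D.A (D.ζ * t) * D.nb⁻¹
  calc D.h * (D.nb * D.A t * D.nb⁻¹) * D.h⁻¹
      = D.nb * ((D.nb⁻¹ * D.h * D.nb) * D.A t * (D.nb⁻¹ * D.h * D.nb)⁻¹) * D.nb⁻¹ := by group
    _ = D.nb * (D.h⁻¹ * D.A t * D.h⁻¹⁻¹) * D.nb⁻¹ := by rw [D.nb_inv_h]
    _ = D.nb * (D.h⁻¹ * D.A t * D.h) * D.nb⁻¹ := by rw [inv_inv]
    _ = D.nb * D.A (D.ζ * t) * D.nb⁻¹ := by rw [D.h_inv_A]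

theorem hiX6 (t : F) : D.h⁻¹ * D.X 6 (D.ζ * t) * D.h⁻¹⁻¹ = D.X 6 t := by
  rw [← D.hX6]; group

theorem kX7 (t : F) : D.k * D.X 7 t * D.k⁻¹ = D.X 7 (D.ζ ^ 2 * t) := by
  show D.k * (D.na * D.B (-t) * D.na⁻¹) * D.k⁻¹ = D.na * D.B (-(D.ζ ^ 2 * t)) * D.na⁻¹
  calc D.k * (D.na * D.B (-t) * D.na⁻¹) * D.k⁻¹
      = D.na * ((D.na⁻¹ * D.k * D.na) * D.B (-t) * (D.na⁻¹ * D.k * D.na)⁻¹) * D.na⁻¹ := by group
    _ = D.na * (D.h * D.B (-t) * D.h⁻¹) * D.na⁻¹ := by rw [D.na_inv_k]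
    _ = D.na * D.B (D.ζ ^ 2 * -t) * D.na⁻¹ := by rw [D.hB]
    _ = D.na * D.B (-(D.ζ ^ 2 * t)) * D.na⁻¹ := by rw [mul_neg]

theorem hX7 (t : F) : D.h * D.X 7 t * D.h⁻¹ = D.X 7 t := by
  show D.h * (D.na * D.B (-t) * D.na⁻¹) * D.h⁻¹ = D.na * D.B (-t) * D.na⁻¹
  calc D.h * (D.na * D.B (-t) * D.na⁻¹) * D.h⁻¹
      = D.na * ((D.na⁻¹ * D.h * D.na) * D.B (-t) * (D.na⁻¹ * D.h * D.na)⁻¹) * D.na⁻¹ := by group
    _ = D.na * (D.k * D.B (-t) * D.k⁻¹) * D.na⁻¹ := by rw [D.na_inv_h]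
    _ = D.na * D.B (-t) * D.na⁻¹ := by rw [D.kB]

theorem hiX7 (t : F) : D.h⁻¹ * D.X 7 t * D.h⁻¹⁻¹ = D.X 7 t := by
  have e := D.hX7 t
  calc D.h⁻¹ * D.X 7 t * D.h⁻¹⁻¹ = D.h⁻¹ * (D.h * D.X 7 t * D.h⁻¹) * D.h⁻¹⁻¹ := by rw [e]
    _ = D.X 7 t := by group

end SpDat

end Cfsg.Agent.H8
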