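import Cfsg.Agent.H8.SpPrA
import Cfsg.Agent.H8.PSL2C

set_option autoImplicit false
set_option linter.unusedVariables false
set_option linter.unusedSectionVars false

/-! Helper lemmas (helper8): from the relations at the generators to the relations among the
positive root elements for all parameters. -/

namespace Cfsg.Agent.H8

theorem cjrel3 {G : Type*} [Group G] (g : G) {a b c d : G} (h : a⁻¹ * b * a = c * d) :
    (g * a * g⁻¹)⁻¹ * (g * b * g⁻¹) * (g * a * g⁻¹) = (g * c * g⁻¹) * (g * d * g⁻¹) := by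
  calc (g * a * g⁻¹)⁻¹ * (g * b * g⁻¹) * (g * a * g⁻¹) = g * (a⁻¹ * b * a) * g⁻¹ := by group
    _ = g * (c * d) * g⁻¹ := by rw [h]
    _ = _ := by group

theorem cjrel4 {G : Type*} [Group G] (g : G) {a b c d e : G} (h : a⁻¹ * b * a = c * d * e) :
    (g * a * g⁻¹)⁻¹ * (g * b * g⁻¹) * (g * a * g⁻¹) =
      (g * c * g⁻¹) * (g * d * g⁻¹) * (g * e * g⁻¹) := by
  calc (g * a * g⁻¹)⁻¹ * (g * b * g⁻¹) * (g * a * g⁻¹) = g * (a⁻¹ * b * a) * g⁻¹ := by group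
    _ = g * (c * d * e) * g⁻¹ := by rw [h]
    _ = _ := by group

namespace SpDat

variable {P : Type*} [Group P] {F : Type*} [Field F] (D : SpDat P F)

theorem X5_one : D.X 5 1 = D.ua := D.A1

theorem X4_one : D.X 4 1 = D.ub := D.B1

theorem X7_neg_one : D.X 7 (-1) = D.na * D.ub * D.na⁻¹ := by
  show D.na * D.B (- -1) * D.na⁻¹ = _
  rw [neg_neg, D.B1]

theorem X6_one : D.X 6 1 = D.nb * D.ua * D.nb⁻¹ := by
  show D.nb * D.A 1 * D.nb⁻¹ = _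
  rw [D.A1]

theorem pow_span (Q : F → Prop) (h0 : Q 0) (hp : ∀ j : ℕ, Q (D.ζ ^ j)) : ∀ t, Q t := by
  intro t
  by_cases ht : t = 0
  · rw [ht]; exact h0
  · obtain ⟨j, rfl⟩ := D.hζ t ht
    exact hp j

theorem hX5' (t : F) : D.h * D.X 5 (D.ζ * t) * D.h⁻¹ = D.X 5 t := by
  have := D.hA (D.ζ * t)
  rw [← mul_assoc, inv_mul_cancel₀ D.hζ0, one_mul] at this
  exact this

section fin

variable [Fintype F]

theorem sq_span (Q : F → Prop) (h0 : Q 0) (hadd : ∀ x y, Q x → Q y → Q (x + y))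
    (hsq : ∀ j : ℕ, Q ((D.ζ ^ 2) ^ j)) : ∀ t, Q t := by
  intro t
  obtain ⟨s1, s2, rfl, h1, h2⟩ := field_sum_two D.ζ D.hζ t
  apply hadd
  · rcases h1 with rfl | ⟨j, rfl⟩
    · exact h0
    · exact hsq j
  · rcases h2 with rfl | ⟨j, rfl⟩
    · exact h0
    · exact hsq j

theorem comm57_a (t : F) : Commute (D.X 5 t) (D.X 7 (-1)) := by
  refine D.pow_span (fun t => Commute (D.X 5 t) (D.X 7 (-1))) ?_ ?_ t
  · show Commute (D.X 5 0) (D.X 7 (-1))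
    rw [D.X0']; exact Commute.one_left _
  · intro j
    show Commute (D.X 5 (D.ζ ^ j)) (D.X 7 (-1))
    induction j with
    | zero =>
      rw [pow_zero, D.X5_one, D.X7_neg_one]
      exact D.C3
    | succ j ih =>
      have e := (Commute.conj_iff D.h⁻¹).2 ih
      rw [D.hiX5, D.hiX7] at e
      rw [pow_succ']
      exact e

theorem comm57 (t u : F) : Commute (D.X 5 t) (D.X 7 u) := by
  have key : ∀ x : F, ∀ t : F, Commute (D.X 5 t) (D.X 7 (-x)) := by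
    refine D.sq_span (fun x => ∀ t : F, Commute (D.X 5 t) (D.X 7 (-x))) ?_ ?_ ?_
    · intro t
      show Commute (D.X 5 t) (D.X 7 (-0))
      rw [neg_zero, D.X0']; exact Commute.one_right _
    · intro x y hx hy t
      show Commute (D.X 5 t) (D.X 7 (-(x + y)))
      rw [neg_add, ← D.Xadd]
      exact (hx t).mul_right (hy t)
    · intro j
      induction j with
      | zero =>
        intro t
        show Commute (D.X 5 t) (D.X 7 (-(D.ζ ^ 2) ^ 0))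
        rw [pow_zero]; exact D.comm57_a t
      | succ j ih =>
        intro t
        show Commute (D.X 5 t) (D.X 7 (-(D.ζ ^ 2) ^ (j + 1)))
        have e := (Commute.conj_iff D.k).2 (ih (D.ζ⁻¹ * t))
        rw [D.kX5, D.kX7] at e
        rw [D.Xcongr 5 (show D.ζ * (D.ζ⁻¹ * t) = t by
            rw [← mul_assoc, mul_inv_cancel₀ D.hζ0, one_mul]),
          D.Xcongr 7 (show D.ζ ^ 2 * -(D.ζ ^ 2) ^ j = -(D.ζ ^ 2) ^ (j + 1) by ring)] at e
        exact e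
  have := key (-u) t
  rwa [neg_neg] at this

theorem comm47_a (s : F) : Commute (D.X 4 s) (D.X 7 (-1)) := by
  refine D.sq_span (fun s => Commute (D.X 4 s) (D.X 7 (-1))) ?_ ?_ ?_ s
  · show Commute (D.X 4 0) (D.X 7 (-1))
    rw [D.X0']; exact Commute.one_left _
  · intro x y hx hy
    show Commute (D.X 4 (x + y)) (D.X 7 (-1))
    rw [← D.Xadd]; exact Commute.mul_left hx hy
  · intro j
    show Commute (D.X 4 ((D.ζ ^ 2) ^ j)) (D.X 7 (-1))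
    induction j with
    | zero =>
      rw [pow_zero, D.X4_one, D.X7_neg_one]
      exact D.C4
    | succ j ih =>
      have e := (Commute.conj_iff D.h).2 ih
      rw [D.hX4, D.hX7] at e
      rw [pow_succ']
      exact e

theorem comm47 (s u : F) : Commute (D.X 4 s) (D.X 7 u) := by
  have key : ∀ x : F, ∀ s : F, Commute (D.X 4 s) (D.X 7 (-x)) := by
    refine D.sq_span (fun x => ∀ s : F, Commute (D.X 4 s) (D.X 7 (-x))) ?_ ?_ ?_
    · intro s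
      show Commute (D.X 4 s) (D.X 7 (-0))
      rw [neg_zero, D.X0']; exact Commute.one_right _
    · intro x y hx hy s
      show Commute (D.X 4 s) (D.X 7 (-(x + y)))
      rw [neg_add, ← D.Xadd]
      exact (hx s).mul_right (hy s)
    · intro j
      induction j with
      | zero =>
        intro s
        show Commute (D.X 4 s) (D.X 7 (-(D.ζ ^ 2) ^ 0))
        rw [pow_zero]; exact D.comm47_a s
      | succ j ih =>
        intro s
        show Commute (D.X 4 s) (D.X 7 (-(D.ζ ^ 2) ^ (j + 1)))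
        have e := (Commute.conj_iff D.k).2 (ih s)
        rw [D.kX4, D.kX7] at e
        rw [D.Xcongr 7 (show D.ζ ^ 2 * -(D.ζ ^ 2) ^ j = -(D.ζ ^ 2) ^ (j + 1) by ring)] at e
        exact e
  have := key (-u) s
  rwa [neg_neg] at this

theorem comm67 (s u : F) : Commute (D.X 6 s) (D.X 7 u) := by
  have e := (Commute.conj_iff D.nb).2 (D.comm57 s u)
  rw [D.eqB5, D.eqB7] at e
  exact e

theorem comm64 (s u : F) : Commute (D.X 6 s) (D.X 4 u) := by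
  have e := (Commute.conj_iff D.na).2 (D.comm67 (-s) (-u))
  rw [D.eqA6, D.eqA7, neg_neg, neg_neg] at e
  exact e

/-- the relation between the two short positive root elements -/
def R56 (t u : F) : Prop :=
  (D.X 5 t)⁻¹ * D.X 6 u * D.X 5 t = D.X 6 u * D.X 7 (-(2 * t * u))

theorem R56_base : D.R56 1 1 := by
  unfold R56
  have e := D.C2
  rw [← D.X6_one, ← D.X7_neg_one, ← D.X5_one, D.Xadd] at e
  rw [D.Xcongr 7 (show -(2 * 1 * 1) = (-1 : F) + -1 by ring), ← e]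
  group

theorem R56_k {t u : F} (h : D.R56 t u) : D.R56 (D.ζ * t) (D.ζ * u) := by
  unfold R56 at h ⊢
  have e := cjrel3 D.k h
  rw [D.kX5, D.kX6, D.kX7] at e
  rw [e, D.Xcongr 7 (show D.ζ ^ 2 * -(2 * t * u) = -(2 * (D.ζ * t) * (D.ζ * u)) by ring)]

theorem R56_h {t u : F} (h : D.R56 (D.ζ * t) u) : D.R56 t (D.ζ * u) := by
  unfold R56 at h ⊢
  have e := cjrel3 D.h h
  rw [D.hX5', D.hX6, D.hX7] at e
  rw [e, D.Xcongr 7 (show -(2 * (D.ζ * t) * u) = -(2 * t * (D.ζ * u)) by ring)]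

theorem R56_hi {t u : F} (h : D.R56 t (D.ζ * u)) : D.R56 (D.ζ * t) u := by
  unfold R56 at h ⊢
  have e := cjrel3 D.h⁻¹ h
  rw [D.hiX5, D.hiX6, D.hiX7] at e
  rw [e, D.Xcongr 7 (show -(2 * t * (D.ζ * u)) = -(2 * (D.ζ * t) * u) by ring)]

theorem R56_sq {t u : F} (h : D.R56 t u) : D.R56 t (D.ζ ^ 2 * u) := by
  have := D.R56_h (D.R56_k h)
  rwa [show D.ζ * (D.ζ * u) = D.ζ ^ 2 * u by ring] at this

theorem R56_zero (t : F) : D.R56 t 0 := by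
  unfold R56
  rw [D.X0', D.Xcongr 7 (show -(2 * t * 0) = (0 : F) by ring), D.X0']; group

theorem R56_add {t x y : F} (hx : D.R56 t x) (hy : D.R56 t y) : D.R56 t (x + y) := by
  unfold R56 at *
  have c : D.X 7 (-(2 * t * x)) * D.X 6 y = D.X 6 y * D.X 7 (-(2 * t * x)) :=
    (D.comm67 y (-(2 * t * x))).eq.symm
  calc (D.X 5 t)⁻¹ * D.X 6 (x + y) * D.X 5 t
      = ((D.X 5 t)⁻¹ * D.X 6 x * D.X 5 t) * ((D.X 5 t)⁻¹ * D.X 6 y * D.X 5 t) := by
        rw [← D.Xadd]; group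
    _ = (D.X 6 x * D.X 7 (-(2 * t * x))) * (D.X 6 y * D.X 7 (-(2 * t * y))) := by rw [hx, hy]
    _ = D.X 6 x * (D.X 7 (-(2 * t * x)) * D.X 6 y) * D.X 7 (-(2 * t * y)) := by group
    _ = D.X 6 x * (D.X 6 y * D.X 7 (-(2 * t * x))) * D.X 7 (-(2 * t * y)) := by rw [c]
    _ = (D.X 6 x * D.X 6 y) * (D.X 7 (-(2 * t * x)) * D.X 7 (-(2 * t * y))) := by group
    _ = D.X 6 (x + y) * D.X 7 (-(2 * t * (x + y))) := by
        rw [D.Xadd, D.Xadd,
          D.Xcongr 7 (show -(2 * t * x) + -(2 * t * y) = -(2 * t * (x + y)) by ring)]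

theorem R56_one (u : F) : D.R56 1 u := by
  refine D.sq_span (fun u => D.R56 1 u) (D.R56_zero 1) (fun x y hx hy => D.R56_add hx hy) ?_ u
  intro j
  show D.R56 1 ((D.ζ ^ 2) ^ j)
  induction j with
  | zero => rw [pow_zero]; exact D.R56_base
  | succ j ih => rw [pow_succ']; exact D.R56_sq ih

theorem R56_all (t u : F) : D.R56 t u := by
  refine D.pow_span (fun t => ∀ u, D.R56 t u) ?_ ?_ t u
  · intro u
    show D.R56 0 u
    unfold R56
    rw [D.X0', D.Xcongr 7 (show -(2 * 0 * u) = (0 : F) by ring), D.X0']; group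
  · intro j
    induction j with
    | zero =>
      intro u
      show D.R56 (D.ζ ^ 0) u
      rw [pow_zero]; exact D.R56_one u
    | succ j ih =>
      intro u
      show D.R56 (D.ζ ^ (j + 1)) u
      rw [pow_succ']
      exact D.R56_hi (ih (D.ζ * u))

/-- the relation between the short and the long fundamental root elements -/
def R54 (t u : F) : Prop :=
  (D.X 5 t)⁻¹ * D.X 4 u * D.X 5 t = D.X 4 u * D.X 6 (t * u) * D.X 7 (-(t ^ 2 * u))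

theorem R54_base : D.R54 1 1 := by
  unfold R54
  have e := D.C1
  rw [← D.X6_one, ← D.X7_neg_one, ← D.X5_one, ← D.X4_one] at e
  rw [D.Xcongr 6 (show (1 : F) * 1 = 1 by ring),
    D.Xcongr 7 (show -((1 : F) ^ 2 * 1) = -1 by ring), mul_assoc (D.X 4 1), ← e]
  group

theorem R54_k {t u : F} (h : D.R54 t u) : D.R54 (D.ζ * t) u := by
  unfold R54 at h ⊢
  have e := cjrel4 D.k h
  rw [D.kX5, D.kX4, D.kX6, D.kX7] at e
  rw [e, D.Xcongr 6 (show D.ζ * (t * u) = D.ζ * t * u by ring),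
    D.Xcongr 7 (show D.ζ ^ 2 * -(t ^ 2 * u) = -((D.ζ * t) ^ 2 * u) by ring)]

theorem R54_h {t u : F} (h : D.R54 (D.ζ * t) u) : D.R54 t (D.ζ ^ 2 * u) := by
  unfold R54 at h ⊢
  have e := cjrel4 D.h h
  rw [D.hX5', D.hX4, D.hX6, D.hX7] at e
  rw [e, D.Xcongr 6 (show D.ζ * (D.ζ * t * u) = t * (D.ζ ^ 2 * u) by ring),
    D.Xcongr 7 (show -((D.ζ * t) ^ 2 * u) = -(t ^ 2 * (D.ζ ^ 2 * u)) by ring)]

theorem R54_sq {t u : F} (h : D.R54 t u) : D.R54 t (D.ζ ^ 2 * u) := D.R54_h (D.R54_k h)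

theorem R54_zero (t : F) : D.R54 t 0 := by
  unfold R54
  rw [D.X0', D.Xcongr 6 (show t * 0 = (0 : F) by ring), D.X0',
    D.Xcongr 7 (show -(t ^ 2 * 0) = (0 : F) by ring), D.X0']; group

theorem R54_add {t x y : F} (hx : D.R54 t x) (hy : D.R54 t y) : D.R54 t (x + y) := by
  unfold R54 at *
  have c1 : D.X 6 (t * x) * D.X 4 y = D.X 4 y * D.X 6 (t * x) := (D.comm64 (t * x) y).eq
  have c2 : D.X 7 (-(t ^ 2 * x)) * D.X 4 y = D.X 4 y * D.X 7 (-(t ^ 2 * x)) :=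
    (D.comm47 y (-(t ^ 2 * x))).eq.symm
  have c3 : D.X 7 (-(t ^ 2 * x)) * D.X 6 (t * y) = D.X 6 (t * y) * D.X 7 (-(t ^ 2 * x)) :=
    (D.comm67 (t * y) (-(t ^ 2 * x))).eq.symm
  calc (D.X 5 t)⁻¹ * D.X 4 (x + y) * D.X 5 t
      = ((D.X 5 t)⁻¹ * D.X 4 x * D.X 5 t) * ((D.X 5 t)⁻¹ * D.X 4 y * D.X 5 t) := by
        rw [← D.Xadd]; group
    _ = (D.X 4 x * D.X 6 (t * x) * D.X 7 (-(t ^ 2 * x))) *
          (D.X 4 y * D.X 6 (t * y) * D.X 7 (-(t ^ 2 * y))) := by rw [hx, hy]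
    _ = D.X 4 x * D.X 6 (t * x) * (D.X 7 (-(t ^ 2 * x)) * D.X 4 y) * D.X 6 (t * y) *
          D.X 7 (-(t ^ 2 * y)) := by group
    _ = D.X 4 x * D.X 6 (t * x) * (D.X 4 y * D.X 7 (-(t ^ 2 * x))) * D.X 6 (t * y) *
          D.X 7 (-(t ^ 2 * y)) := by rw [c2]
    _ = D.X 4 x * (D.X 6 (t * x) * D.X 4 y) * (D.X 7 (-(t ^ 2 * x)) * D.X 6 (t * y)) *
          D.X 7 (-(t ^ 2 * y)) := by group
    _ = D.X 4 x * (D.X 4 y * D.X 6 (t * x)) * (D.X 6 (t * y) * D.X 7 (-(t ^ 2 * x))) *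
          D.X 7 (-(t ^ 2 * y)) := by rw [c1, c3]
    _ = (D.X 4 x * D.X 4 y) * (D.X 6 (t * x) * D.X 6 (t * y)) *
          (D.X 7 (-(t ^ 2 * x)) * D.X 7 (-(t ^ 2 * y))) := by group
    _ = D.X 4 (x + y) * D.X 6 (t * (x + y)) * D.X 7 (-(t ^ 2 * (x + y))) := by
        rw [D.Xadd, D.Xadd, D.Xadd, D.Xcongr 6 (show t * x + t * y = t * (x + y) by ring),
          D.Xcongr 7 (show -(t ^ 2 * x) + -(t ^ 2 * y) = -(t ^ 2 * (x + y)) by ring)]

theorem R54_one (u : F) : D.R54 1 u := by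
  refine D.sq_span (fun u => D.R54 1 u) (D.R54_zero 1) (fun x y hx hy => D.R54_add hx hy) ?_ u
  intro j
  show D.R54 1 ((D.ζ ^ 2) ^ j)
  induction j with
  | zero => rw [pow_zero]; exact D.R54_base
  | succ j ih => rw [pow_succ']; exact D.R54_sq ih

theorem R54_all (t u : F) : D.R54 t u := by
  refine D.pow_span (fun t => ∀ u, D.R54 t u) ?_ ?_ t u
  · intro u
    show D.R54 0 u
    unfold R54
    rw [D.X0', D.Xcongr 6 (show 0 * u = (0 : F) by ring), D.X0',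
      D.Xcongr 7 (show -((0 : F) ^ 2 * u) = 0 by ring), D.X0']; group
  · intro j
    induction j with
    | zero =>
      intro u
      show D.R54 (D.ζ ^ 0) u
      rw [pow_zero]; exact D.R54_one u
    | succ j ih =>
      intro u
      show D.R54 (D.ζ ^ (j + 1)) u
      rw [pow_succ']
      exact D.R54_k (ih u)

/-! ### the relations among the positive root elements in table form -/

theorem comm_form {G : Type*} [Group G] {a b : G} (h : Commute a b) : b⁻¹ * a⁻¹ * b * a = 1 := by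
  have := h.eq
  calc b⁻¹ * a⁻¹ * b * a = b⁻¹ * a⁻¹ * (b * a) := by group
    _ = b⁻¹ * a⁻¹ * (a * b) := by rw [this]
    _ = 1 := by group

theorem cr_54 (t u : F) : (D.X 4 u)⁻¹ * (D.X 5 t)⁻¹ * D.X 4 u * D.X 5 t =
    D.X 6 ((-1 : F) * (-t) ^ 1 * u ^ 1) * D.X 7 ((-1 : F) * (-t) ^ 2 * u ^ 1) := by
  have e := D.R54_all t u
  unfold R54 at e
  rw [D.Xcongr 6 (show (-1 : F) * (-t) ^ 1 * u ^ 1 = t * u by ring),
    D.Xcongr 7 (show (-1 : F) * (-t) ^ 2 * u ^ 1 = -(t ^ 2 * u) by ring)]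
  calc (D.X 4 u)⁻¹ * (D.X 5 t)⁻¹ * D.X 4 u * D.X 5 t
      = (D.X 4 u)⁻¹ * ((D.X 5 t)⁻¹ * D.X 4 u * D.X 5 t) := by group
    _ = D.X 6 (t * u) * D.X 7 (-(t ^ 2 * u)) := by rw [e]; group

theorem cr_45 (t u : F) : (D.X 5 u)⁻¹ * (D.X 4 t)⁻¹ * D.X 5 u * D.X 4 t =
    D.X 6 ((1 : F) * (-t) ^ 1 * u ^ 1) * D.X 7 ((-1 : F) * (-t) ^ 1 * u ^ 2) := by
  have e := D.R54_all u t
  unfold R54 at e
  have c := (D.comm67 (u * t) (-(u ^ 2 * t))).eq
  rw [D.Xcongr 6 (show (1 : F) * (-t) ^ 1 * u ^ 1 = -(u * t) by ring),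
    D.Xcongr 7 (show (-1 : F) * (-t) ^ 1 * u ^ 2 = -(-(u ^ 2 * t)) by ring), D.Xneg, D.Xneg]
  calc (D.X 5 u)⁻¹ * (D.X 4 t)⁻¹ * D.X 5 u * D.X 4 t
      = ((D.X 5 u)⁻¹ * D.X 4 t * D.X 5 u)⁻¹ * D.X 4 t := by group
    _ = (D.X 6 (u * t) * D.X 7 (-(u ^ 2 * t)))⁻¹ := by rw [e]; group
    _ = (D.X 7 (-(u ^ 2 * t)) * D.X 6 (u * t))⁻¹ := by rw [c]
    _ = (D.X 6 (u * t))⁻¹ * (D.X 7 (-(u ^ 2 * t)))⁻¹ := by group

theorem cr_56 (t u : F) : (D.X 6 u)⁻¹ * (D.X 5 t)⁻¹ * D.X 6 u * D.X 5 t =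
    D.X 7 ((2 : F) * (-t) ^ 1 * u ^ 1) := by
  have e := D.R56_all t u
  unfold R56 at e
  rw [D.Xcongr 7 (show (2 : F) * (-t) ^ 1 * u ^ 1 = -(2 * t * u) by ring)]
  calc (D.X 6 u)⁻¹ * (D.X 5 t)⁻¹ * D.X 6 u * D.X 5 t
      = (D.X 6 u)⁻¹ * ((D.X 5 t)⁻¹ * D.X 6 u * D.X 5 t) := by group
    _ = D.X 7 (-(2 * t * u)) := by rw [e]; group

theorem cr_65 (t u : F) : (D.X 5 u)⁻¹ * (D.X 6 t)⁻¹ * D.X 5 u * D.X 6 t =
    D.X 7 ((-2 : F) * (-t) ^ 1 * u ^ 1) := by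
  have e := D.R56_all u t
  unfold R56 at e
  rw [D.Xcongr 7 (show (-2 : F) * (-t) ^ 1 * u ^ 1 = -(-(2 * u * t)) by ring), D.Xneg]
  calc (D.X 5 u)⁻¹ * (D.X 6 t)⁻¹ * D.X 5 u * D.X 6 t
      = ((D.X 5 u)⁻¹ * D.X 6 t * D.X 5 u)⁻¹ * D.X 6 t := by group
    _ = (D.X 7 (-(2 * u * t)))⁻¹ := by rw [e]; group

theorem cr_46 (t u : F) : (D.X 6 u)⁻¹ * (D.X 4 t)⁻¹ * D.X 6 u * D.X 4 t = 1 :=
  comm_form (D.comm64 u t).symm

theorem cr_64 (t u : F) : (D.X 4 u)⁻¹ * (D.X 6 t)⁻¹ * D.X 4 u * D.X 6 t = 1 :=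
  comm_form (D.comm64 t u)

theorem cr_47 (t u : F) : (D.X 7 u)⁻¹ * (D.X 4 t)⁻¹ * D.X 7 u * D.X 4 t = 1 :=
  comm_form (D.comm47 t u)

theorem cr_74 (t u : F) : (D.X 4 u)⁻¹ * (D.X 7 t)⁻¹ * D.X 4 u * D.X 7 t = 1 :=
  comm_form (D.comm47 u t).symm

theorem cr_57 (t u : F) : (D.X 7 u)⁻¹ * (D.X 5 t)⁻¹ * D.X 7 u * D.X 5 t = 1 :=
  comm_form (D.comm57 t u)

theorem cr_75 (t u : F) : (D.X 5 u)⁻¹ * (D.X 7 t)⁻¹ * D.X 5 u * D.X 7 t = 1 :=
  comm_form (D.comm57 u t).symm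

theorem cr_67 (t u : F) : (D.X 7 u)⁻¹ * (D.X 6 t)⁻¹ * D.X 7 u * D.X 6 t = 1 :=
  comm_form (D.comm67 t u)

theorem cr_76 (t u : F) : (D.X 6 u)⁻¹ * (D.X 7 t)⁻¹ * D.X 6 u * D.X 7 t = 1 :=
  comm_form (D.comm67 u t).symm

end fin

end SpDat

end Cfsg.Agent.H8
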