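import Cfsg.Agent.H8.SpStC

set_option autoImplicit false
set_option linter.unusedSimpArgs false
set_option linter.unusedVariables false
set_option linter.unusedTactic false
set_option linter.unreachableTactic false
set_option linter.unnecessarySeqFocus false
set_option maxHeartbeats 1000000

/-! Helper lemmas (helper8): `Sp_4(F)` over a finite field is presented by the Steinberg relators
(R1), (R2) of type `B₂`. -/

namespace Cfsg.Agent.H8

open Matrix Cfsg.Lie Cfsg.Agent.H17 Cfsg.Agent.H23 Cfsg.Agent.H46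

variable {F : Type*} [Field F]

/-- the generators of the presented group go to the root elements -/
def genSp (p : Fin chevB2.nroots × F) : Sp4 F := gS p.1.val p.2

theorem lift_genSp_stX (r : ℕ) (t : F) : FreeGroup.lift genSp (chevB2.stX r t) = gS r t := by
  unfold ChevalleyDatum.stX
  by_cases h : r < chevB2.nroots
  · rw [dif_pos h, FreeGroup.lift_apply_of]; rfl
  · rw [dif_neg h, map_one]
    have h8 : ¬ r < 8 := h
    unfold gS
    rw [dif_neg h8]

theorem lift_genSp_stWord (w : List (ℕ × F)) :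
    FreeGroup.lift genSp (chevB2.stWord w) = wordB gS w := by
  unfold ChevalleyDatum.stWord wordB
  rw [map_list_prod, List.map_map]
  congr 1
  apply List.map_congr_left
  intro p _
  exact lift_genSp_stX p.1 p.2

theorem genSp_rels : ∀ g ∈ chevB2.steinbergRelsAB F, FreeGroup.lift genSp g = 1 := by
  rintro g (⟨r, t₁, t₂, hr, rfl⟩ | ⟨r, s, t, u, hr, hs, h1, h2, rfl⟩)
  · rw [map_mul, map_mul, map_inv, lift_genSp_stX, lift_genSp_stX, lift_genSp_stX, gS_add,
      mul_inv_cancel]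
  · rw [map_mul, map_mul, map_mul, map_mul, map_inv, map_inv, map_inv, lift_genSp_stX,
      lift_genSp_stX, lift_genSp_stWord, mul_inv_eq_one]
    exact gS_comm r s t u hr hs h1 h2

/-- the homomorphism from the presented group onto `Sp_4(F)` -/
def spPi : chevB2.SteinbergCover F →* Sp4 F := PresentedGroup.toGroup genSp_rels

theorem spPi_mk (w : FreeGroup (Fin chevB2.nroots × F)) :
    spPi (PresentedGroup.mk _ w) = FreeGroup.lift genSp w := rfl

theorem spPi_surj : Function.Surjective (spPi (F := F)) := by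
  rw [← MonoidHom.range_eq_top, eq_top_iff, ← b2E_top, b2E, Subgroup.closure_le]
  rintro g ⟨r, t, rfl⟩
  refine ⟨PresentedGroup.mk _ (chevB2.stX r t), ?_⟩
  rw [spPi_mk, lift_genSp_stX, gS_of_lt r r.isLt]

/-- the adjoint action, with values in the Chevalley group -/
def spAd : Sp4 F →* ↥(chevB2.group F) :=
  (b2hom (F := F)).codRestrict (chevB2.group F) (fun g => by
    rw [chevB2_group_eq]; exact ⟨g, rfl⟩)

/-- the composite onto the Chevalley group -/
def spTheta : chevB2.SteinbergCover F →* ↥(chevB2.group F) := spAd.comp spPi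

theorem spTheta_gen (r : ℕ) (t : F) (hr : r < chevB2.nroots) :
    ((spTheta (PresentedGroup.mk (chevB2.steinbergRelsAB F) (chevB2.stX r t)) :
      GL chevB2.Idx F) : Matrix chevB2.Idx chevB2.Idx F) = chevB2.x F r t := by
  show ((b2hom (spPi (PresentedGroup.mk _ (chevB2.stX r t))) :
      Matrix.GeneralLinearGroup IB2 F) : Matrix IB2 IB2 F) = _
  rw [spPi_mk, lift_genSp_stX, gS_of_lt r hr, b2hom_b2uS]
  unfold ChevalleyDatum.x
  rw [dif_pos hr]
  exact (b2X_eq _ t).symm

/-- the torus element of the short fundamental root -/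
def hS5 (a : F) : Sp4 F :=
  gS 5 a * gS 2 (-a⁻¹) * gS 5 a * (gS 5 (-1) * gS 2 (-(-1 : F)⁻¹) * gS 5 (-1))

/-- the torus element of the long fundamental root -/
def hS4 (a : F) : Sp4 F :=
  gS 4 a * gS 3 (-a⁻¹) * gS 4 a * (gS 4 (-1) * gS 3 (-(-1 : F)⁻¹) * gS 4 (-1))

theorem hS5_coe (a : F) (ha : a ≠ 0) : ((hS5 a : Sp4 F) : Matrix I4 I4 F) =
    Matrix.fromBlocks (Matrix.diagonal ![a, a⁻¹]) 0 0 (Matrix.diagonal ![a⁻¹, a]) := by
  show b2u5 a * b2u2 (-a⁻¹) * b2u5 a * (b2u5 (-1) * b2u2 (-(-1 : F)⁻¹) * b2u5 (-1)) = _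
  apply i4_ext
  intro i j
  fin_cases i <;> fin_cases j <;>
    simp [b2u2, b2u5, Matrix.mul_apply, Fintype.sum_sum_type, Fin.sum_univ_two,
      Matrix.one_apply, Matrix.diagonal_apply] <;>
    (try field_simp) <;> (try ring) <;> (try simp)

theorem hS4_coe (a : F) (ha : a ≠ 0) : ((hS4 a : Sp4 F) : Matrix I4 I4 F) =
    Matrix.fromBlocks (Matrix.diagonal ![1, a]) 0 0 (Matrix.diagonal ![1, a⁻¹]) := by
  show b2u4 a * b2u3 (-a⁻¹) * b2u4 a * (b2u4 (-1) * b2u3 (-(-1 : F)⁻¹) * b2u4 (-1)) = _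
  apply i4_ext
  intro i j
  fin_cases i <;> fin_cases j <;>
    simp [b2u3, b2u4, Matrix.mul_apply, Fintype.sum_sum_type, Fin.sum_univ_two,
      Matrix.one_apply, Matrix.diagonal_apply] <;>
    (try field_simp) <;> (try ring) <;> (try simp)

theorem torus_inj (a b : F) (ha : a ≠ 0) (hb : b ≠ 0) (h : hS5 a * hS4 b = 1) :
    a = 1 ∧ b = 1 := by
  have h' : ((hS5 a : Sp4 F) : Matrix I4 I4 F) * ((hS4 b : Sp4 F) : Matrix I4 I4 F) = 1 :=
    congrArg Subtype.val h
  rw [hS5_coe a ha, hS4_coe b hb] at h'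
  have e1 := congrFun (congrFun h' (.inl 0)) (.inl 0)
  have e2 := congrFun (congrFun h' (.inl 1)) (.inl 1)
  simp [Matrix.mul_apply, Fintype.sum_sum_type, Fin.sum_univ_two, Matrix.one_apply,
    Matrix.diagonal_apply] at e1 e2
  refine ⟨e1, ?_⟩
  rw [e1] at e2
  simpa using e2

theorem chevB2_simple0 : chevB2.simple 0 = 5 := by decide
theorem chevB2_simple1 : chevB2.simple 1 = 4 := by decide
theorem chevB2_neg5 : chevB2.neg 5 = 2 := by decide
theorem chevB2_neg4 : chevB2.neg 4 = 3 := by decide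

theorem spPi_inj [Finite F] : Function.Injective (spPi (F := F)) := by
  rw [injective_iff_map_eq_one]
  intro k hk
  have hRA : ∀ (r : ℕ) (t₁ t₂ : F), r < chevB2.nroots →
      chevB2.stX r t₁ * chevB2.stX r t₂ * (chevB2.stX r (t₁ + t₂))⁻¹ ∈
        chevB2.steinbergRelsAB F := fun r t₁ t₂ hr => Or.inl ⟨r, t₁, t₂, hr, rfl⟩
  have hRB : ∀ (r s : ℕ) (t u : F), r < chevB2.nroots → s < chevB2.nroots → s ≠ r →
      s ≠ chevB2.neg r →
      (chevB2.stX s u)⁻¹ * (chevB2.stX r t)⁻¹ * chevB2.stX s u * chevB2.stX r t *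
        (chevB2.stWord (chevB2.commWord F r s t u))⁻¹ ∈ chevB2.steinbergRelsAB F :=
    fun r s t u hr hs h1 h2 => Or.inr ⟨r, s, t, u, hr, hs, h1, h2, rfl⟩
  obtain ⟨C, hCxb, hCπ⟩ : ∃ C : StCtx chevB2 F (chevB2.SteinbergCover F) (zR chevB2 ctblB2)
      (fun i s => etaBit (etaB2.getD i 0) s),
      C.xb = xbP chevB2 (chevB2.steinbergRelsAB F) ∧
      C.π = (chevB2.group F).subtype.comp spTheta :=
    ⟨ctxP (chevB2.steinbergRelsAB F) hRA hRB spSt_tab (spSt_pack F) (spSt_semV F) spTheta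
      spTheta_gen, rfl, rfl⟩
  have hk' : C.π k = 1 := by
    rw [hCπ]
    show (chevB2.group F).subtype (spAd (spPi k)) = 1
    rw [hk, map_one, map_one]
  have hgen : Subgroup.closure {g | ∃ (r : ℕ) (t : F), r < chevB2.nroots ∧ g = C.xb r t} = ⊤ := by
    rw [hCxb]; exact closure_xbP _
  obtain ⟨hkH, -⟩ := ker_mem C hgen k hk'
  have h3 : R3 C := by
    intro i hi t₁ t₂ h₁ h₂
    exact R3_root C (chevB2.simple i) (C.hP.tab.simple_lt i hi) t₁ t₂ h₁ h₂
  obtain ⟨f, hf, rfl⟩ := exists_prodB h3 k hkH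
  have e : prodB C chevB2.rank f = hB C 0 (f 0) * hB C 1 (f 1) := by
    show (1 * hB C 0 (f 0)) * hB C 1 (f 1) = _
    rw [one_mul]
  rw [e] at hk ⊢
  rw [map_mul] at hk
  have key : ∀ (i r : ℕ) (a : F), chevB2.simple i = r →
      spPi (hB C i a) = gS r a * gS (chevB2.neg r) (-a⁻¹) * gS r a *
        (gS r (-1) * gS (chevB2.neg r) (-(-1 : F)⁻¹) * gS r (-1)) := by
    intro i r a hir
    unfold hB nB
    rw [hCxb, hir]
    unfold xbP
    simp only [map_mul, spPi_mk, lift_genSp_stX]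
  have h0 : spPi (hB C 0 (f 0)) = hS5 (f 0) := by
    rw [key 0 5 (f 0) chevB2_simple0, chevB2_neg5]; rfl
  have h1 : spPi (hB C 1 (f 1)) = hS4 (f 1) := by
    rw [key 1 4 (f 1) chevB2_simple1, chevB2_neg4]; rfl
  rw [h0, h1] at hk
  obtain ⟨e0, e1⟩ := torus_inj (f 0) (f 1) (hf 0) (hf 1) hk
  rw [e0, e1, hB_one h3 0 (by decide), hB_one h3 1 (by decide), mul_one]

/-- `Sp_4(F)` is presented by the Steinberg relators (R1), (R2) -/
noncomputable def spPiEquiv [Finite F] : chevB2.SteinbergCover F ≃* Sp4 F :=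
  MulEquiv.ofBijective spPi ⟨spPi_inj, spPi_surj⟩

/-- the Steinberg presentation of `Sp_4(F)`: root elements satisfying (R1), (R2) in a group give a
homomorphism from `Sp_4(F)` -/
theorem sp4_steinberg [Finite F] {P : Type*} [Group P] (X : ℕ → F → P)
    (hX : ∀ r, 8 ≤ r → ∀ t, X r t = 1)
    (hA : ∀ r < 8, ∀ s t : F, X r s * X r t = X r (s + t))
    (hB : ∀ r < 8, ∀ s < 8, s ≠ r → s ≠ chevB2.neg r → ∀ t u : F,
      (X s u)⁻¹ * (X r t)⁻¹ * X s u * X r t = wordB X (chevB2.commWord F r s t u)) :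
    ∃ φ : Sp4 F →* P, ∀ r < 8, ∀ t, φ (gS r t) = X r t := by
  have hl : ∀ (r : ℕ) (t : F), FreeGroup.lift (fun p : Fin chevB2.nroots × F => X p.1.val p.2)
      (chevB2.stX r t) = X r t := by
    intro r t
    unfold ChevalleyDatum.stX
    by_cases h : r < chevB2.nroots
    · rw [dif_pos h, FreeGroup.lift_apply_of]
    · rw [dif_neg h, map_one]
      exact (hX r (not_lt.1 h) t).symm
  have hw : ∀ w : List (ℕ × F), FreeGroup.lift (fun p : Fin chevB2.nroots × F => X p.1.val p.2)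
      (chevB2.stWord w) = wordB X w := by
    intro w
    unfold ChevalleyDatum.stWord wordB
    rw [map_list_prod, List.map_map]
    congr 1
    apply List.map_congr_left
    intro p _
    exact hl p.1 p.2
  have hrel : ∀ g ∈ chevB2.steinbergRelsAB F,
      FreeGroup.lift (fun p : Fin chevB2.nroots × F => X p.1.val p.2) g = 1 := by
    rintro g (⟨r, t₁, t₂, hr, rfl⟩ | ⟨r, s, t, u, hr, hs, h1, h2, rfl⟩)
    · rw [map_mul, map_mul, map_inv, hl, hl, hl, hA r hr, mul_inv_cancel]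
    · rw [map_mul, map_mul, map_mul, map_mul, map_inv, map_inv, map_inv, hl, hl, hw,
        mul_inv_eq_one]
      exact hB r hr s hs h1 h2 t u
  refine ⟨(PresentedGroup.toGroup hrel).comp (spPiEquiv (F := F)).symm.toMonoidHom, ?_⟩
  intro r hr t
  have e : gS r t = spPiEquiv (PresentedGroup.mk _ (chevB2.stX r t)) := by
    show gS r t = spPi (PresentedGroup.mk _ (chevB2.stX r t))
    rw [spPi_mk, lift_genSp_stX]
  rw [e]
  show PresentedGroup.toGroup hrel ((spPiEquiv (F := F)).symm (spPiEquiv _)) = _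
  rw [MulEquiv.symm_apply_apply]
  show FreeGroup.lift _ (chevB2.stX r t) = _
  exact hl r t

end Cfsg.Agent.H8
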