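import Cfsg.Agent.H8.SpPrB
import Cfsg.Agent.H8.SpStD

set_option autoImplicit false
set_option linter.unusedVariables false
set_option linter.unusedSectionVars false
set_option linter.unusedSimpArgs false
set_option linter.unusedTactic false
set_option linter.unreachableTactic false
set_option linter.unnecessarySeqFocus false
set_option maxHeartbeats 1000000

/-! Helper lemmas (helper8): the relations among all root elements by transport with the Weyl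
elements, and the homomorphism from `Sp_4(F)`. -/

namespace Cfsg.Agent.H8

open Matrix Cfsg.Lie Cfsg.Agent.H17 Cfsg.Agent.H23 Cfsg.Agent.H46

theorem tr2 {G : Type*} [Group G] (n : G) {a b c d : G} (h : b⁻¹ * a⁻¹ * b * a = c * d) :
    (n * b * n⁻¹)⁻¹ * (n * a * n⁻¹)⁻¹ * (n * b * n⁻¹) * (n * a * n⁻¹) =
      (n * c * n⁻¹) * (n * d * n⁻¹) := by
  calc (n * b * n⁻¹)⁻¹ * (n * a * n⁻¹)⁻¹ * (n * b * n⁻¹) * (n * a * n⁻¹)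
      = n * (b⁻¹ * a⁻¹ * b * a) * n⁻¹ := by group
    _ = n * (c * d) * n⁻¹ := by rw [h]
    _ = _ := by group

theorem tr1 {G : Type*} [Group G] (n : G) {a b c : G} (h : b⁻¹ * a⁻¹ * b * a = c) :
    (n * b * n⁻¹)⁻¹ * (n * a * n⁻¹)⁻¹ * (n * b * n⁻¹) * (n * a * n⁻¹) = n * c * n⁻¹ := by
  calc (n * b * n⁻¹)⁻¹ * (n * a * n⁻¹)⁻¹ * (n * b * n⁻¹) * (n * a * n⁻¹)
      = n * (b⁻¹ * a⁻¹ * b * a) * n⁻¹ := by group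
    _ = n * c * n⁻¹ := by rw [h]

theorem tr0 {G : Type*} [Group G] (n : G) {a b : G} (h : b⁻¹ * a⁻¹ * b * a = 1) :
    (n * b * n⁻¹)⁻¹ * (n * a * n⁻¹)⁻¹ * (n * b * n⁻¹) * (n * a * n⁻¹) = 1 := by
  calc (n * b * n⁻¹)⁻¹ * (n * a * n⁻¹)⁻¹ * (n * b * n⁻¹) * (n * a * n⁻¹)
      = n * (b⁻¹ * a⁻¹ * b * a) * n⁻¹ := by group
    _ = 1 := by rw [h]; group

namespace SpDat

variable {P : Type*} [Group P] {F : Type*} [Field F] [Fintype F] (D : SpDat P F)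

theorem cr_72 (t u : F) : (D.X 2 u)⁻¹ * (D.X 7 t)⁻¹ * D.X 2 u * D.X 7 t =
    D.X 6 ((-1 : F) * (-t) ^ 1 * u ^ 1) * D.X 4 ((-1 : F) * (-t) ^ 1 * u ^ 2) := by
  have a1 : D.X 2 u = D.na * D.X 5 (-u) * D.na⁻¹ := by
    rw [D.eqA5] <;> exact D.Xcongr _ (by ring)
  have a2 : D.X 7 t = D.na * D.X 4 (-t) * D.na⁻¹ := by
    rw [D.eqA4] <;> exact D.Xcongr _ (by ring)
  have b0 : D.X 6 ((-1 : F) * (-t) ^ 1 * u ^ 1) = D.na * D.X 6 ((1 : F) * (-(-t)) ^ 1 * (-u) ^ 1) * D.na⁻¹ := by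
    rw [D.eqA6] <;> exact D.Xcongr _ (by ring)
  have b1 : D.X 4 ((-1 : F) * (-t) ^ 1 * u ^ 2) = D.na * D.X 7 ((-1 : F) * (-(-t)) ^ 1 * (-u) ^ 2) * D.na⁻¹ := by
    rw [D.eqA7] <;> exact D.Xcongr _ (by ring)
  rw [a1, a2, b0, b1]
  exact tr2 D.na (D.cr_45 (-t) (-u))

theorem cr_36 (t u : F) : (D.X 6 u)⁻¹ * (D.X 3 t)⁻¹ * D.X 6 u * D.X 3 t =
    D.X 5 ((1 : F) * (-t) ^ 1 * u ^ 1) * D.X 7 ((1 : F) * (-t) ^ 1 * u ^ 2) := by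
  have a1 : D.X 6 u = D.nb * D.X 5 u * D.nb⁻¹ := by
    rw [D.eqB5] <;> exact D.Xcongr _ (by ring)
  have a2 : D.X 3 t = D.nb * D.X 4 (-t) * D.nb⁻¹ := by
    rw [D.eqB4] <;> exact D.Xcongr _ (by ring)
  have b0 : D.X 5 ((1 : F) * (-t) ^ 1 * u ^ 1) = D.nb * D.X 6 ((1 : F) * (-(-t)) ^ 1 * u ^ 1) * D.nb⁻¹ := by
    rw [D.eqB6] <;> exact D.Xcongr _ (by ring)
  have b1 : D.X 7 ((1 : F) * (-t) ^ 1 * u ^ 2) = D.nb * D.X 7 ((-1 : F) * (-(-t)) ^ 1 * u ^ 2) * D.nb⁻¹ := by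
    rw [D.eqB7] <;> exact D.Xcongr _ (by ring)
  rw [a1, a2, b0, b1]
  exact tr2 D.nb (D.cr_45 (-t) u)

theorem cr_27 (t u : F) : (D.X 7 u)⁻¹ * (D.X 2 t)⁻¹ * D.X 7 u * D.X 2 t =
    D.X 6 ((1 : F) * (-t) ^ 1 * u ^ 1) * D.X 4 ((-1 : F) * (-t) ^ 2 * u ^ 1) := by
  have a1 : D.X 7 u = D.na * D.X 4 (-u) * D.na⁻¹ := by
    rw [D.eqA4] <;> exact D.Xcongr _ (by ring)
  have a2 : D.X 2 t = D.na * D.X 5 (-t) * D.na⁻¹ := by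
    rw [D.eqA5] <;> exact D.Xcongr _ (by ring)
  have b0 : D.X 6 ((1 : F) * (-t) ^ 1 * u ^ 1) = D.na * D.X 6 ((-1 : F) * (-(-t)) ^ 1 * (-u) ^ 1) * D.na⁻¹ := by
    rw [D.eqA6] <;> exact D.Xcongr _ (by ring)
  have b1 : D.X 4 ((-1 : F) * (-t) ^ 2 * u ^ 1) = D.na * D.X 7 ((-1 : F) * (-(-t)) ^ 2 * (-u) ^ 1) * D.na⁻¹ := by
    rw [D.eqA7] <;> exact D.Xcongr _ (by ring)
  rw [a1, a2, b0, b1]
  exact tr2 D.na (D.cr_54 (-t) (-u))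

theorem cr_63 (t u : F) : (D.X 3 u)⁻¹ * (D.X 6 t)⁻¹ * D.X 3 u * D.X 6 t =
    D.X 5 ((-1 : F) * (-t) ^ 1 * u ^ 1) * D.X 7 ((1 : F) * (-t) ^ 2 * u ^ 1) := by
  have a1 : D.X 3 u = D.nb * D.X 4 (-u) * D.nb⁻¹ := by
    rw [D.eqB4] <;> exact D.Xcongr _ (by ring)
  have a2 : D.X 6 t = D.nb * D.X 5 t * D.nb⁻¹ := by
    rw [D.eqB5] <;> exact D.Xcongr _ (by ring)
  have b0 : D.X 5 ((-1 : F) * (-t) ^ 1 * u ^ 1) = D.nb * D.X 6 ((-1 : F) * (-t) ^ 1 * (-u) ^ 1) * D.nb⁻¹ := by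
    rw [D.eqB6] <;> exact D.Xcongr _ (by ring)
  have b1 : D.X 7 ((1 : F) * (-t) ^ 2 * u ^ 1) = D.nb * D.X 7 ((-1 : F) * (-t) ^ 2 * (-u) ^ 1) * D.nb⁻¹ := by
    rw [D.eqB7] <;> exact D.Xcongr _ (by ring)
  rw [a1, a2, b0, b1]
  exact tr2 D.nb (D.cr_54 t (-u))

theorem cr_26 (t u : F) : (D.X 6 u)⁻¹ * (D.X 2 t)⁻¹ * D.X 6 u * D.X 2 t =
    D.X 4 ((-2 : F) * (-t) ^ 1 * u ^ 1) := by
  have a1 : D.X 6 u = D.na * D.X 6 (-u) * D.na⁻¹ := by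
    rw [D.eqA6] <;> exact D.Xcongr _ (by ring)
  have a2 : D.X 2 t = D.na * D.X 5 (-t) * D.na⁻¹ := by
    rw [D.eqA5] <;> exact D.Xcongr _ (by ring)
  have b0 : D.X 4 ((-2 : F) * (-t) ^ 1 * u ^ 1) = D.na * D.X 7 ((2 : F) * (-(-t)) ^ 1 * (-u) ^ 1) * D.na⁻¹ := by
    rw [D.eqA7] <;> exact D.Xcongr _ (by ring)
  rw [a1, a2, b0]
  exact tr1 D.na (D.cr_56 (-t) (-u))

theorem cr_62 (t u : F) : (D.X 2 u)⁻¹ * (D.X 6 t)⁻¹ * D.X 2 u * D.X 6 t =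
    D.X 4 ((2 : F) * (-t) ^ 1 * u ^ 1) := by
  have a1 : D.X 2 u = D.na * D.X 5 (-u) * D.na⁻¹ := by
    rw [D.eqA5] <;> exact D.Xcongr _ (by ring)
  have a2 : D.X 6 t = D.na * D.X 6 (-t) * D.na⁻¹ := by
    rw [D.eqA6] <;> exact D.Xcongr _ (by ring)
  have b0 : D.X 4 ((2 : F) * (-t) ^ 1 * u ^ 1) = D.na * D.X 7 ((-2 : F) * (-(-t)) ^ 1 * (-u) ^ 1) * D.na⁻¹ := by
    rw [D.eqA7] <;> exact D.Xcongr _ (by ring)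
  rw [a1, a2, b0]
  exact tr1 D.na (D.cr_65 (-t) (-u))

theorem cr_35 (t u : F) : (D.X 5 u)⁻¹ * (D.X 3 t)⁻¹ * D.X 5 u * D.X 3 t =
    1 := by
  have a1 : D.X 5 u = D.nb * D.X 6 (-u) * D.nb⁻¹ := by
    rw [D.eqB6] <;> exact D.Xcongr _ (by ring)
  have a2 : D.X 3 t = D.nb * D.X 4 (-t) * D.nb⁻¹ := by
    rw [D.eqB4] <;> exact D.Xcongr _ (by ring)
  rw [a1, a2]
  exact tr0 D.nb (D.cr_46 (-t) (-u))

theorem cr_53 (t u : F) : (D.X 3 u)⁻¹ * (D.X 5 t)⁻¹ * D.X 3 u * D.X 5 t =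
    1 := by
  have a1 : D.X 3 u = D.nb * D.X 4 (-u) * D.nb⁻¹ := by
    rw [D.eqB4] <;> exact D.Xcongr _ (by ring)
  have a2 : D.X 5 t = D.nb * D.X 6 (-t) * D.nb⁻¹ := by
    rw [D.eqB6] <;> exact D.Xcongr _ (by ring)
  rw [a1, a2]
  exact tr0 D.nb (D.cr_64 (-t) (-u))

theorem cr_37 (t u : F) : (D.X 7 u)⁻¹ * (D.X 3 t)⁻¹ * D.X 7 u * D.X 3 t =
    1 := by
  have a1 : D.X 7 u = D.nb * D.X 7 u * D.nb⁻¹ := by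
    rw [D.eqB7] <;> exact D.Xcongr _ (by ring)
  have a2 : D.X 3 t = D.nb * D.X 4 (-t) * D.nb⁻¹ := by
    rw [D.eqB4] <;> exact D.Xcongr _ (by ring)
  rw [a1, a2]
  exact tr0 D.nb (D.cr_47 (-t) u)

theorem cr_73 (t u : F) : (D.X 3 u)⁻¹ * (D.X 7 t)⁻¹ * D.X 3 u * D.X 7 t =
    1 := by
  have a1 : D.X 3 u = D.nb * D.X 4 (-u) * D.nb⁻¹ := by
    rw [D.eqB4] <;> exact D.Xcongr _ (by ring)
  have a2 : D.X 7 t = D.nb * D.X 7 t * D.nb⁻¹ := by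
    rw [D.eqB7] <;> exact D.Xcongr _ (by ring)
  rw [a1, a2]
  exact tr0 D.nb (D.cr_74 t (-u))

theorem cr_24 (t u : F) : (D.X 4 u)⁻¹ * (D.X 2 t)⁻¹ * D.X 4 u * D.X 2 t =
    1 := by
  have a1 : D.X 4 u = D.na * D.X 7 (-u) * D.na⁻¹ := by
    rw [D.eqA7] <;> exact D.Xcongr _ (by ring)
  have a2 : D.X 2 t = D.na * D.X 5 (-t) * D.na⁻¹ := by
    rw [D.eqA5] <;> exact D.Xcongr _ (by ring)
  rw [a1, a2]
  exact tr0 D.na (D.cr_57 (-t) (-u))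

theorem cr_42 (t u : F) : (D.X 2 u)⁻¹ * (D.X 4 t)⁻¹ * D.X 2 u * D.X 4 t =
    1 := by
  have a1 : D.X 2 u = D.na * D.X 5 (-u) * D.na⁻¹ := by
    rw [D.eqA5] <;> exact D.Xcongr _ (by ring)
  have a2 : D.X 4 t = D.na * D.X 7 (-t) * D.na⁻¹ := by
    rw [D.eqA7] <;> exact D.Xcongr _ (by ring)
  rw [a1, a2]
  exact tr0 D.na (D.cr_75 (-t) (-u))

theorem cr_71 (t u : F) : (D.X 1 u)⁻¹ * (D.X 7 t)⁻¹ * D.X 1 u * D.X 7 t =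
    D.X 5 ((1 : F) * (-t) ^ 1 * u ^ 1) * D.X 3 ((1 : F) * (-t) ^ 1 * u ^ 2) := by
  have a1 : D.X 1 u = D.nb * D.X 2 u * D.nb⁻¹ := by
    rw [D.eqB2] <;> exact D.Xcongr _ (by ring)
  have a2 : D.X 7 t = D.nb * D.X 7 t * D.nb⁻¹ := by
    rw [D.eqB7] <;> exact D.Xcongr _ (by ring)
  have b0 : D.X 5 ((1 : F) * (-t) ^ 1 * u ^ 1) = D.nb * D.X 6 ((-1 : F) * (-t) ^ 1 * u ^ 1) * D.nb⁻¹ := by
    rw [D.eqB6] <;> exact D.Xcongr _ (by ring)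
  have b1 : D.X 3 ((1 : F) * (-t) ^ 1 * u ^ 2) = D.nb * D.X 4 ((-1 : F) * (-t) ^ 1 * u ^ 2) * D.nb⁻¹ := by
    rw [D.eqB4] <;> exact D.Xcongr _ (by ring)
  rw [a1, a2, b0, b1]
  exact tr2 D.nb (D.cr_72 t u)

theorem cr_06 (t u : F) : (D.X 6 u)⁻¹ * (D.X 0 t)⁻¹ * D.X 6 u * D.X 0 t =
    D.X 2 ((-1 : F) * (-t) ^ 1 * u ^ 1) * D.X 4 ((1 : F) * (-t) ^ 1 * u ^ 2) := by
  have a1 : D.X 6 u = D.na * D.X 6 (-u) * D.na⁻¹ := by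
    rw [D.eqA6] <;> exact D.Xcongr _ (by ring)
  have a2 : D.X 0 t = D.na * D.X 3 (-t) * D.na⁻¹ := by
    rw [D.eqA3] <;> exact D.Xcongr _ (by ring)
  have b0 : D.X 2 ((-1 : F) * (-t) ^ 1 * u ^ 1) = D.na * D.X 5 ((1 : F) * (-(-t)) ^ 1 * (-u) ^ 1) * D.na⁻¹ := by
    rw [D.eqA5] <;> exact D.Xcongr _ (by ring)
  have b1 : D.X 4 ((1 : F) * (-t) ^ 1 * u ^ 2) = D.na * D.X 7 ((1 : F) * (-(-t)) ^ 1 * (-u) ^ 2) * D.na⁻¹ := by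
    rw [D.eqA7] <;> exact D.Xcongr _ (by ring)
  rw [a1, a2, b0, b1]
  exact tr2 D.na (D.cr_36 (-t) (-u))

theorem cr_17 (t u : F) : (D.X 7 u)⁻¹ * (D.X 1 t)⁻¹ * D.X 7 u * D.X 1 t =
    D.X 5 ((-1 : F) * (-t) ^ 1 * u ^ 1) * D.X 3 ((1 : F) * (-t) ^ 2 * u ^ 1) := by
  have a1 : D.X 7 u = D.nb * D.X 7 u * D.nb⁻¹ := by
    rw [D.eqB7] <;> exact D.Xcongr _ (by ring)
  have a2 : D.X 1 t = D.nb * D.X 2 t * D.nb⁻¹ := by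
    rw [D.eqB2] <;> exact D.Xcongr _ (by ring)
  have b0 : D.X 5 ((-1 : F) * (-t) ^ 1 * u ^ 1) = D.nb * D.X 6 ((1 : F) * (-t) ^ 1 * u ^ 1) * D.nb⁻¹ := by
    rw [D.eqB6] <;> exact D.Xcongr _ (by ring)
  have b1 : D.X 3 ((1 : F) * (-t) ^ 2 * u ^ 1) = D.nb * D.X 4 ((-1 : F) * (-t) ^ 2 * u ^ 1) * D.nb⁻¹ := by
    rw [D.eqB4] <;> exact D.Xcongr _ (by ring)
  rw [a1, a2, b0, b1]
  exact tr2 D.nb (D.cr_27 t u)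

theorem cr_60 (t u : F) : (D.X 0 u)⁻¹ * (D.X 6 t)⁻¹ * D.X 0 u * D.X 6 t =
    D.X 2 ((1 : F) * (-t) ^ 1 * u ^ 1) * D.X 4 ((1 : F) * (-t) ^ 2 * u ^ 1) := by
  have a1 : D.X 0 u = D.na * D.X 3 (-u) * D.na⁻¹ := by
    rw [D.eqA3] <;> exact D.Xcongr _ (by ring)
  have a2 : D.X 6 t = D.na * D.X 6 (-t) * D.na⁻¹ := by
    rw [D.eqA6] <;> exact D.Xcongr _ (by ring)
  have b0 : D.X 2 ((1 : F) * (-t) ^ 1 * u ^ 1) = D.na * D.X 5 ((-1 : F) * (-(-t)) ^ 1 * (-u) ^ 1) * D.na⁻¹ := by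
    rw [D.eqA5] <;> exact D.Xcongr _ (by ring)
  have b1 : D.X 4 ((1 : F) * (-t) ^ 2 * u ^ 1) = D.na * D.X 7 ((1 : F) * (-(-t)) ^ 2 * (-u) ^ 1) * D.na⁻¹ := by
    rw [D.eqA7] <;> exact D.Xcongr _ (by ring)
  rw [a1, a2, b0, b1]
  exact tr2 D.na (D.cr_63 (-t) (-u))

theorem cr_15 (t u : F) : (D.X 5 u)⁻¹ * (D.X 1 t)⁻¹ * D.X 5 u * D.X 1 t =
    D.X 3 ((-2 : F) * (-t) ^ 1 * u ^ 1) := by
  have a1 : D.X 5 u = D.nb * D.X 6 (-u) * D.nb⁻¹ := by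
    rw [D.eqB6] <;> exact D.Xcongr _ (by ring)
  have a2 : D.X 1 t = D.nb * D.X 2 t * D.nb⁻¹ := by
    rw [D.eqB2] <;> exact D.Xcongr _ (by ring)
  have b0 : D.X 3 ((-2 : F) * (-t) ^ 1 * u ^ 1) = D.nb * D.X 4 ((-2 : F) * (-t) ^ 1 * (-u) ^ 1) * D.nb⁻¹ := by
    rw [D.eqB4] <;> exact D.Xcongr _ (by ring)
  rw [a1, a2, b0]
  exact tr1 D.nb (D.cr_26 t (-u))

theorem cr_51 (t u : F) : (D.X 1 u)⁻¹ * (D.X 5 t)⁻¹ * D.X 1 u * D.X 5 t =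
    D.X 3 ((2 : F) * (-t) ^ 1 * u ^ 1) := by
  have a1 : D.X 1 u = D.nb * D.X 2 u * D.nb⁻¹ := by
    rw [D.eqB2] <;> exact D.Xcongr _ (by ring)
  have a2 : D.X 5 t = D.nb * D.X 6 (-t) * D.nb⁻¹ := by
    rw [D.eqB6] <;> exact D.Xcongr _ (by ring)
  have b0 : D.X 3 ((2 : F) * (-t) ^ 1 * u ^ 1) = D.nb * D.X 4 ((2 : F) * (-(-t)) ^ 1 * u ^ 1) * D.nb⁻¹ := by
    rw [D.eqB4] <;> exact D.Xcongr _ (by ring)
  rw [a1, a2, b0]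
  exact tr1 D.nb (D.cr_62 (-t) u)

theorem cr_02 (t u : F) : (D.X 2 u)⁻¹ * (D.X 0 t)⁻¹ * D.X 2 u * D.X 0 t =
    1 := by
  have a1 : D.X 2 u = D.na * D.X 5 (-u) * D.na⁻¹ := by
    rw [D.eqA5] <;> exact D.Xcongr _ (by ring)
  have a2 : D.X 0 t = D.na * D.X 3 (-t) * D.na⁻¹ := by
    rw [D.eqA3] <;> exact D.Xcongr _ (by ring)
  rw [a1, a2]
  exact tr0 D.na (D.cr_35 (-t) (-u))

theorem cr_20 (t u : F) : (D.X 0 u)⁻¹ * (D.X 2 t)⁻¹ * D.X 0 u * D.X 2 t =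
    1 := by
  have a1 : D.X 0 u = D.na * D.X 3 (-u) * D.na⁻¹ := by
    rw [D.eqA3] <;> exact D.Xcongr _ (by ring)
  have a2 : D.X 2 t = D.na * D.X 5 (-t) * D.na⁻¹ := by
    rw [D.eqA5] <;> exact D.Xcongr _ (by ring)
  rw [a1, a2]
  exact tr0 D.na (D.cr_53 (-t) (-u))

theorem cr_04 (t u : F) : (D.X 4 u)⁻¹ * (D.X 0 t)⁻¹ * D.X 4 u * D.X 0 t =
    1 := by
  have a1 : D.X 4 u = D.na * D.X 7 (-u) * D.na⁻¹ := by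
    rw [D.eqA7] <;> exact D.Xcongr _ (by ring)
  have a2 : D.X 0 t = D.na * D.X 3 (-t) * D.na⁻¹ := by
    rw [D.eqA3] <;> exact D.Xcongr _ (by ring)
  rw [a1, a2]
  exact tr0 D.na (D.cr_37 (-t) (-u))

theorem cr_40 (t u : F) : (D.X 0 u)⁻¹ * (D.X 4 t)⁻¹ * D.X 0 u * D.X 4 t =
    1 := by
  have a1 : D.X 0 u = D.na * D.X 3 (-u) * D.na⁻¹ := by
    rw [D.eqA3] <;> exact D.Xcongr _ (by ring)
  have a2 : D.X 4 t = D.na * D.X 7 (-t) * D.na⁻¹ := by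
    rw [D.eqA7] <;> exact D.Xcongr _ (by ring)
  rw [a1, a2]
  exact tr0 D.na (D.cr_73 (-t) (-u))

theorem cr_13 (t u : F) : (D.X 3 u)⁻¹ * (D.X 1 t)⁻¹ * D.X 3 u * D.X 1 t =
    1 := by
  have a1 : D.X 3 u = D.nb * D.X 4 (-u) * D.nb⁻¹ := by
    rw [D.eqB4] <;> exact D.Xcongr _ (by ring)
  have a2 : D.X 1 t = D.nb * D.X 2 t * D.nb⁻¹ := by
    rw [D.eqB2] <;> exact D.Xcongr _ (by ring)
  rw [a1, a2]
  exact tr0 D.nb (D.cr_24 t (-u))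

theorem cr_31 (t u : F) : (D.X 1 u)⁻¹ * (D.X 3 t)⁻¹ * D.X 1 u * D.X 3 t =
    1 := by
  have a1 : D.X 1 u = D.nb * D.X 2 u * D.nb⁻¹ := by
    rw [D.eqB2] <;> exact D.Xcongr _ (by ring)
  have a2 : D.X 3 t = D.nb * D.X 4 (-t) * D.nb⁻¹ := by
    rw [D.eqB4] <;> exact D.Xcongr _ (by ring)
  rw [a1, a2]
  exact tr0 D.nb (D.cr_42 (-t) u)

theorem cr_41 (t u : F) : (D.X 1 u)⁻¹ * (D.X 4 t)⁻¹ * D.X 1 u * D.X 4 t =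
    D.X 2 ((-1 : F) * (-t) ^ 1 * u ^ 1) * D.X 0 ((1 : F) * (-t) ^ 1 * u ^ 2) := by
  have a1 : D.X 1 u = D.na * D.X 1 (-u) * D.na⁻¹ := by
    rw [D.eqA1] <;> exact D.Xcongr _ (by ring)
  have a2 : D.X 4 t = D.na * D.X 7 (-t) * D.na⁻¹ := by
    rw [D.eqA7] <;> exact D.Xcongr _ (by ring)
  have b0 : D.X 2 ((-1 : F) * (-t) ^ 1 * u ^ 1) = D.na * D.X 5 ((1 : F) * (-(-t)) ^ 1 * (-u) ^ 1) * D.na⁻¹ := by
    rw [D.eqA5] <;> exact D.Xcongr _ (by ring)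
  have b1 : D.X 0 ((1 : F) * (-t) ^ 1 * u ^ 2) = D.na * D.X 3 ((1 : F) * (-(-t)) ^ 1 * (-u) ^ 2) * D.na⁻¹ := by
    rw [D.eqA3] <;> exact D.Xcongr _ (by ring)
  rw [a1, a2, b0, b1]
  exact tr2 D.na (D.cr_71 (-t) (-u))

theorem cr_05 (t u : F) : (D.X 5 u)⁻¹ * (D.X 0 t)⁻¹ * D.X 5 u * D.X 0 t =
    D.X 1 ((1 : F) * (-t) ^ 1 * u ^ 1) * D.X 3 ((-1 : F) * (-t) ^ 1 * u ^ 2) := by
  have a1 : D.X 5 u = D.nb * D.X 6 (-u) * D.nb⁻¹ := by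
    rw [D.eqB6] <;> exact D.Xcongr _ (by ring)
  have a2 : D.X 0 t = D.nb * D.X 0 t * D.nb⁻¹ := by
    rw [D.eqB0] <;> exact D.Xcongr _ (by ring)
  have b0 : D.X 1 ((1 : F) * (-t) ^ 1 * u ^ 1) = D.nb * D.X 2 ((-1 : F) * (-t) ^ 1 * (-u) ^ 1) * D.nb⁻¹ := by
    rw [D.eqB2] <;> exact D.Xcongr _ (by ring)
  have b1 : D.X 3 ((-1 : F) * (-t) ^ 1 * u ^ 2) = D.nb * D.X 4 ((1 : F) * (-t) ^ 1 * (-u) ^ 2) * D.nb⁻¹ := by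
    rw [D.eqB4] <;> exact D.Xcongr _ (by ring)
  rw [a1, a2, b0, b1]
  exact tr2 D.nb (D.cr_06 t (-u))

theorem cr_14 (t u : F) : (D.X 4 u)⁻¹ * (D.X 1 t)⁻¹ * D.X 4 u * D.X 1 t =
    D.X 2 ((1 : F) * (-t) ^ 1 * u ^ 1) * D.X 0 ((1 : F) * (-t) ^ 2 * u ^ 1) := by
  have a1 : D.X 4 u = D.na * D.X 7 (-u) * D.na⁻¹ := by
    rw [D.eqA7] <;> exact D.Xcongr _ (by ring)
  have a2 : D.X 1 t = D.na * D.X 1 (-t) * D.na⁻¹ := by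
    rw [D.eqA1] <;> exact D.Xcongr _ (by ring)
  have b0 : D.X 2 ((1 : F) * (-t) ^ 1 * u ^ 1) = D.na * D.X 5 ((-1 : F) * (-(-t)) ^ 1 * (-u) ^ 1) * D.na⁻¹ := by
    rw [D.eqA5] <;> exact D.Xcongr _ (by ring)
  have b1 : D.X 0 ((1 : F) * (-t) ^ 2 * u ^ 1) = D.na * D.X 3 ((1 : F) * (-(-t)) ^ 2 * (-u) ^ 1) * D.na⁻¹ := by
    rw [D.eqA3] <;> exact D.Xcongr _ (by ring)
  rw [a1, a2, b0, b1]
  exact tr2 D.na (D.cr_17 (-t) (-u))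

theorem cr_50 (t u : F) : (D.X 0 u)⁻¹ * (D.X 5 t)⁻¹ * D.X 0 u * D.X 5 t =
    D.X 1 ((-1 : F) * (-t) ^ 1 * u ^ 1) * D.X 3 ((-1 : F) * (-t) ^ 2 * u ^ 1) := by
  have a1 : D.X 0 u = D.nb * D.X 0 u * D.nb⁻¹ := by
    rw [D.eqB0] <;> exact D.Xcongr _ (by ring)
  have a2 : D.X 5 t = D.nb * D.X 6 (-t) * D.nb⁻¹ := by
    rw [D.eqB6] <;> exact D.Xcongr _ (by ring)
  have b0 : D.X 1 ((-1 : F) * (-t) ^ 1 * u ^ 1) = D.nb * D.X 2 ((1 : F) * (-(-t)) ^ 1 * u ^ 1) * D.nb⁻¹ := by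
    rw [D.eqB2] <;> exact D.Xcongr _ (by ring)
  have b1 : D.X 3 ((-1 : F) * (-t) ^ 2 * u ^ 1) = D.nb * D.X 4 ((1 : F) * (-(-t)) ^ 2 * u ^ 1) * D.nb⁻¹ := by
    rw [D.eqB4] <;> exact D.Xcongr _ (by ring)
  rw [a1, a2, b0, b1]
  exact tr2 D.nb (D.cr_60 (-t) u)

theorem cr_12 (t u : F) : (D.X 2 u)⁻¹ * (D.X 1 t)⁻¹ * D.X 2 u * D.X 1 t =
    D.X 0 ((2 : F) * (-t) ^ 1 * u ^ 1) := by
  have a1 : D.X 2 u = D.na * D.X 5 (-u) * D.na⁻¹ := by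
    rw [D.eqA5] <;> exact D.Xcongr _ (by ring)
  have a2 : D.X 1 t = D.na * D.X 1 (-t) * D.na⁻¹ := by
    rw [D.eqA1] <;> exact D.Xcongr _ (by ring)
  have b0 : D.X 0 ((2 : F) * (-t) ^ 1 * u ^ 1) = D.na * D.X 3 ((-2 : F) * (-(-t)) ^ 1 * (-u) ^ 1) * D.na⁻¹ := by
    rw [D.eqA3] <;> exact D.Xcongr _ (by ring)
  rw [a1, a2, b0]
  exact tr1 D.na (D.cr_15 (-t) (-u))

theorem cr_21 (t u : F) : (D.X 1 u)⁻¹ * (D.X 2 t)⁻¹ * D.X 1 u * D.X 2 t =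
    D.X 0 ((-2 : F) * (-t) ^ 1 * u ^ 1) := by
  have a1 : D.X 1 u = D.na * D.X 1 (-u) * D.na⁻¹ := by
    rw [D.eqA1] <;> exact D.Xcongr _ (by ring)
  have a2 : D.X 2 t = D.na * D.X 5 (-t) * D.na⁻¹ := by
    rw [D.eqA5] <;> exact D.Xcongr _ (by ring)
  have b0 : D.X 0 ((-2 : F) * (-t) ^ 1 * u ^ 1) = D.na * D.X 3 ((2 : F) * (-(-t)) ^ 1 * (-u) ^ 1) * D.na⁻¹ := by
    rw [D.eqA3] <;> exact D.Xcongr _ (by ring)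
  rw [a1, a2, b0]
  exact tr1 D.na (D.cr_51 (-t) (-u))

theorem cr_01 (t u : F) : (D.X 1 u)⁻¹ * (D.X 0 t)⁻¹ * D.X 1 u * D.X 0 t =
    1 := by
  have a1 : D.X 1 u = D.nb * D.X 2 u * D.nb⁻¹ := by
    rw [D.eqB2] <;> exact D.Xcongr _ (by ring)
  have a2 : D.X 0 t = D.nb * D.X 0 t * D.nb⁻¹ := by
    rw [D.eqB0] <;> exact D.Xcongr _ (by ring)
  rw [a1, a2]
  exact tr0 D.nb (D.cr_02 t u)

theorem cr_10 (t u : F) : (D.X 0 u)⁻¹ * (D.X 1 t)⁻¹ * D.X 0 u * D.X 1 t =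
    1 := by
  have a1 : D.X 0 u = D.nb * D.X 0 u * D.nb⁻¹ := by
    rw [D.eqB0] <;> exact D.Xcongr _ (by ring)
  have a2 : D.X 1 t = D.nb * D.X 2 t * D.nb⁻¹ := by
    rw [D.eqB2] <;> exact D.Xcongr _ (by ring)
  rw [a1, a2]
  exact tr0 D.nb (D.cr_20 t u)

theorem cr_03 (t u : F) : (D.X 3 u)⁻¹ * (D.X 0 t)⁻¹ * D.X 3 u * D.X 0 t =
    1 := by
  have a1 : D.X 3 u = D.nb * D.X 4 (-u) * D.nb⁻¹ := by
    rw [D.eqB4] <;> exact D.Xcongr _ (by ring)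
  have a2 : D.X 0 t = D.nb * D.X 0 t * D.nb⁻¹ := by
    rw [D.eqB0] <;> exact D.Xcongr _ (by ring)
  rw [a1, a2]
  exact tr0 D.nb (D.cr_04 t (-u))

theorem cr_30 (t u : F) : (D.X 0 u)⁻¹ * (D.X 3 t)⁻¹ * D.X 0 u * D.X 3 t =
    1 := by
  have a1 : D.X 0 u = D.nb * D.X 0 u * D.nb⁻¹ := by
    rw [D.eqB0] <;> exact D.Xcongr _ (by ring)
  have a2 : D.X 3 t = D.nb * D.X 4 (-t) * D.nb⁻¹ := by
    rw [D.eqB4] <;> exact D.Xcongr _ (by ring)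
  rw [a1, a2]
  exact tr0 D.nb (D.cr_40 (-t) u)

theorem cr_32 (t u : F) : (D.X 2 u)⁻¹ * (D.X 3 t)⁻¹ * D.X 2 u * D.X 3 t =
    D.X 1 ((-1 : F) * (-t) ^ 1 * u ^ 1) * D.X 0 ((-1 : F) * (-t) ^ 1 * u ^ 2) := by
  have a1 : D.X 2 u = D.nb * D.X 1 (-u) * D.nb⁻¹ := by
    rw [D.eqB1] <;> exact D.Xcongr _ (by ring)
  have a2 : D.X 3 t = D.nb * D.X 4 (-t) * D.nb⁻¹ := by
    rw [D.eqB4] <;> exact D.Xcongr _ (by ring)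
  have b0 : D.X 1 ((-1 : F) * (-t) ^ 1 * u ^ 1) = D.nb * D.X 2 ((-1 : F) * (-(-t)) ^ 1 * (-u) ^ 1) * D.nb⁻¹ := by
    rw [D.eqB2] <;> exact D.Xcongr _ (by ring)
  have b1 : D.X 0 ((-1 : F) * (-t) ^ 1 * u ^ 2) = D.nb * D.X 0 ((1 : F) * (-(-t)) ^ 1 * (-u) ^ 2) * D.nb⁻¹ := by
    rw [D.eqB0] <;> exact D.Xcongr _ (by ring)
  rw [a1, a2, b0, b1]
  exact tr2 D.nb (D.cr_41 (-t) (-u))

theorem cr_23 (t u : F) : (D.X 3 u)⁻¹ * (D.X 2 t)⁻¹ * D.X 3 u * D.X 2 t =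
    D.X 1 ((1 : F) * (-t) ^ 1 * u ^ 1) * D.X 0 ((-1 : F) * (-t) ^ 2 * u ^ 1) := by
  have a1 : D.X 3 u = D.nb * D.X 4 (-u) * D.nb⁻¹ := by
    rw [D.eqB4] <;> exact D.Xcongr _ (by ring)
  have a2 : D.X 2 t = D.nb * D.X 1 (-t) * D.nb⁻¹ := by
    rw [D.eqB1] <;> exact D.Xcongr _ (by ring)
  have b0 : D.X 1 ((1 : F) * (-t) ^ 1 * u ^ 1) = D.nb * D.X 2 ((1 : F) * (-(-t)) ^ 1 * (-u) ^ 1) * D.nb⁻¹ := by
    rw [D.eqB2] <;> exact D.Xcongr _ (by ring)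
  have b1 : D.X 0 ((-1 : F) * (-t) ^ 2 * u ^ 1) = D.nb * D.X 0 ((1 : F) * (-(-t)) ^ 2 * (-u) ^ 1) * D.nb⁻¹ := by
    rw [D.eqB0] <;> exact D.Xcongr _ (by ring)
  rw [a1, a2, b0, b1]
  exact tr2 D.nb (D.cr_14 (-t) (-u))

theorem cw_01 (t u : F) :
    (D.X 1 u)⁻¹ * (D.X 0 t)⁻¹ * D.X 1 u * D.X 0 t = wordB D.X (chevB2.commWord F 0 1 t u) := by
  have e : chevB2.commTerms 0 1 = [] := by decide
  unfold ChevalleyDatum.commWord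
  rw [e]
  show (D.X 1 u)⁻¹ * (D.X 0 t)⁻¹ * D.X 1 u * D.X 0 t = 1
  rw [D.cr_01 t u]

theorem cw_02 (t u : F) :
    (D.X 2 u)⁻¹ * (D.X 0 t)⁻¹ * D.X 2 u * D.X 0 t = wordB D.X (chevB2.commWord F 0 2 t u) := by
  have e : chevB2.commTerms 0 2 = [] := by decide
  unfold ChevalleyDatum.commWord
  rw [e]
  show (D.X 2 u)⁻¹ * (D.X 0 t)⁻¹ * D.X 2 u * D.X 0 t = 1
  rw [D.cr_02 t u]

theorem cw_03 (t u : F) :
    (D.X 3 u)⁻¹ * (D.X 0 t)⁻¹ * D.X 3 u * D.X 0 t = wordB D.X (chevB2.commWord F 0 3 t u) := by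
  have e : chevB2.commTerms 0 3 = [] := by decide
  unfold ChevalleyDatum.commWord
  rw [e]
  show (D.X 3 u)⁻¹ * (D.X 0 t)⁻¹ * D.X 3 u * D.X 0 t = 1
  rw [D.cr_03 t u]

theorem cw_04 (t u : F) :
    (D.X 4 u)⁻¹ * (D.X 0 t)⁻¹ * D.X 4 u * D.X 0 t = wordB D.X (chevB2.commWord F 0 4 t u) := by
  have e : chevB2.commTerms 0 4 = [] := by decide
  unfold ChevalleyDatum.commWord
  rw [e]
  show (D.X 4 u)⁻¹ * (D.X 0 t)⁻¹ * D.X 4 u * D.X 0 t = 1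
  rw [D.cr_04 t u]

theorem cw_05 (t u : F) :
    (D.X 5 u)⁻¹ * (D.X 0 t)⁻¹ * D.X 5 u * D.X 0 t = wordB D.X (chevB2.commWord F 0 5 t u) := by
  have e : chevB2.commTerms 0 5 = [(1, 1, 1, 1), (3, -1, 1, 2)] := by decide
  unfold ChevalleyDatum.commWord
  rw [e]
  show (D.X 5 u)⁻¹ * (D.X 0 t)⁻¹ * D.X 5 u * D.X 0 t = (D.X 1 (((1 : ℤ) : F) * (-t) ^ 1 * u ^ 1) * (D.X 3 (((-1 : ℤ) : F) * (-t) ^ 1 * u ^ 2) * 1))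
  rw [D.cr_05 t u]
  simp only [Int.cast_neg, Int.cast_one, Int.cast_ofNat, mul_one]

theorem cw_06 (t u : F) :
    (D.X 6 u)⁻¹ * (D.X 0 t)⁻¹ * D.X 6 u * D.X 0 t = wordB D.X (chevB2.commWord F 0 6 t u) := by
  have e : chevB2.commTerms 0 6 = [(2, -1, 1, 1), (4, 1, 1, 2)] := by decide
  unfold ChevalleyDatum.commWord
  rw [e]
  show (D.X 6 u)⁻¹ * (D.X 0 t)⁻¹ * D.X 6 u * D.X 0 t = (D.X 2 (((-1 : ℤ) : F) * (-t) ^ 1 * u ^ 1) * (D.X 4 (((1 : ℤ) : F) * (-t) ^ 1 * u ^ 2) * 1))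
  rw [D.cr_06 t u]
  simp only [Int.cast_neg, Int.cast_one, Int.cast_ofNat, mul_one]

theorem cw_10 (t u : F) :
    (D.X 0 u)⁻¹ * (D.X 1 t)⁻¹ * D.X 0 u * D.X 1 t = wordB D.X (chevB2.commWord F 1 0 t u) := by
  have e : chevB2.commTerms 1 0 = [] := by decide
  unfold ChevalleyDatum.commWord
  rw [e]
  show (D.X 0 u)⁻¹ * (D.X 1 t)⁻¹ * D.X 0 u * D.X 1 t = 1
  rw [D.cr_10 t u]

theorem cw_12 (t u : F) :
    (D.X 2 u)⁻¹ * (D.X 1 t)⁻¹ * D.X 2 u * D.X 1 t = wordB D.X (chevB2.commWord F 1 2 t u) := by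
  have e : chevB2.commTerms 1 2 = [(0, 2, 1, 1)] := by decide
  unfold ChevalleyDatum.commWord
  rw [e]
  show (D.X 2 u)⁻¹ * (D.X 1 t)⁻¹ * D.X 2 u * D.X 1 t = (D.X 0 (((2 : ℤ) : F) * (-t) ^ 1 * u ^ 1) * 1)
  rw [D.cr_12 t u]
  simp only [Int.cast_neg, Int.cast_one, Int.cast_ofNat, mul_one]

theorem cw_13 (t u : F) :
    (D.X 3 u)⁻¹ * (D.X 1 t)⁻¹ * D.X 3 u * D.X 1 t = wordB D.X (chevB2.commWord F 1 3 t u) := by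
  have e : chevB2.commTerms 1 3 = [] := by decide
  unfold ChevalleyDatum.commWord
  rw [e]
  show (D.X 3 u)⁻¹ * (D.X 1 t)⁻¹ * D.X 3 u * D.X 1 t = 1
  rw [D.cr_13 t u]

theorem cw_14 (t u : F) :
    (D.X 4 u)⁻¹ * (D.X 1 t)⁻¹ * D.X 4 u * D.X 1 t = wordB D.X (chevB2.commWord F 1 4 t u) := by
  have e : chevB2.commTerms 1 4 = [(2, 1, 1, 1), (0, 1, 2, 1)] := by decide
  unfold ChevalleyDatum.commWord
  rw [e]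
  show (D.X 4 u)⁻¹ * (D.X 1 t)⁻¹ * D.X 4 u * D.X 1 t = (D.X 2 (((1 : ℤ) : F) * (-t) ^ 1 * u ^ 1) * (D.X 0 (((1 : ℤ) : F) * (-t) ^ 2 * u ^ 1) * 1))
  rw [D.cr_14 t u]
  simp only [Int.cast_neg, Int.cast_one, Int.cast_ofNat, mul_one]

theorem cw_15 (t u : F) :
    (D.X 5 u)⁻¹ * (D.X 1 t)⁻¹ * D.X 5 u * D.X 1 t = wordB D.X (chevB2.commWord F 1 5 t u) := by
  have e : chevB2.commTerms 1 5 = [(3, -2, 1, 1)] := by decide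
  unfold ChevalleyDatum.commWord
  rw [e]
  show (D.X 5 u)⁻¹ * (D.X 1 t)⁻¹ * D.X 5 u * D.X 1 t = (D.X 3 (((-2 : ℤ) : F) * (-t) ^ 1 * u ^ 1) * 1)
  rw [D.cr_15 t u]
  simp only [Int.cast_neg, Int.cast_one, Int.cast_ofNat, mul_one]

theorem cw_17 (t u : F) :
    (D.X 7 u)⁻¹ * (D.X 1 t)⁻¹ * D.X 7 u * D.X 1 t = wordB D.X (chevB2.commWord F 1 7 t u) := by
  have e : chevB2.commTerms 1 7 = [(5, -1, 1, 1), (3, 1, 2, 1)] := by decide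
  unfold ChevalleyDatum.commWord
  rw [e]
  show (D.X 7 u)⁻¹ * (D.X 1 t)⁻¹ * D.X 7 u * D.X 1 t = (D.X 5 (((-1 : ℤ) : F) * (-t) ^ 1 * u ^ 1) * (D.X 3 (((1 : ℤ) : F) * (-t) ^ 2 * u ^ 1) * 1))
  rw [D.cr_17 t u]
  simp only [Int.cast_neg, Int.cast_one, Int.cast_ofNat, mul_one]

theorem cw_20 (t u : F) :
    (D.X 0 u)⁻¹ * (D.X 2 t)⁻¹ * D.X 0 u * D.X 2 t = wordB D.X (chevB2.commWord F 2 0 t u) := by
  have e : chevB2.commTerms 2 0 = [] := by decide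
  unfold ChevalleyDatum.commWord
  rw [e]
  show (D.X 0 u)⁻¹ * (D.X 2 t)⁻¹ * D.X 0 u * D.X 2 t = 1
  rw [D.cr_20 t u]

theorem cw_21 (t u : F) :
    (D.X 1 u)⁻¹ * (D.X 2 t)⁻¹ * D.X 1 u * D.X 2 t = wordB D.X (chevB2.commWord F 2 1 t u) := by
  have e : chevB2.commTerms 2 1 = [(0, -2, 1, 1)] := by decide
  unfold ChevalleyDatum.commWord
  rw [e]
  show (D.X 1 u)⁻¹ * (D.X 2 t)⁻¹ * D.X 1 u * D.X 2 t = (D.X 0 (((-2 : ℤ) : F) * (-t) ^ 1 * u ^ 1) * 1)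
  rw [D.cr_21 t u]
  simp only [Int.cast_neg, Int.cast_one, Int.cast_ofNat, mul_one]

theorem cw_23 (t u : F) :
    (D.X 3 u)⁻¹ * (D.X 2 t)⁻¹ * D.X 3 u * D.X 2 t = wordB D.X (chevB2.commWord F 2 3 t u) := by
  have e : chevB2.commTerms 2 3 = [(1, 1, 1, 1), (0, -1, 2, 1)] := by decide
  unfold ChevalleyDatum.commWord
  rw [e]
  show (D.X 3 u)⁻¹ * (D.X 2 t)⁻¹ * D.X 3 u * D.X 2 t = (D.X 1 (((1 : ℤ) : F) * (-t) ^ 1 * u ^ 1) * (D.X 0 (((-1 : ℤ) : F) * (-t) ^ 2 * u ^ 1) * 1))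
  rw [D.cr_23 t u]
  simp only [Int.cast_neg, Int.cast_one, Int.cast_ofNat, mul_one]

theorem cw_24 (t u : F) :
    (D.X 4 u)⁻¹ * (D.X 2 t)⁻¹ * D.X 4 u * D.X 2 t = wordB D.X (chevB2.commWord F 2 4 t u) := by
  have e : chevB2.commTerms 2 4 = [] := by decide
  unfold ChevalleyDatum.commWord
  rw [e]
  show (D.X 4 u)⁻¹ * (D.X 2 t)⁻¹ * D.X 4 u * D.X 2 t = 1
  rw [D.cr_24 t u]

theorem cw_26 (t u : F) :
    (D.X 6 u)⁻¹ * (D.X 2 t)⁻¹ * D.X 6 u * D.X 2 t = wordB D.X (chevB2.commWord F 2 6 t u) := by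
  have e : chevB2.commTerms 2 6 = [(4, -2, 1, 1)] := by decide
  unfold ChevalleyDatum.commWord
  rw [e]
  show (D.X 6 u)⁻¹ * (D.X 2 t)⁻¹ * D.X 6 u * D.X 2 t = (D.X 4 (((-2 : ℤ) : F) * (-t) ^ 1 * u ^ 1) * 1)
  rw [D.cr_26 t u]
  simp only [Int.cast_neg, Int.cast_one, Int.cast_ofNat, mul_one]

theorem cw_27 (t u : F) :
    (D.X 7 u)⁻¹ * (D.X 2 t)⁻¹ * D.X 7 u * D.X 2 t = wordB D.X (chevB2.commWord F 2 7 t u) := by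
  have e : chevB2.commTerms 2 7 = [(6, 1, 1, 1), (4, -1, 2, 1)] := by decide
  unfold ChevalleyDatum.commWord
  rw [e]
  show (D.X 7 u)⁻¹ * (D.X 2 t)⁻¹ * D.X 7 u * D.X 2 t = (D.X 6 (((1 : ℤ) : F) * (-t) ^ 1 * u ^ 1) * (D.X 4 (((-1 : ℤ) : F) * (-t) ^ 2 * u ^ 1) * 1))
  rw [D.cr_27 t u]
  simp only [Int.cast_neg, Int.cast_one, Int.cast_ofNat, mul_one]

theorem cw_30 (t u : F) :
    (D.X 0 u)⁻¹ * (D.X 3 t)⁻¹ * D.X 0 u * D.X 3 t = wordB D.X (chevB2.commWord F 3 0 t u) := by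
  have e : chevB2.commTerms 3 0 = [] := by decide
  unfold ChevalleyDatum.commWord
  rw [e]
  show (D.X 0 u)⁻¹ * (D.X 3 t)⁻¹ * D.X 0 u * D.X 3 t = 1
  rw [D.cr_30 t u]

theorem cw_31 (t u : F) :
    (D.X 1 u)⁻¹ * (D.X 3 t)⁻¹ * D.X 1 u * D.X 3 t = wordB D.X (chevB2.commWord F 3 1 t u) := by
  have e : chevB2.commTerms 3 1 = [] := by decide
  unfold ChevalleyDatum.commWord
  rw [e]
  show (D.X 1 u)⁻¹ * (D.X 3 t)⁻¹ * D.X 1 u * D.X 3 t = 1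
  rw [D.cr_31 t u]

theorem cw_32 (t u : F) :
    (D.X 2 u)⁻¹ * (D.X 3 t)⁻¹ * D.X 2 u * D.X 3 t = wordB D.X (chevB2.commWord F 3 2 t u) := by
  have e : chevB2.commTerms 3 2 = [(1, -1, 1, 1), (0, -1, 1, 2)] := by decide
  unfold ChevalleyDatum.commWord
  rw [e]
  show (D.X 2 u)⁻¹ * (D.X 3 t)⁻¹ * D.X 2 u * D.X 3 t = (D.X 1 (((-1 : ℤ) : F) * (-t) ^ 1 * u ^ 1) * (D.X 0 (((-1 : ℤ) : F) * (-t) ^ 1 * u ^ 2) * 1))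
  rw [D.cr_32 t u]
  simp only [Int.cast_neg, Int.cast_one, Int.cast_ofNat, mul_one]

theorem cw_35 (t u : F) :
    (D.X 5 u)⁻¹ * (D.X 3 t)⁻¹ * D.X 5 u * D.X 3 t = wordB D.X (chevB2.commWord F 3 5 t u) := by
  have e : chevB2.commTerms 3 5 = [] := by decide
  unfold ChevalleyDatum.commWord
  rw [e]
  show (D.X 5 u)⁻¹ * (D.X 3 t)⁻¹ * D.X 5 u * D.X 3 t = 1
  rw [D.cr_35 t u]

theorem cw_36 (t u : F) :
    (D.X 6 u)⁻¹ * (D.X 3 t)⁻¹ * D.X 6 u * D.X 3 t = wordB D.X (chevB2.commWord F 3 6 t u) := by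
  have e : chevB2.commTerms 3 6 = [(5, 1, 1, 1), (7, 1, 1, 2)] := by decide
  unfold ChevalleyDatum.commWord
  rw [e]
  show (D.X 6 u)⁻¹ * (D.X 3 t)⁻¹ * D.X 6 u * D.X 3 t = (D.X 5 (((1 : ℤ) : F) * (-t) ^ 1 * u ^ 1) * (D.X 7 (((1 : ℤ) : F) * (-t) ^ 1 * u ^ 2) * 1))
  rw [D.cr_36 t u]
  simp only [Int.cast_neg, Int.cast_one, Int.cast_ofNat, mul_one]

theorem cw_37 (t u : F) :
    (D.X 7 u)⁻¹ * (D.X 3 t)⁻¹ * D.X 7 u * D.X 3 t = wordB D.X (chevB2.commWord F 3 7 t u) := by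
  have e : chevB2.commTerms 3 7 = [] := by decide
  unfold ChevalleyDatum.commWord
  rw [e]
  show (D.X 7 u)⁻¹ * (D.X 3 t)⁻¹ * D.X 7 u * D.X 3 t = 1
  rw [D.cr_37 t u]

theorem cw_40 (t u : F) :
    (D.X 0 u)⁻¹ * (D.X 4 t)⁻¹ * D.X 0 u * D.X 4 t = wordB D.X (chevB2.commWord F 4 0 t u) := by
  have e : chevB2.commTerms 4 0 = [] := by decide
  unfold ChevalleyDatum.commWord
  rw [e]
  show (D.X 0 u)⁻¹ * (D.X 4 t)⁻¹ * D.X 0 u * D.X 4 t = 1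
  rw [D.cr_40 t u]

theorem cw_41 (t u : F) :
    (D.X 1 u)⁻¹ * (D.X 4 t)⁻¹ * D.X 1 u * D.X 4 t = wordB D.X (chevB2.commWord F 4 1 t u) := by
  have e : chevB2.commTerms 4 1 = [(2, -1, 1, 1), (0, 1, 1, 2)] := by decide
  unfold ChevalleyDatum.commWord
  rw [e]
  show (D.X 1 u)⁻¹ * (D.X 4 t)⁻¹ * D.X 1 u * D.X 4 t = (D.X 2 (((-1 : ℤ) : F) * (-t) ^ 1 * u ^ 1) * (D.X 0 (((1 : ℤ) : F) * (-t) ^ 1 * u ^ 2) * 1))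
  rw [D.cr_41 t u]
  simp only [Int.cast_neg, Int.cast_one, Int.cast_ofNat, mul_one]

theorem cw_42 (t u : F) :
    (D.X 2 u)⁻¹ * (D.X 4 t)⁻¹ * D.X 2 u * D.X 4 t = wordB D.X (chevB2.commWord F 4 2 t u) := by
  have e : chevB2.commTerms 4 2 = [] := by decide
  unfold ChevalleyDatum.commWord
  rw [e]
  show (D.X 2 u)⁻¹ * (D.X 4 t)⁻¹ * D.X 2 u * D.X 4 t = 1
  rw [D.cr_42 t u]

theorem cw_45 (t u : F) :
    (D.X 5 u)⁻¹ * (D.X 4 t)⁻¹ * D.X 5 u * D.X 4 t = wordB D.X (chevB2.commWord F 4 5 t u) := by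
  have e : chevB2.commTerms 4 5 = [(6, 1, 1, 1), (7, -1, 1, 2)] := by decide
  unfold ChevalleyDatum.commWord
  rw [e]
  show (D.X 5 u)⁻¹ * (D.X 4 t)⁻¹ * D.X 5 u * D.X 4 t = (D.X 6 (((1 : ℤ) : F) * (-t) ^ 1 * u ^ 1) * (D.X 7 (((-1 : ℤ) : F) * (-t) ^ 1 * u ^ 2) * 1))
  rw [D.cr_45 t u]
  simp only [Int.cast_neg, Int.cast_one, Int.cast_ofNat, mul_one]

theorem cw_46 (t u : F) :
    (D.X 6 u)⁻¹ * (D.X 4 t)⁻¹ * D.X 6 u * D.X 4 t = wordB D.X (chevB2.commWord F 4 6 t u) := by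
  have e : chevB2.commTerms 4 6 = [] := by decide
  unfold ChevalleyDatum.commWord
  rw [e]
  show (D.X 6 u)⁻¹ * (D.X 4 t)⁻¹ * D.X 6 u * D.X 4 t = 1
  rw [D.cr_46 t u]

theorem cw_47 (t u : F) :
    (D.X 7 u)⁻¹ * (D.X 4 t)⁻¹ * D.X 7 u * D.X 4 t = wordB D.X (chevB2.commWord F 4 7 t u) := by
  have e : chevB2.commTerms 4 7 = [] := by decide
  unfold ChevalleyDatum.commWord
  rw [e]
  show (D.X 7 u)⁻¹ * (D.X 4 t)⁻¹ * D.X 7 u * D.X 4 t = 1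
  rw [D.cr_47 t u]

theorem cw_50 (t u : F) :
    (D.X 0 u)⁻¹ * (D.X 5 t)⁻¹ * D.X 0 u * D.X 5 t = wordB D.X (chevB2.commWord F 5 0 t u) := by
  have e : chevB2.commTerms 5 0 = [(1, -1, 1, 1), (3, -1, 2, 1)] := by decide
  unfold ChevalleyDatum.commWord
  rw [e]
  show (D.X 0 u)⁻¹ * (D.X 5 t)⁻¹ * D.X 0 u * D.X 5 t = (D.X 1 (((-1 : ℤ) : F) * (-t) ^ 1 * u ^ 1) * (D.X 3 (((-1 : ℤ) : F) * (-t) ^ 2 * u ^ 1) * 1))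
  rw [D.cr_50 t u]
  simp only [Int.cast_neg, Int.cast_one, Int.cast_ofNat, mul_one]

theorem cw_51 (t u : F) :
    (D.X 1 u)⁻¹ * (D.X 5 t)⁻¹ * D.X 1 u * D.X 5 t = wordB D.X (chevB2.commWord F 5 1 t u) := by
  have e : chevB2.commTerms 5 1 = [(3, 2, 1, 1)] := by decide
  unfold ChevalleyDatum.commWord
  rw [e]
  show (D.X 1 u)⁻¹ * (D.X 5 t)⁻¹ * D.X 1 u * D.X 5 t = (D.X 3 (((2 : ℤ) : F) * (-t) ^ 1 * u ^ 1) * 1)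
  rw [D.cr_51 t u]
  simp only [Int.cast_neg, Int.cast_one, Int.cast_ofNat, mul_one]

theorem cw_53 (t u : F) :
    (D.X 3 u)⁻¹ * (D.X 5 t)⁻¹ * D.X 3 u * D.X 5 t = wordB D.X (chevB2.commWord F 5 3 t u) := by
  have e : chevB2.commTerms 5 3 = [] := by decide
  unfold ChevalleyDatum.commWord
  rw [e]
  show (D.X 3 u)⁻¹ * (D.X 5 t)⁻¹ * D.X 3 u * D.X 5 t = 1
  rw [D.cr_53 t u]

theorem cw_54 (t u : F) :
    (D.X 4 u)⁻¹ * (D.X 5 t)⁻¹ * D.X 4 u * D.X 5 t = wordB D.X (chevB2.commWord F 5 4 t u) := by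
  have e : chevB2.commTerms 5 4 = [(6, -1, 1, 1), (7, -1, 2, 1)] := by decide
  unfold ChevalleyDatum.commWord
  rw [e]
  show (D.X 4 u)⁻¹ * (D.X 5 t)⁻¹ * D.X 4 u * D.X 5 t = (D.X 6 (((-1 : ℤ) : F) * (-t) ^ 1 * u ^ 1) * (D.X 7 (((-1 : ℤ) : F) * (-t) ^ 2 * u ^ 1) * 1))
  rw [D.cr_54 t u]
  simp only [Int.cast_neg, Int.cast_one, Int.cast_ofNat, mul_one]

theorem cw_56 (t u : F) :
    (D.X 6 u)⁻¹ * (D.X 5 t)⁻¹ * D.X 6 u * D.X 5 t = wordB D.X (chevB2.commWord F 5 6 t u) := by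
  have e : chevB2.commTerms 5 6 = [(7, 2, 1, 1)] := by decide
  unfold ChevalleyDatum.commWord
  rw [e]
  show (D.X 6 u)⁻¹ * (D.X 5 t)⁻¹ * D.X 6 u * D.X 5 t = (D.X 7 (((2 : ℤ) : F) * (-t) ^ 1 * u ^ 1) * 1)
  rw [D.cr_56 t u]
  simp only [Int.cast_neg, Int.cast_one, Int.cast_ofNat, mul_one]

theorem cw_57 (t u : F) :
    (D.X 7 u)⁻¹ * (D.X 5 t)⁻¹ * D.X 7 u * D.X 5 t = wordB D.X (chevB2.commWord F 5 7 t u) := by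
  have e : chevB2.commTerms 5 7 = [] := by decide
  unfold ChevalleyDatum.commWord
  rw [e]
  show (D.X 7 u)⁻¹ * (D.X 5 t)⁻¹ * D.X 7 u * D.X 5 t = 1
  rw [D.cr_57 t u]

theorem cw_60 (t u : F) :
    (D.X 0 u)⁻¹ * (D.X 6 t)⁻¹ * D.X 0 u * D.X 6 t = wordB D.X (chevB2.commWord F 6 0 t u) := by
  have e : chevB2.commTerms 6 0 = [(2, 1, 1, 1), (4, 1, 2, 1)] := by decide
  unfold ChevalleyDatum.commWord
  rw [e]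
  show (D.X 0 u)⁻¹ * (D.X 6 t)⁻¹ * D.X 0 u * D.X 6 t = (D.X 2 (((1 : ℤ) : F) * (-t) ^ 1 * u ^ 1) * (D.X 4 (((1 : ℤ) : F) * (-t) ^ 2 * u ^ 1) * 1))
  rw [D.cr_60 t u]
  simp only [Int.cast_neg, Int.cast_one, Int.cast_ofNat, mul_one]

theorem cw_62 (t u : F) :
    (D.X 2 u)⁻¹ * (D.X 6 t)⁻¹ * D.X 2 u * D.X 6 t = wordB D.X (chevB2.commWord F 6 2 t u) := by
  have e : chevB2.commTerms 6 2 = [(4, 2, 1, 1)] := by decide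
  unfold ChevalleyDatum.commWord
  rw [e]
  show (D.X 2 u)⁻¹ * (D.X 6 t)⁻¹ * D.X 2 u * D.X 6 t = (D.X 4 (((2 : ℤ) : F) * (-t) ^ 1 * u ^ 1) * 1)
  rw [D.cr_62 t u]
  simp only [Int.cast_neg, Int.cast_one, Int.cast_ofNat, mul_one]

theorem cw_63 (t u : F) :
    (D.X 3 u)⁻¹ * (D.X 6 t)⁻¹ * D.X 3 u * D.X 6 t = wordB D.X (chevB2.commWord F 6 3 t u) := by
  have e : chevB2.commTerms 6 3 = [(5, -1, 1, 1), (7, 1, 2, 1)] := by decide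
  unfold ChevalleyDatum.commWord
  rw [e]
  show (D.X 3 u)⁻¹ * (D.X 6 t)⁻¹ * D.X 3 u * D.X 6 t = (D.X 5 (((-1 : ℤ) : F) * (-t) ^ 1 * u ^ 1) * (D.X 7 (((1 : ℤ) : F) * (-t) ^ 2 * u ^ 1) * 1))
  rw [D.cr_63 t u]
  simp only [Int.cast_neg, Int.cast_one, Int.cast_ofNat, mul_one]

theorem cw_64 (t u : F) :
    (D.X 4 u)⁻¹ * (D.X 6 t)⁻¹ * D.X 4 u * D.X 6 t = wordB D.X (chevB2.commWord F 6 4 t u) := by
  have e : chevB2.commTerms 6 4 = [] := by decide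
  unfold ChevalleyDatum.commWord
  rw [e]
  show (D.X 4 u)⁻¹ * (D.X 6 t)⁻¹ * D.X 4 u * D.X 6 t = 1
  rw [D.cr_64 t u]

theorem cw_65 (t u : F) :
    (D.X 5 u)⁻¹ * (D.X 6 t)⁻¹ * D.X 5 u * D.X 6 t = wordB D.X (chevB2.commWord F 6 5 t u) := by
  have e : chevB2.commTerms 6 5 = [(7, -2, 1, 1)] := by decide
  unfold ChevalleyDatum.commWord
  rw [e]
  show (D.X 5 u)⁻¹ * (D.X 6 t)⁻¹ * D.X 5 u * D.X 6 t = (D.X 7 (((-2 : ℤ) : F) * (-t) ^ 1 * u ^ 1) * 1)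
  rw [D.cr_65 t u]
  simp only [Int.cast_neg, Int.cast_one, Int.cast_ofNat, mul_one]

theorem cw_67 (t u : F) :
    (D.X 7 u)⁻¹ * (D.X 6 t)⁻¹ * D.X 7 u * D.X 6 t = wordB D.X (chevB2.commWord F 6 7 t u) := by
  have e : chevB2.commTerms 6 7 = [] := by decide
  unfold ChevalleyDatum.commWord
  rw [e]
  show (D.X 7 u)⁻¹ * (D.X 6 t)⁻¹ * D.X 7 u * D.X 6 t = 1
  rw [D.cr_67 t u]

theorem cw_71 (t u : F) :
    (D.X 1 u)⁻¹ * (D.X 7 t)⁻¹ * D.X 1 u * D.X 7 t = wordB D.X (chevB2.commWord F 7 1 t u) := by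
  have e : chevB2.commTerms 7 1 = [(5, 1, 1, 1), (3, 1, 1, 2)] := by decide
  unfold ChevalleyDatum.commWord
  rw [e]
  show (D.X 1 u)⁻¹ * (D.X 7 t)⁻¹ * D.X 1 u * D.X 7 t = (D.X 5 (((1 : ℤ) : F) * (-t) ^ 1 * u ^ 1) * (D.X 3 (((1 : ℤ) : F) * (-t) ^ 1 * u ^ 2) * 1))
  rw [D.cr_71 t u]
  simp only [Int.cast_neg, Int.cast_one, Int.cast_ofNat, mul_one]

theorem cw_72 (t u : F) :
    (D.X 2 u)⁻¹ * (D.X 7 t)⁻¹ * D.X 2 u * D.X 7 t = wordB D.X (chevB2.commWord F 7 2 t u) := by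
  have e : chevB2.commTerms 7 2 = [(6, -1, 1, 1), (4, -1, 1, 2)] := by decide
  unfold ChevalleyDatum.commWord
  rw [e]
  show (D.X 2 u)⁻¹ * (D.X 7 t)⁻¹ * D.X 2 u * D.X 7 t = (D.X 6 (((-1 : ℤ) : F) * (-t) ^ 1 * u ^ 1) * (D.X 4 (((-1 : ℤ) : F) * (-t) ^ 1 * u ^ 2) * 1))
  rw [D.cr_72 t u]
  simp only [Int.cast_neg, Int.cast_one, Int.cast_ofNat, mul_one]

theorem cw_73 (t u : F) :
    (D.X 3 u)⁻¹ * (D.X 7 t)⁻¹ * D.X 3 u * D.X 7 t = wordB D.X (chevB2.commWord F 7 3 t u) := by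
  have e : chevB2.commTerms 7 3 = [] := by decide
  unfold ChevalleyDatum.commWord
  rw [e]
  show (D.X 3 u)⁻¹ * (D.X 7 t)⁻¹ * D.X 3 u * D.X 7 t = 1
  rw [D.cr_73 t u]

theorem cw_74 (t u : F) :
    (D.X 4 u)⁻¹ * (D.X 7 t)⁻¹ * D.X 4 u * D.X 7 t = wordB D.X (chevB2.commWord F 7 4 t u) := by
  have e : chevB2.commTerms 7 4 = [] := by decide
  unfold ChevalleyDatum.commWord
  rw [e]
  show (D.X 4 u)⁻¹ * (D.X 7 t)⁻¹ * D.X 4 u * D.X 7 t = 1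
  rw [D.cr_74 t u]

theorem cw_75 (t u : F) :
    (D.X 5 u)⁻¹ * (D.X 7 t)⁻¹ * D.X 5 u * D.X 7 t = wordB D.X (chevB2.commWord F 7 5 t u) := by
  have e : chevB2.commTerms 7 5 = [] := by decide
  unfold ChevalleyDatum.commWord
  rw [e]
  show (D.X 5 u)⁻¹ * (D.X 7 t)⁻¹ * D.X 5 u * D.X 7 t = 1
  rw [D.cr_75 t u]

theorem cw_76 (t u : F) :
    (D.X 6 u)⁻¹ * (D.X 7 t)⁻¹ * D.X 6 u * D.X 7 t = wordB D.X (chevB2.commWord F 7 6 t u) := by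
  have e : chevB2.commTerms 7 6 = [] := by decide
  unfold ChevalleyDatum.commWord
  rw [e]
  show (D.X 6 u)⁻¹ * (D.X 7 t)⁻¹ * D.X 6 u * D.X 7 t = 1
  rw [D.cr_76 t u]

theorem hB_all (r s : ℕ) (hr : r < 8) (hs : s < 8) (h1 : s ≠ r) (h2 : s ≠ chevB2.neg r) (t u : F) :
    (D.X s u)⁻¹ * (D.X r t)⁻¹ * D.X s u * D.X r t = wordB D.X (chevB2.commWord F r s t u) := by
  interval_cases r <;> interval_cases s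
  · exact absurd rfl h1
  · exact D.cw_01 t u
  · exact D.cw_02 t u
  · exact D.cw_03 t u
  · exact D.cw_04 t u
  · exact D.cw_05 t u
  · exact D.cw_06 t u
  · exact absurd (by decide) h2
  · exact D.cw_10 t u
  · exact absurd rfl h1
  · exact D.cw_12 t u
  · exact D.cw_13 t u
  · exact D.cw_14 t u
  · exact D.cw_15 t u
  · exact absurd (by decide) h2
  · exact D.cw_17 t u
  · exact D.cw_20 t u
  · exact D.cw_21 t u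
  · exact absurd rfl h1
  · exact D.cw_23 t u
  · exact D.cw_24 t u
  · exact absurd (by decide) h2
  · exact D.cw_26 t u
  · exact D.cw_27 t u
  · exact D.cw_30 t u
  · exact D.cw_31 t u
  · exact D.cw_32 t u
  · exact absurd rfl h1
  · exact absurd (by decide) h2
  · exact D.cw_35 t u
  · exact D.cw_36 t u
  · exact D.cw_37 t u
  · exact D.cw_40 t u
  · exact D.cw_41 t u
  · exact D.cw_42 t u
  · exact absurd (by decide) h2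
  · exact absurd rfl h1
  · exact D.cw_45 t u
  · exact D.cw_46 t u
  · exact D.cw_47 t u
  · exact D.cw_50 t u
  · exact D.cw_51 t u
  · exact absurd (by decide) h2
  · exact D.cw_53 t u
  · exact D.cw_54 t u
  · exact absurd rfl h1
  · exact D.cw_56 t u
  · exact D.cw_57 t u
  · exact D.cw_60 t u
  · exact absurd (by decide) h2
  · exact D.cw_62 t u
  · exact D.cw_63 t u
  · exact D.cw_64 t u
  · exact D.cw_65 t u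
  · exact absurd rfl h1
  · exact D.cw_67 t u
  · exact absurd (by decide) h2
  · exact D.cw_71 t u
  · exact D.cw_72 t u
  · exact D.cw_73 t u
  · exact D.cw_74 t u
  · exact D.cw_75 t u
  · exact D.cw_76 t u
  · exact absurd rfl h1

/-- the homomorphism from `Sp_4(F)` attached to the data -/
theorem exists_phi : ∃ φ : Sp4 F →* P, ∀ r < 8, ∀ t, φ (gS r t) = D.X r t :=
  sp4_steinberg D.X D.X_ge (fun r _ s t => D.Xadd r s t)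
    (fun r hr s hs h1 h2 t u => D.hB_all r s hr hs h1 h2 t u)

end SpDat

end Cfsg.Agent.H8
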