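import Cfsg.Agent.H8.SpPrC
import Cfsg.Agent.H8.SL3B
import Cfsg.Agent.H6.SpCenter

set_option autoImplicit false
set_option linter.unusedSimpArgs false
set_option linter.unusedTactic false
set_option linter.unreachableTactic false
set_option linter.unnecessarySeqFocus false
set_option linter.unusedVariables false
set_option maxHeartbeats 1000000

/-! Helper lemmas (helper8): Weyl and torus elements of `Sp_4(F)` as words in the root elements,
their matrices and their action on the root elements. -/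

namespace Cfsg.Agent.H8

open Matrix Cfsg.Agent.H17 Polynomial

section generic

variable {G : Type*} [Group G] {F : Type*} [Field F]

theorem conj_of_mul {n a b : G} (h : n * a = b * n) : n * a * n⁻¹ = b := by
  rw [h, mul_inv_cancel_right]

theorem conj_inv_of_mul {n a b : G} (h : n * a = b * n) : n⁻¹ * b * n = a := by
  rw [mul_assoc, ← h, inv_mul_cancel_left]

theorem cj_act (Y : F → G) (d : G) (a : F) (hd : ∀ t, d * Y t * d⁻¹ = Y (a * t)) (t : F)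
    (i : ℕ) : cj d (Y t) i = Y (a ^ i * t) :=
  conj_act_pow Y d a hd i t

theorem cprod_act (Y : F → G) (hadd : ∀ s t, Y (s + t) = Y s * Y t) (f : ℕ → F) (n : ℕ) :
    cprod (fun i => Y (f i)) n = Y (∑ i ∈ Finset.range n, f i) := by
  induction n with
  | zero => rw [cprod_zero, Finset.sum_range_zero, addfam_zero Y hadd]
  | succ n ih => rw [cprod_succ, ih, ← hadd, Finset.sum_range_succ]

theorem pow_act (Y : F → G) (hadd : ∀ s t, Y (s + t) = Y s * Y t) (t : F) (n : ℕ) :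
    Y t ^ n = Y (n • t) := by
  induction n with
  | zero => rw [pow_zero, zero_smul, addfam_zero Y hadd]
  | succ n ih => rw [pow_succ, ih, ← hadd, succ_nsmul]

theorem pw_act (p : ℕ) [Fact p.Prime] [Algebra (ZMod p) F] (Y : F → G)
    (hadd : ∀ s t, Y (s + t) = Y s * Y t) (d : G) (a : F)
    (hd : ∀ t, d * Y t * d⁻¹ = Y (a * t)) (g : (ZMod p)[X]) :
    pw p d (Y 1) g = Y (aeval a g) := by
  unfold pw
  have e : ∀ i, cj d (Y 1) i ^ (g.coeff i).val = Y (g.coeff i • a ^ i) := by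
    intro i
    rw [cj_act Y d a hd, mul_one, pow_act Y hadd]
    congr 1
    rw [← Nat.cast_smul_eq_nsmul (ZMod p), ZMod.natCast_zmod_val]
  simp only [e]
  rw [cprod_act Y hadd, aeval_eq_sum_range]

end generic

variable {F : Type*} [Field F]

theorem gS_zero (r : ℕ) : gS r (0 : F) = 1 := by
  have h := gS_add r (0 : F) 0
  rw [add_zero] at h
  exact mul_left_cancel (a := gS r (0 : F)) (by rw [h, mul_one])

theorem gS_inv (r : ℕ) (t : F) : (gS r t)⁻¹ = gS r (-t) := by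
  apply inv_eq_of_mul_eq_one_right
  rw [gS_add, add_neg_cancel, gS_zero]

theorem gS_add' (r : ℕ) (s t : F) : gS r (s + t) = gS r s * gS r t := (gS_add r s t).symm

/-- the Weyl element of the short fundamental root -/
def spNA : Sp4 F := gS 5 1 * gS 2 (-1) * gS 5 1

/-- the Weyl element of the long fundamental root -/
def spNB : Sp4 F := gS 4 1 * gS 3 (-1) * gS 4 1

/-- the torus element of the long fundamental root -/
def spH (ζ : F) : Sp4 F := gS 4 ζ * gS 3 (-ζ⁻¹) * gS 4 ζ * spNB⁻¹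

/-- its conjugate -/
def spK (ζ : F) : Sp4 F := spNA * spH ζ * spNA⁻¹

/-- the matrix of the first Weyl element -/
def mNA : Matrix I4 I4 F := Matrix.fromBlocks !![0, 1; -1, 0] 0 0 !![0, 1; -1, 0]

/-- the matrix of the second Weyl element -/
def mNB : Matrix I4 I4 F :=
  Matrix.fromBlocks !![1, 0; 0, 0] !![0, 0; 0, -1] !![0, 0; 0, 1] !![1, 0; 0, 0]

/-- the matrix of the torus element -/
def mH (ζ : F) : Matrix I4 I4 F :=
  Matrix.fromBlocks (Matrix.diagonal ![1, ζ]) 0 0 (Matrix.diagonal ![1, ζ⁻¹])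

theorem spNA_coe : ((spNA : Sp4 F) : Matrix I4 I4 F) = mNA := by
  show b2u5 1 * b2u2 (-1) * b2u5 1 = _
  apply i4_ext
  intro i j
  fin_cases i <;> fin_cases j <;>
    simp [b2u0, b2u1, b2u2, b2u3, b2u4, b2u5, b2u6, b2u7, mNA, mNB, mH, Matrix.mul_apply,
      Fintype.sum_sum_type, Fin.sum_univ_two, Matrix.one_apply, Matrix.diagonal_apply] <;>
    (try field_simp) <;> (try ring_nf) <;> (try simp) <;> (try ring)

theorem spNB_coe : ((spNB : Sp4 F) : Matrix I4 I4 F) = mNB := by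
  show b2u4 1 * b2u3 (-1) * b2u4 1 = _
  apply i4_ext
  intro i j
  fin_cases i <;> fin_cases j <;>
    simp [b2u0, b2u1, b2u2, b2u3, b2u4, b2u5, b2u6, b2u7, mNA, mNB, mH, Matrix.mul_apply,
      Fintype.sum_sum_type, Fin.sum_univ_two, Matrix.one_apply, Matrix.diagonal_apply] <;>
    (try field_simp) <;> (try ring_nf) <;> (try simp) <;> (try ring)

theorem spNB_inv : (spNB : Sp4 F)⁻¹ = gS 4 (-1) * gS 3 (-(-1 : F)⁻¹) * gS 4 (-1) := by
  unfold spNB
  rw [_root_.mul_inv_rev, _root_.mul_inv_rev, gS_inv, gS_inv, inv_neg_one, mul_assoc]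

theorem spH_eq (ζ : F) : spH ζ = hS4 ζ := by
  unfold spH hS4
  rw [spNB_inv]

theorem spH_coe (ζ : F) (h : ζ ≠ 0) : ((spH ζ : Sp4 F) : Matrix I4 I4 F) = mH ζ := by
  rw [spH_eq]
  exact hS4_coe ζ h

theorem spNA_g0 (t : F) : spNA * gS 0 t = gS 3 (-t) * spNA := by
  apply Subtype.ext
  show b2u5 1 * b2u2 (-1) * b2u5 1 * b2u0 t = b2u3 (-t) * (b2u5 1 * b2u2 (-1) * b2u5 1)
  apply i4_ext
  intro i j
  fin_cases i <;> fin_cases j <;>
    simp [b2u0, b2u1, b2u2, b2u3, b2u4, b2u5, b2u6, b2u7, Matrix.mul_apply,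
      Fintype.sum_sum_type, Fin.sum_univ_two, Matrix.one_apply] <;>
    (try ring_nf) <;> (try simp) <;> (try ring)

theorem spNA_g1 (t : F) : spNA * gS 1 t = gS 1 (-t) * spNA := by
  apply Subtype.ext
  show b2u5 1 * b2u2 (-1) * b2u5 1 * b2u1 t = b2u1 (-t) * (b2u5 1 * b2u2 (-1) * b2u5 1)
  apply i4_ext
  intro i j
  fin_cases i <;> fin_cases j <;>
    simp [b2u0, b2u1, b2u2, b2u3, b2u4, b2u5, b2u6, b2u7, Matrix.mul_apply,
      Fintype.sum_sum_type, Fin.sum_univ_two, Matrix.one_apply] <;>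
    (try ring_nf) <;> (try simp) <;> (try ring)

theorem spNA_g2 (t : F) : spNA * gS 2 t = gS 5 (-t) * spNA := by
  apply Subtype.ext
  show b2u5 1 * b2u2 (-1) * b2u5 1 * b2u2 t = b2u5 (-t) * (b2u5 1 * b2u2 (-1) * b2u5 1)
  apply i4_ext
  intro i j
  fin_cases i <;> fin_cases j <;>
    simp [b2u0, b2u1, b2u2, b2u3, b2u4, b2u5, b2u6, b2u7, Matrix.mul_apply,
      Fintype.sum_sum_type, Fin.sum_univ_two, Matrix.one_apply] <;>
    (try ring_nf) <;> (try simp) <;> (try ring)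

theorem spNA_g3 (t : F) : spNA * gS 3 t = gS 0 (-t) * spNA := by
  apply Subtype.ext
  show b2u5 1 * b2u2 (-1) * b2u5 1 * b2u3 t = b2u0 (-t) * (b2u5 1 * b2u2 (-1) * b2u5 1)
  apply i4_ext
  intro i j
  fin_cases i <;> fin_cases j <;>
    simp [b2u0, b2u1, b2u2, b2u3, b2u4, b2u5, b2u6, b2u7, Matrix.mul_apply,
      Fintype.sum_sum_type, Fin.sum_univ_two, Matrix.one_apply] <;>
    (try ring_nf) <;> (try simp) <;> (try ring)

theorem spNA_g4 (t : F) : spNA * gS 4 t = gS 7 (-t) * spNA := by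
  apply Subtype.ext
  show b2u5 1 * b2u2 (-1) * b2u5 1 * b2u4 t = b2u7 (-t) * (b2u5 1 * b2u2 (-1) * b2u5 1)
  apply i4_ext
  intro i j
  fin_cases i <;> fin_cases j <;>
    simp [b2u0, b2u1, b2u2, b2u3, b2u4, b2u5, b2u6, b2u7, Matrix.mul_apply,
      Fintype.sum_sum_type, Fin.sum_univ_two, Matrix.one_apply] <;>
    (try ring_nf) <;> (try simp) <;> (try ring)

theorem spNA_g5 (t : F) : spNA * gS 5 t = gS 2 (-t) * spNA := by
  apply Subtype.ext
  show b2u5 1 * b2u2 (-1) * b2u5 1 * b2u5 t = b2u2 (-t) * (b2u5 1 * b2u2 (-1) * b2u5 1)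
  apply i4_ext
  intro i j
  fin_cases i <;> fin_cases j <;>
    simp [b2u0, b2u1, b2u2, b2u3, b2u4, b2u5, b2u6, b2u7, Matrix.mul_apply,
      Fintype.sum_sum_type, Fin.sum_univ_two, Matrix.one_apply] <;>
    (try ring_nf) <;> (try simp) <;> (try ring)

theorem spNA_g6 (t : F) : spNA * gS 6 t = gS 6 (-t) * spNA := by
  apply Subtype.ext
  show b2u5 1 * b2u2 (-1) * b2u5 1 * b2u6 t = b2u6 (-t) * (b2u5 1 * b2u2 (-1) * b2u5 1)
  apply i4_ext
  intro i j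
  fin_cases i <;> fin_cases j <;>
    simp [b2u0, b2u1, b2u2, b2u3, b2u4, b2u5, b2u6, b2u7, Matrix.mul_apply,
      Fintype.sum_sum_type, Fin.sum_univ_two, Matrix.one_apply] <;>
    (try ring_nf) <;> (try simp) <;> (try ring)

theorem spNA_g7 (t : F) : spNA * gS 7 t = gS 4 (-t) * spNA := by
  apply Subtype.ext
  show b2u5 1 * b2u2 (-1) * b2u5 1 * b2u7 t = b2u4 (-t) * (b2u5 1 * b2u2 (-1) * b2u5 1)
  apply i4_ext
  intro i j
  fin_cases i <;> fin_cases j <;>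
    simp [b2u0, b2u1, b2u2, b2u3, b2u4, b2u5, b2u6, b2u7, Matrix.mul_apply,
      Fintype.sum_sum_type, Fin.sum_univ_two, Matrix.one_apply] <;>
    (try ring_nf) <;> (try simp) <;> (try ring)

theorem spNB_g0 (t : F) : spNB * gS 0 t = gS 0 t * spNB := by
  apply Subtype.ext
  show b2u4 1 * b2u3 (-1) * b2u4 1 * b2u0 t = b2u0 t * (b2u4 1 * b2u3 (-1) * b2u4 1)
  apply i4_ext
  intro i j
  fin_cases i <;> fin_cases j <;>
    simp [b2u0, b2u1, b2u2, b2u3, b2u4, b2u5, b2u6, b2u7, Matrix.mul_apply,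
      Fintype.sum_sum_type, Fin.sum_univ_two, Matrix.one_apply] <;>
    (try ring_nf) <;> (try simp) <;> (try ring)

theorem spNB_g1 (t : F) : spNB * gS 1 t = gS 2 (-t) * spNB := by
  apply Subtype.ext
  show b2u4 1 * b2u3 (-1) * b2u4 1 * b2u1 t = b2u2 (-t) * (b2u4 1 * b2u3 (-1) * b2u4 1)
  apply i4_ext
  intro i j
  fin_cases i <;> fin_cases j <;>
    simp [b2u0, b2u1, b2u2, b2u3, b2u4, b2u5, b2u6, b2u7, Matrix.mul_apply,
      Fintype.sum_sum_type, Fin.sum_univ_two, Matrix.one_apply] <;>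
    (try ring_nf) <;> (try simp) <;> (try ring)

theorem spNB_g2 (t : F) : spNB * gS 2 t = gS 1 t * spNB := by
  apply Subtype.ext
  show b2u4 1 * b2u3 (-1) * b2u4 1 * b2u2 t = b2u1 t * (b2u4 1 * b2u3 (-1) * b2u4 1)
  apply i4_ext
  intro i j
  fin_cases i <;> fin_cases j <;>
    simp [b2u0, b2u1, b2u2, b2u3, b2u4, b2u5, b2u6, b2u7, Matrix.mul_apply,
      Fintype.sum_sum_type, Fin.sum_univ_two, Matrix.one_apply] <;>
    (try ring_nf) <;> (try simp) <;> (try ring)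

theorem spNB_g3 (t : F) : spNB * gS 3 t = gS 4 (-t) * spNB := by
  apply Subtype.ext
  show b2u4 1 * b2u3 (-1) * b2u4 1 * b2u3 t = b2u4 (-t) * (b2u4 1 * b2u3 (-1) * b2u4 1)
  apply i4_ext
  intro i j
  fin_cases i <;> fin_cases j <;>
    simp [b2u0, b2u1, b2u2, b2u3, b2u4, b2u5, b2u6, b2u7, Matrix.mul_apply,
      Fintype.sum_sum_type, Fin.sum_univ_two, Matrix.one_apply] <;>
    (try ring_nf) <;> (try simp) <;> (try ring)

theorem spNB_g4 (t : F) : spNB * gS 4 t = gS 3 (-t) * spNB := by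
  apply Subtype.ext
  show b2u4 1 * b2u3 (-1) * b2u4 1 * b2u4 t = b2u3 (-t) * (b2u4 1 * b2u3 (-1) * b2u4 1)
  apply i4_ext
  intro i j
  fin_cases i <;> fin_cases j <;>
    simp [b2u0, b2u1, b2u2, b2u3, b2u4, b2u5, b2u6, b2u7, Matrix.mul_apply,
      Fintype.sum_sum_type, Fin.sum_univ_two, Matrix.one_apply] <;>
    (try ring_nf) <;> (try simp) <;> (try ring)

theorem spNB_g5 (t : F) : spNB * gS 5 t = gS 6 t * spNB := by
  apply Subtype.ext
  show b2u4 1 * b2u3 (-1) * b2u4 1 * b2u5 t = b2u6 t * (b2u4 1 * b2u3 (-1) * b2u4 1)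
  apply i4_ext
  intro i j
  fin_cases i <;> fin_cases j <;>
    simp [b2u0, b2u1, b2u2, b2u3, b2u4, b2u5, b2u6, b2u7, Matrix.mul_apply,
      Fintype.sum_sum_type, Fin.sum_univ_two, Matrix.one_apply] <;>
    (try ring_nf) <;> (try simp) <;> (try ring)

theorem spNB_g6 (t : F) : spNB * gS 6 t = gS 5 (-t) * spNB := by
  apply Subtype.ext
  show b2u4 1 * b2u3 (-1) * b2u4 1 * b2u6 t = b2u5 (-t) * (b2u4 1 * b2u3 (-1) * b2u4 1)
  apply i4_ext
  intro i j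
  fin_cases i <;> fin_cases j <;>
    simp [b2u0, b2u1, b2u2, b2u3, b2u4, b2u5, b2u6, b2u7, Matrix.mul_apply,
      Fintype.sum_sum_type, Fin.sum_univ_two, Matrix.one_apply] <;>
    (try ring_nf) <;> (try simp) <;> (try ring)

theorem spNB_g7 (t : F) : spNB * gS 7 t = gS 7 t * spNB := by
  apply Subtype.ext
  show b2u4 1 * b2u3 (-1) * b2u4 1 * b2u7 t = b2u7 t * (b2u4 1 * b2u3 (-1) * b2u4 1)
  apply i4_ext
  intro i j
  fin_cases i <;> fin_cases j <;>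
    simp [b2u0, b2u1, b2u2, b2u3, b2u4, b2u5, b2u6, b2u7, Matrix.mul_apply,
      Fintype.sum_sum_type, Fin.sum_univ_two, Matrix.one_apply] <;>
    (try ring_nf) <;> (try simp) <;> (try ring)

theorem spH_g4 (ζ : F) (h : ζ ≠ 0) (t : F) : spH ζ * gS 4 t = gS 4 (ζ ^ 2 * t) * spH ζ := by
  apply Subtype.ext
  show ((spH ζ : Sp4 F) : Matrix I4 I4 F) * b2u4 t = b2u4 (ζ ^ 2 * t) * ((spH ζ : Sp4 F) : Matrix I4 I4 F)
  rw [spH_coe ζ h]
  apply i4_ext
  intro i j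
  fin_cases i <;> fin_cases j <;>
    simp [b2u0, b2u1, b2u2, b2u3, b2u4, b2u5, b2u6, b2u7, mNA, mNB, mH, Matrix.mul_apply,
      Fintype.sum_sum_type, Fin.sum_univ_two, Matrix.one_apply, Matrix.diagonal_apply] <;>
    (try field_simp) <;> (try ring_nf) <;> (try simp) <;> (try ring)

theorem spH_g5 (ζ : F) (h : ζ ≠ 0) (t : F) : spH ζ * gS 5 t = gS 5 (ζ⁻¹ * t) * spH ζ := by
  apply Subtype.ext
  show ((spH ζ : Sp4 F) : Matrix I4 I4 F) * b2u5 t = b2u5 (ζ⁻¹ * t) * ((spH ζ : Sp4 F) : Matrix I4 I4 F)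
  rw [spH_coe ζ h]
  apply i4_ext
  intro i j
  fin_cases i <;> fin_cases j <;>
    simp [b2u0, b2u1, b2u2, b2u3, b2u4, b2u5, b2u6, b2u7, mNA, mNB, mH, Matrix.mul_apply,
      Fintype.sum_sum_type, Fin.sum_univ_two, Matrix.one_apply, Matrix.diagonal_apply] <;>
    (try field_simp) <;> (try ring_nf) <;> (try simp) <;> (try ring)

theorem spH_g2 (ζ : F) (h : ζ ≠ 0) (t : F) : spH ζ * gS 2 t = gS 2 (ζ * t) * spH ζ := by
  apply Subtype.ext
  show ((spH ζ : Sp4 F) : Matrix I4 I4 F) * b2u2 t = b2u2 (ζ * t) * ((spH ζ : Sp4 F) : Matrix I4 I4 F)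
  rw [spH_coe ζ h]
  apply i4_ext
  intro i j
  fin_cases i <;> fin_cases j <;>
    simp [b2u0, b2u1, b2u2, b2u3, b2u4, b2u5, b2u6, b2u7, mNA, mNB, mH, Matrix.mul_apply,
      Fintype.sum_sum_type, Fin.sum_univ_two, Matrix.one_apply, Matrix.diagonal_apply] <;>
    (try field_simp) <;> (try ring_nf) <;> (try simp) <;> (try ring)

theorem spH_g7 (ζ : F) (h : ζ ≠ 0) (t : F) : spH ζ * gS 7 t = gS 7 t * spH ζ := by
  apply Subtype.ext
  show ((spH ζ : Sp4 F) : Matrix I4 I4 F) * b2u7 t = b2u7 t * ((spH ζ : Sp4 F) : Matrix I4 I4 F)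
  rw [spH_coe ζ h]
  apply i4_ext
  intro i j
  fin_cases i <;> fin_cases j <;>
    simp [b2u0, b2u1, b2u2, b2u3, b2u4, b2u5, b2u6, b2u7, mNA, mNB, mH, Matrix.mul_apply,
      Fintype.sum_sum_type, Fin.sum_univ_two, Matrix.one_apply, Matrix.diagonal_apply] <;>
    (try field_simp) <;> (try ring_nf) <;> (try simp) <;> (try ring)

theorem spK_g5 (ζ : F) (h : ζ ≠ 0) (t : F) : spK ζ * gS 5 t * (spK ζ)⁻¹ = gS 5 (ζ * t) := by
  unfold spK
  have e1 : (spNA : Sp4 F)⁻¹ * gS 5 t * spNA = gS 2 (-t) := by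
    have := conj_inv_of_mul (spNA_g2 (-t))
    rwa [neg_neg] at this
  have e2 := conj_of_mul (spH_g2 ζ h (-t))
  have e3 := conj_of_mul (spNA_g2 (ζ * -t))
  calc spNA * spH ζ * spNA⁻¹ * gS 5 t * (spNA * spH ζ * spNA⁻¹)⁻¹
      = spNA * (spH ζ * (spNA⁻¹ * gS 5 t * spNA) * (spH ζ)⁻¹) * spNA⁻¹ := by group
    _ = gS 5 (ζ * t) := by
        rw [e1, e2, e3]
        congr 1
        ring

theorem spK_g4 (ζ : F) (h : ζ ≠ 0) (t : F) : spK ζ * gS 4 t * (spK ζ)⁻¹ = gS 4 t := by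
  unfold spK
  have e1 : (spNA : Sp4 F)⁻¹ * gS 4 t * spNA = gS 7 (-t) := by
    have := conj_inv_of_mul (spNA_g7 (-t))
    rwa [neg_neg] at this
  have e2 := conj_of_mul (spH_g7 ζ h (-t))
  have e3 := conj_of_mul (spNA_g7 (-t))
  calc spNA * spH ζ * spNA⁻¹ * gS 4 t * (spNA * spH ζ * spNA⁻¹)⁻¹
      = spNA * (spH ζ * (spNA⁻¹ * gS 4 t * spNA) * (spH ζ)⁻¹) * spNA⁻¹ := by group
    _ = gS 4 t := by
        rw [e1, e2, e3, neg_neg]

theorem spH_g4' (ζ : F) (h : ζ ≠ 0) (t : F) : spH ζ * gS 4 t * (spH ζ)⁻¹ = gS 4 (ζ ^ 2 * t) :=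
  conj_of_mul (spH_g4 ζ h t)

theorem spH_g5' (ζ : F) (h : ζ ≠ 0) (t : F) : spH ζ * gS 5 t * (spH ζ)⁻¹ = gS 5 (ζ⁻¹ * t) :=
  conj_of_mul (spH_g5 ζ h t)

theorem spNA_sq_coe : ((spNA * spNA : Sp4 F) : Matrix I4 I4 F) = -1 := by
  show ((spNA : Sp4 F) : Matrix I4 I4 F) * ((spNA : Sp4 F) : Matrix I4 I4 F) = -1
  rw [spNA_coe]
  apply i4_ext
  intro i j
  fin_cases i <;> fin_cases j <;>
    simp [b2u0, b2u1, b2u2, b2u3, b2u4, b2u5, b2u6, b2u7, mNA, mNB, mH, Matrix.mul_apply,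
      Fintype.sum_sum_type, Fin.sum_univ_two, Matrix.one_apply, Matrix.diagonal_apply] <;>
    (try field_simp) <;> (try ring_nf) <;> (try simp) <;> (try ring)

theorem spNA_sq_eq : (spNA * spNA : Sp4 F) = Cfsg.Agent.H6.spNegOne (Fin 2) F :=
  Subtype.ext spNA_sq_coe

theorem spNA_sq_comm (g : Sp4 F) : (spNA * spNA) * g = g * (spNA * spNA) := by
  apply Subtype.ext
  show ((spNA * spNA : Sp4 F) : Matrix I4 I4 F) * g.1 =
    g.1 * ((spNA * spNA : Sp4 F) : Matrix I4 I4 F)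
  rw [spNA_sq_coe, neg_one_mul, mul_neg_one]

theorem sp_braid : (spNA * spNB * spNA * spNB : Sp4 F) = spNB * spNA * spNB * spNA := by
  apply Subtype.ext
  show ((spNA : Sp4 F) : Matrix I4 I4 F) * ((spNB : Sp4 F) : Matrix I4 I4 F) *
      ((spNA : Sp4 F) : Matrix I4 I4 F) * ((spNB : Sp4 F) : Matrix I4 I4 F) =
    ((spNB : Sp4 F) : Matrix I4 I4 F) * ((spNA : Sp4 F) : Matrix I4 I4 F) *
      ((spNB : Sp4 F) : Matrix I4 I4 F) * ((spNA : Sp4 F) : Matrix I4 I4 F)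
  rw [spNA_coe, spNB_coe]
  apply i4_ext
  intro i j
  fin_cases i <;> fin_cases j <;>
    simp [b2u0, b2u1, b2u2, b2u3, b2u4, b2u5, b2u6, b2u7, mNA, mNB, mH, Matrix.mul_apply,
      Fintype.sum_sum_type, Fin.sum_univ_two, Matrix.one_apply, Matrix.diagonal_apply] <;>
    (try field_simp) <;> (try ring_nf) <;> (try simp) <;> (try ring)

theorem sp_W1' : (spNA * (spNB * spNB) * spNA : Sp4 F) = spNB * spNB := by
  apply Subtype.ext
  show ((spNA : Sp4 F) : Matrix I4 I4 F) * (((spNB : Sp4 F) : Matrix I4 I4 F) *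
      ((spNB : Sp4 F) : Matrix I4 I4 F)) * ((spNA : Sp4 F) : Matrix I4 I4 F) =
    ((spNB : Sp4 F) : Matrix I4 I4 F) * ((spNB : Sp4 F) : Matrix I4 I4 F)
  rw [spNA_coe, spNB_coe]
  apply i4_ext
  intro i j
  fin_cases i <;> fin_cases j <;>
    simp [b2u0, b2u1, b2u2, b2u3, b2u4, b2u5, b2u6, b2u7, mNA, mNB, mH, Matrix.mul_apply,
      Fintype.sum_sum_type, Fin.sum_univ_two, Matrix.one_apply, Matrix.diagonal_apply] <;>
    (try field_simp) <;> (try ring_nf) <;> (try simp) <;> (try ring)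

theorem sp_nbh' (ζ : F) (h : ζ ≠ 0) : spH ζ * spNB * spH ζ = spNB := by
  apply Subtype.ext
  show ((spH ζ : Sp4 F) : Matrix I4 I4 F) * ((spNB : Sp4 F) : Matrix I4 I4 F) *
      ((spH ζ : Sp4 F) : Matrix I4 I4 F) = ((spNB : Sp4 F) : Matrix I4 I4 F)
  rw [spH_coe ζ h, spNB_coe]
  apply i4_ext
  intro i j
  fin_cases i <;> fin_cases j <;>
    simp [b2u0, b2u1, b2u2, b2u3, b2u4, b2u5, b2u6, b2u7, mNA, mNB, mH, Matrix.mul_apply,
      Fintype.sum_sum_type, Fin.sum_univ_two, Matrix.one_apply, Matrix.diagonal_apply] <;>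
    (try field_simp) <;> (try ring_nf) <;> (try simp) <;> (try ring)

theorem spK_eq (ζ : F) (h : ζ ≠ 0) : spK ζ = hS5 ζ * hS4 ζ := by
  have e : spNA * spH ζ = hS5 ζ * hS4 ζ * spNA := by
    apply Subtype.ext
    show ((spNA : Sp4 F) : Matrix I4 I4 F) * ((spH ζ : Sp4 F) : Matrix I4 I4 F) =
      ((hS5 ζ : Sp4 F) : Matrix I4 I4 F) * ((hS4 ζ : Sp4 F) : Matrix I4 I4 F) *
        ((spNA : Sp4 F) : Matrix I4 I4 F)
    rw [spNA_coe, spH_coe ζ h, hS5_coe ζ h, hS4_coe ζ h]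
    apply i4_ext
    intro i j
    fin_cases i <;> fin_cases j <;>
      simp [b2u0, b2u1, b2u2, b2u3, b2u4, b2u5, b2u6, b2u7, mNA, mNB, mH, Matrix.mul_apply,
        Fintype.sum_sum_type, Fin.sum_univ_two, Matrix.one_apply, Matrix.diagonal_apply] <;>
      (try field_simp) <;> (try ring_nf) <;> (try simp) <;> (try ring)
  unfold spK
  rw [e, mul_inv_cancel_right]

theorem sp_hk (ζ : F) (h : ζ ≠ 0) : spH ζ * spK ζ = spK ζ * spH ζ := by
  rw [spK_eq ζ h]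
  apply Subtype.ext
  show ((spH ζ : Sp4 F) : Matrix I4 I4 F) * (((hS5 ζ : Sp4 F) : Matrix I4 I4 F) *
      ((hS4 ζ : Sp4 F) : Matrix I4 I4 F)) =
    ((hS5 ζ : Sp4 F) : Matrix I4 I4 F) * ((hS4 ζ : Sp4 F) : Matrix I4 I4 F) *
      ((spH ζ : Sp4 F) : Matrix I4 I4 F)
  rw [spH_coe ζ h, hS5_coe ζ h, hS4_coe ζ h]
  apply i4_ext
  intro i j
  fin_cases i <;> fin_cases j <;>
    simp [b2u0, b2u1, b2u2, b2u3, b2u4, b2u5, b2u6, b2u7, mNA, mNB, mH, Matrix.mul_apply,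
      Fintype.sum_sum_type, Fin.sum_univ_two, Matrix.one_apply, Matrix.diagonal_apply] <;>
    (try field_simp) <;> (try ring_nf) <;> (try simp) <;> (try ring)

theorem sp_nbk (ζ : F) (h : ζ ≠ 0) : spNB * spK ζ = spK ζ * spNB := by
  rw [spK_eq ζ h]
  apply Subtype.ext
  show ((spNB : Sp4 F) : Matrix I4 I4 F) * (((hS5 ζ : Sp4 F) : Matrix I4 I4 F) *
      ((hS4 ζ : Sp4 F) : Matrix I4 I4 F)) =
    ((hS5 ζ : Sp4 F) : Matrix I4 I4 F) * ((hS4 ζ : Sp4 F) : Matrix I4 I4 F) *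
      ((spNB : Sp4 F) : Matrix I4 I4 F)
  rw [spNB_coe, hS5_coe ζ h, hS4_coe ζ h]
  apply i4_ext
  intro i j
  fin_cases i <;> fin_cases j <;>
    simp [b2u0, b2u1, b2u2, b2u3, b2u4, b2u5, b2u6, b2u7, mNA, mNB, mH, Matrix.mul_apply,
      Fintype.sum_sum_type, Fin.sum_univ_two, Matrix.one_apply, Matrix.diagonal_apply] <;>
    (try field_simp) <;> (try ring_nf) <;> (try simp) <;> (try ring)

theorem sp_C1 : (gS 4 (1 : F))⁻¹ * (gS 5 1)⁻¹ * gS 4 1 * gS 5 1 = gS 6 1 * gS 7 (-1) := by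
  rw [gS_inv, gS_inv]
  apply Subtype.ext
  show b2u4 (-1) * b2u5 (-1) * b2u4 1 * b2u5 1 = b2u6 1 * b2u7 (-1)
  apply i4_ext
  intro i j
  fin_cases i <;> fin_cases j <;>
    simp [b2u0, b2u1, b2u2, b2u3, b2u4, b2u5, b2u6, b2u7, Matrix.mul_apply,
      Fintype.sum_sum_type, Fin.sum_univ_two, Matrix.one_apply] <;>
    (try ring_nf) <;> (try simp) <;> (try ring)

theorem sp_C2 : (gS 6 (1 : F))⁻¹ * (gS 5 1)⁻¹ * gS 6 1 * gS 5 1 = gS 7 (-1) * gS 7 (-1) := by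
  rw [gS_inv, gS_inv]
  apply Subtype.ext
  show b2u6 (-1) * b2u5 (-1) * b2u6 1 * b2u5 1 = b2u7 (-1) * b2u7 (-1)
  apply i4_ext
  intro i j
  fin_cases i <;> fin_cases j <;>
    simp [b2u0, b2u1, b2u2, b2u3, b2u4, b2u5, b2u6, b2u7, Matrix.mul_apply,
      Fintype.sum_sum_type, Fin.sum_univ_two, Matrix.one_apply] <;>
    (try ring_nf) <;> (try simp) <;> (try ring)

theorem sp_C3 : gS 5 (1 : F) * gS 7 (-1) = gS 7 (-1) * gS 5 1 := by
  apply Subtype.ext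
  show b2u5 1 * b2u7 (-1) = b2u7 (-1) * b2u5 1
  apply i4_ext
  intro i j
  fin_cases i <;> fin_cases j <;>
    simp [b2u0, b2u1, b2u2, b2u3, b2u4, b2u5, b2u6, b2u7, Matrix.mul_apply,
      Fintype.sum_sum_type, Fin.sum_univ_two, Matrix.one_apply] <;>
    (try ring_nf) <;> (try simp) <;> (try ring)

theorem sp_C4 : gS 4 (1 : F) * gS 7 (-1) = gS 7 (-1) * gS 4 1 := by
  apply Subtype.ext
  show b2u4 1 * b2u7 (-1) = b2u7 (-1) * b2u4 1
  apply i4_ext
  intro i j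
  fin_cases i <;> fin_cases j <;>
    simp [b2u0, b2u1, b2u2, b2u3, b2u4, b2u5, b2u6, b2u7, Matrix.mul_apply,
      Fintype.sum_sum_type, Fin.sum_univ_two, Matrix.one_apply] <;>
    (try ring_nf) <;> (try simp) <;> (try ring)

end Cfsg.Agent.H8
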