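import Cfsg.Agent.H8.SpPrD

set_option autoImplicit false
set_option linter.unusedVariables false
set_option linter.unusedSectionVars false
set_option maxHeartbeats 1000000

/-! Helper lemmas (helper8): from relations at six generators to the data of type `B₂`. -/

namespace Cfsg.Agent.H8

open Polynomial

section act

variable {P : Type*} [Group P] {F : Type*} [Field F]

/-- transport of a scalar action along the powers -/
theorem act_pow (Y : F → P) (d : P) (a : F) (hd : ∀ t, d * Y t * d⁻¹ = Y (a * t))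
    (c g : P) (ε : F) (hc : ∀ t, c * Y t * c⁻¹ = Y (a * t)) (hg : g * d * g⁻¹ = c)
    (hu : g * Y 1 * g⁻¹ = Y ε) (j : ℕ) : g * Y (a ^ j) * g⁻¹ = Y (ε * a ^ j) := by
  induction j with
  | zero => rw [pow_zero, mul_one]; exact hu
  | succ j ih =>
    have e1 : Y (a ^ (j + 1)) = d * Y (a ^ j) * d⁻¹ := by rw [hd, pow_succ']
    rw [e1]
    calc g * (d * Y (a ^ j) * d⁻¹) * g⁻¹
        = (g * d * g⁻¹) * (g * Y (a ^ j) * g⁻¹) * (g * d * g⁻¹)⁻¹ := by group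
      _ = Y (ε * a ^ (j + 1)) := by
          rw [hg, ih, hc]
          congr 1
          ring

theorem act_add (Y : F → P) (hadd : ∀ s t, Y (s + t) = Y s * Y t) (g : P) (ε : F) {s t : F}
    (hs : g * Y s * g⁻¹ = Y (ε * s)) (ht : g * Y t * g⁻¹ = Y (ε * t)) :
    g * Y (s + t) * g⁻¹ = Y (ε * (s + t)) := by
  rw [addfam_conj Y hadd, hs, ht, ← hadd, mul_add]

theorem act_zero (Y : F → P) (hadd : ∀ s t, Y (s + t) = Y s * Y t) (g : P) (ε : F) :
    g * Y 0 * g⁻¹ = Y (ε * 0) := by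
  rw [mul_zero, addfam_zero Y hadd]; group

end act

/-- the data of type `B₂` from the relations at six generators -/
theorem spdat_of_gen {P : Type*} [Group P] {F : Type*} [Field F] [Fintype F] (p : ℕ)
    [Fact p.Prime] [Algebra (ZMod p) F]
    (ζ : F) (hζ0 : ζ ≠ 0) (hζ : ∀ t : F, t ≠ 0 → ∃ j : ℕ, t = ζ ^ j)
    (K e K' e' : ℕ) (hK : 3 ≤ K) (hK' : 3 ≤ K') (gz gzi : (ZMod p)[X])
    (hgz : aeval (ζ ^ 2) gz = ζ) (hgzi : aeval (ζ ^ 2) gzi = ζ⁻¹)
    (ua ub na nb h k : P)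
    (a1 : ua ^ p = 1) (a2 : Commute ua (cj k ua 1)) (a3 : Commute ua (cj k ua 2))
    (a4 : cj k ua K = ua * cj k ua 1 ^ e * cj k ua 2)
    (a5 : pw p k ua (minpoly (ZMod p) ζ) = 1)
    (b1 : ub ^ p = 1) (b2 : Commute ub (cj h ub 1)) (b3 : Commute ub (cj h ub 2))
    (b4 : cj h ub K' = ub * cj h ub 1 ^ e' * cj h ub 2)
    (b5 : pw p h ub (minpoly (ZMod p) (ζ ^ 2)) = 1)
    (kdef : k = na * h * na⁻¹) (hk : h * k = k * h) (nbh : nb * h * nb⁻¹ = h⁻¹)
    (nbk : nb * k * nb⁻¹ = k)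
    (khu : (k * h) * ua = ua * (k * h)) (kub : k * ub = ub * k)
    (zua : (na * na) * ua = ua * (na * na)) (zub : (na * na) * ub = ub * (na * na))
    (znb : (na * na) * nb = nb * (na * na)) (zh : (na * na) * h = h * (na * na))
    (yua : (nb * nb) * ua * (nb * nb)⁻¹ = ua⁻¹) (yub : (nb * nb) * ub = ub * (nb * nb))
    (W1 : (nb * nb) * na * (nb * nb)⁻¹ = na⁻¹) (braid : na * nb * na * nb = nb * na * nb * na)
    (m1 : (nb⁻¹ * na * nb) * ua * (nb⁻¹ * na * nb)⁻¹ = ua⁻¹)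
    (m4 : (na⁻¹ * nb * na) * ub = ub * (na⁻¹ * nb * na))
    (r1a : ua * (na * ua * na⁻¹) * ua = na) (r1b : ub * (nb * ub * nb⁻¹) * ub = nb)
    (hdef : pw p h ub gz * (nb * pw p h ub gzi * nb⁻¹) * pw p h ub gz * nb⁻¹ = h)
    (C1 : ub⁻¹ * ua⁻¹ * ub * ua = (nb * ua * nb⁻¹) * (na * ub * na⁻¹))
    (C2 : (nb * ua * nb⁻¹)⁻¹ * ua⁻¹ * (nb * ua * nb⁻¹) * ua =
      (na * ub * na⁻¹) * (na * ub * na⁻¹))
    (C3 : ua * (na * ub * na⁻¹) = (na * ub * na⁻¹) * ua)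
    (C4 : ub * (na * ub * na⁻¹) = (na * ub * na⁻¹) * ub) :
    ∃ D : SpDat P F, D.ua = ua ∧ D.ub = ub ∧ D.na = na ∧ D.nb = nb ∧ D.h = h ∧ D.k = k ∧
      D.ζ = ζ := by
  classical
  have hsurjA : ∀ t : F, ∃ g : (ZMod p)[X], aeval ζ g = t := by
    intro t
    by_cases ht : t = 0
    · exact ⟨0, by rw [map_zero, ht]⟩
    · obtain ⟨j, hj⟩ := hζ t ht
      exact ⟨X ^ j, by rw [map_pow, aeval_X, hj]⟩
  have hsum := field_sum_two ζ hζ
  have hsurjB : ∀ t : F, ∃ g : (ZMod p)[X], aeval (ζ ^ 2) g = t := field_poly_surj p ζ hsum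
  have hcommA := cj_comm_odd k ua K e hK a2 a3 a4
  have hcommB := cj_comm_odd h ub K' e' hK' b2 b3 b4
  obtain ⟨A, hAadd, hA1, hAk, hAf⟩ := rootgroup_hom p ζ hsurjA ua k hcommA a1 a5
  obtain ⟨B, hBadd, hB1, hBh, hBf⟩ := rootgroup_hom p (ζ ^ 2) hsurjB ub h hcommB b1 b5
  have spanA : ∀ (g : P) (ε : F), (∀ j : ℕ, g * A (ζ ^ j) * g⁻¹ = A (ε * ζ ^ j)) →
      ∀ t, g * A t * g⁻¹ = A (ε * t) := by
    intro g ε hj t
    by_cases ht : t = 0
    · rw [ht]; exact act_zero A hAadd g ε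
    · obtain ⟨j, rfl⟩ := hζ t ht
      exact hj j
  have spanB : ∀ (g : P) (ε : F),
      (∀ j : ℕ, g * B ((ζ ^ 2) ^ j) * g⁻¹ = B (ε * (ζ ^ 2) ^ j)) →
      ∀ t, g * B t * g⁻¹ = B (ε * t) := by
    intro g ε hj t
    obtain ⟨s1, s2, rfl, h1, h2⟩ := hsum t
    apply act_add B hBadd
    · rcases h1 with rfl | ⟨j, rfl⟩
      · exact act_zero B hBadd g ε
      · exact hj j
    · rcases h2 with rfl | ⟨j, rfl⟩
      · exact act_zero B hBadd g ε
      · exact hj j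
  have fixA : ∀ g : P, g * k * g⁻¹ = k → g * ua * g⁻¹ = ua → ∀ t, g * A t * g⁻¹ = A t := by
    intro g hgk hgu t
    have := spanA g 1 (act_pow A k ζ hAk k g 1 hAk hgk (by rw [hA1]; exact hgu)) t
    rwa [one_mul] at this
  have fixB : ∀ g : P, g * h * g⁻¹ = h → g * ub * g⁻¹ = ub → ∀ t, g * B t * g⁻¹ = B t := by
    intro g hgh hgu t
    have := spanB g 1 (act_pow B h (ζ ^ 2) hBh h g 1 hBh hgh (by rw [hB1]; exact hgu)) t
    rwa [one_mul] at this
  have hAneg := addfam_neg A hAadd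
  have hkhA : ∀ t, (k * h) * A t * (k * h)⁻¹ = A t := by
    apply fixA
    · calc (k * h) * k * (k * h)⁻¹ = k * (h * k) * h⁻¹ * k⁻¹ := by group
        _ = k * (k * h) * h⁻¹ * k⁻¹ := by rw [hk]
        _ = k := by group
    · rw [khu]; group
  have hhA : ∀ t, h * A t * h⁻¹ = A (ζ⁻¹ * t) := by
    intro t
    have e1 := conj_act_inv A k ζ hζ0 hAk t
    calc h * A t * h⁻¹ = k⁻¹ * ((k * h) * A t * (k * h)⁻¹) * k := by group
      _ = A (ζ⁻¹ * t) := by rw [hkhA, e1]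
  have hhiA : ∀ t, h⁻¹ * A t * h⁻¹⁻¹ = A (ζ * t) := by
    intro t
    have e := hhA (ζ * t)
    rw [inv_mul_cancel_left₀ hζ0] at e
    rw [← e]; group
  have zh' : (na * na) * h * (na * na)⁻¹ = h := by rw [zh]; group
  have zk : (na * na) * k * (na * na)⁻¹ = k := by
    rw [kdef]
    calc na * na * (na * h * na⁻¹) * (na * na)⁻¹
        = na * ((na * na) * h * (na * na)⁻¹) * na⁻¹ := by group
      _ = na * h * na⁻¹ := by rw [zh']
  have nak : na * k * na⁻¹ = h := by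
    rw [kdef]
    calc na * (na * h * na⁻¹) * na⁻¹ = (na * na) * h * (na * na)⁻¹ := by group
      _ = h := zh'
  have naik : na⁻¹ * k * na = h := by rw [kdef]; group
  have nbih : nb⁻¹ * h * nb = h⁻¹ := by
    have e2 : nb⁻¹ * h⁻¹ * nb = h := by rw [← nbh]; group
    calc nb⁻¹ * h * nb = (nb⁻¹ * h⁻¹ * nb)⁻¹ := by group
      _ = h⁻¹ := by rw [e2]
  have yk : (nb * nb) * k * (nb * nb)⁻¹ = k := by
    calc (nb * nb) * k * (nb * nb)⁻¹ = nb * (nb * k * nb⁻¹) * nb⁻¹ := by group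
      _ = k := by rw [nbk, nbk]
  have yh : (nb * nb) * h * (nb * nb)⁻¹ = h := by
    calc (nb * nb) * h * (nb * nb)⁻¹ = nb * (nb * h * nb⁻¹) * nb⁻¹ := by group
      _ = nb * h⁻¹ * nb⁻¹ := by rw [nbh]
      _ = (nb * h * nb⁻¹)⁻¹ := by group
      _ = h := by rw [nbh, inv_inv]
  have m1k : (nb⁻¹ * na * nb) * k * (nb⁻¹ * na * nb)⁻¹ = h⁻¹ := by
    calc (nb⁻¹ * na * nb) * k * (nb⁻¹ * na * nb)⁻¹
        = nb⁻¹ * (na * (nb * k * nb⁻¹) * na⁻¹) * nb := by group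
      _ = h⁻¹ := by rw [nbk, nak, nbih]
  have m4h : (na⁻¹ * nb * na) * h * (na⁻¹ * nb * na)⁻¹ = h := by
    calc (na⁻¹ * nb * na) * h * (na⁻¹ * nb * na)⁻¹
        = na⁻¹ * (nb * (na * h * na⁻¹) * nb⁻¹) * na := by group
      _ = h := by rw [← kdef, nbk, naik]
  have eB1 : B ζ = pw p h ub gz := by rw [← hBf, hgz]
  have eB2 : B ζ⁻¹ = pw p h ub gzi := by rw [← hBf, hgzi]
  refine ⟨{ ua := ua, ub := ub, na := na, nb := nb, h := h, k := k, ζ := ζ, A := A, B := B,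
            hζ0 := hζ0, hζ := hζ, Aadd := fun s t => (hAadd s t).symm,
            Badd := fun s t => (hBadd s t).symm, A1 := hA1, B1 := hB1, kA := hAk, hA := hhA,
            hB := hBh, kB := ?_, zA := ?_, zB := ?_, znb := ?_, zh := zh', yA := ?_, yB := ?_,
            W1 := W1, braid := braid, m1A := ?_, m4B := ?_, kdef := kdef, hk := hk, nbh := nbh,
            nbk := nbk, r1a := r1a, r1b := r1b, hdef := ?_, C1 := C1, C2 := C2, C3 := C3,
            C4 := C4 }, rfl, rfl, rfl, rfl, rfl, rfl, rfl⟩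
  · exact fixB k (by rw [← hk]; group) (by rw [kub]; group)
  · exact fixA (na * na) zk (by rw [zua]; group)
  · exact fixB (na * na) zh' (by rw [zub]; group)
  · rw [znb]; group
  · intro t
    have := spanA (nb * nb) (-1) (act_pow A k ζ hAk k (nb * nb) (-1) hAk yk
      (by rw [hA1, hAneg, hA1]; exact yua)) t
    rwa [neg_one_mul] at this
  · exact fixB (nb * nb) yh (by rw [yub]; group)
  · intro t
    have := spanA (nb⁻¹ * na * nb) (-1) (act_pow A k ζ hAk h⁻¹ (nb⁻¹ * na * nb) (-1) hhiA m1k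
      (by rw [hA1, hAneg, hA1]; exact m1)) t
    rwa [neg_one_mul] at this
  · exact fixB (na⁻¹ * nb * na) m4h (by rw [m4]; group)
  · rw [eB1, eB2]; exact hdef

end Cfsg.Agent.H8
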