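import Cfsg.Agent.H8.SpPrE

set_option autoImplicit false
set_option linter.unusedVariables false
set_option linter.unusedSectionVars false
set_option linter.unusedSimpArgs false
set_option maxHeartbeats 1000000

/-! Helper lemmas (helper8): the bijectivity criterion for `Sp_4(F)` and the six generators. -/

namespace Cfsg.Agent.H8

open Matrix Polynomial Cfsg.Agent.H17

section core

variable {P : Type*} [Group P] {F : Type*} [Field F] [Fintype F]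

/-- a homomorphism onto the matrices from a group with the data of type `B₂` is bijective -/
theorem sp_core (D : SpDat P F)
    (hgen : Subgroup.closure {D.ua, D.ub, D.na, D.nb, D.h, D.k} = ⊤)
    (ψ : P →* Sp4 F) (hua : ψ D.ua = gS 5 1) (hub : ψ D.ub = gS 4 1)
    (hna : ψ D.na = spNA) (hnb : ψ D.nb = spNB) (hh : ψ D.h = spH D.ζ) :
    Function.Bijective ψ := by
  obtain ⟨φ, hφ⟩ := D.exists_phi
  have hk : ψ D.k = spK D.ζ := by
    rw [D.kdef, map_mul, map_mul, map_inv, hna, hh]; rfl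
  have hφna : φ spNA = D.na := by
    unfold spNA
    rw [map_mul, map_mul, hφ 5 (by norm_num), hφ 2 (by norm_num)]
    show D.A 1 * (D.na * D.A (- -1) * D.na⁻¹) * D.A 1 = D.na
    rw [neg_neg, D.A1]; exact D.r1a
  have hφnb : φ spNB = D.nb := by
    unfold spNB
    rw [map_mul, map_mul, hφ 4 (by norm_num), hφ 3 (by norm_num)]
    show D.B 1 * (D.nb * D.B (- -1) * D.nb⁻¹) * D.B 1 = D.nb
    rw [neg_neg, D.B1]; exact D.r1b
  have hφh : φ (spH D.ζ) = D.h := by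
    unfold spH
    rw [map_mul, map_mul, map_mul, map_inv, hφnb, hφ 4 (by norm_num), hφ 3 (by norm_num)]
    show D.B D.ζ * (D.nb * D.B (- -D.ζ⁻¹) * D.nb⁻¹) * D.B D.ζ * D.nb⁻¹ = D.h
    rw [neg_neg]; exact D.hdef
  have e1 : φ.comp ψ = MonoidHom.id P := by
    apply MonoidHom.eq_of_eqOn_dense hgen
    intro x hx
    show φ (ψ x) = x
    rcases hx with rfl | rfl | rfl | rfl | rfl | rfl
    · rw [hua, hφ 5 (by norm_num)]; exact D.A1
    · rw [hub, hφ 4 (by norm_num)]; exact D.B1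
    · rw [hna, hφna]
    · rw [hnb, hφnb]
    · rw [hh, hφh]
    · rw [hk]
      unfold spK
      rw [map_mul, map_mul, map_inv, hφna, hφh, ← D.kdef]
  have hψAj : ∀ j : ℕ, ψ (D.A (D.ζ ^ j)) = gS 5 (D.ζ ^ j) := by
    intro j
    induction j with
    | zero => rw [pow_zero, D.A1, hua]
    | succ j ih =>
      rw [pow_succ', ← D.kA, map_mul, map_mul, map_inv, ih, hk]
      exact spK_g5 D.ζ D.hζ0 _
  have hψA : ∀ t, ψ (D.A t) = gS 5 t := by
    intro t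
    by_cases ht : t = 0
    · rw [ht, D.A0, map_one, gS_zero]
    · obtain ⟨j, rfl⟩ := D.hζ t ht
      exact hψAj j
  have hψBj : ∀ j : ℕ, ψ (D.B ((D.ζ ^ 2) ^ j)) = gS 4 ((D.ζ ^ 2) ^ j) := by
    intro j
    induction j with
    | zero => rw [pow_zero, D.B1, hub]
    | succ j ih =>
      rw [pow_succ', ← D.hB, map_mul, map_mul, map_inv, ih, hh]
      exact spH_g4' D.ζ D.hζ0 _
  have hψB : ∀ t, ψ (D.B t) = gS 4 t := by
    intro t
    obtain ⟨s1, s2, rfl, h1, h2⟩ := field_sum_two D.ζ D.hζ t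
    have key : ∀ s : F, (s = 0 ∨ ∃ j : ℕ, s = (D.ζ ^ 2) ^ j) → ψ (D.B s) = gS 4 s := by
      rintro s (rfl | ⟨j, rfl⟩)
      · rw [D.B0, map_one, gS_zero]
      · exact hψBj j
    rw [← D.Badd, map_mul, key s1 h1, key s2 h2, gS_add]
  have hψX : ∀ r < 8, ∀ t, ψ (D.X r t) = gS r t := by
    intro r hr t
    interval_cases r
    · show ψ (D.na * (D.nb * D.B t * D.nb⁻¹) * D.na⁻¹) = gS 0 t
      simp only [map_mul, map_inv, hna, hnb, hψB]
      rw [conj_of_mul (spNB_g4 t), conj_of_mul (spNA_g3 (-t)), neg_neg]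
    · show ψ (D.nb * (D.na * D.A (-t) * D.na⁻¹) * D.nb⁻¹) = gS 1 t
      simp only [map_mul, map_inv, hna, hnb, hψA]
      rw [conj_of_mul (spNA_g5 (-t)), neg_neg, conj_of_mul (spNB_g2 t)]
    · show ψ (D.na * D.A (-t) * D.na⁻¹) = gS 2 t
      simp only [map_mul, map_inv, hna, hψA]
      rw [conj_of_mul (spNA_g5 (-t)), neg_neg]
    · show ψ (D.nb * D.B (-t) * D.nb⁻¹) = gS 3 t
      simp only [map_mul, map_inv, hnb, hψB]
      rw [conj_of_mul (spNB_g4 (-t)), neg_neg]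
    · exact hψB t
    · exact hψA t
    · show ψ (D.nb * D.A t * D.nb⁻¹) = gS 6 t
      simp only [map_mul, map_inv, hnb, hψA]
      rw [conj_of_mul (spNB_g5 t)]
    · show ψ (D.na * D.B (-t) * D.na⁻¹) = gS 7 t
      simp only [map_mul, map_inv, hna, hψB]
      rw [conj_of_mul (spNA_g4 (-t)), neg_neg]
  have hcl : Subgroup.closure {g : Sp4 F | ∃ (r : Fin 8) (t : F), g = b2uS r t} = ⊤ := b2E_top
  have e2 : ψ.comp φ = MonoidHom.id (Sp4 F) := by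
    apply MonoidHom.eq_of_eqOn_dense hcl
    rintro g ⟨r, t, rfl⟩
    show ψ (φ (b2uS r t)) = b2uS r t
    have e : b2uS r t = gS r.val t := (gS_of_lt r.val r.isLt t).symm
    rw [e, hφ r.val r.isLt, hψX r.val r.isLt]
  refine ⟨fun x y hxy => ?_, fun g => ⟨φ g, DFunLike.congr_fun e2 g⟩⟩
  have ex : φ (ψ x) = x := DFunLike.congr_fun e1 x
  have ey : φ (ψ y) = y := DFunLike.congr_fun e1 y
  rw [← ex, ← ey, hxy]

end core

section mat

variable {F : Type*} [Field F]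

theorem gS_pow (r : ℕ) (t : F) (n : ℕ) : gS r t ^ n = gS r (n • t) :=
  pow_act (fun t => gS r t) (gS_add' r) t n

theorem spK_cj (ζ : F) (h : ζ ≠ 0) (t : F) (i : ℕ) :
    cj (spK ζ) (gS 5 t) i = gS 5 (ζ ^ i * t) :=
  cj_act (fun t => gS 5 t) (spK ζ) ζ (spK_g5 ζ h) t i

theorem spK_pw (p : ℕ) [Fact p.Prime] [Algebra (ZMod p) F] (ζ : F) (h : ζ ≠ 0)
    (g : (ZMod p)[X]) : pw p (spK ζ) (gS 5 1) g = gS 5 (aeval ζ g) :=
  pw_act p (fun t => gS 5 t) (gS_add' 5) (spK ζ) ζ (spK_g5 ζ h) g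

theorem spH_cj (ζ : F) (h : ζ ≠ 0) (t : F) (i : ℕ) :
    cj (spH ζ) (gS 4 t) i = gS 4 ((ζ ^ 2) ^ i * t) :=
  cj_act (fun t => gS 4 t) (spH ζ) (ζ ^ 2) (spH_g4' ζ h) t i

theorem spH_pw (p : ℕ) [Fact p.Prime] [Algebra (ZMod p) F] (ζ : F) (h : ζ ≠ 0)
    (g : (ZMod p)[X]) : pw p (spH ζ) (gS 4 1) g = gS 4 (aeval (ζ ^ 2) g) :=
  pw_act p (fun t => gS 4 t) (gS_add' 4) (spH ζ) (ζ ^ 2) (spH_g4' ζ h) g

end mat

section free6

/-- the six generators -/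
def f6ua : FreeGroup (Fin 6) := FreeGroup.of 0

/-- second generator -/
def f6ub : FreeGroup (Fin 6) := FreeGroup.of 1

/-- third generator -/
def f6na : FreeGroup (Fin 6) := FreeGroup.of 2

/-- fourth generator -/
def f6nb : FreeGroup (Fin 6) := FreeGroup.of 3

/-- fifth generator -/
def f6h : FreeGroup (Fin 6) := FreeGroup.of 4

/-- sixth generator -/
def f6k : FreeGroup (Fin 6) := FreeGroup.of 5

/-- the thirty-three relators -/
def f6rels (p K e K' e' : ℕ) (m m' gz gzi : (ZMod p)[X]) : List (FreeGroup (Fin 6)) :=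
  [f6ua ^ p,
   f6ua * cj f6k f6ua 1 * (cj f6k f6ua 1 * f6ua)⁻¹,
   f6ua * cj f6k f6ua 2 * (cj f6k f6ua 2 * f6ua)⁻¹,
   cj f6k f6ua K * (f6ua * cj f6k f6ua 1 ^ e * cj f6k f6ua 2)⁻¹,
   pw p f6k f6ua m,
   f6ub ^ p,
   f6ub * cj f6h f6ub 1 * (cj f6h f6ub 1 * f6ub)⁻¹,
   f6ub * cj f6h f6ub 2 * (cj f6h f6ub 2 * f6ub)⁻¹,
   cj f6h f6ub K' * (f6ub * cj f6h f6ub 1 ^ e' * cj f6h f6ub 2)⁻¹,
   pw p f6h f6ub m',
   f6k * (f6na * f6h * f6na⁻¹)⁻¹,
   f6h * f6k * (f6k * f6h)⁻¹,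
   f6nb * f6h * f6nb⁻¹ * (f6h⁻¹)⁻¹,
   f6nb * f6k * f6nb⁻¹ * f6k⁻¹,
   (f6k * f6h) * f6ua * (f6ua * (f6k * f6h))⁻¹,
   f6k * f6ub * (f6ub * f6k)⁻¹,
   (f6na * f6na) * f6ua * (f6ua * (f6na * f6na))⁻¹,
   (f6na * f6na) * f6ub * (f6ub * (f6na * f6na))⁻¹,
   (f6na * f6na) * f6nb * (f6nb * (f6na * f6na))⁻¹,
   (f6na * f6na) * f6h * (f6h * (f6na * f6na))⁻¹,
   (f6nb * f6nb) * f6ua * (f6nb * f6nb)⁻¹ * (f6ua⁻¹)⁻¹,
   (f6nb * f6nb) * f6ub * (f6ub * (f6nb * f6nb))⁻¹,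
   (f6nb * f6nb) * f6na * (f6nb * f6nb)⁻¹ * (f6na⁻¹)⁻¹,
   f6na * f6nb * f6na * f6nb * (f6nb * f6na * f6nb * f6na)⁻¹,
   (f6nb⁻¹ * f6na * f6nb) * f6ua * (f6nb⁻¹ * f6na * f6nb)⁻¹ * (f6ua⁻¹)⁻¹,
   (f6na⁻¹ * f6nb * f6na) * f6ub * (f6ub * (f6na⁻¹ * f6nb * f6na))⁻¹,
   f6ua * (f6na * f6ua * f6na⁻¹) * f6ua * f6na⁻¹,
   f6ub * (f6nb * f6ub * f6nb⁻¹) * f6ub * f6nb⁻¹,
   pw p f6h f6ub gz * (f6nb * pw p f6h f6ub gzi * f6nb⁻¹) * pw p f6h f6ub gz * f6nb⁻¹ * f6h⁻¹,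
   f6ub⁻¹ * f6ua⁻¹ * f6ub * f6ua * ((f6nb * f6ua * f6nb⁻¹) * (f6na * f6ub * f6na⁻¹))⁻¹,
   (f6nb * f6ua * f6nb⁻¹)⁻¹ * f6ua⁻¹ * (f6nb * f6ua * f6nb⁻¹) * f6ua *
     ((f6na * f6ub * f6na⁻¹) * (f6na * f6ub * f6na⁻¹))⁻¹,
   f6ua * (f6na * f6ub * f6na⁻¹) * ((f6na * f6ub * f6na⁻¹) * f6ua)⁻¹,
   f6ub * (f6na * f6ub * f6na⁻¹) * ((f6na * f6ub * f6na⁻¹) * f6ub)⁻¹]

variable {G : Type*} [Group G] (a b c d x y : G)

theorem lift6_ua : FreeGroup.lift ![a, b, c, d, x, y] f6ua = a := by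
  unfold f6ua; rw [FreeGroup.lift_apply_of]; rfl

theorem lift6_ub : FreeGroup.lift ![a, b, c, d, x, y] f6ub = b := by
  unfold f6ub; rw [FreeGroup.lift_apply_of]; rfl

theorem lift6_na : FreeGroup.lift ![a, b, c, d, x, y] f6na = c := by
  unfold f6na; rw [FreeGroup.lift_apply_of]; rfl

theorem lift6_nb : FreeGroup.lift ![a, b, c, d, x, y] f6nb = d := by
  unfold f6nb; rw [FreeGroup.lift_apply_of]; rfl

theorem lift6_h : FreeGroup.lift ![a, b, c, d, x, y] f6h = x := by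
  unfold f6h; rw [FreeGroup.lift_apply_of]; rfl

theorem lift6_k : FreeGroup.lift ![a, b, c, d, x, y] f6k = y := by
  unfold f6k; rw [FreeGroup.lift_apply_of]; rfl

theorem presented_fin6_gen (rels : Set (FreeGroup (Fin 6))) :
    Subgroup.closure {PresentedGroup.mk rels f6ua, PresentedGroup.mk rels f6ub,
      PresentedGroup.mk rels f6na, PresentedGroup.mk rels f6nb, PresentedGroup.mk rels f6h,
      PresentedGroup.mk rels f6k} = ⊤ := by
  rw [eq_top_iff]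
  intro z _
  refine PresentedGroup.generated_by rels _ ?_ z
  intro j
  fin_cases j
  · exact Subgroup.subset_closure (Set.mem_insert _ _)
  · exact Subgroup.subset_closure (Set.mem_insert_of_mem _ (Set.mem_insert _ _))
  · exact Subgroup.subset_closure
      (Set.mem_insert_of_mem _ (Set.mem_insert_of_mem _ (Set.mem_insert _ _)))
  · exact Subgroup.subset_closure
      (Set.mem_insert_of_mem _ (Set.mem_insert_of_mem _ (Set.mem_insert_of_mem _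
        (Set.mem_insert _ _))))
  · exact Subgroup.subset_closure
      (Set.mem_insert_of_mem _ (Set.mem_insert_of_mem _ (Set.mem_insert_of_mem _
        (Set.mem_insert_of_mem _ (Set.mem_insert _ _)))))
  · exact Subgroup.subset_closure
      (Set.mem_insert_of_mem _ (Set.mem_insert_of_mem _ (Set.mem_insert_of_mem _
        (Set.mem_insert_of_mem _ (Set.mem_insert_of_mem _ (Set.mem_singleton _))))))

theorem lift6_mk (rels : Set (FreeGroup (Fin 6))) (r : FreeGroup (Fin 6)) :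
    FreeGroup.lift ![PresentedGroup.mk rels f6ua, PresentedGroup.mk rels f6ub,
      PresentedGroup.mk rels f6na, PresentedGroup.mk rels f6nb, PresentedGroup.mk rels f6h,
      PresentedGroup.mk rels f6k] r = PresentedGroup.mk rels r := by
  have e : FreeGroup.lift ![PresentedGroup.mk rels f6ua, PresentedGroup.mk rels f6ub,
      PresentedGroup.mk rels f6na, PresentedGroup.mk rels f6nb, PresentedGroup.mk rels f6h,
      PresentedGroup.mk rels f6k] = PresentedGroup.mk rels := by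
    ext i
    fin_cases i
    · exact lift6_ua _ _ _ _ _ _
    · exact lift6_ub _ _ _ _ _ _
    · exact lift6_na _ _ _ _ _ _
    · exact lift6_nb _ _ _ _ _ _
    · exact lift6_h _ _ _ _ _ _
    · exact lift6_k _ _ _ _ _ _
  rw [e]

end free6

/-- the relators give the data of type `B₂` -/
theorem dat_of_rels {P : Type*} [Group P] {F : Type*} [Field F] [Fintype F] (p : ℕ)
    [Fact p.Prime] [Algebra (ZMod p) F]
    (ζ : F) (hζ0 : ζ ≠ 0) (hζ : ∀ t : F, t ≠ 0 → ∃ j : ℕ, t = ζ ^ j)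
    (K e K' e' : ℕ) (hK : 3 ≤ K) (hK' : 3 ≤ K') (m m' gz gzi : (ZMod p)[X])
    (hm : m = minpoly (ZMod p) ζ) (hm' : m' = minpoly (ZMod p) (ζ ^ 2))
    (hgz : aeval (ζ ^ 2) gz = ζ) (hgzi : aeval (ζ ^ 2) gzi = ζ⁻¹)
    (ua ub na nb h k : P)
    (hc : ∀ r ∈ f6rels p K e K' e' m m' gz gzi,
      FreeGroup.lift ![ua, ub, na, nb, h, k] r = 1) :
    ∃ D : SpDat P F, D.ua = ua ∧ D.ub = ub ∧ D.na = na ∧ D.nb = nb ∧ D.h = h ∧ D.k = k ∧
      D.ζ = ζ := by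
  subst hm hm'
  simp only [f6rels, List.forall_mem_cons] at hc
  obtain ⟨e1, e2, e3, e4, e5, e6, e7, e8, e9, e10, e11, e12, e13, e14, e15, e16, e17, e18, e19,
    e20, e21, e22, e23, e24, e25, e26, e27, e28, e29, e30, e31, e32, e33, -⟩ := hc
  simp only [map_mul, map_inv, map_pow, map_cj, map_pw, lift6_ua, lift6_ub, lift6_na, lift6_nb,
    lift6_h, lift6_k] at e1 e2 e3 e4 e5 e6 e7 e8 e9 e10 e11 e12 e13 e14 e15 e16 e17 e18 e19 e20 e21 e22 e23 e24 e25 e26 e27 e28 e29 e30 e31 e32 e33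
  exact spdat_of_gen p ζ hζ0 hζ K e K' e' hK hK' gz gzi hgz hgzi ua ub na nb h k
    e1 (mul_inv_eq_one.1 e2) (mul_inv_eq_one.1 e3) (mul_inv_eq_one.1 e4) e5
    e6 (mul_inv_eq_one.1 e7) (mul_inv_eq_one.1 e8) (mul_inv_eq_one.1 e9) e10
    (mul_inv_eq_one.1 e11) (mul_inv_eq_one.1 e12) (mul_inv_eq_one.1 e13) (mul_inv_eq_one.1 e14)
    (mul_inv_eq_one.1 e15) (mul_inv_eq_one.1 e16) (mul_inv_eq_one.1 e17) (mul_inv_eq_one.1 e18)
    (mul_inv_eq_one.1 e19) (mul_inv_eq_one.1 e20) (mul_inv_eq_one.1 e21) (mul_inv_eq_one.1 e22)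
    (mul_inv_eq_one.1 e23) (mul_inv_eq_one.1 e24) (mul_inv_eq_one.1 e25) (mul_inv_eq_one.1 e26)
    (mul_inv_eq_one.1 e27) (mul_inv_eq_one.1 e28) (mul_inv_eq_one.1 e29) (mul_inv_eq_one.1 e30)
    (mul_inv_eq_one.1 e31) (mul_inv_eq_one.1 e32) (mul_inv_eq_one.1 e33)

end Cfsg.Agent.H8
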