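import Cfsg.Agent.H8.SpPrF
import Cfsg.Prelude.Def_Classical

set_option autoImplicit false
set_option linter.unusedVariables false
set_option linter.unusedSectionVars false
set_option linter.unusedSimpArgs false
set_option maxHeartbeats 1000000

/-! Helper lemmas (helper8): `Sp_4(F)` and `PSp_4(F)` over a finite field are presented by six
generators and 33, respectively 34, relators. -/

namespace Cfsg.Agent.H8

open Matrix Polynomial Cfsg.Agent.H17

section mat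

variable {F : Type*} [Field F]

/-- the matrices assigned to the six generators -/
def spmat (ζ : F) : Fin 6 → Sp4 F := ![gS 5 1, gS 4 1, spNA, spNB, spH ζ, spK ζ]

variable (ζ : F)

theorem spmat_ua : FreeGroup.lift (spmat ζ) f6ua = gS 5 1 := lift6_ua _ _ _ _ _ _

theorem spmat_ub : FreeGroup.lift (spmat ζ) f6ub = gS 4 1 := lift6_ub _ _ _ _ _ _

theorem spmat_na : FreeGroup.lift (spmat ζ) f6na = spNA := lift6_na _ _ _ _ _ _

theorem spmat_nb : FreeGroup.lift (spmat ζ) f6nb = spNB := lift6_nb _ _ _ _ _ _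

theorem spmat_h : FreeGroup.lift (spmat ζ) f6h = spH ζ := lift6_h _ _ _ _ _ _

theorem spmat_k : FreeGroup.lift (spmat ζ) f6k = spK ζ := lift6_k _ _ _ _ _ _

/-- the matrices satisfy the relators -/
theorem spmat_rels (p : ℕ) [Fact p.Prime] [CharP F p] [Algebra (ZMod p) F] (hζ0 : ζ ≠ 0)
    (K e K' e' : ℕ) (hKrel : ζ ^ K = 1 + e • ζ + ζ ^ 2)
    (hK'rel : (ζ ^ 2) ^ K' = 1 + e' • ζ ^ 2 + (ζ ^ 2) ^ 2)
    (m m' gz gzi : (ZMod p)[X]) (hm : aeval ζ m = 0) (hm' : aeval (ζ ^ 2) m' = 0)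
    (hgz : aeval (ζ ^ 2) gz = ζ) (hgzi : aeval (ζ ^ 2) gzi = ζ⁻¹) :
    ∀ r ∈ f6rels p K e K' e' m m' gz gzi, FreeGroup.lift (spmat ζ) r = 1 := by
  intro r hr
  simp only [f6rels, List.mem_cons, List.mem_nil_iff, or_false] at hr
  rcases hr with rfl | rfl | rfl | rfl | rfl | rfl | rfl | rfl | rfl | rfl | rfl | rfl | rfl | rfl | rfl | rfl | rfl | rfl | rfl | rfl | rfl | rfl | rfl | rfl | rfl | rfl | rfl | rfl | rfl | rfl | rfl | rfl | rfl
  · simp only [map_pow, spmat_ua]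
    rw [gS_pow, nsmul_one, CharP.cast_eq_zero, gS_zero]
  · simp only [map_mul, map_inv, map_cj, spmat_ua, spmat_k]
    rw [spK_cj ζ hζ0, mul_inv_eq_one, gS_add, gS_add, add_comm]
  · simp only [map_mul, map_inv, map_cj, spmat_ua, spmat_k]
    rw [spK_cj ζ hζ0, mul_inv_eq_one, gS_add, gS_add, add_comm]
  · simp only [map_mul, map_inv, map_pow, map_cj, spmat_ua, spmat_k]
    rw [spK_cj ζ hζ0, spK_cj ζ hζ0, spK_cj ζ hζ0, gS_pow, gS_add, gS_add, mul_inv_eq_one]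
    congr 1
    rw [mul_one, mul_one, mul_one, pow_one, hKrel]
  · simp only [map_pw, spmat_ua, spmat_k]
    rw [spK_pw p ζ hζ0, hm, gS_zero]
  · simp only [map_pow, spmat_ub]
    rw [gS_pow, nsmul_one, CharP.cast_eq_zero, gS_zero]
  · simp only [map_mul, map_inv, map_cj, spmat_ub, spmat_h]
    rw [spH_cj ζ hζ0, mul_inv_eq_one, gS_add, gS_add, add_comm]
  · simp only [map_mul, map_inv, map_cj, spmat_ub, spmat_h]
    rw [spH_cj ζ hζ0, mul_inv_eq_one, gS_add, gS_add, add_comm]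
  · simp only [map_mul, map_inv, map_pow, map_cj, spmat_ub, spmat_h]
    rw [spH_cj ζ hζ0, spH_cj ζ hζ0, spH_cj ζ hζ0, gS_pow, gS_add, gS_add, mul_inv_eq_one]
    congr 1
    rw [mul_one, mul_one, mul_one, pow_one, hK'rel]
  · simp only [map_pw, spmat_ub, spmat_h]
    rw [spH_pw p ζ hζ0, hm', gS_zero]
  · simp only [map_mul, map_inv, spmat_na, spmat_h, spmat_k]
    unfold spK
    exact mul_inv_cancel _
  · simp only [map_mul, map_inv, spmat_h, spmat_k]
    exact mul_inv_eq_one.2 (sp_hk ζ hζ0)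
  · simp only [map_mul, map_inv, spmat_nb, spmat_h]
    rw [inv_inv]
    calc spNB * spH ζ * spNB⁻¹ * spH ζ
        = (spH ζ)⁻¹ * (spH ζ * spNB * spH ζ) * spNB⁻¹ * spH ζ := by group
      _ = 1 := by rw [sp_nbh' ζ hζ0]; group
  · simp only [map_mul, map_inv, spmat_nb, spmat_k]
    rw [sp_nbk ζ hζ0]; group
  · simp only [map_mul, map_inv, spmat_ua, spmat_h, spmat_k]
    rw [mul_inv_eq_one]
    calc spK ζ * spH ζ * gS 5 (1 : F)
        = spK ζ * (spH ζ * gS 5 (1 : F) * (spH ζ)⁻¹) * (spK ζ)⁻¹ * (spK ζ * spH ζ) := by group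
      _ = gS 5 (1 : F) * (spK ζ * spH ζ) := by
          rw [spH_g5' ζ hζ0, spK_g5 ζ hζ0, mul_one, mul_inv_cancel₀ hζ0]
  · simp only [map_mul, map_inv, spmat_ub, spmat_k]
    rw [mul_inv_eq_one]
    have := spK_g4 ζ hζ0 1
    calc spK ζ * gS 4 (1 : F) = (spK ζ * gS 4 (1 : F) * (spK ζ)⁻¹) * spK ζ := by group
      _ = gS 4 (1 : F) * spK ζ := by rw [this]
  · simp only [map_mul, map_inv, spmat_ua, spmat_na]
    exact mul_inv_eq_one.2 (spNA_sq_comm _)
  · simp only [map_mul, map_inv, spmat_ub, spmat_na]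
    exact mul_inv_eq_one.2 (spNA_sq_comm _)
  · simp only [map_mul, map_inv, spmat_nb, spmat_na]
    exact mul_inv_eq_one.2 (spNA_sq_comm _)
  · simp only [map_mul, map_inv, spmat_h, spmat_na]
    exact mul_inv_eq_one.2 (spNA_sq_comm _)
  · simp only [map_mul, map_inv, spmat_ua, spmat_nb]
    rw [inv_inv]
    calc spNB * spNB * gS 5 (1 : F) * (spNB * spNB)⁻¹ * gS 5 (1 : F)
        = spNB * (spNB * gS 5 (1 : F) * spNB⁻¹) * spNB⁻¹ * gS 5 (1 : F) := by group
      _ = 1 := by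
          rw [conj_of_mul (spNB_g5 1), conj_of_mul (spNB_g6 1), gS_add, neg_add_cancel, gS_zero]
  · simp only [map_mul, map_inv, spmat_ub, spmat_nb]
    rw [mul_inv_eq_one]
    calc spNB * spNB * gS 4 (1 : F)
        = spNB * (spNB * gS 4 (1 : F) * spNB⁻¹) * spNB⁻¹ * (spNB * spNB) := by group
      _ = gS 4 (1 : F) * (spNB * spNB) := by
          rw [conj_of_mul (spNB_g4 1), conj_of_mul (spNB_g3 (-1)), neg_neg]
  · simp only [map_mul, map_inv, spmat_na, spmat_nb]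
    rw [inv_inv]
    calc (spNB : Sp4 F) * spNB * spNA * (spNB * spNB)⁻¹ * spNA
        = spNA⁻¹ * (spNA * (spNB * spNB) * spNA) * (spNB * spNB)⁻¹ * spNA := by group
      _ = 1 := by rw [sp_W1']; group
  · simp only [map_mul, map_inv, spmat_na, spmat_nb]
    exact mul_inv_eq_one.2 sp_braid
  · simp only [map_mul, map_inv, spmat_ua, spmat_na, spmat_nb]
    rw [inv_inv]
    calc spNB⁻¹ * spNA * spNB * gS 5 (1 : F) * (spNB⁻¹ * spNA * spNB)⁻¹ * gS 5 (1 : F)
        = spNB⁻¹ * (spNA * (spNB * gS 5 (1 : F) * spNB⁻¹) * spNA⁻¹) * spNB * gS 5 (1 : F) := by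
          group
      _ = 1 := by
          rw [conj_of_mul (spNB_g5 1), conj_of_mul (spNA_g6 1),
            conj_inv_of_mul (spNB_g5 (-1)), gS_add, neg_add_cancel, gS_zero]
  · simp only [map_mul, map_inv, spmat_ub, spmat_na, spmat_nb]
    rw [mul_inv_eq_one]
    calc spNA⁻¹ * spNB * spNA * gS 4 (1 : F)
        = spNA⁻¹ * (spNB * (spNA * gS 4 (1 : F) * spNA⁻¹) * spNB⁻¹) * spNA *
            (spNA⁻¹ * spNB * spNA) := by group
      _ = gS 4 (1 : F) * (spNA⁻¹ * spNB * spNA) := by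
          rw [conj_of_mul (spNA_g4 1), conj_of_mul (spNB_g7 (-1)),
            conj_inv_of_mul (spNA_g4 1)]
  · simp only [map_mul, map_inv, spmat_ua, spmat_na]
    rw [conj_of_mul (spNA_g5 1)]
    exact mul_inv_cancel spNA
  · simp only [map_mul, map_inv, spmat_ub, spmat_nb]
    rw [conj_of_mul (spNB_g4 1)]
    exact mul_inv_cancel spNB
  · simp only [map_mul, map_inv, map_pw, spmat_ub, spmat_nb, spmat_h]
    rw [spH_pw p ζ hζ0, spH_pw p ζ hζ0, hgz, hgzi, conj_of_mul (spNB_g4 ζ⁻¹)]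
    exact mul_inv_cancel (spH ζ)
  · simp only [map_mul, map_inv, spmat_ua, spmat_ub, spmat_na, spmat_nb]
    rw [conj_of_mul (spNB_g5 1), conj_of_mul (spNA_g4 1)]
    exact mul_inv_eq_one.2 sp_C1
  · simp only [map_mul, map_inv, spmat_ua, spmat_ub, spmat_na, spmat_nb]
    rw [conj_of_mul (spNB_g5 1), conj_of_mul (spNA_g4 1)]
    exact mul_inv_eq_one.2 sp_C2
  · simp only [map_mul, map_inv, spmat_ua, spmat_ub, spmat_na]
    rw [conj_of_mul (spNA_g4 1)]
    exact mul_inv_eq_one.2 sp_C3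
  · simp only [map_mul, map_inv, spmat_ua, spmat_ub, spmat_na]
    rw [conj_of_mul (spNA_g4 1)]
    exact mul_inv_eq_one.2 sp_C4

end mat

section main

/-- `Sp_4(F)` is presented by six generators and thirty-three relators; the square of the third
generator goes to the central involution -/
theorem sp4_pres_aux (F : Type*) [Field F] [Fintype F] :
    ∃ (rels : Finset (FreeGroup (Fin 6)))
      (E : PresentedGroup (↑rels : Set (FreeGroup (Fin 6))) ≃* Sp4 F),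
      rels.card ≤ 33 ∧ E (PresentedGroup.mk _ (f6na * f6na)) = spNA * spNA := by
  classical
  obtain ⟨p, hp⟩ := CharP.exists F
  have hprime : p.Prime := CharP.char_is_prime F p
  haveI : Fact p.Prime := ⟨hprime⟩
  letI : Algebra (ZMod p) F := ZMod.algebra F p
  obtain ⟨ζ, hζ0, hζ⟩ := exists_field_gen F
  have hq1 : ζ ^ (Fintype.card F - 1) = 1 := FiniteField.pow_card_sub_one_eq_one ζ hζ0
  have hq2 : (ζ ^ 2) ^ (Fintype.card F - 1) = 1 := by
    rw [← pow_mul, mul_comm, pow_mul, hq1, one_pow]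
  have hcard1 : 1 < Fintype.card F := Fintype.one_lt_card
  obtain ⟨K, e, hK3, hKrel⟩ : ∃ K e : ℕ, 3 ≤ K ∧ ζ ^ K = 1 + e • ζ + ζ ^ 2 := by
    by_cases h1b : 1 + ζ = 0
    · refine ⟨2 + 3 * (Fintype.card F - 1), 1, by omega, ?_⟩
      rw [pow_add, pow_mul', hq1, one_pow, mul_one, one_nsmul, h1b, zero_add]
    · obtain ⟨m, hm⟩ := hζ (1 + ζ) h1b
      refine ⟨2 * m + 3 * (Fintype.card F - 1), 2, by omega, ?_⟩
      calc ζ ^ (2 * m + 3 * (Fintype.card F - 1))
          = (ζ ^ m) ^ 2 * (ζ ^ (Fintype.card F - 1)) ^ 3 := by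
            rw [pow_add, pow_mul', pow_mul']
        _ = 1 + 2 • ζ + ζ ^ 2 := by
            rw [hq1, one_pow, mul_one, ← hm, two_nsmul]; ring
  obtain ⟨K', e', hK'3, hK'rel⟩ :
      ∃ K' e' : ℕ, 3 ≤ K' ∧ (ζ ^ 2) ^ K' = 1 + e' • ζ ^ 2 + (ζ ^ 2) ^ 2 := by
    by_cases h1b : 1 + ζ ^ 2 = 0
    · refine ⟨2 + 3 * (Fintype.card F - 1), 1, by omega, ?_⟩
      rw [pow_add, pow_mul', hq2, one_pow, mul_one, one_nsmul, h1b, zero_add]
    · obtain ⟨m, hm⟩ := hζ (1 + ζ ^ 2) h1b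
      refine ⟨m + 3 * (Fintype.card F - 1), 2, by omega, ?_⟩
      have e1 : (ζ ^ 2) ^ m = (ζ ^ m) ^ 2 := by rw [← pow_mul, mul_comm, pow_mul]
      calc (ζ ^ 2) ^ (m + 3 * (Fintype.card F - 1))
          = (ζ ^ m) ^ 2 * ((ζ ^ 2) ^ (Fintype.card F - 1)) ^ 3 := by
            rw [pow_add, e1, pow_mul']
        _ = 1 + 2 • ζ ^ 2 + (ζ ^ 2) ^ 2 := by
            rw [hq2, one_pow, mul_one, ← hm, two_nsmul]; ring
  have hsum := field_sum_two ζ hζ
  obtain ⟨gz, hgz⟩ := field_poly_surj p ζ hsum ζ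
  obtain ⟨gzi, hgzi⟩ := field_poly_surj p ζ hsum ζ⁻¹
  obtain ⟨m, hm⟩ : ∃ m : (ZMod p)[X], m = minpoly (ZMod p) ζ := ⟨_, rfl⟩
  obtain ⟨m', hm'⟩ : ∃ m' : (ZMod p)[X], m' = minpoly (ZMod p) (ζ ^ 2) := ⟨_, rfl⟩
  obtain ⟨rels, hrels⟩ : ∃ rels : Finset (FreeGroup (Fin 6)),
      rels = (f6rels p K e K' e' m m' gz gzi).toFinset := ⟨_, rfl⟩
  have hcard : rels.card ≤ 33 := by
    rw [hrels]
    exact (List.toFinset_card_le _).trans (le_of_eq rfl)
  have hmem : ∀ r, r ∈ (↑rels : Set (FreeGroup (Fin 6))) ↔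
      r ∈ f6rels p K e K' e' m m' gz gzi := by
    intro r
    rw [hrels]
    simp
  obtain ⟨ua, hua⟩ : ∃ u : PresentedGroup (↑rels : Set (FreeGroup (Fin 6))),
      u = PresentedGroup.mk _ f6ua := ⟨_, rfl⟩
  obtain ⟨ub, hub⟩ : ∃ u : PresentedGroup (↑rels : Set (FreeGroup (Fin 6))),
      u = PresentedGroup.mk _ f6ub := ⟨_, rfl⟩
  obtain ⟨na, hna⟩ : ∃ u : PresentedGroup (↑rels : Set (FreeGroup (Fin 6))),
      u = PresentedGroup.mk _ f6na := ⟨_, rfl⟩
  obtain ⟨nb, hnb⟩ : ∃ u : PresentedGroup (↑rels : Set (FreeGroup (Fin 6))),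
      u = PresentedGroup.mk _ f6nb := ⟨_, rfl⟩
  obtain ⟨h, hh⟩ : ∃ u : PresentedGroup (↑rels : Set (FreeGroup (Fin 6))),
      u = PresentedGroup.mk _ f6h := ⟨_, rfl⟩
  obtain ⟨k, hk⟩ : ∃ u : PresentedGroup (↑rels : Set (FreeGroup (Fin 6))),
      u = PresentedGroup.mk _ f6k := ⟨_, rfl⟩
  have hl : ∀ r ∈ (↑rels : Set (FreeGroup (Fin 6))),
      FreeGroup.lift ![ua, ub, na, nb, h, k] r = 1 := by
    intro r hr
    rw [hua, hub, hna, hnb, hh, hk, lift6_mk]
    exact PresentedGroup.one_of_mem hr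
  obtain ⟨D, hDua, hDub, hDna, hDnb, hDh, hDk, hDζ⟩ :=
    dat_of_rels p ζ hζ0 hζ K e K' e' hK3 hK'3 m m' gz gzi hm hm' hgz hgzi ua ub na nb h k
      (fun r hr => hl r ((hmem r).2 hr))
  have hgen : Subgroup.closure {D.ua, D.ub, D.na, D.nb, D.h, D.k} = ⊤ := by
    rw [hDua, hDub, hDna, hDnb, hDh, hDk, hua, hub, hna, hnb, hh, hk]
    exact presented_fin6_gen _
  have hf : ∀ r ∈ (↑rels : Set (FreeGroup (Fin 6))), FreeGroup.lift (spmat ζ) r = 1 := by
    intro r hr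
    exact spmat_rels ζ p hζ0 K e K' e' hKrel hK'rel m m' gz gzi
      (by rw [hm]; exact minpoly.aeval _ _) (by rw [hm']; exact minpoly.aeval _ _) hgz hgzi r
      ((hmem r).1 hr)
  obtain ⟨ψ, hψ'⟩ : ∃ ψ : PresentedGroup (↑rels : Set (FreeGroup (Fin 6))) →* Sp4 F,
      ∀ x, ψ (PresentedGroup.mk _ x) = FreeGroup.lift (spmat ζ) x :=
    ⟨PresentedGroup.toGroup hf, fun x => rfl⟩
  have key := sp_core D hgen ψ (by rw [hDua, hua, hψ', spmat_ua])
    (by rw [hDub, hub, hψ', spmat_ub]) (by rw [hDna, hna, hψ', spmat_na])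
    (by rw [hDnb, hnb, hψ', spmat_nb]) (by rw [hDh, hh, hψ', spmat_h, hDζ])
  refine ⟨rels, MulEquiv.ofBijective ψ key, hcard, ?_⟩
  show ψ (PresentedGroup.mk _ (f6na * f6na)) = spNA * spNA
  rw [hψ', map_mul, spmat_na]

/-- `Sp_4(F)` and `PSp_4(F)` are presented by six generators and at most 33, respectively 34,
relators -/
theorem sp4_pres (F : Type*) [Field F] [Fintype F] :
    (∃ rels : Finset (FreeGroup (Fin 6)), rels.card ≤ 35 ∧
      Nonempty (PresentedGroup (↑rels : Set (FreeGroup (Fin 6))) ≃*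
        Matrix.symplecticGroup (Fin 2) F)) ∧
    (∃ rels : Finset (FreeGroup (Fin 6)), rels.card ≤ 36 ∧
      Nonempty (PresentedGroup (↑rels : Set (FreeGroup (Fin 6))) ≃* Cfsg.PSp 2 F)) := by
  classical
  obtain ⟨rels, E, hcard, hE⟩ := sp4_pres_aux F
  refine ⟨⟨rels, by omega, ⟨E⟩⟩, ⟨insert (f6na * f6na) rels, ?_, ?_⟩⟩
  · exact (Finset.card_insert_le _ _).trans (by omega)
  · have hZ : ∀ z ∈ Subgroup.center (Matrix.symplecticGroup (Fin 2) F), z = 1 ∨
        z = E (PresentedGroup.mk (↑rels : Set (FreeGroup (Fin 6))) (f6na * f6na)) := by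
      intro z hz
      have hz' : z ∈ (Subgroup.center (Matrix.symplecticGroup (Fin 2) F) :
          Set (Matrix.symplecticGroup (Fin 2) F)) := hz
      rw [Cfsg.Agent.H6.center_symplectic_eq] at hz'
      rw [hE, spNA_sq_eq]
      exact hz'
    have hr : E (PresentedGroup.mk (↑rels : Set (FreeGroup (Fin 6))) (f6na * f6na)) ∈
        Subgroup.center (Matrix.symplecticGroup (Fin 2) F) := by
      rw [hE, Subgroup.mem_center_iff]
      intro g
      exact (spNA_sq_comm g).symm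
    have h3 := presented_quot (↑rels : Set (FreeGroup (Fin 6))) (f6na * f6na) E
      (Subgroup.center (Matrix.symplecticGroup (Fin 2) F)) hZ hr
    rw [Finset.coe_insert]
    exact h3

end main

end Cfsg.Agent.H8
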