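import Cfsg.Agent.H46.StFinal
import Cfsg.Agent.H46.StDataB2
import Cfsg.Agent.H46.StR3
import Cfsg.Agent.H46.StTorus
import Cfsg.Agent.H23.ChkB2
import Cfsg.Agent.H23.NconjB2
import Cfsg.Agent.H23.CommB2
import Cfsg.Agent.H23.TabB2
import Cfsg.Agent.H23.Tab2B2
import Cfsg.Agent.H23.Gen.B2.Trin0
import Cfsg.Agent.H23.Torus
import Cfsg.Agent.H17.B2Gen

set_option autoImplicit false

/-! Helper lemmas (helper8): the table bundle for type `B₂` with a small import closure. -/

namespace Cfsg.Agent.H8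

open Cfsg.Lie Cfsg.Agent.H23 Cfsg.Agent.H46

/-- the table facts of type `B₂` -/
theorem spSt_tab : StTab chevB2 stWB2 := stChkB2.tab tab_B2

/-- the semantic bundle of type `B₂` -/
theorem spSt_pack (K : Type*) [Field K] :
    PackB chevB2 K (zR chevB2 ctblB2) (fun i s => etaBit (etaB2.getD i 0) s) :=
  ⟨chk_B2.sem K, nconj_B2.semN chk_B2.tblOK K, comm_B2.semC chk_B2.tblOK K, tab_B2,
      tabC_B2, etaNeg_B2, tab2_B2⟩

theorem spSt_semV (K : Type*) [Field K] : SemV chevB2 K :=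
  TriNOK.semV chk_B2.tblOK (all_of_allFrom _ 8 trin_B2_file0) K

end Cfsg.Agent.H8
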