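import Mathlib
import Cfsg.Agent.H17.B2Gen

set_option autoImplicit false
set_option linter.unusedSimpArgs false
set_option linter.unusedTactic false
set_option linter.unreachableTactic false
set_option linter.unnecessarySeqFocus false
set_option linter.unusedVariables false
set_option maxHeartbeats 1000000

/-! Helper lemmas (helper8): the additivity and commutator relations of the root elements of
`Sp_4(F)`, entry by entry, in any characteristic. -/

namespace Cfsg.Agent.H8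

open Matrix Cfsg.Agent.H17

variable {F : Type*} [Field F]

theorem i4_ext {A B : Matrix I4 I4 F}
    (h : ∀ i j : Fin 2, A (.inl i) (.inl j) = B (.inl i) (.inl j) ∧
      A (.inl i) (.inr j) = B (.inl i) (.inr j) ∧ A (.inr i) (.inl j) = B (.inr i) (.inl j) ∧
      A (.inr i) (.inr j) = B (.inr i) (.inr j)) : A = B := by
  ext i j
  rcases i with i | i <;> rcases j with j | j
  · exact (h i j).1
  · exact (h i j).2.1
  · exact (h i j).2.2.1
  · exact (h i j).2.2.2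

theorem b2u0_add (s t : F) : b2u0 s * b2u0 t = b2u0 (s + t) := by
  apply i4_ext
  intro i j
  fin_cases i <;> fin_cases j <;>
    simp [b2u0, b2u1, b2u2, b2u3, b2u4, b2u5, b2u6, b2u7, Matrix.mul_apply,
      Fintype.sum_sum_type, Fin.sum_univ_two, Matrix.one_apply] <;>
    (try ring_nf) <;> (try simp) <;> (try ring)

theorem b2u1_add (s t : F) : b2u1 s * b2u1 t = b2u1 (s + t) := by
  apply i4_ext
  intro i j
  fin_cases i <;> fin_cases j <;>
    simp [b2u0, b2u1, b2u2, b2u3, b2u4, b2u5, b2u6, b2u7, Matrix.mul_apply,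
      Fintype.sum_sum_type, Fin.sum_univ_two, Matrix.one_apply] <;>
    (try ring_nf) <;> (try simp) <;> (try ring)

theorem b2u2_add (s t : F) : b2u2 s * b2u2 t = b2u2 (s + t) := by
  apply i4_ext
  intro i j
  fin_cases i <;> fin_cases j <;>
    simp [b2u0, b2u1, b2u2, b2u3, b2u4, b2u5, b2u6, b2u7, Matrix.mul_apply,
      Fintype.sum_sum_type, Fin.sum_univ_two, Matrix.one_apply] <;>
    (try ring_nf) <;> (try simp) <;> (try ring)

theorem b2u3_add (s t : F) : b2u3 s * b2u3 t = b2u3 (s + t) := by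
  apply i4_ext
  intro i j
  fin_cases i <;> fin_cases j <;>
    simp [b2u0, b2u1, b2u2, b2u3, b2u4, b2u5, b2u6, b2u7, Matrix.mul_apply,
      Fintype.sum_sum_type, Fin.sum_univ_two, Matrix.one_apply] <;>
    (try ring_nf) <;> (try simp) <;> (try ring)

theorem b2u4_add (s t : F) : b2u4 s * b2u4 t = b2u4 (s + t) := by
  apply i4_ext
  intro i j
  fin_cases i <;> fin_cases j <;>
    simp [b2u0, b2u1, b2u2, b2u3, b2u4, b2u5, b2u6, b2u7, Matrix.mul_apply,
      Fintype.sum_sum_type, Fin.sum_univ_two, Matrix.one_apply] <;>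
    (try ring_nf) <;> (try simp) <;> (try ring)

theorem b2u5_add (s t : F) : b2u5 s * b2u5 t = b2u5 (s + t) := by
  apply i4_ext
  intro i j
  fin_cases i <;> fin_cases j <;>
    simp [b2u0, b2u1, b2u2, b2u3, b2u4, b2u5, b2u6, b2u7, Matrix.mul_apply,
      Fintype.sum_sum_type, Fin.sum_univ_two, Matrix.one_apply] <;>
    (try ring_nf) <;> (try simp) <;> (try ring)

theorem b2u6_add (s t : F) : b2u6 s * b2u6 t = b2u6 (s + t) := by
  apply i4_ext
  intro i j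
  fin_cases i <;> fin_cases j <;>
    simp [b2u0, b2u1, b2u2, b2u3, b2u4, b2u5, b2u6, b2u7, Matrix.mul_apply,
      Fintype.sum_sum_type, Fin.sum_univ_two, Matrix.one_apply] <;>
    (try ring_nf) <;> (try simp) <;> (try ring)

theorem b2u7_add (s t : F) : b2u7 s * b2u7 t = b2u7 (s + t) := by
  apply i4_ext
  intro i j
  fin_cases i <;> fin_cases j <;>
    simp [b2u0, b2u1, b2u2, b2u3, b2u4, b2u5, b2u6, b2u7, Matrix.mul_apply,
      Fintype.sum_sum_type, Fin.sum_univ_two, Matrix.one_apply] <;>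
    (try ring_nf) <;> (try simp) <;> (try ring)

theorem b2u_c01 (t u : F) :
    b2u1 (-u) * b2u0 (-t) * b2u1 u * b2u0 t = 1 := by
  apply i4_ext
  intro i j
  fin_cases i <;> fin_cases j <;>
    simp [b2u0, b2u1, b2u2, b2u3, b2u4, b2u5, b2u6, b2u7, Matrix.mul_apply,
      Fintype.sum_sum_type, Fin.sum_univ_two, Matrix.one_apply] <;>
    (try ring_nf) <;> (try simp) <;> (try ring)

theorem b2u_c02 (t u : F) :
    b2u2 (-u) * b2u0 (-t) * b2u2 u * b2u0 t = 1 := by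
  apply i4_ext
  intro i j
  fin_cases i <;> fin_cases j <;>
    simp [b2u0, b2u1, b2u2, b2u3, b2u4, b2u5, b2u6, b2u7, Matrix.mul_apply,
      Fintype.sum_sum_type, Fin.sum_univ_two, Matrix.one_apply] <;>
    (try ring_nf) <;> (try simp) <;> (try ring)

theorem b2u_c03 (t u : F) :
    b2u3 (-u) * b2u0 (-t) * b2u3 u * b2u0 t = 1 := by
  apply i4_ext
  intro i j
  fin_cases i <;> fin_cases j <;>
    simp [b2u0, b2u1, b2u2, b2u3, b2u4, b2u5, b2u6, b2u7, Matrix.mul_apply,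
      Fintype.sum_sum_type, Fin.sum_univ_two, Matrix.one_apply] <;>
    (try ring_nf) <;> (try simp) <;> (try ring)

theorem b2u_c04 (t u : F) :
    b2u4 (-u) * b2u0 (-t) * b2u4 u * b2u0 t = 1 := by
  apply i4_ext
  intro i j
  fin_cases i <;> fin_cases j <;>
    simp [b2u0, b2u1, b2u2, b2u3, b2u4, b2u5, b2u6, b2u7, Matrix.mul_apply,
      Fintype.sum_sum_type, Fin.sum_univ_two, Matrix.one_apply] <;>
    (try ring_nf) <;> (try simp) <;> (try ring)

theorem b2u_c05 (t u : F) :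
    b2u5 (-u) * b2u0 (-t) * b2u5 u * b2u0 t = b2u1 ((1 : F) * (-t) ^ 1 * u ^ 1) * b2u3 ((-1 : F) * (-t) ^ 1 * u ^ 2) := by
  apply i4_ext
  intro i j
  fin_cases i <;> fin_cases j <;>
    simp [b2u0, b2u1, b2u2, b2u3, b2u4, b2u5, b2u6, b2u7, Matrix.mul_apply,
      Fintype.sum_sum_type, Fin.sum_univ_two, Matrix.one_apply] <;>
    (try ring_nf) <;> (try simp) <;> (try ring)

theorem b2u_c06 (t u : F) :
    b2u6 (-u) * b2u0 (-t) * b2u6 u * b2u0 t = b2u2 ((-1 : F) * (-t) ^ 1 * u ^ 1) * b2u4 ((1 : F) * (-t) ^ 1 * u ^ 2) := by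
  apply i4_ext
  intro i j
  fin_cases i <;> fin_cases j <;>
    simp [b2u0, b2u1, b2u2, b2u3, b2u4, b2u5, b2u6, b2u7, Matrix.mul_apply,
      Fintype.sum_sum_type, Fin.sum_univ_two, Matrix.one_apply] <;>
    (try ring_nf) <;> (try simp) <;> (try ring)

theorem b2u_c10 (t u : F) :
    b2u0 (-u) * b2u1 (-t) * b2u0 u * b2u1 t = 1 := by
  apply i4_ext
  intro i j
  fin_cases i <;> fin_cases j <;>
    simp [b2u0, b2u1, b2u2, b2u3, b2u4, b2u5, b2u6, b2u7, Matrix.mul_apply,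
      Fintype.sum_sum_type, Fin.sum_univ_two, Matrix.one_apply] <;>
    (try ring_nf) <;> (try simp) <;> (try ring)

theorem b2u_c12 (t u : F) :
    b2u2 (-u) * b2u1 (-t) * b2u2 u * b2u1 t = b2u0 ((2 : F) * (-t) ^ 1 * u ^ 1) := by
  apply i4_ext
  intro i j
  fin_cases i <;> fin_cases j <;>
    simp [b2u0, b2u1, b2u2, b2u3, b2u4, b2u5, b2u6, b2u7, Matrix.mul_apply,
      Fintype.sum_sum_type, Fin.sum_univ_two, Matrix.one_apply] <;>
    (try ring_nf) <;> (try simp) <;> (try ring)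

theorem b2u_c13 (t u : F) :
    b2u3 (-u) * b2u1 (-t) * b2u3 u * b2u1 t = 1 := by
  apply i4_ext
  intro i j
  fin_cases i <;> fin_cases j <;>
    simp [b2u0, b2u1, b2u2, b2u3, b2u4, b2u5, b2u6, b2u7, Matrix.mul_apply,
      Fintype.sum_sum_type, Fin.sum_univ_two, Matrix.one_apply] <;>
    (try ring_nf) <;> (try simp) <;> (try ring)

theorem b2u_c14 (t u : F) :
    b2u4 (-u) * b2u1 (-t) * b2u4 u * b2u1 t = b2u2 ((1 : F) * (-t) ^ 1 * u ^ 1) * b2u0 ((1 : F) * (-t) ^ 2 * u ^ 1) := by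
  apply i4_ext
  intro i j
  fin_cases i <;> fin_cases j <;>
    simp [b2u0, b2u1, b2u2, b2u3, b2u4, b2u5, b2u6, b2u7, Matrix.mul_apply,
      Fintype.sum_sum_type, Fin.sum_univ_two, Matrix.one_apply] <;>
    (try ring_nf) <;> (try simp) <;> (try ring)

theorem b2u_c15 (t u : F) :
    b2u5 (-u) * b2u1 (-t) * b2u5 u * b2u1 t = b2u3 ((-2 : F) * (-t) ^ 1 * u ^ 1) := by
  apply i4_ext
  intro i j
  fin_cases i <;> fin_cases j <;>
    simp [b2u0, b2u1, b2u2, b2u3, b2u4, b2u5, b2u6, b2u7, Matrix.mul_apply,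
      Fintype.sum_sum_type, Fin.sum_univ_two, Matrix.one_apply] <;>
    (try ring_nf) <;> (try simp) <;> (try ring)

theorem b2u_c17 (t u : F) :
    b2u7 (-u) * b2u1 (-t) * b2u7 u * b2u1 t = b2u5 ((-1 : F) * (-t) ^ 1 * u ^ 1) * b2u3 ((1 : F) * (-t) ^ 2 * u ^ 1) := by
  apply i4_ext
  intro i j
  fin_cases i <;> fin_cases j <;>
    simp [b2u0, b2u1, b2u2, b2u3, b2u4, b2u5, b2u6, b2u7, Matrix.mul_apply,
      Fintype.sum_sum_type, Fin.sum_univ_two, Matrix.one_apply] <;>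
    (try ring_nf) <;> (try simp) <;> (try ring)

theorem b2u_c20 (t u : F) :
    b2u0 (-u) * b2u2 (-t) * b2u0 u * b2u2 t = 1 := by
  apply i4_ext
  intro i j
  fin_cases i <;> fin_cases j <;>
    simp [b2u0, b2u1, b2u2, b2u3, b2u4, b2u5, b2u6, b2u7, Matrix.mul_apply,
      Fintype.sum_sum_type, Fin.sum_univ_two, Matrix.one_apply] <;>
    (try ring_nf) <;> (try simp) <;> (try ring)

theorem b2u_c21 (t u : F) :
    b2u1 (-u) * b2u2 (-t) * b2u1 u * b2u2 t = b2u0 ((-2 : F) * (-t) ^ 1 * u ^ 1) := by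
  apply i4_ext
  intro i j
  fin_cases i <;> fin_cases j <;>
    simp [b2u0, b2u1, b2u2, b2u3, b2u4, b2u5, b2u6, b2u7, Matrix.mul_apply,
      Fintype.sum_sum_type, Fin.sum_univ_two, Matrix.one_apply] <;>
    (try ring_nf) <;> (try simp) <;> (try ring)

theorem b2u_c23 (t u : F) :
    b2u3 (-u) * b2u2 (-t) * b2u3 u * b2u2 t = b2u1 ((1 : F) * (-t) ^ 1 * u ^ 1) * b2u0 ((-1 : F) * (-t) ^ 2 * u ^ 1) := by
  apply i4_ext
  intro i j
  fin_cases i <;> fin_cases j <;>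
    simp [b2u0, b2u1, b2u2, b2u3, b2u4, b2u5, b2u6, b2u7, Matrix.mul_apply,
      Fintype.sum_sum_type, Fin.sum_univ_two, Matrix.one_apply] <;>
    (try ring_nf) <;> (try simp) <;> (try ring)

theorem b2u_c24 (t u : F) :
    b2u4 (-u) * b2u2 (-t) * b2u4 u * b2u2 t = 1 := by
  apply i4_ext
  intro i j
  fin_cases i <;> fin_cases j <;>
    simp [b2u0, b2u1, b2u2, b2u3, b2u4, b2u5, b2u6, b2u7, Matrix.mul_apply,
      Fintype.sum_sum_type, Fin.sum_univ_two, Matrix.one_apply] <;>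
    (try ring_nf) <;> (try simp) <;> (try ring)

theorem b2u_c26 (t u : F) :
    b2u6 (-u) * b2u2 (-t) * b2u6 u * b2u2 t = b2u4 ((-2 : F) * (-t) ^ 1 * u ^ 1) := by
  apply i4_ext
  intro i j
  fin_cases i <;> fin_cases j <;>
    simp [b2u0, b2u1, b2u2, b2u3, b2u4, b2u5, b2u6, b2u7, Matrix.mul_apply,
      Fintype.sum_sum_type, Fin.sum_univ_two, Matrix.one_apply] <;>
    (try ring_nf) <;> (try simp) <;> (try ring)

theorem b2u_c27 (t u : F) :
    b2u7 (-u) * b2u2 (-t) * b2u7 u * b2u2 t = b2u6 ((1 : F) * (-t) ^ 1 * u ^ 1) * b2u4 ((-1 : F) * (-t) ^ 2 * u ^ 1) := by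
  apply i4_ext
  intro i j
  fin_cases i <;> fin_cases j <;>
    simp [b2u0, b2u1, b2u2, b2u3, b2u4, b2u5, b2u6, b2u7, Matrix.mul_apply,
      Fintype.sum_sum_type, Fin.sum_univ_two, Matrix.one_apply] <;>
    (try ring_nf) <;> (try simp) <;> (try ring)

theorem b2u_c30 (t u : F) :
    b2u0 (-u) * b2u3 (-t) * b2u0 u * b2u3 t = 1 := by
  apply i4_ext
  intro i j
  fin_cases i <;> fin_cases j <;>
    simp [b2u0, b2u1, b2u2, b2u3, b2u4, b2u5, b2u6, b2u7, Matrix.mul_apply,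
      Fintype.sum_sum_type, Fin.sum_univ_two, Matrix.one_apply] <;>
    (try ring_nf) <;> (try simp) <;> (try ring)

theorem b2u_c31 (t u : F) :
    b2u1 (-u) * b2u3 (-t) * b2u1 u * b2u3 t = 1 := by
  apply i4_ext
  intro i j
  fin_cases i <;> fin_cases j <;>
    simp [b2u0, b2u1, b2u2, b2u3, b2u4, b2u5, b2u6, b2u7, Matrix.mul_apply,
      Fintype.sum_sum_type, Fin.sum_univ_two, Matrix.one_apply] <;>
    (try ring_nf) <;> (try simp) <;> (try ring)

theorem b2u_c32 (t u : F) :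
    b2u2 (-u) * b2u3 (-t) * b2u2 u * b2u3 t = b2u1 ((-1 : F) * (-t) ^ 1 * u ^ 1) * b2u0 ((-1 : F) * (-t) ^ 1 * u ^ 2) := by
  apply i4_ext
  intro i j
  fin_cases i <;> fin_cases j <;>
    simp [b2u0, b2u1, b2u2, b2u3, b2u4, b2u5, b2u6, b2u7, Matrix.mul_apply,
      Fintype.sum_sum_type, Fin.sum_univ_two, Matrix.one_apply] <;>
    (try ring_nf) <;> (try simp) <;> (try ring)

theorem b2u_c35 (t u : F) :
    b2u5 (-u) * b2u3 (-t) * b2u5 u * b2u3 t = 1 := by
  apply i4_ext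
  intro i j
  fin_cases i <;> fin_cases j <;>
    simp [b2u0, b2u1, b2u2, b2u3, b2u4, b2u5, b2u6, b2u7, Matrix.mul_apply,
      Fintype.sum_sum_type, Fin.sum_univ_two, Matrix.one_apply] <;>
    (try ring_nf) <;> (try simp) <;> (try ring)

theorem b2u_c36 (t u : F) :
    b2u6 (-u) * b2u3 (-t) * b2u6 u * b2u3 t = b2u5 ((1 : F) * (-t) ^ 1 * u ^ 1) * b2u7 ((1 : F) * (-t) ^ 1 * u ^ 2) := by
  apply i4_ext
  intro i j
  fin_cases i <;> fin_cases j <;>
    simp [b2u0, b2u1, b2u2, b2u3, b2u4, b2u5, b2u6, b2u7, Matrix.mul_apply,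
      Fintype.sum_sum_type, Fin.sum_univ_two, Matrix.one_apply] <;>
    (try ring_nf) <;> (try simp) <;> (try ring)

theorem b2u_c37 (t u : F) :
    b2u7 (-u) * b2u3 (-t) * b2u7 u * b2u3 t = 1 := by
  apply i4_ext
  intro i j
  fin_cases i <;> fin_cases j <;>
    simp [b2u0, b2u1, b2u2, b2u3, b2u4, b2u5, b2u6, b2u7, Matrix.mul_apply,
      Fintype.sum_sum_type, Fin.sum_univ_two, Matrix.one_apply] <;>
    (try ring_nf) <;> (try simp) <;> (try ring)

theorem b2u_c40 (t u : F) :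
    b2u0 (-u) * b2u4 (-t) * b2u0 u * b2u4 t = 1 := by
  apply i4_ext
  intro i j
  fin_cases i <;> fin_cases j <;>
    simp [b2u0, b2u1, b2u2, b2u3, b2u4, b2u5, b2u6, b2u7, Matrix.mul_apply,
      Fintype.sum_sum_type, Fin.sum_univ_two, Matrix.one_apply] <;>
    (try ring_nf) <;> (try simp) <;> (try ring)

theorem b2u_c41 (t u : F) :
    b2u1 (-u) * b2u4 (-t) * b2u1 u * b2u4 t = b2u2 ((-1 : F) * (-t) ^ 1 * u ^ 1) * b2u0 ((1 : F) * (-t) ^ 1 * u ^ 2) := by
  apply i4_ext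
  intro i j
  fin_cases i <;> fin_cases j <;>
    simp [b2u0, b2u1, b2u2, b2u3, b2u4, b2u5, b2u6, b2u7, Matrix.mul_apply,
      Fintype.sum_sum_type, Fin.sum_univ_two, Matrix.one_apply] <;>
    (try ring_nf) <;> (try simp) <;> (try ring)

theorem b2u_c42 (t u : F) :
    b2u2 (-u) * b2u4 (-t) * b2u2 u * b2u4 t = 1 := by
  apply i4_ext
  intro i j
  fin_cases i <;> fin_cases j <;>
    simp [b2u0, b2u1, b2u2, b2u3, b2u4, b2u5, b2u6, b2u7, Matrix.mul_apply,
      Fintype.sum_sum_type, Fin.sum_univ_two, Matrix.one_apply] <;>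
    (try ring_nf) <;> (try simp) <;> (try ring)

theorem b2u_c45 (t u : F) :
    b2u5 (-u) * b2u4 (-t) * b2u5 u * b2u4 t = b2u6 ((1 : F) * (-t) ^ 1 * u ^ 1) * b2u7 ((-1 : F) * (-t) ^ 1 * u ^ 2) := by
  apply i4_ext
  intro i j
  fin_cases i <;> fin_cases j <;>
    simp [b2u0, b2u1, b2u2, b2u3, b2u4, b2u5, b2u6, b2u7, Matrix.mul_apply,
      Fintype.sum_sum_type, Fin.sum_univ_two, Matrix.one_apply] <;>
    (try ring_nf) <;> (try simp) <;> (try ring)

theorem b2u_c46 (t u : F) :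
    b2u6 (-u) * b2u4 (-t) * b2u6 u * b2u4 t = 1 := by
  apply i4_ext
  intro i j
  fin_cases i <;> fin_cases j <;>
    simp [b2u0, b2u1, b2u2, b2u3, b2u4, b2u5, b2u6, b2u7, Matrix.mul_apply,
      Fintype.sum_sum_type, Fin.sum_univ_two, Matrix.one_apply] <;>
    (try ring_nf) <;> (try simp) <;> (try ring)

theorem b2u_c47 (t u : F) :
    b2u7 (-u) * b2u4 (-t) * b2u7 u * b2u4 t = 1 := by
  apply i4_ext
  intro i j
  fin_cases i <;> fin_cases j <;>
    simp [b2u0, b2u1, b2u2, b2u3, b2u4, b2u5, b2u6, b2u7, Matrix.mul_apply,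
      Fintype.sum_sum_type, Fin.sum_univ_two, Matrix.one_apply] <;>
    (try ring_nf) <;> (try simp) <;> (try ring)

theorem b2u_c50 (t u : F) :
    b2u0 (-u) * b2u5 (-t) * b2u0 u * b2u5 t = b2u1 ((-1 : F) * (-t) ^ 1 * u ^ 1) * b2u3 ((-1 : F) * (-t) ^ 2 * u ^ 1) := by
  apply i4_ext
  intro i j
  fin_cases i <;> fin_cases j <;>
    simp [b2u0, b2u1, b2u2, b2u3, b2u4, b2u5, b2u6, b2u7, Matrix.mul_apply,
      Fintype.sum_sum_type, Fin.sum_univ_two, Matrix.one_apply] <;>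
    (try ring_nf) <;> (try simp) <;> (try ring)

theorem b2u_c51 (t u : F) :
    b2u1 (-u) * b2u5 (-t) * b2u1 u * b2u5 t = b2u3 ((2 : F) * (-t) ^ 1 * u ^ 1) := by
  apply i4_ext
  intro i j
  fin_cases i <;> fin_cases j <;>
    simp [b2u0, b2u1, b2u2, b2u3, b2u4, b2u5, b2u6, b2u7, Matrix.mul_apply,
      Fintype.sum_sum_type, Fin.sum_univ_two, Matrix.one_apply] <;>
    (try ring_nf) <;> (try simp) <;> (try ring)

theorem b2u_c53 (t u : F) :
    b2u3 (-u) * b2u5 (-t) * b2u3 u * b2u5 t = 1 := by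
  apply i4_ext
  intro i j
  fin_cases i <;> fin_cases j <;>
    simp [b2u0, b2u1, b2u2, b2u3, b2u4, b2u5, b2u6, b2u7, Matrix.mul_apply,
      Fintype.sum_sum_type, Fin.sum_univ_two, Matrix.one_apply] <;>
    (try ring_nf) <;> (try simp) <;> (try ring)

theorem b2u_c54 (t u : F) :
    b2u4 (-u) * b2u5 (-t) * b2u4 u * b2u5 t = b2u6 ((-1 : F) * (-t) ^ 1 * u ^ 1) * b2u7 ((-1 : F) * (-t) ^ 2 * u ^ 1) := by
  apply i4_ext
  intro i j
  fin_cases i <;> fin_cases j <;>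
    simp [b2u0, b2u1, b2u2, b2u3, b2u4, b2u5, b2u6, b2u7, Matrix.mul_apply,
      Fintype.sum_sum_type, Fin.sum_univ_two, Matrix.one_apply] <;>
    (try ring_nf) <;> (try simp) <;> (try ring)

theorem b2u_c56 (t u : F) :
    b2u6 (-u) * b2u5 (-t) * b2u6 u * b2u5 t = b2u7 ((2 : F) * (-t) ^ 1 * u ^ 1) := by
  apply i4_ext
  intro i j
  fin_cases i <;> fin_cases j <;>
    simp [b2u0, b2u1, b2u2, b2u3, b2u4, b2u5, b2u6, b2u7, Matrix.mul_apply,
      Fintype.sum_sum_type, Fin.sum_univ_two, Matrix.one_apply] <;>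
    (try ring_nf) <;> (try simp) <;> (try ring)

theorem b2u_c57 (t u : F) :
    b2u7 (-u) * b2u5 (-t) * b2u7 u * b2u5 t = 1 := by
  apply i4_ext
  intro i j
  fin_cases i <;> fin_cases j <;>
    simp [b2u0, b2u1, b2u2, b2u3, b2u4, b2u5, b2u6, b2u7, Matrix.mul_apply,
      Fintype.sum_sum_type, Fin.sum_univ_two, Matrix.one_apply] <;>
    (try ring_nf) <;> (try simp) <;> (try ring)

theorem b2u_c60 (t u : F) :
    b2u0 (-u) * b2u6 (-t) * b2u0 u * b2u6 t = b2u2 ((1 : F) * (-t) ^ 1 * u ^ 1) * b2u4 ((1 : F) * (-t) ^ 2 * u ^ 1) := by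
  apply i4_ext
  intro i j
  fin_cases i <;> fin_cases j <;>
    simp [b2u0, b2u1, b2u2, b2u3, b2u4, b2u5, b2u6, b2u7, Matrix.mul_apply,
      Fintype.sum_sum_type, Fin.sum_univ_two, Matrix.one_apply] <;>
    (try ring_nf) <;> (try simp) <;> (try ring)

theorem b2u_c62 (t u : F) :
    b2u2 (-u) * b2u6 (-t) * b2u2 u * b2u6 t = b2u4 ((2 : F) * (-t) ^ 1 * u ^ 1) := by
  apply i4_ext
  intro i j
  fin_cases i <;> fin_cases j <;>
    simp [b2u0, b2u1, b2u2, b2u3, b2u4, b2u5, b2u6, b2u7, Matrix.mul_apply,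
      Fintype.sum_sum_type, Fin.sum_univ_two, Matrix.one_apply] <;>
    (try ring_nf) <;> (try simp) <;> (try ring)

theorem b2u_c63 (t u : F) :
    b2u3 (-u) * b2u6 (-t) * b2u3 u * b2u6 t = b2u5 ((-1 : F) * (-t) ^ 1 * u ^ 1) * b2u7 ((1 : F) * (-t) ^ 2 * u ^ 1) := by
  apply i4_ext
  intro i j
  fin_cases i <;> fin_cases j <;>
    simp [b2u0, b2u1, b2u2, b2u3, b2u4, b2u5, b2u6, b2u7, Matrix.mul_apply,
      Fintype.sum_sum_type, Fin.sum_univ_two, Matrix.one_apply] <;>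
    (try ring_nf) <;> (try simp) <;> (try ring)

theorem b2u_c64 (t u : F) :
    b2u4 (-u) * b2u6 (-t) * b2u4 u * b2u6 t = 1 := by
  apply i4_ext
  intro i j
  fin_cases i <;> fin_cases j <;>
    simp [b2u0, b2u1, b2u2, b2u3, b2u4, b2u5, b2u6, b2u7, Matrix.mul_apply,
      Fintype.sum_sum_type, Fin.sum_univ_two, Matrix.one_apply] <;>
    (try ring_nf) <;> (try simp) <;> (try ring)

theorem b2u_c65 (t u : F) :
    b2u5 (-u) * b2u6 (-t) * b2u5 u * b2u6 t = b2u7 ((-2 : F) * (-t) ^ 1 * u ^ 1) := by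
  apply i4_ext
  intro i j
  fin_cases i <;> fin_cases j <;>
    simp [b2u0, b2u1, b2u2, b2u3, b2u4, b2u5, b2u6, b2u7, Matrix.mul_apply,
      Fintype.sum_sum_type, Fin.sum_univ_two, Matrix.one_apply] <;>
    (try ring_nf) <;> (try simp) <;> (try ring)

theorem b2u_c67 (t u : F) :
    b2u7 (-u) * b2u6 (-t) * b2u7 u * b2u6 t = 1 := by
  apply i4_ext
  intro i j
  fin_cases i <;> fin_cases j <;>
    simp [b2u0, b2u1, b2u2, b2u3, b2u4, b2u5, b2u6, b2u7, Matrix.mul_apply,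
      Fintype.sum_sum_type, Fin.sum_univ_two, Matrix.one_apply] <;>
    (try ring_nf) <;> (try simp) <;> (try ring)

theorem b2u_c71 (t u : F) :
    b2u1 (-u) * b2u7 (-t) * b2u1 u * b2u7 t = b2u5 ((1 : F) * (-t) ^ 1 * u ^ 1) * b2u3 ((1 : F) * (-t) ^ 1 * u ^ 2) := by
  apply i4_ext
  intro i j
  fin_cases i <;> fin_cases j <;>
    simp [b2u0, b2u1, b2u2, b2u3, b2u4, b2u5, b2u6, b2u7, Matrix.mul_apply,
      Fintype.sum_sum_type, Fin.sum_univ_two, Matrix.one_apply] <;>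
    (try ring_nf) <;> (try simp) <;> (try ring)

theorem b2u_c72 (t u : F) :
    b2u2 (-u) * b2u7 (-t) * b2u2 u * b2u7 t = b2u6 ((-1 : F) * (-t) ^ 1 * u ^ 1) * b2u4 ((-1 : F) * (-t) ^ 1 * u ^ 2) := by
  apply i4_ext
  intro i j
  fin_cases i <;> fin_cases j <;>
    simp [b2u0, b2u1, b2u2, b2u3, b2u4, b2u5, b2u6, b2u7, Matrix.mul_apply,
      Fintype.sum_sum_type, Fin.sum_univ_two, Matrix.one_apply] <;>
    (try ring_nf) <;> (try simp) <;> (try ring)

theorem b2u_c73 (t u : F) :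
    b2u3 (-u) * b2u7 (-t) * b2u3 u * b2u7 t = 1 := by
  apply i4_ext
  intro i j
  fin_cases i <;> fin_cases j <;>
    simp [b2u0, b2u1, b2u2, b2u3, b2u4, b2u5, b2u6, b2u7, Matrix.mul_apply,
      Fintype.sum_sum_type, Fin.sum_univ_two, Matrix.one_apply] <;>
    (try ring_nf) <;> (try simp) <;> (try ring)

theorem b2u_c74 (t u : F) :
    b2u4 (-u) * b2u7 (-t) * b2u4 u * b2u7 t = 1 := by
  apply i4_ext
  intro i j
  fin_cases i <;> fin_cases j <;>
    simp [b2u0, b2u1, b2u2, b2u3, b2u4, b2u5, b2u6, b2u7, Matrix.mul_apply,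
      Fintype.sum_sum_type, Fin.sum_univ_two, Matrix.one_apply] <;>
    (try ring_nf) <;> (try simp) <;> (try ring)

theorem b2u_c75 (t u : F) :
    b2u5 (-u) * b2u7 (-t) * b2u5 u * b2u7 t = 1 := by
  apply i4_ext
  intro i j
  fin_cases i <;> fin_cases j <;>
    simp [b2u0, b2u1, b2u2, b2u3, b2u4, b2u5, b2u6, b2u7, Matrix.mul_apply,
      Fintype.sum_sum_type, Fin.sum_univ_two, Matrix.one_apply] <;>
    (try ring_nf) <;> (try simp) <;> (try ring)

theorem b2u_c76 (t u : F) :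
    b2u6 (-u) * b2u7 (-t) * b2u6 u * b2u7 t = 1 := by
  apply i4_ext
  intro i j
  fin_cases i <;> fin_cases j <;>
    simp [b2u0, b2u1, b2u2, b2u3, b2u4, b2u5, b2u6, b2u7, Matrix.mul_apply,
      Fintype.sum_sum_type, Fin.sum_univ_two, Matrix.one_apply] <;>
    (try ring_nf) <;> (try simp) <;> (try ring)

end Cfsg.Agent.H8
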