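import Cfsg.Agent.H8.SpStA
import Cfsg.Agent.H8.SpStB
import Cfsg.Agent.H8.Sp4A
import Cfsg.Prelude.Def_SteinbergCover

set_option autoImplicit false
set_option linter.unusedSimpArgs false
set_option linter.unusedVariables false
set_option maxHeartbeats 1000000

/-! Helper lemmas (helper8): the root elements of `Sp_4(F)` satisfy the Steinberg relations of type `B₂`
in the frozen form. -/

namespace Cfsg.Agent.H8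

open Matrix Cfsg.Lie Cfsg.Agent.H17 Cfsg.Agent.H23 Cfsg.Agent.H46

variable {F : Type*} [Field F]

theorem b2uS_add (r : Fin 8) (s t : F) : b2uS r s * b2uS r t = b2uS r (s + t) := by
  apply Subtype.ext
  show b2u r s * b2u r t = b2u r (s + t)
  fin_cases r
  · exact b2u0_add s t
  · exact b2u1_add s t
  · exact b2u2_add s t
  · exact b2u3_add s t
  · exact b2u4_add s t
  · exact b2u5_add s t
  · exact b2u6_add s t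
  · exact b2u7_add s t

theorem b2uS_zero (r : Fin 8) : b2uS r (0 : F) = 1 := by
  have h := b2uS_add r (0 : F) 0
  rw [add_zero] at h
  exact mul_left_cancel (a := b2uS r (0 : F)) (by rw [h, mul_one])

theorem b2uS_inv (r : Fin 8) (t : F) : (b2uS r t)⁻¹ = b2uS r (-t) := by
  apply inv_eq_of_mul_eq_one_right
  rw [b2uS_add, add_neg_cancel, b2uS_zero]

/-- the root element with a natural number index -/
def gS (r : ℕ) (t : F) : Sp4 F := if h : r < 8 then b2uS ⟨r, h⟩ t else 1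

theorem gS_of_lt (r : ℕ) (h : r < 8) (t : F) : gS r t = b2uS ⟨r, h⟩ t := dif_pos h

theorem gS_add (r : ℕ) (s t : F) : gS r s * gS r t = gS r (s + t) := by
  unfold gS
  split_ifs with h
  · exact b2uS_add _ s t
  · exact mul_one 1

theorem gS_w01 (t u : F) :
    (gS 1 u)⁻¹ * (gS 0 t)⁻¹ * gS 1 u * gS 0 t = wordB gS (chevB2.commWord F 0 1 t u) := by
  have e : chevB2.commTerms 0 1 = [] := by decide
  unfold ChevalleyDatum.commWord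
  rw [e]
  show (b2uS 1 u)⁻¹ * (b2uS 0 t)⁻¹ * b2uS 1 u * b2uS 0 t = 1
  rw [b2uS_inv, b2uS_inv]
  apply Subtype.ext
  show b2u1 (-u) * b2u0 (-t) * b2u1 u * b2u0 t = 1
  exact b2u_c01 t u

theorem gS_w02 (t u : F) :
    (gS 2 u)⁻¹ * (gS 0 t)⁻¹ * gS 2 u * gS 0 t = wordB gS (chevB2.commWord F 0 2 t u) := by
  have e : chevB2.commTerms 0 2 = [] := by decide
  unfold ChevalleyDatum.commWord
  rw [e]
  show (b2uS 2 u)⁻¹ * (b2uS 0 t)⁻¹ * b2uS 2 u * b2uS 0 t = 1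
  rw [b2uS_inv, b2uS_inv]
  apply Subtype.ext
  show b2u2 (-u) * b2u0 (-t) * b2u2 u * b2u0 t = 1
  exact b2u_c02 t u

theorem gS_w03 (t u : F) :
    (gS 3 u)⁻¹ * (gS 0 t)⁻¹ * gS 3 u * gS 0 t = wordB gS (chevB2.commWord F 0 3 t u) := by
  have e : chevB2.commTerms 0 3 = [] := by decide
  unfold ChevalleyDatum.commWord
  rw [e]
  show (b2uS 3 u)⁻¹ * (b2uS 0 t)⁻¹ * b2uS 3 u * b2uS 0 t = 1
  rw [b2uS_inv, b2uS_inv]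
  apply Subtype.ext
  show b2u3 (-u) * b2u0 (-t) * b2u3 u * b2u0 t = 1
  exact b2u_c03 t u

theorem gS_w04 (t u : F) :
    (gS 4 u)⁻¹ * (gS 0 t)⁻¹ * gS 4 u * gS 0 t = wordB gS (chevB2.commWord F 0 4 t u) := by
  have e : chevB2.commTerms 0 4 = [] := by decide
  unfold ChevalleyDatum.commWord
  rw [e]
  show (b2uS 4 u)⁻¹ * (b2uS 0 t)⁻¹ * b2uS 4 u * b2uS 0 t = 1
  rw [b2uS_inv, b2uS_inv]
  apply Subtype.ext
  show b2u4 (-u) * b2u0 (-t) * b2u4 u * b2u0 t = 1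
  exact b2u_c04 t u

theorem gS_w05 (t u : F) :
    (gS 5 u)⁻¹ * (gS 0 t)⁻¹ * gS 5 u * gS 0 t = wordB gS (chevB2.commWord F 0 5 t u) := by
  have e : chevB2.commTerms 0 5 = [(1, 1, 1, 1), (3, -1, 1, 2)] := by decide
  unfold ChevalleyDatum.commWord
  rw [e]
  show (b2uS 5 u)⁻¹ * (b2uS 0 t)⁻¹ * b2uS 5 u * b2uS 0 t = (b2uS 1 (((1 : ℤ) : F) * (-t) ^ 1 * u ^ 1) * (b2uS 3 (((-1 : ℤ) : F) * (-t) ^ 1 * u ^ 2) * 1))
  rw [b2uS_inv, b2uS_inv]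
  apply Subtype.ext
  show b2u5 (-u) * b2u0 (-t) * b2u5 u * b2u0 t = (b2u1 (((1 : ℤ) : F) * (-t) ^ 1 * u ^ 1) * (b2u3 (((-1 : ℤ) : F) * (-t) ^ 1 * u ^ 2) * 1))
  rw [b2u_c05 t u]
  simp only [Int.cast_neg, Int.cast_one, Int.cast_ofNat, mul_one]

theorem gS_w06 (t u : F) :
    (gS 6 u)⁻¹ * (gS 0 t)⁻¹ * gS 6 u * gS 0 t = wordB gS (chevB2.commWord F 0 6 t u) := by
  have e : chevB2.commTerms 0 6 = [(2, -1, 1, 1), (4, 1, 1, 2)] := by decide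
  unfold ChevalleyDatum.commWord
  rw [e]
  show (b2uS 6 u)⁻¹ * (b2uS 0 t)⁻¹ * b2uS 6 u * b2uS 0 t = (b2uS 2 (((-1 : ℤ) : F) * (-t) ^ 1 * u ^ 1) * (b2uS 4 (((1 : ℤ) : F) * (-t) ^ 1 * u ^ 2) * 1))
  rw [b2uS_inv, b2uS_inv]
  apply Subtype.ext
  show b2u6 (-u) * b2u0 (-t) * b2u6 u * b2u0 t = (b2u2 (((-1 : ℤ) : F) * (-t) ^ 1 * u ^ 1) * (b2u4 (((1 : ℤ) : F) * (-t) ^ 1 * u ^ 2) * 1))
  rw [b2u_c06 t u]
  simp only [Int.cast_neg, Int.cast_one, Int.cast_ofNat, mul_one]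

theorem gS_w10 (t u : F) :
    (gS 0 u)⁻¹ * (gS 1 t)⁻¹ * gS 0 u * gS 1 t = wordB gS (chevB2.commWord F 1 0 t u) := by
  have e : chevB2.commTerms 1 0 = [] := by decide
  unfold ChevalleyDatum.commWord
  rw [e]
  show (b2uS 0 u)⁻¹ * (b2uS 1 t)⁻¹ * b2uS 0 u * b2uS 1 t = 1
  rw [b2uS_inv, b2uS_inv]
  apply Subtype.ext
  show b2u0 (-u) * b2u1 (-t) * b2u0 u * b2u1 t = 1
  exact b2u_c10 t u

theorem gS_w12 (t u : F) :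
    (gS 2 u)⁻¹ * (gS 1 t)⁻¹ * gS 2 u * gS 1 t = wordB gS (chevB2.commWord F 1 2 t u) := by
  have e : chevB2.commTerms 1 2 = [(0, 2, 1, 1)] := by decide
  unfold ChevalleyDatum.commWord
  rw [e]
  show (b2uS 2 u)⁻¹ * (b2uS 1 t)⁻¹ * b2uS 2 u * b2uS 1 t = (b2uS 0 (((2 : ℤ) : F) * (-t) ^ 1 * u ^ 1) * 1)
  rw [b2uS_inv, b2uS_inv]
  apply Subtype.ext
  show b2u2 (-u) * b2u1 (-t) * b2u2 u * b2u1 t = (b2u0 (((2 : ℤ) : F) * (-t) ^ 1 * u ^ 1) * 1)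
  rw [b2u_c12 t u]
  simp only [Int.cast_neg, Int.cast_one, Int.cast_ofNat, mul_one]

theorem gS_w13 (t u : F) :
    (gS 3 u)⁻¹ * (gS 1 t)⁻¹ * gS 3 u * gS 1 t = wordB gS (chevB2.commWord F 1 3 t u) := by
  have e : chevB2.commTerms 1 3 = [] := by decide
  unfold ChevalleyDatum.commWord
  rw [e]
  show (b2uS 3 u)⁻¹ * (b2uS 1 t)⁻¹ * b2uS 3 u * b2uS 1 t = 1
  rw [b2uS_inv, b2uS_inv]
  apply Subtype.ext
  show b2u3 (-u) * b2u1 (-t) * b2u3 u * b2u1 t = 1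
  exact b2u_c13 t u

theorem gS_w14 (t u : F) :
    (gS 4 u)⁻¹ * (gS 1 t)⁻¹ * gS 4 u * gS 1 t = wordB gS (chevB2.commWord F 1 4 t u) := by
  have e : chevB2.commTerms 1 4 = [(2, 1, 1, 1), (0, 1, 2, 1)] := by decide
  unfold ChevalleyDatum.commWord
  rw [e]
  show (b2uS 4 u)⁻¹ * (b2uS 1 t)⁻¹ * b2uS 4 u * b2uS 1 t = (b2uS 2 (((1 : ℤ) : F) * (-t) ^ 1 * u ^ 1) * (b2uS 0 (((1 : ℤ) : F) * (-t) ^ 2 * u ^ 1) * 1))
  rw [b2uS_inv, b2uS_inv]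
  apply Subtype.ext
  show b2u4 (-u) * b2u1 (-t) * b2u4 u * b2u1 t = (b2u2 (((1 : ℤ) : F) * (-t) ^ 1 * u ^ 1) * (b2u0 (((1 : ℤ) : F) * (-t) ^ 2 * u ^ 1) * 1))
  rw [b2u_c14 t u]
  simp only [Int.cast_neg, Int.cast_one, Int.cast_ofNat, mul_one]

theorem gS_w15 (t u : F) :
    (gS 5 u)⁻¹ * (gS 1 t)⁻¹ * gS 5 u * gS 1 t = wordB gS (chevB2.commWord F 1 5 t u) := by
  have e : chevB2.commTerms 1 5 = [(3, -2, 1, 1)] := by decide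
  unfold ChevalleyDatum.commWord
  rw [e]
  show (b2uS 5 u)⁻¹ * (b2uS 1 t)⁻¹ * b2uS 5 u * b2uS 1 t = (b2uS 3 (((-2 : ℤ) : F) * (-t) ^ 1 * u ^ 1) * 1)
  rw [b2uS_inv, b2uS_inv]
  apply Subtype.ext
  show b2u5 (-u) * b2u1 (-t) * b2u5 u * b2u1 t = (b2u3 (((-2 : ℤ) : F) * (-t) ^ 1 * u ^ 1) * 1)
  rw [b2u_c15 t u]
  simp only [Int.cast_neg, Int.cast_one, Int.cast_ofNat, mul_one]

theorem gS_w17 (t u : F) :
    (gS 7 u)⁻¹ * (gS 1 t)⁻¹ * gS 7 u * gS 1 t = wordB gS (chevB2.commWord F 1 7 t u) := by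
  have e : chevB2.commTerms 1 7 = [(5, -1, 1, 1), (3, 1, 2, 1)] := by decide
  unfold ChevalleyDatum.commWord
  rw [e]
  show (b2uS 7 u)⁻¹ * (b2uS 1 t)⁻¹ * b2uS 7 u * b2uS 1 t = (b2uS 5 (((-1 : ℤ) : F) * (-t) ^ 1 * u ^ 1) * (b2uS 3 (((1 : ℤ) : F) * (-t) ^ 2 * u ^ 1) * 1))
  rw [b2uS_inv, b2uS_inv]
  apply Subtype.ext
  show b2u7 (-u) * b2u1 (-t) * b2u7 u * b2u1 t = (b2u5 (((-1 : ℤ) : F) * (-t) ^ 1 * u ^ 1) * (b2u3 (((1 : ℤ) : F) * (-t) ^ 2 * u ^ 1) * 1))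
  rw [b2u_c17 t u]
  simp only [Int.cast_neg, Int.cast_one, Int.cast_ofNat, mul_one]

theorem gS_w20 (t u : F) :
    (gS 0 u)⁻¹ * (gS 2 t)⁻¹ * gS 0 u * gS 2 t = wordB gS (chevB2.commWord F 2 0 t u) := by
  have e : chevB2.commTerms 2 0 = [] := by decide
  unfold ChevalleyDatum.commWord
  rw [e]
  show (b2uS 0 u)⁻¹ * (b2uS 2 t)⁻¹ * b2uS 0 u * b2uS 2 t = 1
  rw [b2uS_inv, b2uS_inv]
  apply Subtype.ext
  show b2u0 (-u) * b2u2 (-t) * b2u0 u * b2u2 t = 1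
  exact b2u_c20 t u

theorem gS_w21 (t u : F) :
    (gS 1 u)⁻¹ * (gS 2 t)⁻¹ * gS 1 u * gS 2 t = wordB gS (chevB2.commWord F 2 1 t u) := by
  have e : chevB2.commTerms 2 1 = [(0, -2, 1, 1)] := by decide
  unfold ChevalleyDatum.commWord
  rw [e]
  show (b2uS 1 u)⁻¹ * (b2uS 2 t)⁻¹ * b2uS 1 u * b2uS 2 t = (b2uS 0 (((-2 : ℤ) : F) * (-t) ^ 1 * u ^ 1) * 1)
  rw [b2uS_inv, b2uS_inv]
  apply Subtype.ext
  show b2u1 (-u) * b2u2 (-t) * b2u1 u * b2u2 t = (b2u0 (((-2 : ℤ) : F) * (-t) ^ 1 * u ^ 1) * 1)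
  rw [b2u_c21 t u]
  simp only [Int.cast_neg, Int.cast_one, Int.cast_ofNat, mul_one]

theorem gS_w23 (t u : F) :
    (gS 3 u)⁻¹ * (gS 2 t)⁻¹ * gS 3 u * gS 2 t = wordB gS (chevB2.commWord F 2 3 t u) := by
  have e : chevB2.commTerms 2 3 = [(1, 1, 1, 1), (0, -1, 2, 1)] := by decide
  unfold ChevalleyDatum.commWord
  rw [e]
  show (b2uS 3 u)⁻¹ * (b2uS 2 t)⁻¹ * b2uS 3 u * b2uS 2 t = (b2uS 1 (((1 : ℤ) : F) * (-t) ^ 1 * u ^ 1) * (b2uS 0 (((-1 : ℤ) : F) * (-t) ^ 2 * u ^ 1) * 1))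
  rw [b2uS_inv, b2uS_inv]
  apply Subtype.ext
  show b2u3 (-u) * b2u2 (-t) * b2u3 u * b2u2 t = (b2u1 (((1 : ℤ) : F) * (-t) ^ 1 * u ^ 1) * (b2u0 (((-1 : ℤ) : F) * (-t) ^ 2 * u ^ 1) * 1))
  rw [b2u_c23 t u]
  simp only [Int.cast_neg, Int.cast_one, Int.cast_ofNat, mul_one]

theorem gS_w24 (t u : F) :
    (gS 4 u)⁻¹ * (gS 2 t)⁻¹ * gS 4 u * gS 2 t = wordB gS (chevB2.commWord F 2 4 t u) := by
  have e : chevB2.commTerms 2 4 = [] := by decide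
  unfold ChevalleyDatum.commWord
  rw [e]
  show (b2uS 4 u)⁻¹ * (b2uS 2 t)⁻¹ * b2uS 4 u * b2uS 2 t = 1
  rw [b2uS_inv, b2uS_inv]
  apply Subtype.ext
  show b2u4 (-u) * b2u2 (-t) * b2u4 u * b2u2 t = 1
  exact b2u_c24 t u

theorem gS_w26 (t u : F) :
    (gS 6 u)⁻¹ * (gS 2 t)⁻¹ * gS 6 u * gS 2 t = wordB gS (chevB2.commWord F 2 6 t u) := by
  have e : chevB2.commTerms 2 6 = [(4, -2, 1, 1)] := by decide
  unfold ChevalleyDatum.commWord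
  rw [e]
  show (b2uS 6 u)⁻¹ * (b2uS 2 t)⁻¹ * b2uS 6 u * b2uS 2 t = (b2uS 4 (((-2 : ℤ) : F) * (-t) ^ 1 * u ^ 1) * 1)
  rw [b2uS_inv, b2uS_inv]
  apply Subtype.ext
  show b2u6 (-u) * b2u2 (-t) * b2u6 u * b2u2 t = (b2u4 (((-2 : ℤ) : F) * (-t) ^ 1 * u ^ 1) * 1)
  rw [b2u_c26 t u]
  simp only [Int.cast_neg, Int.cast_one, Int.cast_ofNat, mul_one]

theorem gS_w27 (t u : F) :
    (gS 7 u)⁻¹ * (gS 2 t)⁻¹ * gS 7 u * gS 2 t = wordB gS (chevB2.commWord F 2 7 t u) := by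
  have e : chevB2.commTerms 2 7 = [(6, 1, 1, 1), (4, -1, 2, 1)] := by decide
  unfold ChevalleyDatum.commWord
  rw [e]
  show (b2uS 7 u)⁻¹ * (b2uS 2 t)⁻¹ * b2uS 7 u * b2uS 2 t = (b2uS 6 (((1 : ℤ) : F) * (-t) ^ 1 * u ^ 1) * (b2uS 4 (((-1 : ℤ) : F) * (-t) ^ 2 * u ^ 1) * 1))
  rw [b2uS_inv, b2uS_inv]
  apply Subtype.ext
  show b2u7 (-u) * b2u2 (-t) * b2u7 u * b2u2 t = (b2u6 (((1 : ℤ) : F) * (-t) ^ 1 * u ^ 1) * (b2u4 (((-1 : ℤ) : F) * (-t) ^ 2 * u ^ 1) * 1))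
  rw [b2u_c27 t u]
  simp only [Int.cast_neg, Int.cast_one, Int.cast_ofNat, mul_one]

theorem gS_w30 (t u : F) :
    (gS 0 u)⁻¹ * (gS 3 t)⁻¹ * gS 0 u * gS 3 t = wordB gS (chevB2.commWord F 3 0 t u) := by
  have e : chevB2.commTerms 3 0 = [] := by decide
  unfold ChevalleyDatum.commWord
  rw [e]
  show (b2uS 0 u)⁻¹ * (b2uS 3 t)⁻¹ * b2uS 0 u * b2uS 3 t = 1
  rw [b2uS_inv, b2uS_inv]
  apply Subtype.ext
  show b2u0 (-u) * b2u3 (-t) * b2u0 u * b2u3 t = 1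
  exact b2u_c30 t u

theorem gS_w31 (t u : F) :
    (gS 1 u)⁻¹ * (gS 3 t)⁻¹ * gS 1 u * gS 3 t = wordB gS (chevB2.commWord F 3 1 t u) := by
  have e : chevB2.commTerms 3 1 = [] := by decide
  unfold ChevalleyDatum.commWord
  rw [e]
  show (b2uS 1 u)⁻¹ * (b2uS 3 t)⁻¹ * b2uS 1 u * b2uS 3 t = 1
  rw [b2uS_inv, b2uS_inv]
  apply Subtype.ext
  show b2u1 (-u) * b2u3 (-t) * b2u1 u * b2u3 t = 1
  exact b2u_c31 t u

theorem gS_w32 (t u : F) :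
    (gS 2 u)⁻¹ * (gS 3 t)⁻¹ * gS 2 u * gS 3 t = wordB gS (chevB2.commWord F 3 2 t u) := by
  have e : chevB2.commTerms 3 2 = [(1, -1, 1, 1), (0, -1, 1, 2)] := by decide
  unfold ChevalleyDatum.commWord
  rw [e]
  show (b2uS 2 u)⁻¹ * (b2uS 3 t)⁻¹ * b2uS 2 u * b2uS 3 t = (b2uS 1 (((-1 : ℤ) : F) * (-t) ^ 1 * u ^ 1) * (b2uS 0 (((-1 : ℤ) : F) * (-t) ^ 1 * u ^ 2) * 1))
  rw [b2uS_inv, b2uS_inv]
  apply Subtype.ext
  show b2u2 (-u) * b2u3 (-t) * b2u2 u * b2u3 t = (b2u1 (((-1 : ℤ) : F) * (-t) ^ 1 * u ^ 1) * (b2u0 (((-1 : ℤ) : F) * (-t) ^ 1 * u ^ 2) * 1))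
  rw [b2u_c32 t u]
  simp only [Int.cast_neg, Int.cast_one, Int.cast_ofNat, mul_one]

theorem gS_w35 (t u : F) :
    (gS 5 u)⁻¹ * (gS 3 t)⁻¹ * gS 5 u * gS 3 t = wordB gS (chevB2.commWord F 3 5 t u) := by
  have e : chevB2.commTerms 3 5 = [] := by decide
  unfold ChevalleyDatum.commWord
  rw [e]
  show (b2uS 5 u)⁻¹ * (b2uS 3 t)⁻¹ * b2uS 5 u * b2uS 3 t = 1
  rw [b2uS_inv, b2uS_inv]
  apply Subtype.ext
  show b2u5 (-u) * b2u3 (-t) * b2u5 u * b2u3 t = 1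
  exact b2u_c35 t u

theorem gS_w36 (t u : F) :
    (gS 6 u)⁻¹ * (gS 3 t)⁻¹ * gS 6 u * gS 3 t = wordB gS (chevB2.commWord F 3 6 t u) := by
  have e : chevB2.commTerms 3 6 = [(5, 1, 1, 1), (7, 1, 1, 2)] := by decide
  unfold ChevalleyDatum.commWord
  rw [e]
  show (b2uS 6 u)⁻¹ * (b2uS 3 t)⁻¹ * b2uS 6 u * b2uS 3 t = (b2uS 5 (((1 : ℤ) : F) * (-t) ^ 1 * u ^ 1) * (b2uS 7 (((1 : ℤ) : F) * (-t) ^ 1 * u ^ 2) * 1))
  rw [b2uS_inv, b2uS_inv]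
  apply Subtype.ext
  show b2u6 (-u) * b2u3 (-t) * b2u6 u * b2u3 t = (b2u5 (((1 : ℤ) : F) * (-t) ^ 1 * u ^ 1) * (b2u7 (((1 : ℤ) : F) * (-t) ^ 1 * u ^ 2) * 1))
  rw [b2u_c36 t u]
  simp only [Int.cast_neg, Int.cast_one, Int.cast_ofNat, mul_one]

theorem gS_w37 (t u : F) :
    (gS 7 u)⁻¹ * (gS 3 t)⁻¹ * gS 7 u * gS 3 t = wordB gS (chevB2.commWord F 3 7 t u) := by
  have e : chevB2.commTerms 3 7 = [] := by decide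
  unfold ChevalleyDatum.commWord
  rw [e]
  show (b2uS 7 u)⁻¹ * (b2uS 3 t)⁻¹ * b2uS 7 u * b2uS 3 t = 1
  rw [b2uS_inv, b2uS_inv]
  apply Subtype.ext
  show b2u7 (-u) * b2u3 (-t) * b2u7 u * b2u3 t = 1
  exact b2u_c37 t u

theorem gS_w40 (t u : F) :
    (gS 0 u)⁻¹ * (gS 4 t)⁻¹ * gS 0 u * gS 4 t = wordB gS (chevB2.commWord F 4 0 t u) := by
  have e : chevB2.commTerms 4 0 = [] := by decide
  unfold ChevalleyDatum.commWord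
  rw [e]
  show (b2uS 0 u)⁻¹ * (b2uS 4 t)⁻¹ * b2uS 0 u * b2uS 4 t = 1
  rw [b2uS_inv, b2uS_inv]
  apply Subtype.ext
  show b2u0 (-u) * b2u4 (-t) * b2u0 u * b2u4 t = 1
  exact b2u_c40 t u

theorem gS_w41 (t u : F) :
    (gS 1 u)⁻¹ * (gS 4 t)⁻¹ * gS 1 u * gS 4 t = wordB gS (chevB2.commWord F 4 1 t u) := by
  have e : chevB2.commTerms 4 1 = [(2, -1, 1, 1), (0, 1, 1, 2)] := by decide
  unfold ChevalleyDatum.commWord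
  rw [e]
  show (b2uS 1 u)⁻¹ * (b2uS 4 t)⁻¹ * b2uS 1 u * b2uS 4 t = (b2uS 2 (((-1 : ℤ) : F) * (-t) ^ 1 * u ^ 1) * (b2uS 0 (((1 : ℤ) : F) * (-t) ^ 1 * u ^ 2) * 1))
  rw [b2uS_inv, b2uS_inv]
  apply Subtype.ext
  show b2u1 (-u) * b2u4 (-t) * b2u1 u * b2u4 t = (b2u2 (((-1 : ℤ) : F) * (-t) ^ 1 * u ^ 1) * (b2u0 (((1 : ℤ) : F) * (-t) ^ 1 * u ^ 2) * 1))
  rw [b2u_c41 t u]
  simp only [Int.cast_neg, Int.cast_one, Int.cast_ofNat, mul_one]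

theorem gS_w42 (t u : F) :
    (gS 2 u)⁻¹ * (gS 4 t)⁻¹ * gS 2 u * gS 4 t = wordB gS (chevB2.commWord F 4 2 t u) := by
  have e : chevB2.commTerms 4 2 = [] := by decide
  unfold ChevalleyDatum.commWord
  rw [e]
  show (b2uS 2 u)⁻¹ * (b2uS 4 t)⁻¹ * b2uS 2 u * b2uS 4 t = 1
  rw [b2uS_inv, b2uS_inv]
  apply Subtype.ext
  show b2u2 (-u) * b2u4 (-t) * b2u2 u * b2u4 t = 1
  exact b2u_c42 t u

theorem gS_w45 (t u : F) :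
    (gS 5 u)⁻¹ * (gS 4 t)⁻¹ * gS 5 u * gS 4 t = wordB gS (chevB2.commWord F 4 5 t u) := by
  have e : chevB2.commTerms 4 5 = [(6, 1, 1, 1), (7, -1, 1, 2)] := by decide
  unfold ChevalleyDatum.commWord
  rw [e]
  show (b2uS 5 u)⁻¹ * (b2uS 4 t)⁻¹ * b2uS 5 u * b2uS 4 t = (b2uS 6 (((1 : ℤ) : F) * (-t) ^ 1 * u ^ 1) * (b2uS 7 (((-1 : ℤ) : F) * (-t) ^ 1 * u ^ 2) * 1))
  rw [b2uS_inv, b2uS_inv]
  apply Subtype.ext
  show b2u5 (-u) * b2u4 (-t) * b2u5 u * b2u4 t = (b2u6 (((1 : ℤ) : F) * (-t) ^ 1 * u ^ 1) * (b2u7 (((-1 : ℤ) : F) * (-t) ^ 1 * u ^ 2) * 1))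
  rw [b2u_c45 t u]
  simp only [Int.cast_neg, Int.cast_one, Int.cast_ofNat, mul_one]

theorem gS_w46 (t u : F) :
    (gS 6 u)⁻¹ * (gS 4 t)⁻¹ * gS 6 u * gS 4 t = wordB gS (chevB2.commWord F 4 6 t u) := by
  have e : chevB2.commTerms 4 6 = [] := by decide
  unfold ChevalleyDatum.commWord
  rw [e]
  show (b2uS 6 u)⁻¹ * (b2uS 4 t)⁻¹ * b2uS 6 u * b2uS 4 t = 1
  rw [b2uS_inv, b2uS_inv]
  apply Subtype.ext
  show b2u6 (-u) * b2u4 (-t) * b2u6 u * b2u4 t = 1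
  exact b2u_c46 t u

theorem gS_w47 (t u : F) :
    (gS 7 u)⁻¹ * (gS 4 t)⁻¹ * gS 7 u * gS 4 t = wordB gS (chevB2.commWord F 4 7 t u) := by
  have e : chevB2.commTerms 4 7 = [] := by decide
  unfold ChevalleyDatum.commWord
  rw [e]
  show (b2uS 7 u)⁻¹ * (b2uS 4 t)⁻¹ * b2uS 7 u * b2uS 4 t = 1
  rw [b2uS_inv, b2uS_inv]
  apply Subtype.ext
  show b2u7 (-u) * b2u4 (-t) * b2u7 u * b2u4 t = 1
  exact b2u_c47 t u

theorem gS_w50 (t u : F) :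
    (gS 0 u)⁻¹ * (gS 5 t)⁻¹ * gS 0 u * gS 5 t = wordB gS (chevB2.commWord F 5 0 t u) := by
  have e : chevB2.commTerms 5 0 = [(1, -1, 1, 1), (3, -1, 2, 1)] := by decide
  unfold ChevalleyDatum.commWord
  rw [e]
  show (b2uS 0 u)⁻¹ * (b2uS 5 t)⁻¹ * b2uS 0 u * b2uS 5 t = (b2uS 1 (((-1 : ℤ) : F) * (-t) ^ 1 * u ^ 1) * (b2uS 3 (((-1 : ℤ) : F) * (-t) ^ 2 * u ^ 1) * 1))
  rw [b2uS_inv, b2uS_inv]
  apply Subtype.ext
  show b2u0 (-u) * b2u5 (-t) * b2u0 u * b2u5 t = (b2u1 (((-1 : ℤ) : F) * (-t) ^ 1 * u ^ 1) * (b2u3 (((-1 : ℤ) : F) * (-t) ^ 2 * u ^ 1) * 1))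
  rw [b2u_c50 t u]
  simp only [Int.cast_neg, Int.cast_one, Int.cast_ofNat, mul_one]

theorem gS_w51 (t u : F) :
    (gS 1 u)⁻¹ * (gS 5 t)⁻¹ * gS 1 u * gS 5 t = wordB gS (chevB2.commWord F 5 1 t u) := by
  have e : chevB2.commTerms 5 1 = [(3, 2, 1, 1)] := by decide
  unfold ChevalleyDatum.commWord
  rw [e]
  show (b2uS 1 u)⁻¹ * (b2uS 5 t)⁻¹ * b2uS 1 u * b2uS 5 t = (b2uS 3 (((2 : ℤ) : F) * (-t) ^ 1 * u ^ 1) * 1)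
  rw [b2uS_inv, b2uS_inv]
  apply Subtype.ext
  show b2u1 (-u) * b2u5 (-t) * b2u1 u * b2u5 t = (b2u3 (((2 : ℤ) : F) * (-t) ^ 1 * u ^ 1) * 1)
  rw [b2u_c51 t u]
  simp only [Int.cast_neg, Int.cast_one, Int.cast_ofNat, mul_one]

theorem gS_w53 (t u : F) :
    (gS 3 u)⁻¹ * (gS 5 t)⁻¹ * gS 3 u * gS 5 t = wordB gS (chevB2.commWord F 5 3 t u) := by
  have e : chevB2.commTerms 5 3 = [] := by decide
  unfold ChevalleyDatum.commWord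
  rw [e]
  show (b2uS 3 u)⁻¹ * (b2uS 5 t)⁻¹ * b2uS 3 u * b2uS 5 t = 1
  rw [b2uS_inv, b2uS_inv]
  apply Subtype.ext
  show b2u3 (-u) * b2u5 (-t) * b2u3 u * b2u5 t = 1
  exact b2u_c53 t u

theorem gS_w54 (t u : F) :
    (gS 4 u)⁻¹ * (gS 5 t)⁻¹ * gS 4 u * gS 5 t = wordB gS (chevB2.commWord F 5 4 t u) := by
  have e : chevB2.commTerms 5 4 = [(6, -1, 1, 1), (7, -1, 2, 1)] := by decide
  unfold ChevalleyDatum.commWord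
  rw [e]
  show (b2uS 4 u)⁻¹ * (b2uS 5 t)⁻¹ * b2uS 4 u * b2uS 5 t = (b2uS 6 (((-1 : ℤ) : F) * (-t) ^ 1 * u ^ 1) * (b2uS 7 (((-1 : ℤ) : F) * (-t) ^ 2 * u ^ 1) * 1))
  rw [b2uS_inv, b2uS_inv]
  apply Subtype.ext
  show b2u4 (-u) * b2u5 (-t) * b2u4 u * b2u5 t = (b2u6 (((-1 : ℤ) : F) * (-t) ^ 1 * u ^ 1) * (b2u7 (((-1 : ℤ) : F) * (-t) ^ 2 * u ^ 1) * 1))
  rw [b2u_c54 t u]
  simp only [Int.cast_neg, Int.cast_one, Int.cast_ofNat, mul_one]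

theorem gS_w56 (t u : F) :
    (gS 6 u)⁻¹ * (gS 5 t)⁻¹ * gS 6 u * gS 5 t = wordB gS (chevB2.commWord F 5 6 t u) := by
  have e : chevB2.commTerms 5 6 = [(7, 2, 1, 1)] := by decide
  unfold ChevalleyDatum.commWord
  rw [e]
  show (b2uS 6 u)⁻¹ * (b2uS 5 t)⁻¹ * b2uS 6 u * b2uS 5 t = (b2uS 7 (((2 : ℤ) : F) * (-t) ^ 1 * u ^ 1) * 1)
  rw [b2uS_inv, b2uS_inv]
  apply Subtype.ext
  show b2u6 (-u) * b2u5 (-t) * b2u6 u * b2u5 t = (b2u7 (((2 : ℤ) : F) * (-t) ^ 1 * u ^ 1) * 1)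
  rw [b2u_c56 t u]
  simp only [Int.cast_neg, Int.cast_one, Int.cast_ofNat, mul_one]

theorem gS_w57 (t u : F) :
    (gS 7 u)⁻¹ * (gS 5 t)⁻¹ * gS 7 u * gS 5 t = wordB gS (chevB2.commWord F 5 7 t u) := by
  have e : chevB2.commTerms 5 7 = [] := by decide
  unfold ChevalleyDatum.commWord
  rw [e]
  show (b2uS 7 u)⁻¹ * (b2uS 5 t)⁻¹ * b2uS 7 u * b2uS 5 t = 1
  rw [b2uS_inv, b2uS_inv]
  apply Subtype.ext
  show b2u7 (-u) * b2u5 (-t) * b2u7 u * b2u5 t = 1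
  exact b2u_c57 t u

theorem gS_w60 (t u : F) :
    (gS 0 u)⁻¹ * (gS 6 t)⁻¹ * gS 0 u * gS 6 t = wordB gS (chevB2.commWord F 6 0 t u) := by
  have e : chevB2.commTerms 6 0 = [(2, 1, 1, 1), (4, 1, 2, 1)] := by decide
  unfold ChevalleyDatum.commWord
  rw [e]
  show (b2uS 0 u)⁻¹ * (b2uS 6 t)⁻¹ * b2uS 0 u * b2uS 6 t = (b2uS 2 (((1 : ℤ) : F) * (-t) ^ 1 * u ^ 1) * (b2uS 4 (((1 : ℤ) : F) * (-t) ^ 2 * u ^ 1) * 1))
  rw [b2uS_inv, b2uS_inv]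
  apply Subtype.ext
  show b2u0 (-u) * b2u6 (-t) * b2u0 u * b2u6 t = (b2u2 (((1 : ℤ) : F) * (-t) ^ 1 * u ^ 1) * (b2u4 (((1 : ℤ) : F) * (-t) ^ 2 * u ^ 1) * 1))
  rw [b2u_c60 t u]
  simp only [Int.cast_neg, Int.cast_one, Int.cast_ofNat, mul_one]

theorem gS_w62 (t u : F) :
    (gS 2 u)⁻¹ * (gS 6 t)⁻¹ * gS 2 u * gS 6 t = wordB gS (chevB2.commWord F 6 2 t u) := by
  have e : chevB2.commTerms 6 2 = [(4, 2, 1, 1)] := by decide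
  unfold ChevalleyDatum.commWord
  rw [e]
  show (b2uS 2 u)⁻¹ * (b2uS 6 t)⁻¹ * b2uS 2 u * b2uS 6 t = (b2uS 4 (((2 : ℤ) : F) * (-t) ^ 1 * u ^ 1) * 1)
  rw [b2uS_inv, b2uS_inv]
  apply Subtype.ext
  show b2u2 (-u) * b2u6 (-t) * b2u2 u * b2u6 t = (b2u4 (((2 : ℤ) : F) * (-t) ^ 1 * u ^ 1) * 1)
  rw [b2u_c62 t u]
  simp only [Int.cast_neg, Int.cast_one, Int.cast_ofNat, mul_one]

theorem gS_w63 (t u : F) :
    (gS 3 u)⁻¹ * (gS 6 t)⁻¹ * gS 3 u * gS 6 t = wordB gS (chevB2.commWord F 6 3 t u) := by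
  have e : chevB2.commTerms 6 3 = [(5, -1, 1, 1), (7, 1, 2, 1)] := by decide
  unfold ChevalleyDatum.commWord
  rw [e]
  show (b2uS 3 u)⁻¹ * (b2uS 6 t)⁻¹ * b2uS 3 u * b2uS 6 t = (b2uS 5 (((-1 : ℤ) : F) * (-t) ^ 1 * u ^ 1) * (b2uS 7 (((1 : ℤ) : F) * (-t) ^ 2 * u ^ 1) * 1))
  rw [b2uS_inv, b2uS_inv]
  apply Subtype.ext
  show b2u3 (-u) * b2u6 (-t) * b2u3 u * b2u6 t = (b2u5 (((-1 : ℤ) : F) * (-t) ^ 1 * u ^ 1) * (b2u7 (((1 : ℤ) : F) * (-t) ^ 2 * u ^ 1) * 1))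
  rw [b2u_c63 t u]
  simp only [Int.cast_neg, Int.cast_one, Int.cast_ofNat, mul_one]

theorem gS_w64 (t u : F) :
    (gS 4 u)⁻¹ * (gS 6 t)⁻¹ * gS 4 u * gS 6 t = wordB gS (chevB2.commWord F 6 4 t u) := by
  have e : chevB2.commTerms 6 4 = [] := by decide
  unfold ChevalleyDatum.commWord
  rw [e]
  show (b2uS 4 u)⁻¹ * (b2uS 6 t)⁻¹ * b2uS 4 u * b2uS 6 t = 1
  rw [b2uS_inv, b2uS_inv]
  apply Subtype.ext
  show b2u4 (-u) * b2u6 (-t) * b2u4 u * b2u6 t = 1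
  exact b2u_c64 t u

theorem gS_w65 (t u : F) :
    (gS 5 u)⁻¹ * (gS 6 t)⁻¹ * gS 5 u * gS 6 t = wordB gS (chevB2.commWord F 6 5 t u) := by
  have e : chevB2.commTerms 6 5 = [(7, -2, 1, 1)] := by decide
  unfold ChevalleyDatum.commWord
  rw [e]
  show (b2uS 5 u)⁻¹ * (b2uS 6 t)⁻¹ * b2uS 5 u * b2uS 6 t = (b2uS 7 (((-2 : ℤ) : F) * (-t) ^ 1 * u ^ 1) * 1)
  rw [b2uS_inv, b2uS_inv]
  apply Subtype.ext
  show b2u5 (-u) * b2u6 (-t) * b2u5 u * b2u6 t = (b2u7 (((-2 : ℤ) : F) * (-t) ^ 1 * u ^ 1) * 1)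
  rw [b2u_c65 t u]
  simp only [Int.cast_neg, Int.cast_one, Int.cast_ofNat, mul_one]

theorem gS_w67 (t u : F) :
    (gS 7 u)⁻¹ * (gS 6 t)⁻¹ * gS 7 u * gS 6 t = wordB gS (chevB2.commWord F 6 7 t u) := by
  have e : chevB2.commTerms 6 7 = [] := by decide
  unfold ChevalleyDatum.commWord
  rw [e]
  show (b2uS 7 u)⁻¹ * (b2uS 6 t)⁻¹ * b2uS 7 u * b2uS 6 t = 1
  rw [b2uS_inv, b2uS_inv]
  apply Subtype.ext
  show b2u7 (-u) * b2u6 (-t) * b2u7 u * b2u6 t = 1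
  exact b2u_c67 t u

theorem gS_w71 (t u : F) :
    (gS 1 u)⁻¹ * (gS 7 t)⁻¹ * gS 1 u * gS 7 t = wordB gS (chevB2.commWord F 7 1 t u) := by
  have e : chevB2.commTerms 7 1 = [(5, 1, 1, 1), (3, 1, 1, 2)] := by decide
  unfold ChevalleyDatum.commWord
  rw [e]
  show (b2uS 1 u)⁻¹ * (b2uS 7 t)⁻¹ * b2uS 1 u * b2uS 7 t = (b2uS 5 (((1 : ℤ) : F) * (-t) ^ 1 * u ^ 1) * (b2uS 3 (((1 : ℤ) : F) * (-t) ^ 1 * u ^ 2) * 1))
  rw [b2uS_inv, b2uS_inv]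
  apply Subtype.ext
  show b2u1 (-u) * b2u7 (-t) * b2u1 u * b2u7 t = (b2u5 (((1 : ℤ) : F) * (-t) ^ 1 * u ^ 1) * (b2u3 (((1 : ℤ) : F) * (-t) ^ 1 * u ^ 2) * 1))
  rw [b2u_c71 t u]
  simp only [Int.cast_neg, Int.cast_one, Int.cast_ofNat, mul_one]

theorem gS_w72 (t u : F) :
    (gS 2 u)⁻¹ * (gS 7 t)⁻¹ * gS 2 u * gS 7 t = wordB gS (chevB2.commWord F 7 2 t u) := by
  have e : chevB2.commTerms 7 2 = [(6, -1, 1, 1), (4, -1, 1, 2)] := by decide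
  unfold ChevalleyDatum.commWord
  rw [e]
  show (b2uS 2 u)⁻¹ * (b2uS 7 t)⁻¹ * b2uS 2 u * b2uS 7 t = (b2uS 6 (((-1 : ℤ) : F) * (-t) ^ 1 * u ^ 1) * (b2uS 4 (((-1 : ℤ) : F) * (-t) ^ 1 * u ^ 2) * 1))
  rw [b2uS_inv, b2uS_inv]
  apply Subtype.ext
  show b2u2 (-u) * b2u7 (-t) * b2u2 u * b2u7 t = (b2u6 (((-1 : ℤ) : F) * (-t) ^ 1 * u ^ 1) * (b2u4 (((-1 : ℤ) : F) * (-t) ^ 1 * u ^ 2) * 1))
  rw [b2u_c72 t u]
  simp only [Int.cast_neg, Int.cast_one, Int.cast_ofNat, mul_one]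

theorem gS_w73 (t u : F) :
    (gS 3 u)⁻¹ * (gS 7 t)⁻¹ * gS 3 u * gS 7 t = wordB gS (chevB2.commWord F 7 3 t u) := by
  have e : chevB2.commTerms 7 3 = [] := by decide
  unfold ChevalleyDatum.commWord
  rw [e]
  show (b2uS 3 u)⁻¹ * (b2uS 7 t)⁻¹ * b2uS 3 u * b2uS 7 t = 1
  rw [b2uS_inv, b2uS_inv]
  apply Subtype.ext
  show b2u3 (-u) * b2u7 (-t) * b2u3 u * b2u7 t = 1
  exact b2u_c73 t u

theorem gS_w74 (t u : F) :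
    (gS 4 u)⁻¹ * (gS 7 t)⁻¹ * gS 4 u * gS 7 t = wordB gS (chevB2.commWord F 7 4 t u) := by
  have e : chevB2.commTerms 7 4 = [] := by decide
  unfold ChevalleyDatum.commWord
  rw [e]
  show (b2uS 4 u)⁻¹ * (b2uS 7 t)⁻¹ * b2uS 4 u * b2uS 7 t = 1
  rw [b2uS_inv, b2uS_inv]
  apply Subtype.ext
  show b2u4 (-u) * b2u7 (-t) * b2u4 u * b2u7 t = 1
  exact b2u_c74 t u

theorem gS_w75 (t u : F) :
    (gS 5 u)⁻¹ * (gS 7 t)⁻¹ * gS 5 u * gS 7 t = wordB gS (chevB2.commWord F 7 5 t u) := by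
  have e : chevB2.commTerms 7 5 = [] := by decide
  unfold ChevalleyDatum.commWord
  rw [e]
  show (b2uS 5 u)⁻¹ * (b2uS 7 t)⁻¹ * b2uS 5 u * b2uS 7 t = 1
  rw [b2uS_inv, b2uS_inv]
  apply Subtype.ext
  show b2u5 (-u) * b2u7 (-t) * b2u5 u * b2u7 t = 1
  exact b2u_c75 t u

theorem gS_w76 (t u : F) :
    (gS 6 u)⁻¹ * (gS 7 t)⁻¹ * gS 6 u * gS 7 t = wordB gS (chevB2.commWord F 7 6 t u) := by
  have e : chevB2.commTerms 7 6 = [] := by decide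
  unfold ChevalleyDatum.commWord
  rw [e]
  show (b2uS 6 u)⁻¹ * (b2uS 7 t)⁻¹ * b2uS 6 u * b2uS 7 t = 1
  rw [b2uS_inv, b2uS_inv]
  apply Subtype.ext
  show b2u6 (-u) * b2u7 (-t) * b2u6 u * b2u7 t = 1
  exact b2u_c76 t u

theorem gS_comm (r s : ℕ) (t u : F) (hr : r < 8) (hs : s < 8) (h1 : s ≠ r) (h2 : s ≠ chevB2.neg r) :
    (gS s u)⁻¹ * (gS r t)⁻¹ * gS s u * gS r t = wordB gS (chevB2.commWord F r s t u) := by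
  interval_cases r <;> interval_cases s
  · exact absurd rfl h1
  · exact gS_w01 t u
  · exact gS_w02 t u
  · exact gS_w03 t u
  · exact gS_w04 t u
  · exact gS_w05 t u
  · exact gS_w06 t u
  · exact absurd (by decide) h2
  · exact gS_w10 t u
  · exact absurd rfl h1
  · exact gS_w12 t u
  · exact gS_w13 t u
  · exact gS_w14 t u
  · exact gS_w15 t u
  · exact absurd (by decide) h2
  · exact gS_w17 t u
  · exact gS_w20 t u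
  · exact gS_w21 t u
  · exact absurd rfl h1
  · exact gS_w23 t u
  · exact gS_w24 t u
  · exact absurd (by decide) h2
  · exact gS_w26 t u
  · exact gS_w27 t u
  · exact gS_w30 t u
  · exact gS_w31 t u
  · exact gS_w32 t u
  · exact absurd rfl h1
  · exact absurd (by decide) h2
  · exact gS_w35 t u
  · exact gS_w36 t u
  · exact gS_w37 t u
  · exact gS_w40 t u
  · exact gS_w41 t u
  · exact gS_w42 t u
  · exact absurd (by decide) h2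
  · exact absurd rfl h1
  · exact gS_w45 t u
  · exact gS_w46 t u
  · exact gS_w47 t u
  · exact gS_w50 t u
  · exact gS_w51 t u
  · exact absurd (by decide) h2
  · exact gS_w53 t u
  · exact gS_w54 t u
  · exact absurd rfl h1
  · exact gS_w56 t u
  · exact gS_w57 t u
  · exact gS_w60 t u
  · exact absurd (by decide) h2
  · exact gS_w62 t u
  · exact gS_w63 t u
  · exact gS_w64 t u
  · exact gS_w65 t u
  · exact absurd rfl h1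
  · exact gS_w67 t u
  · exact absurd (by decide) h2
  · exact gS_w71 t u
  · exact gS_w72 t u
  · exact gS_w73 t u
  · exact gS_w74 t u
  · exact gS_w75 t u
  · exact gS_w76 t u
  · exact absurd rfl h1

end Cfsg.Agent.H8
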