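import Mathlib
import Cfsg.Agent.H97.SuLDefs
import Cfsg.Agent.H17.SUSimple

/-!
# SuL-ROOTCONJ (helper8, for helper97, S2334/S2335): if some transvection acts nontrivially,
every root group does
-/

set_option autoImplicit false

namespace Cfsg.Agent.H8.SuL

open Module Cfsg.Agent.H17 Cfsg.Agent.H97.SuL

universe u

theorem rootConj (hEC : StEConj.{u}) : StRootConj.{u} := by
  intro F _ _ q n hF hn V _ _ _ ρ hex e he0 hee
  obtain ⟨g, ⟨e₀, c₀, he₀, hg⟩, hρ⟩ := hex
  have hD : ∀ z : Fin n → F, InD n z := fun z i hi => absurd i.isLt (by omega)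
  have he₀0 : e₀ ≠ 0 := by
    rintro rfl
    apply hρ
    have : g = 1 := by
      apply su_ext
      intro z
      rw [hg, suAct_one, smul_zero, add_zero]
    rw [this, map_one]
  have hc₀ : c₀ ^ q = -c₀ := transv_param hF g e₀ c₀ he₀0 he₀ hg
  obtain ⟨t, -, -, ht⟩ := b1 hF hn (le_refl n) e₀ e (hD _) (hD _) he₀0 he0 he₀ hee
  have hE : IsE e₀ 0 c₀ g := by
    intro z
    rw [hg, smul_zero, hermForm_zero_right n hF, neg_zero, zero_smul, zero_add, zero_add]
  have hE' := hEC hF t g e₀ 0 c₀ hE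
  have ht0 : suAct t (0 : Fin n → F) = 0 := by
    have := suAct_smul t (0 : F) (0 : Fin n → F)
    rw [zero_smul, zero_smul] at this
    exact this
  rw [ht, ht0] at hE'
  refine ⟨c₀, t * g * t⁻¹, hc₀, hE', ?_⟩
  intro h1
  apply hρ
  have h2 : ρ g = ρ t⁻¹ * ρ (t * g * t⁻¹) * ρ t := by
    rw [← map_mul, ← map_mul]
    congr 1
    group
  rw [h2, h1, mul_one, ← map_mul, inv_mul_cancel, map_one]

example : StEConj.{u} → StRootConj.{u} := rootConj

end Cfsg.Agent.H8.SuL
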