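import Mathlib
import Cfsg.Agent.H97.SuLDefs

/-!
# SuL-TOR1 (helper8, for helper97, S2334/S2335): a torus element scaling an isotropic vector
-/

set_option autoImplicit false

namespace Cfsg.Agent.H8.SuL

open Module Cfsg.Agent.H17 Cfsg.Agent.H97.SuL

universe u

theorem tor1 : StTor1.{u} := by
  intro F _ _ q n hF hn e he0 hee r hr hr0
  obtain ⟨s, hs⟩ := Cfsg.Agent.H17.exists_norm_eq (frobHom hF) (frobHom_ne_id hF)
    (frobHom_invol hF) r hr0 (by rw [frobHom_apply, hr])
  rw [frobHom_apply] at hs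
  have hs0 : s ≠ 0 := by
    rintro rfl
    rw [zero_mul] at hs
    exact hr0 hs.symm
  have hD : ∀ z : Fin n → F, InD n z := fun z i hi => absurd i.isLt (by omega)
  have hse0 : s • e ≠ 0 := smul_ne_zero hs0 he0
  have hsese : Cfsg.hermForm n F q (s • e) (s • e) = 0 := by
    rw [hermForm_smul_left, hermForm_smul_right, hee, mul_zero, mul_zero]
  obtain ⟨t, -, -, ht⟩ := b1 hF hn (le_refl n) e (s • e) (hD _) (hD _) he0 hse0 hee hsese
  refine ⟨t, s, hs0, ?_, ht⟩
  rw [pow_succ, mul_comm]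
  exact hs

example : StTor1.{u} := tor1

end Cfsg.Agent.H8.SuL
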