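import Mathlib
import Cfsg.Agent.H97.SuLDefs

/-!
# SuL-TOR2 (helper8, for helper97, S2334/S2335): the torus of `SL_2(F)` acting on the span of two
orthogonal isotropic vectors
-/

set_option autoImplicit false

namespace Cfsg.Agent.H8.SuL

open Module Cfsg.Agent.H17 Cfsg.Agent.H97.SuL

universe u

theorem tor2 : StTor2.{u} := by
  intro F _ _ q n hF e f e₂ f₂ hee hff hef h22 hf2f2 he2f2 hee2 hef2 hfe2 hff2 s hs
  have hq := two_le_of_card_sq hF
  have hq0 : q ≠ 0 := by omega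
  have he2e : Cfsg.hermForm n F q e₂ e = 0 := by
    rw [← hermForm_conj n hF e e₂, hee2, zero_pow hq0]
  have hf2e : Cfsg.hermForm n F q f₂ e = 0 := by
    rw [← hermForm_conj n hF e f₂, hef2, zero_pow hq0]
  have he2f : Cfsg.hermForm n F q e₂ f = 0 := by
    rw [← hermForm_conj n hF f e₂, hfe2, zero_pow hq0]
  -- the two families of unipotent elements
  have hX : ∀ t : F, ∃ X : ↥(Cfsg.SU n F q), suAct X e = e ∧ suAct X e₂ = e₂ + t • e := by
    intro t
    obtain ⟨X, hXa⟩ := ex_E hF e ((-t ^ q) • f₂) 0 hee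
      (by rw [hermForm_smul_left, hf2e, mul_zero])
      (by rw [hermForm_smul_left, hermForm_smul_right, hf2f2, zero_pow hq0]; ring)
    refine ⟨X, ?_, ?_⟩
    · rw [hXa, hee, hermForm_smul_right, hef2]
      simp
    · rw [hXa, he2e, hermForm_smul_right, he2f2, frob_neg hF, frob_frob hF]
      simp
  have hY : ∀ t : F, ∃ Y : ↥(Cfsg.SU n F q), suAct Y e = e + t • e₂ ∧ suAct Y e₂ = e₂ := by
    intro t
    obtain ⟨Y, hYa⟩ := ex_E hF e₂ ((-t ^ q) • f) 0 h22
      (by rw [hermForm_smul_left, hfe2, mul_zero])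
      (by rw [hermForm_smul_left, hermForm_smul_right, hff, zero_pow hq0]; ring)
    refine ⟨Y, ?_, ?_⟩
    · rw [hYa, hee2, hermForm_smul_right, hef, frob_neg hF, frob_frob hF]
      simp
    · rw [hYa, h22, hermForm_smul_right, he2f]
      simp
  -- the Weyl elements
  have hW : ∀ r : F, r ≠ 0 → ∃ W : ↥(Cfsg.SU n F q),
      suAct W e = (-r⁻¹) • e₂ ∧ suAct W e₂ = r • e := by
    intro r hr
    obtain ⟨X, hXe, hXe2⟩ := hX r
    obtain ⟨Y, hYe, hYe2⟩ := hY (-r⁻¹)
    refine ⟨X * Y * X, ?_, ?_⟩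
    · rw [suAct_mul, suAct_mul, hXe, hYe, suAct_add, suAct_smul, hXe, hXe2]
      ext i
      simp only [Pi.add_apply, Pi.smul_apply, smul_eq_mul]
      field_simp
      ring
    · simp only [suAct_mul, suAct_add, suAct_smul, hXe, hXe2, hYe, hYe2]
      ext i
      simp only [Pi.add_apply, Pi.smul_apply, smul_eq_mul]
      field_simp
      ring
  obtain ⟨W1, hW1e, hW1e2⟩ := hW s⁻¹ (inv_ne_zero hs)
  obtain ⟨W2, hW2e, hW2e2⟩ := hW (-1) (neg_ne_zero.mpr one_ne_zero)
  refine ⟨W1 * W2, ?_, ?_⟩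
  · rw [suAct_mul, hW2e, suAct_smul, hW1e2]
    ext i
    simp only [Pi.smul_apply, smul_eq_mul]
    field_simp
  · rw [suAct_mul, hW2e2, suAct_smul, hW1e]
    ext i
    simp only [Pi.smul_apply, smul_eq_mul]
    field_simp

example : StTor2.{u} := tor2

end Cfsg.Agent.H8.SuL
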