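import Mathlib
import Cfsg.Agent.H8.SzChar
import Cfsg.Agent.H8.SzSyl
import Cfsg.Agent.H8.SzSol8

set_option autoImplicit false

namespace Cfsg.Agent.H8

open Cfsg

section

variable {F : Type*} [Field F] [Fintype F] {m : ℕ}

/-- the elements of trace zero are those of the form `T s + s` -/
theorem szTr_eq_zero_iff (hF : Fintype.card F = 2 ^ (2 * m + 1)) (t : F) :
    szTr m t = 0 ↔ ∃ s : F, t = szT m s + s := by
  have hchar := sz_charP hF
  constructor
  · intro h
    obtain ⟨s, hs | hs⟩ := sz_artin_schreier hF t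
    · exact ⟨s, hs⟩
    · exfalso
      rw [hs, szTr_add hF, szTr_add hF, szTr_szT hF, CharTwo.add_self_eq_zero, zero_add,
        szTr_one hF] at h
      exact one_ne_zero h
  · rintro ⟨s, rfl⟩
    rw [szTr_add hF, szTr_szT hF, CharTwo.add_self_eq_zero]

/-- a pair of additive maps compatible with the norm preserves trace-zero quotients -/
theorem sz_hyper_fwd (hF : Fintype.card F = 2 ^ (2 * m + 1)) (A B : F → F)
    (hA : ∀ x y, A (x + y) = A x + A y) (hB : ∀ x y, B (x + y) = B x + B y)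
    (hA0 : ∀ a, A a = 0 → a = 0) (hN : ∀ a, B (a * szT m a) = A a * szT m (A a))
    (x y : F) (hx : x ≠ 0) (h : szTr m (y / x) = 0) : szTr m (B y / B x) = 0 := by
  have hchar := sz_charP hF
  obtain ⟨s, hs⟩ := (szTr_eq_zero_iff hF _).1 h
  obtain ⟨a, ha⟩ := sz_norm_surj hF x
  have ha0 : a ≠ 0 := by
    rintro rfl
    rw [zero_mul] at ha
    exact hx ha.symm
  have hpol : ∀ a a' : F, B (szT m a * a' + szT m a' * a) =
      szT m (A a) * A a' + szT m (A a') * A a := by
    intro a a'
    have h1 := hN (a + a')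
    rw [szT_add hF, hA, szT_add hF] at h1
    have h2 : (a + a') * (szT m a + szT m a') =
        a * szT m a + (a' * szT m a' + (szT m a * a' + szT m a' * a)) := by ring
    rw [h2, hB, hB, hN, hN] at h1
    linear_combination h1
  have hy : y = szT m a * (a * s) + szT m (a * s) * a := by
    have e : y = x * (szT m s + s) := by
      rw [← hs]; field_simp
    rw [e, ← ha, szT_mul]; ring
  have hAa : A a ≠ 0 := fun h0 => ha0 (hA0 a h0)
  have hBx : B x = A a * szT m (A a) := by rw [← ha, hN]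
  rw [hy, hpol, hBx, szTr_eq_zero_iff hF]
  refine ⟨A (a * s) / A a, ?_⟩
  rw [szT_div]
  have hT : szT m (A a) ≠ 0 := fun h0 => hAa (szT_eq_zero.1 h0)
  field_simp
  ring

theorem sz_hyper_eq (hF : Fintype.card F = 2 ^ (2 * m + 1)) (A B : F → F)
    (hA : ∀ x y, A (x + y) = A x + A y) (hB : ∀ x y, B (x + y) = B x + B y)
    (hAb : Function.Bijective A) (hBb : Function.Bijective B)
    (hN : ∀ a, B (a * szT m a) = A a * szT m (A a))
    (x y : F) (hx : x ≠ 0) : szTr m (B y / B x) = szTr m (y / x) := by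
  have hA00 : A 0 = 0 := by
    have h := hA 0 0
    rw [add_zero] at h
    exact left_eq_add.1 h
  have hB00 : B 0 = 0 := by
    have h := hB 0 0
    rw [add_zero] at h
    exact left_eq_add.1 h
  have hA0 : ∀ a, A a = 0 → a = 0 := fun a h => hAb.1 (h.trans hA00.symm)
  obtain ⟨A', hA'l, hA'r⟩ := Function.bijective_iff_has_inverse.1 hAb
  obtain ⟨B', hB'l, hB'r⟩ := Function.bijective_iff_has_inverse.1 hBb
  have hA'add : ∀ x y, A' (x + y) = A' x + A' y := by
    intro x y
    apply hAb.1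
    rw [hA, hA'r, hA'r, hA'r]
  have hB'add : ∀ x y, B' (x + y) = B' x + B' y := by
    intro x y
    apply hBb.1
    rw [hB, hB'r, hB'r, hB'r]
  have hN' : ∀ a, B' (a * szT m a) = A' a * szT m (A' a) := by
    intro a
    apply hBb.1
    rw [hB'r, hN, hA'r]
  have hA'0 : ∀ a, A' a = 0 → a = 0 := by
    intro a h
    have h1 := hA'r a
    rw [h, hA00] at h1
    exact h1.symm
  rcases szTr_zero_or_one hF (y / x) with h0 | h1
  · rw [h0]
    exact sz_hyper_fwd hF A B hA hB hA0 hN x y hx h0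
  · rw [h1]
    rcases szTr_zero_or_one hF (B y / B x) with h0' | h1'
    · exfalso
      have hBx : B x ≠ 0 := fun h => hx (hBb.1 (h.trans hB00.symm))
      have h2 := sz_hyper_fwd hF A' B' hA'add hB'add hA'0 hN' (B x) (B y) hBx h0'
      rw [hB'l, hB'l, h1] at h2
      exact one_ne_zero h2
    · exact h1'

theorem sz_hua (hF : Fintype.card F = 2 ^ (2 * m + 1)) (a b : F) (ha : a ≠ 0) (hb : b ≠ 0)
    (hab : a * b ≠ 1) : a + (a⁻¹ + (b⁻¹ + a)⁻¹)⁻¹ = a ^ 2 * b := by
  have hchar := sz_charP hF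
  have e2 : (2 : F) = 0 := CharTwo.two_eq_zero
  have h1 : b⁻¹ + a ≠ 0 := by
    intro h
    apply hab
    have e : a = -b⁻¹ := by linear_combination h
    rw [e, CharTwo.neg_eq, inv_mul_cancel₀ hb]
  have h3 : 1 + a * b ≠ 0 := by
    intro h
    apply h1
    have e : b⁻¹ + a = (1 + a * b) / b := by field_simp
    rw [e, h, zero_div]
  have e1 : a⁻¹ + (b⁻¹ + a)⁻¹ = (a * b * (b⁻¹ + a))⁻¹ := by
    have e : b⁻¹ + a = (1 + a * b) / b := by field_simp
    rw [e]
    field_simp
    linear_combination (a * b) * e2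
  have e3 : a * b * (b⁻¹ + a) = a + a ^ 2 * b := by
    field_simp
  rw [e1, inv_inv, e3]
  linear_combination a * e2

theorem sz_exists_sq (hF : Fintype.card F = 2 ^ (2 * m + 1)) (x : F) : ∃ c : F, x = c ^ 2 := by
  refine ⟨x ^ (2 ^ (2 * m)), ?_⟩
  have h := FiniteField.pow_card x
  rw [hF] at h
  rw [← pow_mul, ← pow_succ]
  exact h.symm

/-- a pair of additive bijections compatible with the norm is semilinear -/
theorem sz_semilinear (hF : Fintype.card F = 2 ^ (2 * m + 1)) (A B : F → F)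
    (hA : ∀ x y, A (x + y) = A x + A y) (hB : ∀ x y, B (x + y) = B x + B y)
    (hAb : Function.Bijective A) (hBb : Function.Bijective B)
    (hN : ∀ a, B (a * szT m a) = A a * szT m (A a)) :
    ∃ (κ : F) (σ : F ≃+* F), κ ≠ 0 ∧ (∀ a, A a = κ * σ a) ∧
      (∀ b, B b = κ * szT m κ * σ b) := by
  have hchar := sz_charP hF
  have hB0 : B 0 = 0 := by
    have h := hB 0 0
    rw [add_zero] at h
    exact left_eq_add.1 h
  have hBne : ∀ x, x ≠ 0 → B x ≠ 0 := fun x hx h => hx (hBb.1 (h.trans hB0.symm))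
  obtain ⟨C, hC⟩ : ∃ C : F → F, ∀ z, C z = (B z⁻¹)⁻¹ := ⟨fun z => (B z⁻¹)⁻¹, fun _ => rfl⟩
  have hC0 : C 0 = 0 := by rw [hC, inv_zero, hB0, inv_zero]
  have hBC : ∀ w, B w⁻¹ = (C w)⁻¹ := by
    intro w; rw [hC, inv_inv]
  have hCinv : ∀ w, C w⁻¹ = (B w)⁻¹ := by
    intro w; rw [hC, inv_inv]
  have hTr : ∀ y z, szTr m (B y * C z) = szTr m (y * z) := by
    intro y z
    by_cases hz : z = 0
    · rw [hz, hC0, mul_zero, mul_zero]
    · have h := sz_hyper_eq hF A B hA hB hAb hBb hN z⁻¹ y (inv_ne_zero hz)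
      rw [div_eq_mul_inv, div_eq_mul_inv, inv_inv, ← hC] at h
      exact h
  have hnd : ∀ D : F, (∀ w, szTr m (w * D) = 0) → D = 0 := by
    intro D h
    by_contra hD
    have h1 := h D⁻¹
    rw [inv_mul_cancel₀ hD, szTr_one hF] at h1
    exact one_ne_zero h1
  have hCadd : ∀ z z', C (z + z') = C z + C z' := by
    intro z z'
    have h0 : C (z + z') + (C z + C z') = 0 := by
      apply hnd
      intro w
      obtain ⟨y, rfl⟩ := hBb.2 w
      rw [mul_add, mul_add, szTr_add hF, szTr_add hF, hTr, hTr, hTr, mul_add, szTr_add hF]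
      exact CharTwo.add_self_eq_zero _
    calc C (z + z') = C (z + z') + (C z + C z') + (C z + C z') := by
          rw [add_assoc, CharTwo.add_self_eq_zero, add_zero]
      _ = C z + C z' := by rw [h0, zero_add]
  have key : ∀ a b : F, B (a ^ 2 * b) = (B a) ^ 2 * C b := by
    intro a b
    by_cases ha : a = 0
    · rw [ha]; simp [hB0]
    by_cases hb : b = 0
    · rw [hb]; simp [hB0, hC0]
    by_cases hab : a * b = 1
    · have hb' : b = a⁻¹ := eq_inv_of_mul_eq_one_right hab
      rw [hb', hCinv]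
      have e : a ^ 2 * a⁻¹ = a := by field_simp
      rw [e]
      have hBa := hBne a ha
      field_simp
    · have hBa := hBne a ha
      have hCb : C b ≠ 0 := by
        rw [hC]; exact inv_ne_zero (hBne _ (inv_ne_zero hb))
      have hBC1 : B a * C b ≠ 1 := by
        intro h
        apply hab
        have e : B a = B b⁻¹ := by
          rw [hBC]; exact eq_inv_of_mul_eq_one_left h
        have e' := hBb.1 e
        rw [e', inv_mul_cancel₀ hb]
      rw [← sz_hua hF a b ha hb hab, hB, hBC, hCadd, hCinv, hCinv, hB, hBC]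
      exact sz_hua hF (B a) (C b) hBa hCb hBC1
  have hl1 : B 1 ≠ 0 := hBne 1 one_ne_zero
  have hC1 : ∀ b, C b = B b / (B 1) ^ 2 := by
    intro b
    have h := key 1 b
    rw [one_pow, one_mul] at h
    rw [h]; field_simp
  have key2 : ∀ a b, B (a ^ 2 * b) * (B 1) ^ 2 = (B a) ^ 2 * B b := by
    intro a b
    rw [key, hC1]; field_simp
  have hσmul : ∀ x y, B (x * y) / B 1 = (B x / B 1) * (B y / B 1) := by
    intro x y
    obtain ⟨c, rfl⟩ := sz_exists_sq hF x
    have h1 := key2 c y
    have h2 := key2 c 1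
    rw [mul_one] at h2
    have h3 : B (c ^ 2 * y) * B 1 = B (c ^ 2) * B y := by
      apply mul_right_cancel₀ (pow_ne_zero 2 hl1)
      linear_combination (B 1) * h1 - (B y) * h2
    field_simp
    exact h3
  let σ₀ : F →+* F :=
    { toFun := fun x => B x / B 1
      map_one' := div_self hl1
      map_mul' := hσmul
      map_zero' := by rw [hB0, zero_div]
      map_add' := fun x y => by rw [hB, add_div] }
  have hσ₀ : ∀ x, σ₀ x = B x / B 1 := fun _ => rfl
  have hσinj : Function.Injective σ₀ := by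
    intro x y h
    rw [hσ₀, hσ₀] at h
    have e : B x = B y := by
      field_simp at h
      exact h
    exact hBb.1 e
  have hσb : Function.Bijective σ₀ := ⟨hσinj, Finite.injective_iff_surjective.1 hσinj⟩
  obtain ⟨κ, hκ⟩ := sz_norm_surj hF (B 1)
  have hκ0 : κ ≠ 0 := by
    rintro rfl
    rw [zero_mul] at hκ
    exact hl1 hκ.symm
  refine ⟨κ, RingEquiv.ofBijective σ₀ hσb, hκ0, ?_, ?_⟩
  · intro a
    apply sz_norm_inj hF
    have h1 : σ₀ (a * szT m a) = σ₀ a * szT m (σ₀ a) := by
      rw [map_mul]; congr 1; unfold szT; rw [map_pow]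
    have h2 : B (a * szT m a) = B 1 * σ₀ (a * szT m a) := by
      rw [hσ₀]; field_simp
    show A a * szT m (A a) = κ * σ₀ a * szT m (κ * σ₀ a)
    rw [← hN, h2, h1, ← hκ, szT_mul]; ring
  · intro b
    show B b = κ * szT m κ * σ₀ b
    rw [hκ, hσ₀]; field_simp

end

end Cfsg.Agent.H8
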