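import Mathlib
import Cfsg.Agent.H8.SzAutU1
import Cfsg.Agent.H8.SzAut
import Cfsg.Agent.H8.SzSyl2
import Cfsg.Agent.H8.SzLie

set_option autoImplicit false

namespace Cfsg.Agent.H8

open Cfsg

section

variable {F : Type*} [Field F] [Fintype F] {m : ℕ}

/-- the number of additive endomorphisms of the field -/
theorem sz_card_addHom (hF : Fintype.card F = 2 ^ (2 * m + 1)) :
    Nat.card (F →+ F) = 2 ^ ((2 * m + 1) ^ 2) := by
  have := sz_charP hF
  have : Fact (Nat.Prime 2) := ⟨Nat.prime_two⟩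
  let _ : Algebra (ZMod 2) F := ZMod.algebra F 2
  have h2 : Module.finrank (ZMod 2) F = 2 * m + 1 := by
    have := FiniteField.pow_finrank_eq_card 2 F
    rw [hF] at this
    exact Nat.pow_right_injective (le_refl 2) this
  rw [Nat.card_congr (AddMonoidHom.toZModLinearMapEquiv 2).toEquiv,
    Module.natCard_eq_pow_finrank (K := ZMod 2), Nat.card_zmod, Module.finrank_linearMap, h2, sq]

/-- coordinates on the unipotent group -/
noncomputable def szUE (hF : Fintype.card F = 2 ^ (2 * m + 1)) : F × F ≃ szU (m := m) hF :=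
  Equiv.ofBijective (fun p => szUM hF p.1 p.2)
    ⟨fun p p' h => by
      obtain ⟨h1, h2⟩ := szUM_inj hF h
      exact Prod.ext h1 h2,
    fun x => by
      obtain ⟨a, b, h⟩ := szUM_surj hF x
      exact ⟨(a, b), h.symm⟩⟩

theorem szUE_symm_szUM (hF : Fintype.card F = 2 ^ (2 * m + 1)) (a b : F) :
    (szUE (m := m) hF).symm (szUM hF a b) = (a, b) :=
  (szUE hF).symm_apply_apply (a, b)

theorem szUM_szUE_symm (hF : Fintype.card F = 2 ^ (2 * m + 1)) (x : szU (m := m) hF) :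
    szUM hF ((szUE hF).symm x).1 ((szUE hF).symm x).2 = x :=
  (szUE hF).apply_symm_apply x

/-- the automorphism with parameters `(κ, σ, f)`, as a function -/
noncomputable def szUAutFun (hF : Fintype.card F = 2 ^ (2 * m + 1)) (κ : F) (σ : F ≃+* F)
    (f : F →+ F) (x : szU (m := m) hF) : szU (m := m) hF :=
  szUM hF (κ * σ ((szUE hF).symm x).1)
    (κ * szT m κ * σ ((szUE hF).symm x).2 + f ((szUE hF).symm x).1)

theorem szUAutFun_szUM (hF : Fintype.card F = 2 ^ (2 * m + 1)) (κ : F) (σ : F ≃+* F)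
    (f : F →+ F) (a b : F) :
    szUAutFun hF κ σ f (szUM hF a b) = szUM hF (κ * σ a) (κ * szT m κ * σ b + f a) := by
  unfold szUAutFun
  rw [szUE_symm_szUM]

theorem szUAutFun_mul (hF : Fintype.card F = 2 ^ (2 * m + 1)) (κ : F) (σ : F ≃+* F)
    (f : F →+ F) (x y : szU (m := m) hF) :
    szUAutFun hF κ σ f (x * y) = szUAutFun hF κ σ f x * szUAutFun hF κ σ f y := by
  obtain ⟨a, b, rfl⟩ := szUM_surj hF x
  obtain ⟨a', b', rfl⟩ := szUM_surj hF y
  rw [szUM_mul, szUAutFun_szUM, szUAutFun_szUM, szUAutFun_szUM, szUM_mul]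
  have e : σ (szT m a) = szT m (σ a) := by
    unfold szT; rw [map_pow]
  congr 1
  · rw [map_add]; ring
  · rw [map_add, map_add, map_add, map_mul, szT_mul, e]
    ring

theorem szUAutFun_inj (hF : Fintype.card F = 2 ^ (2 * m + 1)) {κ : F} (hκ : κ ≠ 0)
    (σ : F ≃+* F) (f : F →+ F) : Function.Injective (szUAutFun (m := m) hF κ σ f) := by
  intro x y h
  obtain ⟨a, b, rfl⟩ := szUM_surj hF x
  obtain ⟨a', b', rfl⟩ := szUM_surj hF y
  rw [szUAutFun_szUM, szUAutFun_szUM] at h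
  obtain ⟨h1, h2⟩ := szUM_inj hF h
  have ha : a = a' := σ.injective (mul_left_cancel₀ hκ h1)
  subst ha
  have hN : κ * szT m κ ≠ 0 := mul_ne_zero hκ (fun h => hκ (szT_eq_zero.1 h))
  have hb : b = b' := σ.injective (mul_left_cancel₀ hN (add_right_cancel h2))
  rw [hb]

/-- the automorphism with parameters `(κ, σ, f)` -/
noncomputable def szUAut (hF : Fintype.card F = 2 ^ (2 * m + 1)) (κ : Fˣ) (σ : F ≃+* F)
    (f : F →+ F) : MulAut (szU (m := m) hF) :=
  MulEquiv.ofBijective (MonoidHom.mk' (szUAutFun hF (κ : F) σ f) (szUAutFun_mul hF (κ : F) σ f))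
    ⟨szUAutFun_inj hF κ.ne_zero σ f,
      Finite.injective_iff_surjective.1 (szUAutFun_inj hF κ.ne_zero σ f)⟩

theorem szUAut_apply (hF : Fintype.card F = 2 ^ (2 * m + 1)) (κ : Fˣ) (σ : F ≃+* F)
    (f : F →+ F) (a b : F) :
    szUAut hF κ σ f (szUM hF a b) =
      szUM hF ((κ : F) * σ a) ((κ : F) * szT m (κ : F) * σ b + f a) :=
  szUAutFun_szUM hF (κ : F) σ f a b

theorem szUAut_surj (hF : Fintype.card F = 2 ^ (2 * m + 1)) (α : MulAut (szU (m := m) hF)) :
    ∃ (κ : Fˣ) (σ : F ≃+* F) (f : F →+ F), α = szUAut hF κ σ f := by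
  have hchar := sz_charP hF
  obtain ⟨A, hAdef⟩ : ∃ A : F → F, ∀ a, A a = ((szUE hF).symm (α (szUM hF a 0))).1 :=
    ⟨_, fun _ => rfl⟩
  obtain ⟨f, hfdef⟩ : ∃ f : F → F, ∀ a, f a = ((szUE hF).symm (α (szUM hF a 0))).2 :=
    ⟨_, fun _ => rfl⟩
  obtain ⟨B, hBdef⟩ : ∃ B : F → F, ∀ b, B b = ((szUE hF).symm (α (szUM hF 0 b))).2 :=
    ⟨_, fun _ => rfl⟩
  have h1 : ∀ a, α (szUM hF a 0) = szUM hF (A a) (f a) := by
    intro a
    rw [hAdef, hfdef, szUM_szUE_symm]
  have h2 : ∀ b, α (szUM hF 0 b) = szUM hF 0 (B b) := by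
    intro b
    have hx := szUM_szUE_symm hF (α (szUM hF 0 b))
    have hsq : α (szUM hF 0 b) * α (szUM hF 0 b) = 1 := by
      rw [← map_mul, szUM_sq, zero_mul, szUM_zero, map_one]
    rw [← hx, szUM_sq, ← szUM_zero hF] at hsq
    have h0 := (szUM_inj hF hsq).2
    have ha0 : ((szUE hF).symm (α (szUM hF 0 b))).1 = 0 := by
      rcases mul_eq_zero.1 h0 with h | h
      · exact h
      · exact szT_eq_zero.1 h
    calc α (szUM hF 0 b) = szUM hF ((szUE hF).symm (α (szUM hF 0 b))).1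
          ((szUE hF).symm (α (szUM hF 0 b))).2 := hx.symm
      _ = szUM hF 0 (B b) := by rw [ha0, hBdef]
  have h3 : ∀ a b, α (szUM hF a b) = szUM hF (A a) (f a + B b) := by
    intro a b
    have e : szUM (m := m) hF a b = szUM hF a 0 * szUM hF 0 b := by
      rw [szUM_mul_zero, zero_add]
    rw [e, map_mul, h1, h2, szUM_mul_zero]
  have hrel : ∀ a a', A (a + a') = A a + A a' ∧
      f (a + a') + B (szT m a * a') = f a + f a' + szT m (A a) * A a' := by
    intro a a'
    have e : α (szUM hF a 0 * szUM hF a' 0) = α (szUM hF a 0) * α (szUM hF a' 0) :=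
      map_mul _ _ _
    rw [szUM_mul, h3, h1, h1, szUM_mul, add_zero, zero_add] at e
    exact szUM_inj hF e
  have hAadd : ∀ x y, A (x + y) = A x + A y := fun x y => (hrel x y).1
  have hBadd : ∀ x y, B (x + y) = B x + B y := by
    intro x y
    have e : α (szUM hF 0 x * szUM hF 0 y) = α (szUM hF 0 x) * α (szUM hF 0 y) :=
      map_mul _ _ _
    rw [szUM_mul_zero, h2, h2, h2, szUM_mul_zero] at e
    exact (szUM_inj hF e).2
  have hN : ∀ a, B (a * szT m a) = A a * szT m (A a) := by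
    intro a
    have e : α (szUM hF a 0 * szUM hF a 0) = α (szUM hF a 0) * α (szUM hF a 0) :=
      map_mul _ _ _
    rw [szUM_sq, h2, h1, szUM_sq] at e
    exact (szUM_inj hF e).2
  have hBinj : Function.Injective B := by
    intro b b' h
    have e : α (szUM hF 0 b) = α (szUM hF 0 b') := by rw [h2, h2, h]
    exact (szUM_inj hF (α.injective e)).2
  have hBb : Function.Bijective B := ⟨hBinj, Finite.injective_iff_surjective.1 hBinj⟩
  have hAinj : Function.Injective A := by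
    intro a a' h
    apply sz_norm_inj hF
    apply hBinj
    rw [hN, hN, h]
  have hAb : Function.Bijective A := ⟨hAinj, Finite.injective_iff_surjective.1 hAinj⟩
  obtain ⟨κ, σ, hκ, hAk, hBk⟩ := sz_semilinear hF A B hAadd hBadd hAb hBb hN
  have hfadd : ∀ a a', f (a + a') = f a + f a' := by
    intro a a'
    have h := (hrel a a').2
    have e : σ (szT m a * a') = szT m (σ a) * σ a' := by
      rw [map_mul]; congr 1; unfold szT; rw [map_pow]
    rw [hBk, hAk, hAk, szT_mul, e] at h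
    linear_combination h
  refine ⟨Units.mk0 κ hκ, σ, AddMonoidHom.mk' f hfadd, ?_⟩
  apply MulEquiv.ext
  intro x
  obtain ⟨a, b, rfl⟩ := szUM_surj hF x
  rw [h3, szUAut_apply, hAk, hBk, add_comm]
  rfl

theorem szUAut_inj (hF : Fintype.card F = 2 ^ (2 * m + 1)) {κ κ' : Fˣ} {σ σ' : F ≃+* F}
    {f f' : F →+ F} (h : szUAut (m := m) hF κ σ f = szUAut hF κ' σ' f') :
    κ = κ' ∧ σ = σ' ∧ f = f' := by
  have h1 : ∀ a b : F, (κ : F) * σ a = κ' * σ' a ∧
      (κ : F) * szT m (κ : F) * σ b + f a = κ' * szT m (κ' : F) * σ' b + f' a := by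
    intro a b
    have e := congrArg (fun α : MulAut (szU (m := m) hF) => α (szUM hF a b)) h
    simp only [szUAut_apply] at e
    exact szUM_inj hF e
  have hk : (κ : F) = κ' := by
    have e := (h1 1 0).1
    simpa using e
  have hκ : κ = κ' := Units.ext hk
  subst hκ
  refine ⟨rfl, ?_, ?_⟩
  · apply RingEquiv.ext
    intro a
    exact mul_left_cancel₀ κ.ne_zero (h1 a 0).1
  · apply AddMonoidHom.ext
    intro a
    have e := (h1 a 0).2
    simpa using e

theorem szUAut_bij (hF : Fintype.card F = 2 ^ (2 * m + 1)) :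
    Function.Bijective (fun p : Fˣ × (F ≃+* F) × (F →+ F) =>
      szUAut (m := m) hF p.1 p.2.1 p.2.2) := by
  constructor
  · rintro ⟨κ, σ, f⟩ ⟨κ', σ', f'⟩ h
    obtain ⟨rfl, rfl, rfl⟩ := szUAut_inj hF h
    rfl
  · intro α
    obtain ⟨κ, σ, f, h⟩ := szUAut_surj hF α
    exact ⟨(κ, σ, f), h.symm⟩

theorem szU_card_aut (hF : Fintype.card F = 2 ^ (2 * m + 1)) :
    Nat.card (MulAut (szU (m := m) hF)) =
      2 ^ ((2 * m + 1) ^ 2) * ((2 * m + 1) * (2 ^ (2 * m + 1) - 1)) := by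
  rw [← Nat.card_congr (Equiv.ofBijective _ (szUAut_bij hF)), Nat.card_prod, Nat.card_prod,
    sz_card_addHom hF]
  have h1 : Nat.card Fˣ = 2 ^ (2 * m + 1) - 1 := by
    rw [Nat.card_units, Nat.card_eq_fintype_card, hF]
  have h2 : Nat.card (F ≃+* F) = 2 * m + 1 := sz_card_ringAut hF
  rw [h1, h2]
  ring

end

end Cfsg.Agent.H8
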