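import Mathlib
import Cfsg.Agent.H8.SzAutU2
import Cfsg.Agent.H13.PCore
import Cfsg.Agent.H29.Transport

set_option autoImplicit false

namespace Cfsg.Agent.H8

open Cfsg

section

variable {F : Type*} [Field F] [Fintype F] {m : ℕ}

theorem szUAut_one_apply (hF : Fintype.card F = 2 ^ (2 * m + 1)) (f : F →+ F) (a b : F) :
    szUAut (m := m) hF 1 (RingEquiv.refl F) f (szUM hF a b) = szUM hF a (b + f a) := by
  rw [szUAut_apply]
  simp [szT_one]

theorem szUAut_one_mul (hF : Fintype.card F = 2 ^ (2 * m + 1)) (f g : F →+ F) :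
    szUAut (m := m) hF 1 (RingEquiv.refl F) f * szUAut hF 1 (RingEquiv.refl F) g =
      szUAut hF 1 (RingEquiv.refl F) (f + g) := by
  apply MulEquiv.ext
  intro x
  obtain ⟨a, b, rfl⟩ := szUM_surj hF x
  rw [MulAut.mul_apply, szUAut_one_apply, szUAut_one_apply, szUAut_one_apply,
    AddMonoidHom.add_apply]
  congr 1
  ring

theorem szUAut_one_zero (hF : Fintype.card F = 2 ^ (2 * m + 1)) :
    szUAut (m := m) hF 1 (RingEquiv.refl F) 0 = 1 := by
  apply MulEquiv.ext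
  intro x
  obtain ⟨a, b, rfl⟩ := szUM_surj hF x
  rw [szUAut_one_apply, AddMonoidHom.zero_apply, add_zero, MulAut.one_apply]

theorem szUAut_one_sq (hF : Fintype.card F = 2 ^ (2 * m + 1)) (f : F →+ F) :
    szUAut (m := m) hF 1 (RingEquiv.refl F) f * szUAut hF 1 (RingEquiv.refl F) f = 1 := by
  have hchar := sz_charP hF
  have e : f + f = 0 := AddMonoidHom.ext fun a => CharTwo.add_self_eq_zero (f a)
  rw [szUAut_one_mul, e, szUAut_one_zero]

/-- the automorphisms acting trivially modulo the centre -/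
noncomputable def szUK (hF : Fintype.card F = 2 ^ (2 * m + 1)) :
    Subgroup (MulAut (szU (m := m) hF)) where
  carrier := {α | ∃ f : F →+ F, α = szUAut hF 1 (RingEquiv.refl F) f}
  mul_mem' := by
    rintro _ _ ⟨f, rfl⟩ ⟨g, rfl⟩
    exact ⟨f + g, szUAut_one_mul hF f g⟩
  one_mem' := ⟨0, (szUAut_one_zero hF).symm⟩
  inv_mem' := by
    rintro _ ⟨f, rfl⟩
    exact ⟨f, inv_eq_of_mul_eq_one_right (szUAut_one_sq hF f)⟩

theorem mem_szUK_iff (hF : Fintype.card F = 2 ^ (2 * m + 1)) (α : MulAut (szU (m := m) hF)) :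
    α ∈ szUK hF ↔ ∀ a b, ∃ c, α (szUM hF a b) = szUM hF a c := by
  constructor
  · rintro ⟨f, rfl⟩ a b
    exact ⟨b + f a, szUAut_one_apply hF f a b⟩
  · intro h
    obtain ⟨κ, σ, f, rfl⟩ := szUAut_surj hF α
    have h1 : ∀ a, (κ : F) * σ a = a := by
      intro a
      obtain ⟨c, hc⟩ := h a 0
      rw [szUAut_apply] at hc
      exact (szUM_inj hF hc).1
    have hκ : κ = 1 := by
      apply Units.ext
      have e := h1 1
      simpa using e
    subst hκ
    have hσ : σ = RingEquiv.refl F := by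
      apply RingEquiv.ext
      intro a
      have e := h1 a
      simpa using e
    subst hσ
    exact ⟨f, rfl⟩

theorem szUK_normal (hF : Fintype.card F = 2 ^ (2 * m + 1)) : (szUK (m := m) hF).Normal := by
  constructor
  intro α hα γ
  rw [mem_szUK_iff] at hα ⊢
  intro a b
  obtain ⟨κ, σ, g, rfl⟩ := szUAut_surj hF γ
  obtain ⟨a₁, b₁, h1⟩ := szUM_surj hF ((szUAut hF κ σ g)⁻¹ (szUM hF a b))
  have h2 : szUAut hF κ σ g (szUM hF a₁ b₁) = szUM hF a b := by
    rw [← h1, MulAut.apply_inv_self]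
  rw [szUAut_apply] at h2
  have h3 := (szUM_inj hF h2).1
  obtain ⟨c, hc⟩ := hα a₁ b₁
  refine ⟨(κ : F) * szT m (κ : F) * σ c + g a₁, ?_⟩
  rw [MulAut.mul_apply, MulAut.mul_apply, h1, hc, szUAut_apply, h3]

theorem szUK_card (hF : Fintype.card F = 2 ^ (2 * m + 1)) :
    Nat.card (szUK (m := m) hF) = 2 ^ ((2 * m + 1) ^ 2) := by
  rw [← sz_card_addHom hF]
  have hb : Function.Bijective (fun f : F →+ F =>
      (⟨szUAut hF 1 (RingEquiv.refl F) f, f, rfl⟩ : szUK (m := m) hF)) := by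
    constructor
    · intro f g h
      have e := congrArg Subtype.val h
      exact (szUAut_inj hF e).2.2
    · rintro ⟨_, f, rfl⟩
      exact ⟨f, rfl⟩
  exact (Nat.card_congr (Equiv.ofBijective _ hb)).symm

theorem szUK_elem (hF : Fintype.card F = 2 ^ (2 * m + 1)) :
    Cfsg.IsElementaryAbelian 2 (szUK (m := m) hF) := by
  constructor
  · constructor
    constructor
    rintro ⟨_, f, rfl⟩ ⟨_, g, rfl⟩
    apply Subtype.ext
    show szUAut hF 1 (RingEquiv.refl F) f * szUAut hF 1 (RingEquiv.refl F) g =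
      szUAut hF 1 (RingEquiv.refl F) g * szUAut hF 1 (RingEquiv.refl F) f
    rw [szUAut_one_mul, szUAut_one_mul, add_comm]
  · rintro _ ⟨f, rfl⟩
    rw [sq, szUAut_one_sq]

theorem szU_pCore_aut (hF : Fintype.card F = 2 ^ (2 * m + 1)) :
    Cfsg.pCore 2 (MulAut (szU (m := m) hF)) = szUK hF := by
  have : Fact (Nat.Prime 2) := ⟨Nat.prime_two⟩
  have hcardA := szU_card_aut (m := m) hF
  have hq : 1 < 2 ^ (2 * m + 1) := Nat.one_lt_two_pow (by omega)
  have hq' : 2 ^ (2 * m + 1) - 1 ≠ 0 := by omega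
  have hfin : Finite (MulAut (szU (m := m) hF)) := by
    apply Nat.finite_of_card_ne_zero
    rw [hcardA]
    exact Nat.mul_ne_zero (pow_ne_zero _ two_ne_zero) (Nat.mul_ne_zero (by omega) hq')
  have hKn := szUK_normal (m := m) hF
  have hKp : IsPGroup 2 (szUK (m := m) hF) := IsPGroup.of_card (szUK_card hF)
  have h1 : szUK hF ≤ Cfsg.pCore 2 (MulAut (szU (m := m) hF)) :=
    Cfsg.Agent.H13.le_pCore hKn hKp
  have hO : IsPGroup 2 (Cfsg.pCore 2 (MulAut (szU (m := m) hF))) :=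
    Cfsg.Agent.H13.pCore_isPGroup 2 _
  obtain ⟨k, hk⟩ := hO.exists_card_eq
  have hdvd : 2 ^ k ∣ 2 ^ ((2 * m + 1) ^ 2) * ((2 * m + 1) * (2 ^ (2 * m + 1) - 1)) := by
    rw [← hk, ← hcardA]
    exact Subgroup.card_subgroup_dvd_card _
  have hodd : Odd ((2 * m + 1) * (2 ^ (2 * m + 1) - 1)) := by
    apply Odd.mul
    · exact ⟨m, rfl⟩
    · have e : 2 ^ (2 * m + 1) = 2 * 2 ^ (2 * m) := by rw [pow_succ]; ring
      rw [e]
      have hpos : 0 < 2 ^ (2 * m) := by positivity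
      exact ⟨2 ^ (2 * m) - 1, by omega⟩
  have hcop : Nat.Coprime (2 ^ k) ((2 * m + 1) * (2 ^ (2 * m + 1) - 1)) :=
    Nat.Coprime.pow_left k (Nat.coprime_two_left.2 hodd)
  have hdvd2 : 2 ^ k ∣ 2 ^ ((2 * m + 1) ^ 2) := hcop.dvd_of_dvd_mul_right hdvd
  have hle : Nat.card (Cfsg.pCore 2 (MulAut (szU (m := m) hF))) ≤
      Nat.card (szUK (m := m) hF) := by
    rw [hk, szUK_card hF]
    exact Nat.le_of_dvd (by positivity) hdvd2
  exact (Subgroup.eq_of_le_of_card_ge h1 hle).symm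

/-- a Sylow 2-subgroup of the Suzuki group (in the form of the list) is isomorphic to the
unipotent subgroup -/
theorem lieSz_sylow_equiv (hm : 1 ≤ m) (hF : Fintype.card F = 2 ^ (2 * m + 1))
    (P : Sylow 2 ↥(Cfsg.Lie.Sz F (2 ^ (m + 1)))) :
    Nonempty (↥(P : Subgroup ↥(Cfsg.Lie.Sz F (2 ^ (m + 1)))) ≃* szU (m := m) hF) := by
  have : Fact (Nat.Prime 2) := ⟨Nat.prime_two⟩
  have hfin : Finite ↥(Cfsg.Lie.Sz F (2 ^ (m + 1))) := Finite.of_equiv _ (lieSzEquiv hm hF).toEquiv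
  have hcard : Nat.card ((P : Subgroup ↥(Cfsg.Lie.Sz F (2 ^ (m + 1)))).map
      (lieSzEquiv hm hF).symm.toMonoidHom) = 2 ^ (Nat.card (Sz F m)).factorization 2 := by
    rw [Cfsg.Agent.H29.card_map_equiv, Sylow.card_eq_multiplicity,
      Nat.card_congr (lieSzEquiv hm hF).toEquiv]
  obtain ⟨e2⟩ := sz_sylow_equiv hm hF (Sylow.ofCard _ hcard)
  exact ⟨(Subgroup.equivMapOfInjective (P : Subgroup ↥(Cfsg.Lie.Sz F (2 ^ (m + 1))))
    (lieSzEquiv hm hF).symm.toMonoidHom (lieSzEquiv hm hF).symm.injective).trans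
    ((MulEquiv.subgroupCongr (Sylow.coe_ofCard _ hcard)).symm.trans e2)⟩

/-- the automorphism group of a Sylow 2-subgroup of a Suzuki group -/
theorem lieSz_aut_sylow {S : Type*} [Group S] (hm : 1 ≤ m)
    (hF : Fintype.card F = 2 ^ (2 * m + 1)) (P : Sylow 2 ↥(Cfsg.Lie.Sz F (2 ^ (m + 1))))
    (hS : Nonempty (S ≃* ↥(P : Subgroup ↥(Cfsg.Lie.Sz F (2 ^ (m + 1)))))) :
    Cfsg.IsElementaryAbelian 2 (Cfsg.pCore 2 (MulAut S)) ∧
      Nat.card ↥(Cfsg.pCore 2 (MulAut S)) = 2 ^ ((2 * m + 1) ^ 2) ∧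
      Nat.card (MulAut S) = 2 ^ ((2 * m + 1) ^ 2) * ((2 * m + 1) * (2 ^ (2 * m + 1) - 1)) := by
  obtain ⟨e0⟩ := hS
  obtain ⟨e1⟩ := lieSz_sylow_equiv hm hF P
  obtain ⟨E, -⟩ : ∃ E : MulAut (szU (m := m) hF) ≃* MulAut S, True :=
    ⟨MulAut.congr (e0.trans e1).symm, trivial⟩
  have hp : Cfsg.pCore 2 (MulAut S) = (szUK (m := m) hF).map E.toMonoidHom := by
    rw [← szU_pCore_aut hF, Cfsg.Agent.H29.pCore_map_equiv]
  refine ⟨?_, ?_, ?_⟩
  · rw [hp]
    obtain ⟨hc, h2⟩ := szUK_elem (m := m) hF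
    constructor
    · constructor
      constructor
      rintro ⟨_, x, hx, rfl⟩ ⟨_, y, hy, rfl⟩
      apply Subtype.ext
      show E.toMonoidHom x * E.toMonoidHom y = E.toMonoidHom y * E.toMonoidHom x
      rw [← map_mul, ← map_mul]
      have e := hc.is_comm.comm ⟨x, hx⟩ ⟨y, hy⟩
      exact congrArg (fun z : szUK (m := m) hF => E.toMonoidHom z.1) e
    · rintro _ ⟨x, hx, rfl⟩
      rw [← map_pow, h2 x hx, map_one]
  · rw [hp, Cfsg.Agent.H29.card_map_equiv, szUK_card hF]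
  · rw [← Nat.card_congr E.toEquiv, szU_card_aut hF]

end

end Cfsg.Agent.H8
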