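import Mathlib
import Cfsg.Agent.H8.SzFix1

set_option autoImplicit false

namespace Cfsg.Agent.H8

open Cfsg Matrix MulAction Module

section

variable {F : Type*} [Field F] [Fintype F] {m : ℕ}

/-- fixity two: a point stabiliser containing a central involution of the unipotent
group is the stabiliser of the point at infinity -/
theorem sz_fix_caseA (hm : 1 ≤ m) (hF : Fintype.card F = 2 ^ (2 * m + 1))
    {Ω : Type*} [Finite Ω] [MulAction (Sz F m) Ω]
    (hfix : ∀ g : Sz F m, g ≠ 1 → (fixedBy Ω g).ncard ≤ 2)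
    (α : Ω) (hHtop : stabilizer (Sz F m) α ≠ ⊤) {b : F} (hb : b ≠ 0)
    (ht : szUc (m := m) hF b • α = α) :
    stabilizer (Sz F m) α = stabilizer (Sz F m) (szP F m none) := by
  classical
  set H := stabilizer (Sz F m) α with hH
  have ht1 : szUc (m := m) hF b ≠ 1 := szUc_ne_one hF hb
  have htU : szUc (m := m) hF b ∈ szU (m := m) hF := szUc_mem hF b
  have htH : szUc (m := m) hF b ∈ H := ht
  have hft := hfix _ ht1
  have hQ8 : 8 ≤ 2 ^ (2 * m + 1) := by
    calc 8 = 2 ^ 3 := by norm_num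
      _ ≤ 2 ^ (2 * m + 1) := Nat.pow_le_pow_right (by norm_num) (by omega)
  have hRQ : 2 ^ (m + 1) ≤ 2 ^ (2 * m + 1) := Nat.pow_le_pow_right (by norm_num) (by omega)
  have hR4 : 4 ≤ 2 ^ (m + 1) := by
    calc 4 = 2 ^ 2 := by norm_num
      _ ≤ 2 ^ (m + 1) := Nat.pow_le_pow_right (by norm_num) (by omega)
  have hRQ2 : 2 * 2 ^ (m + 1) ≤ 2 ^ (2 * m + 1) := by
    rw [← pow_succ']
    exact Nat.pow_le_pow_right (by norm_num) (by omega)
  have hQQ : 8 * 2 ^ (2 * m + 1) ≤ (2 ^ (2 * m + 1)) ^ 2 := by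
    rw [sq]; exact Nat.mul_le_mul_right _ hQ8
  have hcomm : ∀ u ∈ szU (m := m) hF, u * szUc hF b = szUc hF b * u := by
    intro u hu
    have : u ∈ Subgroup.centralizer ({szUc (m := m) hF b} : Set (Sz F m)) := by
      rw [sz_cent_szUc hm hF hb]; exact hu
    exact (mem_cent_singleton.1 this).symm
  have hUfix : ∀ u ∈ szU (m := m) hF, u • α ∈ fixedBy Ω (szUc (m := m) hF b) := by
    intro u hu
    rw [mem_fixedBy, ← mul_smul, ← hcomm u hu, mul_smul, ht]
  have hS : Nat.card (szU (m := m) hF) ≤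
      2 * Nat.card (szU (m := m) hF ⊓ H : Subgroup (Sz F m)) :=
    card_le_two_mul_of_fixedBy (szU (m := m) hF) hft α hUfix
  rw [szU_card] at hS
  -- the stabiliser fixes the point at infinity
  have hHB : H ≤ stabilizer (Sz F m) (szP F m none) := by
    rcases sz_subgroups_aux hm hF H hHtop htH htU ht1 with
      ⟨P, hP⟩ | ⟨U, hcyc, hcard, hU⟩ | ⟨K, iK, iK', k, hk1, hk2, hK, hdiv, S, ⟨eS⟩, hMS⟩
    · obtain ⟨g, rfl⟩ := sz_sylow_conj hm hF P
      have hcoe : ((g • szUSyl hm hF : Sylow 2 (Sz F m)) : Subgroup (Sz F m)) =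
          (szU (m := m) hF).map (MulAut.conj g).toMonoidHom := by
        ext x
        rw [mem_sylow_smul_iff, szUSyl_coe, mem_map_conj_iff]
      rw [hcoe, normalizer_map_conj, szU_normalizer hm hF] at hP
      have h1 := hP htH
      rw [mem_map_conj_iff, mem_stabilizer_iff] at h1
      have h2 : szUc (m := m) hF b • (g • szP F m none) = g • szP F m none := by
        rw [mul_smul, mul_smul, inv_smul_eq_iff] at h1
        exact h1
      have h3 := szU_fix_unique hF htU ht1 h2
      have hg : g ∈ stabilizer (Sz F m) (szP F m none) := h3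
      rw [map_conj_eq_self hg] at hP
      exact hP
    · exfalso
      have hUle : Nat.card U ≤ 2 ^ (2 * m + 1) + 2 ^ (m + 1) + 1 := by
        rcases hcard with h | h | h <;> rw [h] <;> omega
      have hU5 : 5 ≤ Nat.card U := by
        rcases hcard with h | h | h <;> rw [h] <;> omega
      have hUodd : Odd (Nat.card U) := by
        have h4 : Even (2 ^ (2 * m + 1)) := Nat.even_pow.2 ⟨even_two, by omega⟩
        have h5 : Even (2 ^ (m + 1)) := Nat.even_pow.2 ⟨even_two, by omega⟩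
        obtain ⟨j, hj⟩ := h4
        obtain ⟨i, hi⟩ := h5
        rcases hcard with h | h | h <;> rw [h]
        · exact ⟨j - 1, by omega⟩
        · exact ⟨j + i, by omega⟩
        · exact ⟨j - i, by omega⟩
      obtain ⟨u₀, hu₀U, hu₀1⟩ : ∃ u₀ ∈ U, u₀ ≠ 1 := by
        have : Nontrivial U := (Finite.one_lt_card_iff_nontrivial).1 (by omega)
        obtain ⟨⟨u, hu⟩, hne⟩ := exists_ne (1 : U)
        exact ⟨u, hu, fun h => hne (Subtype.ext h)⟩
      have hinj : Set.InjOn (fun s : Sz F m => s * u₀ * s⁻¹)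
          ((szU (m := m) hF ⊓ H : Subgroup (Sz F m)) : Set (Sz F m)) := by
        intro s hs s' hs' hss
        simp only at hss
        by_contra hne
        have hc : s'⁻¹ * s ∈ szU (m := m) hF :=
          Subgroup.mul_mem _ (Subgroup.inv_mem _ hs'.1) hs.1
        have hc1 : s'⁻¹ * s ≠ 1 := by
          intro h; apply hne; exact (inv_mul_eq_one.1 h).symm
        have hcm : u₀ * (s'⁻¹ * s) = (s'⁻¹ * s) * u₀ := by
          calc u₀ * (s'⁻¹ * s) = s'⁻¹ * (s' * u₀ * s'⁻¹) * s := by group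
            _ = s'⁻¹ * (s * u₀ * s⁻¹) * s := by rw [hss]
            _ = (s'⁻¹ * s) * u₀ := by group
        have hu₀szU := sz_cent_le_szU hm hF hc hc1 hcm
        have h4 : u₀ ^ 4 = 1 := congrArg Subtype.val (szU_pow_four hF ⟨u₀, hu₀szU⟩)
        have hdvd : orderOf u₀ ∣ Nat.card U := by
          have := orderOf_dvd_natCard (⟨u₀, hu₀U⟩ : U)
          rwa [Subgroup.orderOf_mk] at this
        exact hu₀1 (eq_one_of_two_pow_of_odd (j := 2) h4 hdvd hUodd)
      have himg : (fun s : Sz F m => s * u₀ * s⁻¹) ''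
          ((szU (m := m) hF ⊓ H : Subgroup (Sz F m)) : Set (Sz F m)) ⊆ (U : Set (Sz F m)) := by
        rintro _ ⟨s, hs, rfl⟩
        exact (Subgroup.mem_set_normalizer_iff.1 (hU hs.2) u₀).1 hu₀U
      have hle : Nat.card (szU (m := m) hF ⊓ H : Subgroup (Sz F m)) ≤ Nat.card U := by
        calc Nat.card (szU (m := m) hF ⊓ H : Subgroup (Sz F m))
            = ((szU (m := m) hF ⊓ H : Subgroup (Sz F m)) : Set (Sz F m)).ncard :=
              (Nat.card_coe_set_eq _)
          _ = ((fun s : Sz F m => s * u₀ * s⁻¹) ''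
              ((szU (m := m) hF ⊓ H : Subgroup (Sz F m)) : Set (Sz F m))).ncard :=
              (hinj.ncard_image).symm
          _ ≤ (U : Set (Sz F m)).ncard := Set.ncard_le_ncard himg (Set.toFinite _)
          _ = Nat.card U := (Nat.card_coe_set_eq _).symm
      omega
    · exfalso
      have hScard : Nat.card S = (2 ^ (2 * k + 1)) ^ 2 * ((2 ^ (2 * k + 1)) ^ 2 + 1) *
          (2 ^ (2 * k + 1) - 1) := by
        rw [Nat.card_congr eS.toEquiv, sz_card hk1 hK]
      have hle : (szU (m := m) hF ⊓ H : Subgroup (Sz F m)) ≤ S := inf_le_right.trans hMS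
      have hdvd1 : Nat.card (szU (m := m) hF ⊓ H : Subgroup (Sz F m)) ∣ Nat.card S :=
        Subgroup.card_dvd_of_le hle
      have hdvd2 : Nat.card (szU (m := m) hF ⊓ H : Subgroup (Sz F m)) ∣
          2 ^ ((2 * m + 1) * 2) := by
        rw [pow_mul, ← szU_card hF]; exact Subgroup.card_dvd_of_le inf_le_left
      obtain ⟨j, hj, hjeq⟩ := (Nat.dvd_prime_pow Nat.prime_two).1 hdvd2
      rw [hjeq, hScard] at hdvd1
      have hodd : Odd (((2 ^ (2 * k + 1)) ^ 2 + 1) * (2 ^ (2 * k + 1) - 1)) := by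
        have h4 : Even (2 ^ (2 * k + 1)) := Nat.even_pow.2 ⟨even_two, by omega⟩
        have h5 : 1 ≤ 2 ^ (2 * k + 1) := Nat.one_le_two_pow
        apply Odd.mul
        · exact Even.add_one (Nat.even_pow.2 ⟨h4, by norm_num⟩)
        · obtain ⟨i, hi⟩ := h4
          exact ⟨i - 1, by omega⟩
      have hcop : Nat.Coprime (2 ^ j) (((2 ^ (2 * k + 1)) ^ 2 + 1) * (2 ^ (2 * k + 1) - 1)) :=
        Nat.Coprime.pow_left j (Nat.coprime_two_left.2 hodd)
      rw [mul_assoc] at hdvd1
      have hdvd3 := hcop.dvd_of_dvd_mul_right hdvd1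
      rw [← pow_mul] at hdvd3
      have hjle := (Nat.pow_dvd_pow_iff_le_right (by norm_num : 1 < 2)).1 hdvd3
      rw [hjeq, ← pow_mul, ← pow_succ'] at hS
      have := (Nat.pow_le_pow_iff_right (by norm_num : 1 < 2)).1 hS
      omega
  -- the centre of the unipotent group lies in the stabiliser
  have hZ : ∀ c : F, szUc (m := m) hF c ∈ H := by
    intro c
    obtain ⟨d, hd⟩ := sz_norm_surj hF c
    have huU : (szUM hF d 0 : Sz F m) ∈ szU (m := m) hF := (szUM hF d 0).2
    have huu : (szUM hF d 0 : Sz F m) * (szUM hF d 0 : Sz F m) = szUc hF c := by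
      rw [← Subgroup.coe_mul, szUM_sq, hd, szUc_eq_szUM]
    have h1 := hUfix _ huU
    have h2 := hUfix _ (Subgroup.mul_mem _ huU huU)
    have h0 : α ∈ fixedBy Ω (szUc (m := m) hF b) := ht
    have h3 : α = (szUM hF d 0 : Sz F m) • α ∨
        α = ((szUM hF d 0 : Sz F m) * (szUM hF d 0 : Sz F m)) • α ∨
        (szUM hF d 0 : Sz F m) • α = ((szUM hF d 0 : Sz F m) * (szUM hF d 0 : Sz F m)) • α := by
      by_contra hcon
      push Not at hcon
      have : 2 < (fixedBy Ω (szUc (m := m) hF b)).ncard :=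
        (Set.two_lt_ncard_iff (Set.toFinite _)).2
          ⟨_, _, _, h0, h1, h2, hcon.1, hcon.2.1, hcon.2.2⟩
      omega
    rw [← huu]
    rcases h3 with h | h | h
    · have : (szUM hF d 0 : Sz F m) ∈ H := h.symm
      exact H.mul_mem this this
    · exact h.symm
    · have : (szUM hF d 0 : Sz F m) ∈ H := by
        rw [mul_smul] at h
        exact (smul_left_cancel _ h).symm
      exact H.mul_mem this this
  -- the torus lies in the stabiliser
  have hT : (szHG (m := m) hF).range ≤ H := by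
    have hTfix : ∀ n ∈ (szHG (m := m) hF).range, n • α ∈ fixedBy Ω (szUc (m := m) hF b) := by
      rintro _ ⟨κ, rfl⟩
      rw [mem_fixedBy, ← mul_smul]
      have h1 : szUc hF b * szHG hF κ =
          szHG hF κ * ((szHG hF κ)⁻¹ * szUc hF b * szHG hF κ) := by group
      have h2 : (szHG hF κ)⁻¹ * szUc hF b * szHG hF κ ∈ H := by
        have h3 := szHG_szUM (m := m) hF κ⁻¹ 0 b
        rw [mul_zero, map_inv, inv_inv] at h3
        change (szHG hF κ)⁻¹ * szUc hF b * szHG hF κ = szUc hF _ at h3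
        rw [h3]; exact hZ _
      rw [h1, mul_smul, h2]
    refine le_stabilizer_of_fixedBy_odd _ hft α hTfix ?_
    rw [sz_torus_card hF]
    have h4 : Even (2 ^ (2 * m + 1)) := Nat.even_pow.2 ⟨even_two, by omega⟩
    obtain ⟨i, hi⟩ := h4
    exact ⟨i - 1, by omega⟩
  -- a non-central unipotent element in the stabiliser
  obtain ⟨a₀, b₀, ha₀, hab₀⟩ : ∃ a₀ b₀ : F, a₀ ≠ 0 ∧ (szUM hF a₀ b₀ : Sz F m) ∈ H := by
    by_contra hcon
    push Not at hcon
    have hsub : ((szU (m := m) hF ⊓ H : Subgroup (Sz F m)) : Set (Sz F m)) ⊆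
        Set.range (szUc (m := m) hF) := by
      rintro x ⟨hxU, hxH⟩
      obtain ⟨a, b', hab⟩ := szUM_surj hF ⟨x, hxU⟩
      have hx : x = (szUM hF a b' : Sz F m) := congrArg Subtype.val hab
      have ha : a = 0 := by
        by_contra ha
        exact hcon a b' ha (hx ▸ hxH)
      subst ha
      exact ⟨b', hx.symm⟩
    have hcard : Nat.card (szU (m := m) hF ⊓ H : Subgroup (Sz F m)) ≤ 2 ^ (2 * m + 1) := by
      calc Nat.card (szU (m := m) hF ⊓ H : Subgroup (Sz F m))
          = ((szU (m := m) hF ⊓ H : Subgroup (Sz F m)) : Set (Sz F m)).ncard :=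
            (Nat.card_coe_set_eq _)
        _ ≤ (Set.range (szUc (m := m) hF)).ncard := Set.ncard_le_ncard hsub (Set.toFinite _)
        _ ≤ Nat.card F := by
            rw [← Set.image_univ, ← Set.ncard_univ]
            exact Set.ncard_image_le (Set.toFinite _)
        _ = 2 ^ (2 * m + 1) := by rw [Nat.card_eq_fintype_card, hF]
    omega
  have hUH : szU (m := m) hF ≤ H := by
    intro x hxU
    obtain ⟨a, b', hab⟩ := szUM_surj hF ⟨x, hxU⟩
    have hx : x = (szUM hF a b' : Sz F m) := congrArg Subtype.val hab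
    rw [hx]
    by_cases ha : a = 0
    · subst ha; exact hZ b'
    · set κ : Fˣ := Units.mk0 (a / a₀) (div_ne_zero ha ha₀) with hκ
      have h1 : szHG hF κ * (szUM hF a₀ b₀ : Sz F m) * (szHG hF κ)⁻¹ ∈ H :=
        H.mul_mem (H.mul_mem (hT ⟨κ, rfl⟩) hab₀) (H.inv_mem (hT ⟨κ, rfl⟩))
      rw [szHG_szUM] at h1
      have h2 : ((κ : F) * a₀) = a := by rw [hκ, Units.val_mk0]; field_simp
      rw [h2] at h1
      have h3 := H.mul_mem h1 (hZ (b' - (κ : F) * szT m (κ : F) * b₀))
      rw [szUc_eq_szUM, ← Subgroup.coe_mul, szUM_mul_zero] at h3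
      have h4 : (κ : F) * szT m (κ : F) * b₀ + (b' - (κ : F) * szT m (κ : F) * b₀) = b' := by
        ring
      rwa [h4] at h3
  have hBH : stabilizer (Sz F m) (szP F m none) ≤ H := by
    intro g hg
    rw [mem_stabilizer_iff, sz_smul_szP] at hg
    obtain ⟨a, b', κ, hκ⟩ := sz_stab_inf hm hF g.2 hg
    have hg' : g = (szUM hF a b' : Sz F m) * szHG hF κ := Subtype.ext hκ
    rw [hg']
    exact H.mul_mem (hUH (szUM hF a b').2) (hT ⟨κ, rfl⟩)
  exact le_antisymm hHB hBH

end

end Cfsg.Agent.H8
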