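import Mathlib
import Cfsg.Agent.H8.SzFix2

set_option autoImplicit false

namespace Cfsg.Agent.H8

open Cfsg Matrix MulAction Module

section

variable {F : Type*} [Field F] [Fintype F] {m : ℕ}

/-- fixity two: an action with the point stabilisers of the natural action -/
theorem sz_fix_caseA_concl (hm : 1 ≤ m) (hF : Fintype.card F = 2 ^ (2 * m + 1))
    {Ω : Type*} [Finite Ω] [MulAction (Sz F m) Ω] (htr : IsPretransitive (Sz F m) Ω)
    (α : Ω) (hα : stabilizer (Sz F m) α = stabilizer (Sz F m) (szP F m none)) :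
    Nat.card Ω = (2 ^ (2 * m + 1)) ^ 2 + 1 ∧ IsMultiplyPretransitive (Sz F m) Ω 2 := by
  constructor
  · have h1 := Subgroup.index_mul_card (stabilizer (Sz F m) α)
    rw [MulAction.index_stabilizer_of_transitive, hα, sz_stab_card hm hF, sz_card hm hF] at h1
    have hQ : 2 ≤ 2 ^ (2 * m + 1) := by
      calc 2 = 2 ^ 1 := by norm_num
        _ ≤ 2 ^ (2 * m + 1) := Nat.pow_le_pow_right (by norm_num) (by omega)
    have hpos : 0 < (2 ^ (2 * m + 1)) ^ 2 * (2 ^ (2 * m + 1) - 1) :=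
      Nat.mul_pos (by positivity) (by omega)
    apply Nat.eq_of_mul_eq_mul_right hpos
    rw [h1]; ring
  · rw [MulAction.is_two_pretransitive_iff]
    intro a b c d hab hcd
    obtain ⟨x, rfl⟩ := exists_smul_eq (Sz F m) α a
    obtain ⟨y, rfl⟩ := exists_smul_eq (Sz F m) α b
    obtain ⟨z, rfl⟩ := exists_smul_eq (Sz F m) α c
    obtain ⟨w, rfl⟩ := exists_smul_eq (Sz F m) α d
    have key : ∀ u v : Sz F m, u • α = v • α ↔ u • szP F m none = v • szP F m none := by
      intro u v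
      have e1 : u • α = v • α ↔ v⁻¹ * u ∈ stabilizer (Sz F m) α := by
        rw [mem_stabilizer_iff, mul_smul, inv_smul_eq_iff]
      have e2 : u • szP F m none = v • szP F m none ↔
          v⁻¹ * u ∈ stabilizer (Sz F m) (szP F m none) := by
        rw [mem_stabilizer_iff, mul_smul, inv_smul_eq_iff]
      rw [e1, e2, hα]
    have h2 := sz_two_trans (m := m) hF
    rw [MulAction.is_two_pretransitive_iff] at h2
    obtain ⟨g, hg1, hg2⟩ := h2 (a := x • szP F m none) (b := y • szP F m none)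
      (c := z • szP F m none) (d := w • szP F m none)
      (fun h => hab ((key x y).2 h)) (fun h => hcd ((key z w).2 h))
    refine ⟨g, ?_, ?_⟩
    · rw [← mul_smul, key, mul_smul, hg1]
    · rw [← mul_smul, key, mul_smul, hg2]

/-- fixity two: point stabilisers of odd order -/
theorem sz_fix_caseB (hm : 1 ≤ m) (hF : Fintype.card F = 2 ^ (2 * m + 1))
    {Ω : Type*} [Finite Ω] [MulAction (Sz F m) Ω]
    (hfix : ∀ g : Sz F m, g ≠ 1 → (fixedBy Ω g).ncard ≤ 2)
    (hno : ∀ t : Sz F m, t ≠ 1 → t ^ 4 = 1 → ∀ ω : Ω, t • ω ≠ ω)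
    (ω₀ : Ω) (hne : stabilizer (Sz F m) ω₀ ≠ ⊥) :
    Nat.card (stabilizer (Sz F m) ω₀) = 2 ^ (2 * m + 1) - 1 := by
  classical
  set H := stabilizer (Sz F m) ω₀ with hH
  have hodd : ∀ t ∈ H, t ≠ 1 → Odd (orderOf t) := by
    intro t htH ht1
    rcases sz_elt_trich hm hF t with h | ⟨-, h4, -⟩ | ⟨-, h, -⟩
    · exact absurd h ht1
    · exact absurd htH (hno t ht1 h4 ω₀)
    · exact h
  obtain ⟨x, hxH, hx1, hxodd, hHx⟩ := sz_odd_subgroup hm hF H hodd hne
  obtain ⟨hTI, hcyc, hcard, -⟩ := sz_torus_of_odd hm hF hx1 hxodd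
  set T := Subgroup.centralizer ({x} : Set (Sz F m)) with hT
  have hxT : x ∈ T := by rw [hT, mem_cent_singleton]
  have hNfix : ∀ n ∈ Subgroup.normalizer (T : Set (Sz F m)), n • ω₀ ∈ fixedBy Ω x := by
    intro n hn
    have hn' : n⁻¹ ∈ Subgroup.normalizer (T : Set (Sz F m)) := Subgroup.inv_mem _ hn
    have h1 : n⁻¹ * x * n ∈ T := by
      have := (Subgroup.mem_set_normalizer_iff.1 hn' x).1 hxT
      rwa [inv_inv] at this
    have h2 : orderOf (n⁻¹ * x * n) = orderOf x := by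
      have := orderOf_conj_eq n⁻¹ x
      rwa [inv_inv] at this
    obtain ⟨j, hj⟩ := mem_zpowers_of_cyclic_sub hcyc hxT h1 h2
    have h3 : n⁻¹ * x * n ∈ H := by
      rw [← hj]; exact H.zpow_mem hxH j
    rw [mem_fixedBy, ← mul_smul]
    have h4 : x * n = n * (n⁻¹ * x * n) := by group
    rw [h4, mul_smul, h3]
  have hN : Nat.card (Subgroup.normalizer (T : Set (Sz F m))) ≤
      2 * Nat.card (Subgroup.normalizer (T : Set (Sz F m)) ⊓ H : Subgroup (Sz F m)) :=
    card_le_two_mul_of_fixedBy (Subgroup.normalizer (T : Set (Sz F m))) (hfix x hx1) ω₀ hNfix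
  have hinf : (Subgroup.normalizer (T : Set (Sz F m)) ⊓ H : Subgroup (Sz F m)) = H :=
    inf_eq_right.2 (hHx.trans Subgroup.le_normalizer)
  rw [hinf] at hN
  have hHT : Nat.card H ≤ Nat.card T := Subgroup.card_le_of_le hHx
  rcases sz_elt_trich hm hF x with h | ⟨-, h4, -⟩ | ⟨-, -, hreg | ⟨k, κ, hκ, hk⟩⟩
  · exact absurd h hx1
  · exact absurd (eq_one_of_two_pow_of_odd (j := 2) h4 dvd_rfl hxodd) hx1
  · exfalso
    have h1 : Nat.card (Subgroup.normalizer (T : Set (Sz F m))) = 4 * Nat.card T :=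
      szReg_norm_card hm hF hreg
    have hTpos : 0 < Nat.card T := Nat.card_pos
    omega
  · have hx : x = k * szHG hF κ * k⁻¹ := by rw [← hk]; group
    have hcent : T = (szHG (m := m) hF).range.map (MulAut.conj k).toMonoidHom := by
      rw [hT, hx, cent_conj_eq, sz_cent_szHG hm hF hκ]
    have hinj : Function.Injective (MulAut.conj k).toMonoidHom := MulEquiv.injective _
    have hTc : Nat.card T = 2 ^ (2 * m + 1) - 1 := by
      rw [hcent, Subgroup.card_map_of_injective hinj, sz_torus_card hF]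
    have hNc : Nat.card (Subgroup.normalizer (T : Set (Sz F m))) =
        2 * (2 ^ (2 * m + 1) - 1) := by
      rw [hcent, normalizer_map_conj, Subgroup.card_map_of_injective hinj,
        szH_normalizer_card hm hF, sz_torus_card hF]
    omega

/-- **Fixity two actions of the Suzuki groups** (matrix model) -/
theorem sz_fixity_two (hm : 1 ≤ m) (hF : Fintype.card F = 2 ^ (2 * m + 1))
    {Ω : Type*} [Finite Ω] [MulAction (Sz F m) Ω] (htr : IsPretransitive (Sz F m) Ω)
    (hfix : ∀ g : Sz F m, g ≠ 1 → (fixedBy Ω g).ncard ≤ 2)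
    (hex : ∃ g : Sz F m, g ≠ 1 ∧ (fixedBy Ω g).ncard = 2) :
    (Nat.card Ω = (2 ^ (2 * m + 1)) ^ 2 + 1 ∧ IsMultiplyPretransitive (Sz F m) Ω 2) ∨
    (Nat.card Ω = (2 ^ (2 * m + 1)) ^ 2 * ((2 ^ (2 * m + 1)) ^ 2 + 1) ∧
      ∀ α : Ω, Nat.card (stabilizer (Sz F m) α) = 2 ^ (2 * m + 1) - 1) := by
  classical
  obtain ⟨g₀, hg₀, hg₀2⟩ := hex
  obtain ⟨ω₀, hω₀⟩ : ∃ ω₀ : Ω, g₀ • ω₀ = ω₀ := by
    have : (fixedBy Ω g₀).Nonempty := by
      rw [← Set.ncard_pos (Set.toFinite _)]; omega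
    exact this
  by_cases hcase : ∃ t : Sz F m, t ≠ 1 ∧ t ^ 4 = 1 ∧ ∃ ω : Ω, t • ω = ω
  · left
    obtain ⟨t, ht1, ht4, ω, htω⟩ := hcase
    obtain ⟨s, hs1, hss, hsω⟩ : ∃ s : Sz F m, s ≠ 1 ∧ s * s = 1 ∧ s • ω = ω := by
      by_cases h : t * t = 1
      · exact ⟨t, ht1, h, htω⟩
      · refine ⟨t * t, h, ?_, ?_⟩
        · rw [← ht4]; simp [pow_succ, mul_assoc]
        · rw [mul_smul, htω, htω]
    have hs4 : s ^ 4 = 1 := by
      have : s ^ 4 = (s * s) * (s * s) := by simp [pow_succ, mul_assoc]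
      rw [this, hss, one_mul]
    obtain ⟨k, hk⟩ := sz_two_elt_conj hm hF hs1 hs4
    have hk1 : k⁻¹ * s * k ≠ 1 := by
      intro h
      apply hs1
      have : s = k * (k⁻¹ * s * k) * k⁻¹ := by group
      rw [this, h]; group
    have hkk : (k⁻¹ * s * k) * (k⁻¹ * s * k) = 1 := by
      have : (k⁻¹ * s * k) * (k⁻¹ * s * k) = k⁻¹ * (s * s) * k := by group
      rw [this, hss]; group
    obtain ⟨b, hb, hbeq⟩ := sz_invol_eq_szUc hF hk hk1 hkk
    have hα : szUc (m := m) hF b • (k⁻¹ • ω) = k⁻¹ • ω := by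
      rw [← hbeq, ← mul_smul]
      have : k⁻¹ * s * k * k⁻¹ = k⁻¹ * s := by group
      rw [this, mul_smul, hsω]
    have hHtop : stabilizer (Sz F m) (k⁻¹ • ω) ≠ ⊤ := by
      intro htop
      have hall : ∀ ω' : Ω, ω' = k⁻¹ • ω := by
        intro ω'
        obtain ⟨g, rfl⟩ := exists_smul_eq (Sz F m) (k⁻¹ • ω) ω'
        have : g ∈ stabilizer (Sz F m) (k⁻¹ • ω) := by rw [htop]; trivial
        exact this
      have hsub : (fixedBy Ω g₀).ncard ≤ 1 := by
        rw [Set.ncard_le_one (Set.toFinite _)]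
        intro a _ b _
        rw [hall a, hall b]
      omega
    exact sz_fix_caseA_concl hm hF htr _ (sz_fix_caseA hm hF hfix _ hHtop hb hα)
  · right
    push Not at hcase
    have hno : ∀ t : Sz F m, t ≠ 1 → t ^ 4 = 1 → ∀ ω : Ω, t • ω ≠ ω := hcase
    have hne : stabilizer (Sz F m) ω₀ ≠ ⊥ := by
      intro h
      have : g₀ ∈ stabilizer (Sz F m) ω₀ := hω₀
      rw [h, Subgroup.mem_bot] at this
      exact hg₀ this
    have h0 := sz_fix_caseB hm hF hfix hno ω₀ hne
    have hall : ∀ α : Ω, Nat.card (stabilizer (Sz F m) α) = 2 ^ (2 * m + 1) - 1 := by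
      intro α
      obtain ⟨g, rfl⟩ := exists_smul_eq (Sz F m) ω₀ α
      rw [MulAction.stabilizer_smul_eq_stabilizer_map_conj,
        Subgroup.card_map_of_injective (MulEquiv.injective _), h0]
    refine ⟨?_, hall⟩
    have h1 := Subgroup.index_mul_card (stabilizer (Sz F m) ω₀)
    rw [MulAction.index_stabilizer_of_transitive, h0, sz_card hm hF] at h1
    have hQ : 2 ≤ 2 ^ (2 * m + 1) := by
      calc 2 = 2 ^ 1 := by norm_num
        _ ≤ 2 ^ (2 * m + 1) := Nat.pow_le_pow_right (by norm_num) (by omega)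
    have hpos : 0 < 2 ^ (2 * m + 1) - 1 := by omega
    exact Nat.eq_of_mul_eq_mul_right hpos h1

end

end Cfsg.Agent.H8
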