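import Mathlib
import Cfsg.Agent.H8.SzFix3
import Cfsg.Agent.H8.SzLie2

set_option autoImplicit false

namespace Cfsg.Agent.H8

open Cfsg Matrix MulAction Module

/-- **Fixity two actions of the Suzuki groups** (Lie model) -/
theorem lieSz_fixity_two {G : Type*} [Group G] [Finite G] (F : Type) [Field F] [Fintype F]
    (m : ℕ) (hm : 1 ≤ m) (hF : Fintype.card F = 2 ^ (2 * m + 1))
    (e : G ≃* ↥(Cfsg.Lie.Sz F (2 ^ (m + 1)))) {Ω : Type*} [Fintype Ω] [MulAction G Ω]
    (htr : MulAction.IsPretransitive G Ω)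
    (hfix : ∀ g : G, g ≠ 1 → Nat.card (MulAction.fixedBy Ω g) ≤ 2)
    (hex : ∃ g : G, g ≠ 1 ∧ Nat.card (MulAction.fixedBy Ω g) = 2) :
    (Fintype.card Ω = Fintype.card F ^ 2 + 1 ∧ MulAction.IsMultiplyPretransitive G Ω 2) ∨
    (Fintype.card Ω = Fintype.card F ^ 2 * (Fintype.card F ^ 2 + 1) ∧
      ∀ α : Ω, Nat.card (MulAction.stabilizer G α) = Fintype.card F - 1) := by
  classical
  let ψ : Sz F m ≃* G := (lieSzEquiv hm hF).trans e.symm
  let act : MulAction (Sz F m) Ω := MulAction.compHom Ω ψ.toMonoidHom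
  have hsmul : ∀ (s : Sz F m) (ω : Ω), s • ω = ψ s • ω := fun s ω => rfl
  have htr' : IsPretransitive (Sz F m) Ω := by
    refine ⟨fun x y => ?_⟩
    obtain ⟨g, hg⟩ := exists_smul_eq G x y
    exact ⟨ψ.symm g, by rw [hsmul, MulEquiv.apply_symm_apply, hg]⟩
  have hfb : ∀ s : Sz F m, fixedBy Ω s = fixedBy Ω (ψ s) := by
    intro s; ext ω; rfl
  have hfix' : ∀ s : Sz F m, s ≠ 1 → (fixedBy Ω s).ncard ≤ 2 := by
    intro s hs
    rw [hfb, ← Nat.card_coe_set_eq]
    exact hfix (ψ s) (fun h => hs (ψ.injective (by rw [h, map_one])))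
  have hex' : ∃ s : Sz F m, s ≠ 1 ∧ (fixedBy Ω s).ncard = 2 := by
    obtain ⟨g, hg, hg2⟩ := hex
    refine ⟨ψ.symm g, fun h => hg ?_, ?_⟩
    · have := congrArg ψ h
      rwa [MulEquiv.apply_symm_apply, map_one] at this
    · rw [hfb, MulEquiv.apply_symm_apply, ← Nat.card_coe_set_eq]; exact hg2
  have hstab : ∀ α : Ω, Nat.card (stabilizer G α) = Nat.card (stabilizer (Sz F m) α) := by
    intro α
    have : stabilizer G α = (stabilizer (Sz F m) α).map ψ.toMonoidHom := by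
      ext g
      rw [Subgroup.mem_map]
      constructor
      · intro hg
        refine ⟨ψ.symm g, ?_, by simp⟩
        rw [mem_stabilizer_iff, hsmul, MulEquiv.apply_symm_apply]; exact hg
      · rintro ⟨s, hs, rfl⟩
        exact hs
    rw [this, Subgroup.card_map_of_injective ψ.injective]
  rcases sz_fixity_two hm hF htr' hfix' hex' with ⟨h1, h2⟩ | ⟨h1, h2⟩
  · left
    refine ⟨?_, ?_⟩
    · rw [← Nat.card_eq_fintype_card, h1, hF]
    · rw [MulAction.is_two_pretransitive_iff] at h2 ⊢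
      intro a b c d hab hcd
      obtain ⟨s, hs1, hs2⟩ := h2 hab hcd
      exact ⟨ψ s, hs1, hs2⟩
  · right
    refine ⟨?_, fun α => ?_⟩
    · rw [← Nat.card_eq_fintype_card, h1, hF]
    · rw [hstab, h2, hF]

end Cfsg.Agent.H8
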