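import Mathlib
import Cfsg.Agent.H8.SzPG2

set_option autoImplicit false

namespace Cfsg.Agent.H8

open Cfsg Matrix MulAction Module

/-- **Suzuki groups are not recognisable by their prime graph** -/
theorem lieSz_primeGraph {F : Type*} [Field F] [Fintype F] {m : ℕ} (hm : 1 ≤ m)
    (hF : Fintype.card F = 2 ^ (2 * m + 1)) (N : ℕ) :
    ∃ (H : Type) (_ : Group H) (_ : Fintype H), N < Fintype.card H ∧
      ((∀ r : ℕ, r.Prime → (r ∣ Nat.card ↥(Cfsg.Lie.Sz F (2 ^ (m + 1))) ↔ r ∣ Nat.card H)) ∧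
      (∀ r s : ℕ, r.Prime → s.Prime → r ≠ s →
        ((∃ x : ↥(Cfsg.Lie.Sz F (2 ^ (m + 1))), orderOf x = r * s) ↔
          (∃ y : H, orderOf y = r * s)))) := by
  classical
  have : Fact (Nat.Prime 2) := ⟨Nat.prime_two⟩
  let instF : Fintype (GaloisField 2 (2 * m + 1)) := Fintype.ofFinite _
  have hF' : Fintype.card (GaloisField 2 (2 * m + 1)) = 2 ^ (2 * m + 1) := by
    rw [← Nat.card_eq_fintype_card]; exact GaloisField.card 2 (2 * m + 1) (by omega)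
  have : Finite (Multiplicative (Fin (N + 1) → Fin 4 → GaloisField 2 (2 * m + 1)) ⋊[
      szModHom (GaloisField 2 (2 * m + 1)) m (N + 1)] Sz (GaloisField 2 (2 * m + 1)) m) :=
    Finite.of_equiv _ SemidirectProduct.equivProd.symm
  have hcH : Nat.card (Multiplicative (Fin (N + 1) → Fin 4 → GaloisField 2 (2 * m + 1)) ⋊[
      szModHom (GaloisField 2 (2 * m + 1)) m (N + 1)] Sz (GaloisField 2 (2 * m + 1)) m) =
      ((2 ^ (2 * m + 1)) ^ 4) ^ (N + 1) *
        ((2 ^ (2 * m + 1)) ^ 2 * ((2 ^ (2 * m + 1)) ^ 2 + 1) * (2 ^ (2 * m + 1) - 1)) := by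
    rw [SemidirectProduct.card, sz_card hm hF']
    congr 1
    rw [Nat.card_congr Multiplicative.toAdd, Nat.card_eq_fintype_card, Fintype.card_fun,
      Fintype.card_fun, hF', Fintype.card_fin, Fintype.card_fin]
  have hcL : Nat.card ↥(Cfsg.Lie.Sz F (2 ^ (m + 1))) =
      (2 ^ (2 * m + 1)) ^ 2 * ((2 ^ (2 * m + 1)) ^ 2 + 1) * (2 ^ (2 * m + 1) - 1) := by
    rw [← Nat.card_congr (lieSzEquiv hm hF).toEquiv, sz_card hm hF]
  have hQ2 : 2 ≤ 2 ^ (2 * m + 1) := by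
    calc 2 = 2 ^ 1 := by norm_num
      _ ≤ 2 ^ (2 * m + 1) := Nat.pow_le_pow_right (by norm_num) (by omega)
  let instH : Fintype (Multiplicative (Fin (N + 1) → Fin 4 → GaloisField 2 (2 * m + 1)) ⋊[
      szModHom (GaloisField 2 (2 * m + 1)) m (N + 1)] Sz (GaloisField 2 (2 * m + 1)) m) :=
    Fintype.ofFinite _
  refine ⟨Multiplicative (Fin (N + 1) → Fin 4 → GaloisField 2 (2 * m + 1)) ⋊[
      szModHom (GaloisField 2 (2 * m + 1)) m (N + 1)] Sz (GaloisField 2 (2 * m + 1)) m,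
    inferInstance, instH, ?_, ?_, ?_⟩
  · rw [← Nat.card_eq_fintype_card, hcH]
    have h1 : 2 ^ (N + 1) ≤ ((2 ^ (2 * m + 1)) ^ 4) ^ (N + 1) := by
      apply Nat.pow_le_pow_left
      calc 2 ≤ 2 ^ (2 * m + 1) := hQ2
        _ = (2 ^ (2 * m + 1)) ^ 1 := (pow_one _).symm
        _ ≤ (2 ^ (2 * m + 1)) ^ 4 := Nat.pow_le_pow_right (by omega) (by norm_num)
    have h2 : N + 1 < 2 ^ (N + 1) := Nat.lt_two_pow_self
    have h3 : 0 < (2 ^ (2 * m + 1)) ^ 2 * ((2 ^ (2 * m + 1)) ^ 2 + 1) * (2 ^ (2 * m + 1) - 1) :=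
      Nat.mul_pos (Nat.mul_pos (by positivity) (by positivity)) (by omega)
    calc N < 2 ^ (N + 1) := by omega
      _ ≤ ((2 ^ (2 * m + 1)) ^ 4) ^ (N + 1) := h1
      _ ≤ _ := Nat.le_mul_of_pos_right _ h3
  · intro r hr
    rw [hcH, hcL]
    constructor
    · intro h
      exact dvd_mul_of_dvd_right h _
    · intro h
      rcases (Nat.Prime.dvd_mul hr).1 h with h | h
      · have h1 : r ∣ 2 := hr.dvd_of_dvd_pow (hr.dvd_of_dvd_pow (hr.dvd_of_dvd_pow h))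
        have h2 : r ∣ (2 ^ (2 * m + 1)) ^ 2 :=
          h1.trans (dvd_pow (dvd_pow_self 2 (by omega)) (by norm_num))
        exact dvd_mul_of_dvd_left (dvd_mul_of_dvd_left h2 _) _
      · exact h
  · intro r s hr hs hrs
    rw [sz_modExt_orderOf hm hF' (N + 1) hr hs hrs, sz_exists_orderOf_iff hm hF' hr hs hrs,
      ← sz_exists_orderOf_iff hm hF hr hs hrs]
    constructor
    · rintro ⟨x, hx⟩
      exact ⟨(lieSzEquiv hm hF).symm x, by rw [MulEquiv.orderOf_eq, hx]⟩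
    · rintro ⟨x, hx⟩
      exact ⟨(lieSzEquiv hm hF) x, by rw [MulEquiv.orderOf_eq, hx]⟩

end Cfsg.Agent.H8
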