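import Mathlib
import Cfsg.Agent.H8.SzChar
import Cfsg.Agent.H8.SzSyl

set_option autoImplicit false

namespace Cfsg.Agent.H8

open Cfsg

section

variable {G : Type*} [Group G] {F : Type*} [Field F] [Fintype F] {m : ℕ}
  {V : Type*} [AddCommGroup V] [Module ℂ V]

/-- the projection onto the `μ`-eigenspace of the central elements -/
noncomputable def szIdem (m : ℕ) (ρ : Representation ℂ G V) (Z : F → G) (μ : F) : Module.End ℂ V :=
  ((Fintype.card F : ℂ))⁻¹ • ∑ c : F, szPsi m (μ * c) • ρ (Z c)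

/-- the `μ`-eigenspace of the central elements -/
noncomputable def szEig (m : ℕ) (ρ : Representation ℂ G V) (Z : F → G) (μ : F) : Submodule ℂ V where
  carrier := {v | ∀ c, ρ (Z c) v = szPsi m (μ * c) • v}
  add_mem' := by
    intro v w hv hw c
    rw [map_add, hv c, hw c, smul_add]
  zero_mem' := by intro c; simp
  smul_mem' := by
    intro t v hv c
    rw [map_smul, hv c, smul_comm]

omit [Fintype F] in
theorem mem_szEig (ρ : Representation ℂ G V) (Z : F → G) (μ : F) (v : V) :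
    v ∈ szEig m ρ Z μ ↔ ∀ c, ρ (Z c) v = szPsi m (μ * c) • v := Iff.rfl

theorem szIdem_mul (hF : Fintype.card F = 2 ^ (2 * m + 1)) (ρ : Representation ℂ G V) (Z : F → G)
    (hZadd : ∀ c c', Z (c + c') = Z c * Z c') (μ c' : F) :
    ρ (Z c') * szIdem m ρ Z μ = szPsi m (μ * c') • szIdem m ρ Z μ := by
  have hchar := sz_charP hF
  unfold szIdem
  rw [mul_smul_comm, smul_comm (szPsi m (μ * c'))]
  congr 1
  rw [Finset.mul_sum, Finset.smul_sum]
  rw [← Equiv.sum_comp (Equiv.addLeft c') (fun c => szPsi m (μ * c') • szPsi m (μ * c) • ρ (Z c))]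
  apply Finset.sum_congr rfl
  intro c _
  simp only [Equiv.coe_addLeft]
  rw [mul_smul_comm, ← map_mul, ← hZadd, smul_smul]
  congr 1
  rw [← szPsi_add hF]
  congr 1
  have : μ * c' + μ * (c' + c) = μ * c + (μ * c' + μ * c') := by ring
  rw [this, CharTwo.add_self_eq_zero, add_zero]

theorem szIdem_isProj (hF : Fintype.card F = 2 ^ (2 * m + 1)) (ρ : Representation ℂ G V) (Z : F → G)
    (hZadd : ∀ c c', Z (c + c') = Z c * Z c') (μ : F) :
    LinearMap.IsProj (szEig m ρ Z μ) (szIdem m ρ Z μ) := by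
  constructor
  · intro v c
    have := congrArg (fun T : Module.End ℂ V => T v) (szIdem_mul hF ρ Z hZadd μ c)
    simpa using this
  · intro v hv
    unfold szIdem
    rw [LinearMap.smul_apply, LinearMap.sum_apply]
    have h1 : ∀ c : F, (szPsi m (μ * c) • ρ (Z c)) v = v := by
      intro c
      rw [LinearMap.smul_apply, hv c, smul_smul, szPsi_mul_self, one_smul]
    simp only [h1, Finset.sum_const, Finset.card_univ]
    rw [← Nat.cast_smul_eq_nsmul ℂ, smul_smul, inv_mul_cancel₀, one_smul]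
    rw [hF]; exact_mod_cast (pow_pos (by norm_num : (0:ℕ) < 2) _).ne' 

theorem szIdem_sum (hF : Fintype.card F = 2 ^ (2 * m + 1)) (ρ : Representation ℂ G V) (Z : F → G)
    (hZadd : ∀ c c', Z (c + c') = Z c * Z c') : ∑ μ : F, szIdem m ρ Z μ = 1 := by
  classical
  unfold szIdem
  rw [← Finset.smul_sum, Finset.sum_comm]
  have h1 : ∀ c : F, ∑ μ : F, szPsi m (μ * c) • ρ (Z c) =
      if c = 0 then (Fintype.card F : ℂ) • (1 : Module.End ℂ V) else 0 := by
    intro c
    rw [← Finset.sum_smul]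
    split_ifs with hc
    · subst hc
      have hZ0 : Z 0 = 1 := by
        have := hZadd 0 0
        rw [add_zero] at this
        exact (mul_eq_left (a := Z 0)).1 this.symm
      simp [szPsi_zero, hZ0]
    · rw [szPsi_sum_mul' hF hc, zero_smul]
  simp only [h1, Finset.sum_ite_eq', Finset.mem_univ, if_true]
  rw [smul_smul, inv_mul_cancel₀, one_smul]
  rw [hF]; exact_mod_cast (pow_pos (by norm_num : (0:ℕ) < 2) _).ne' 

theorem szIdem_conj (ρ : Representation ℂ G V) (Z : F → G) (h : G) {ν : F} (hν : ν ≠ 0)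
    (hh : ∀ c, h * Z c = Z (ν * c) * h) (μ : F) :
    ρ h * szIdem m ρ Z μ = szIdem m ρ Z (μ / ν) * ρ h := by
  unfold szIdem
  rw [mul_smul_comm, smul_mul_assoc]
  congr 1
  rw [Finset.mul_sum, Finset.sum_mul]
  rw [← Equiv.sum_comp (Equiv.mulLeft₀ ν hν) (fun c => (szPsi m (μ / ν * c) • ρ (Z c)) * ρ h)]
  apply Finset.sum_congr rfl
  intro c _
  show ρ h * szPsi m (μ * c) • ρ (Z c) = (szPsi m (μ / ν * (ν * c)) • ρ (Z (ν * c))) * ρ h
  rw [mul_smul_comm, smul_mul_assoc, ← map_mul, ← map_mul, hh c]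
  congr 2
  field_simp

theorem szIdem_trace_conj (ρ : Representation ℂ G V) (Z : F → G) (h : G) {ν : F} (hν : ν ≠ 0)
    (hh : ∀ c, h * Z c = Z (ν * c) * h) (μ : F) :
    LinearMap.trace ℂ V (szIdem m ρ Z (μ / ν)) = LinearMap.trace ℂ V (szIdem m ρ Z μ) := by
  have h1 := szIdem_conj (m := m) ρ Z h hν hh μ
  have h2 : szIdem m ρ Z (μ / ν) = ρ h * szIdem m ρ Z μ * ρ h⁻¹ := by
    rw [h1, mul_assoc, ← map_mul, mul_inv_cancel, map_one, mul_one]
  rw [h2, LinearMap.trace_mul_comm, ← mul_assoc, ← map_mul, inv_mul_cancel, map_one, one_mul]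

end

end Cfsg.Agent.H8
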