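import Mathlib
import Cfsg.Agent.H8.SzRepA

set_option autoImplicit false

namespace Cfsg.Agent.H8

open Cfsg

section

variable {G : Type*} [Group G] {F : Type*} [Field F] [Fintype F] {m : ℕ}
  {V : Type*} [AddCommGroup V] [Module ℂ V]

/-- the dimension of a non-zero eigenspace of the central elements for the character `ψ` -/
theorem szEig_finrank_ge [FiniteDimensional ℂ V] (hF : Fintype.card F = 2 ^ (2 * m + 1))
    (ρ : Representation ℂ G V) (Z U : F → G)
    (hUZ : ∀ a c, U a * Z c = Z c * U a)
    (hUU : ∀ a b, U b * U a = Z (szT m b * a + szT m a * b) * (U a * U b))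
    (hne : szEig m ρ Z 1 ≠ ⊥) : 2 ^ m ≤ Module.finrank ℂ (szEig m ρ Z 1) := by
  classical
  have hchar := sz_charP hF
  -- invariance
  have hmaps : ∀ g : G, (∀ c, g * Z c = Z c * g) → ∀ v ∈ szEig m ρ Z 1, ρ g v ∈ szEig m ρ Z 1 := by
    intro g hg v hv c
    have : ρ (Z c) (ρ g v) = ρ g (ρ (Z c) v) := by
      rw [← Module.End.mul_apply, ← map_mul, ← hg c, map_mul, Module.End.mul_apply]
    rw [this, hv c, map_smul]
  have hUZ' : ∀ a c, (U a)⁻¹ * Z c = Z c * (U a)⁻¹ := by
    intro a c
    calc (U a)⁻¹ * Z c = (U a)⁻¹ * (Z c * U a) * (U a)⁻¹ := by group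
      _ = (U a)⁻¹ * (U a * Z c) * (U a)⁻¹ := by rw [hUZ a c]
      _ = Z c * (U a)⁻¹ := by group
  let T : F → Module.End ℂ (szEig m ρ Z 1) :=
    fun a => (ρ (U a)).restrict (hmaps (U a) (hUZ a))
  let S : F → Module.End ℂ (szEig m ρ Z 1) :=
    fun a => (ρ (U a)⁻¹).restrict (hmaps (U a)⁻¹ (hUZ' a))
  have hTS : ∀ a, T a * S a = 1 := by
    intro a
    apply LinearMap.ext
    intro w
    apply Subtype.ext
    show ρ (U a) (ρ (U a)⁻¹ w.1) = w.1
    rw [← Module.End.mul_apply, ← map_mul, mul_inv_cancel, map_one, Module.End.one_apply]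
  have hcomm : ∀ a b, T b * T a = szPsi m (szT m b * a + szT m a * b) • (T a * T b) := by
    intro a b
    apply LinearMap.ext
    intro w
    apply Subtype.ext
    show ρ (U b) (ρ (U a) w.1) = szPsi m (szT m b * a + szT m a * b) • ρ (U a) (ρ (U b) w.1)
    have h1 : ρ (U a) (ρ (U b) w.1) ∈ szEig m ρ Z 1 :=
      hmaps (U a) (hUZ a) _ (hmaps (U b) (hUZ b) _ w.2)
    have h2 := h1 (szT m b * a + szT m a * b)
    rw [one_mul] at h2
    rw [← h2, ← Module.End.mul_apply, ← Module.End.mul_apply, ← Module.End.mul_apply, ← map_mul,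
      ← map_mul, ← map_mul, hUU a b, mul_assoc]
  -- a non-zero vector
  obtain ⟨w₀, hw₀, hw₀0⟩ := (Submodule.ne_bot_iff _).1 hne
  have hT0 : ∀ a, T a ≠ 0 := by
    intro a h
    have h1 := hTS a
    rw [h, zero_mul] at h1
    have h2 := congrArg (fun X : Module.End ℂ (szEig m ρ Z 1) => (X ⟨w₀, hw₀⟩).1) h1
    simp only [LinearMap.zero_apply, Module.End.one_apply, ZeroMemClass.coe_zero] at h2
    exact hw₀0 h2.symm
  -- linear independence
  have hli : LinearIndependent ℂ (fun a : {a : F // szTr m a = 0} => T a.1) := by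
    rw [Fintype.linearIndependent_iff]
    intro g hg a₀
    have h1 : ∀ b : F, ∑ a : {a : F // szTr m a = 0},
        (g a * szPsi m (szT m b * a.1 + szT m a.1 * b)) • T a.1 = 0 := by
      intro b
      have h := congrArg (fun X => T b * X * S b) hg
      simp only [Finset.mul_sum, Finset.sum_mul, mul_zero, zero_mul] at h
      rw [← h]
      apply Finset.sum_congr rfl
      intro a _
      rw [mul_smul_comm, smul_mul_assoc, hcomm, smul_mul_assoc, mul_assoc, hTS, mul_one, smul_smul]
    have h2 : ∑ b : F, szPsi m (szT m b * a₀.1 + szT m a₀.1 * b) •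
        ∑ a : {a : F // szTr m a = 0},
          (g a * szPsi m (szT m b * a.1 + szT m a.1 * b)) • T a.1 = 0 := by
      apply Finset.sum_eq_zero
      intro b _
      rw [h1 b, smul_zero]
    simp only [Finset.smul_sum] at h2
    rw [Finset.sum_comm] at h2
    have h3 : ∀ a : {a : F // szTr m a = 0},
        ∑ b : F, szPsi m (szT m b * a₀.1 + szT m a₀.1 * b) •
          (g a * szPsi m (szT m b * a.1 + szT m a.1 * b)) • T a.1 =
        if a = a₀ then ((Fintype.card F : ℂ) * g a) • T a.1 else 0 := by
      intro a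
      simp only [smul_smul]
      rw [← Finset.sum_smul]
      have h4 : ∑ b : F, szPsi m (szT m b * a₀.1 + szT m a₀.1 * b) *
          (g a * szPsi m (szT m b * a.1 + szT m a.1 * b)) =
          g a * ∑ b : F, szPsi m (szT m b * (a₀.1 + a.1) + szT m (a₀.1 + a.1) * b) := by
        rw [Finset.mul_sum]
        apply Finset.sum_congr rfl
        intro b _
        have h5 : szT m b * (a₀.1 + a.1) + szT m (a₀.1 + a.1) * b =
            (szT m b * a₀.1 + szT m a₀.1 * b) + (szT m b * a.1 + szT m a.1 * b) := by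
          rw [szT_add hF]; ring
        rw [h5, szPsi_add hF (szT m b * a₀.1 + szT m a₀.1 * b) (szT m b * a.1 + szT m a.1 * b)]
        ring
      rw [h4]
      split_ifs with h
      · subst h
        have h6 : ∀ b : F, szPsi m (szT m b * (a.1 + a.1) + szT m (a.1 + a.1) * b) = 1 := by
          intro b
          rw [CharTwo.add_self_eq_zero, szT_zero, mul_zero, zero_mul, add_zero, szPsi_zero]
        simp only [h6, Finset.sum_const, Finset.card_univ, nsmul_eq_mul, mul_one]
        rw [mul_comm]
      · rw [szPsi_pair_sum hF ?_ ?_, mul_zero, zero_smul]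
        · intro h0
          apply h
          apply Subtype.ext
          have h7 : a.1 = (a₀.1 + a.1) + a₀.1 := by
            rw [add_comm a₀.1 a.1, add_assoc, CharTwo.add_self_eq_zero, add_zero]
          rw [h7, h0, zero_add]
        · intro h1'
          have h8 := szTr_add hF a₀.1 a.1
          rw [h1', szTr_one hF, a₀.2, a.2, add_zero] at h8
          exact one_ne_zero h8
    simp only [h3, Finset.sum_ite_eq', Finset.mem_univ, if_true] at h2
    rcases smul_eq_zero.1 h2 with h9 | h9
    · rcases mul_eq_zero.1 h9 with h10 | h10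
      · exfalso
        rw [hF] at h10
        exact (pow_pos (by norm_num : (0 : ℕ) < 2) (2 * m + 1)).ne' (by exact_mod_cast h10)
      · exact h10
    · exact absurd h9 (hT0 _)
  have hcard := hli.fintype_card_le_finrank
  rw [Module.finrank_linearMap, ← Nat.card_eq_fintype_card, szTr_ker_card hF] at hcard
  by_contra hlt
  push Not at hlt
  have h11 : Module.finrank ℂ (szEig m ρ Z 1) * Module.finrank ℂ (szEig m ρ Z 1) <
      2 ^ m * 2 ^ m := Nat.mul_self_lt_mul_self hlt
  have h12 : 2 ^ m * 2 ^ m = 2 ^ (2 * m) := by rw [← pow_add]; congr 1; ring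
  omega

end

end Cfsg.Agent.H8
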