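import Mathlib
import Cfsg.Agent.H8.SzRepB

set_option autoImplicit false

namespace Cfsg.Agent.H8

open Cfsg

theorem subrep_bot_toSubmodule {G : Type*} [Group G] {V : Type*} [AddCommGroup V] [Module ℂ V]
    (ρ : Representation ℂ G V) : (⊥ : Subrepresentation ρ).toSubmodule = ⊥ := rfl

theorem subrep_top_toSubmodule {G : Type*} [Group G] {V : Type*} [AddCommGroup V] [Module ℂ V]
    (ρ : Representation ℂ G V) : (⊤ : Subrepresentation ρ).toSubmodule = ⊤ := rfl

/-- an irreducible representation on which the group acts trivially has dimension at most one -/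
theorem finrank_le_one_of_trivial {G : Type*} [Group G] {V : Type*} [AddCommGroup V] [Module ℂ V]
    [FiniteDimensional ℂ V]
    (ρ : Representation ℂ G V) (hall : ∀ g, ρ g = 1) (hirr : ρ.IsIrreducible) :
    Module.finrank ℂ V ≤ 1 := by
  by_contra hlt
  push Not at hlt
  have hnt : Nontrivial V := Module.nontrivial_of_finrank_pos (R := ℂ) (by omega)
  obtain ⟨v, hv⟩ := exists_ne (0 : V)
  have hL : ∀ (g : G) ⦃w : V⦄, w ∈ Submodule.span ℂ {v} → ρ g w ∈ Submodule.span ℂ {v} := by
    intro g w hw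
    rw [hall g]; exact hw
  rcases hirr.eq_bot_or_eq_top (⟨Submodule.span ℂ {v}, hL⟩ : Subrepresentation ρ) with h | h
  · have h4 := congrArg Subrepresentation.toSubmodule h
    rw [subrep_bot_toSubmodule] at h4
    have h5 : Submodule.span ℂ {v} = ⊥ := h4
    rw [Submodule.span_singleton_eq_bot] at h5
    exact hv h5
  · have h4 := congrArg Subrepresentation.toSubmodule h
    rw [subrep_top_toSubmodule] at h4
    have h5 : Submodule.span ℂ {v} = ⊤ := h4
    have h6 := finrank_span_singleton (K := ℂ) hv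
    rw [h5, finrank_top] at h6
    omega

section

variable {G : Type*} [Group G] {F : Type*} [Field F] [Fintype F] {m : ℕ}

/-- an abstract form of the lower bound for the degrees of the Suzuki groups: a simple group
containing elements subject to the relations of the Borel subgroup -/
theorem sz_rep_bound [IsSimpleGroup G] (hF : Fintype.card F = 2 ^ (2 * m + 1))
    (Z U : F → G) (H : Fˣ → G) (hZ1 : Z 1 ≠ 1)
    (hZadd : ∀ c c', Z (c + c') = Z c * Z c')
    (hUZ : ∀ a c, U a * Z c = Z c * U a)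
    (hUU : ∀ a b, U b * U a = Z (szT m b * a + szT m a * b) * (U a * U b))
    (hHZ : ∀ (κ : Fˣ) (c : F), H κ * Z c = Z ((κ : F) * szT m (κ : F) * c) * H κ)
    {k : ℕ} (ρ : Representation ℂ G (Fin k → ℂ)) (hirr : ρ.IsIrreducible) (hk : 2 ≤ k) :
    2 ^ m * (2 ^ (2 * m + 1) - 1) ≤ k := by
  classical
  have htr : ∀ μ : F, LinearMap.trace ℂ (Fin k → ℂ) (szIdem m ρ Z μ) =
      (Module.finrank ℂ (szEig m ρ Z μ) : ℂ) :=
    fun μ => (szIdem_isProj hF ρ Z hZadd μ).trace
  have hsum : ∑ μ : F, Module.finrank ℂ (szEig m ρ Z μ) = k := by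
    have h1 := congrArg (LinearMap.trace ℂ (Fin k → ℂ)) (szIdem_sum hF ρ Z hZadd)
    rw [map_sum, LinearMap.trace_one] at h1
    simp only [htr] at h1
    rw [Module.finrank_fin_fun] at h1
    exact_mod_cast h1
  have heq : ∀ μ : F, μ ≠ 0 →
      Module.finrank ℂ (szEig m ρ Z μ) = Module.finrank ℂ (szEig m ρ Z 1) := by
    intro μ hμ
    obtain ⟨κ, hκ⟩ := sz_norm_surj hF μ⁻¹
    have hκ0 : κ ≠ 0 := by
      rintro rfl
      rw [zero_mul] at hκ
      exact inv_ne_zero hμ hκ.symm
    have hν : κ * szT m κ ≠ 0 := by rw [hκ]; exact inv_ne_zero hμ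
    have h1 := szIdem_trace_conj (m := m) ρ Z (H (Units.mk0 κ hκ0)) hν
      (fun c => hHZ (Units.mk0 κ hκ0) c) 1
    rw [htr, htr, hκ, one_div, inv_inv] at h1
    exact_mod_cast h1
  have hsum' : ∑ μ : F, Module.finrank ℂ (szEig m ρ Z μ) = Module.finrank ℂ (szEig m ρ Z 0) +
      (2 ^ (2 * m + 1) - 1) * Module.finrank ℂ (szEig m ρ Z 1) := by
    rw [← Finset.add_sum_erase Finset.univ _ (Finset.mem_univ (0 : F))]
    congr 1
    rw [Finset.sum_congr rfl (fun μ hμ => heq μ (Finset.ne_of_mem_erase hμ)), Finset.sum_const,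
      Finset.card_erase_of_mem (Finset.mem_univ 0), Finset.card_univ, hF, smul_eq_mul]
  have hsplit : Module.finrank ℂ (szEig m ρ Z 0) +
      (2 ^ (2 * m + 1) - 1) * Module.finrank ℂ (szEig m ρ Z 1) = k := hsum'.symm.trans hsum
  by_cases hd : Module.finrank ℂ (szEig m ρ Z 1) = 0
  · exfalso
    have h0 : Module.finrank ℂ (szEig m ρ Z 0) = k := by
      rw [hd, mul_zero, add_zero] at hsplit; exact hsplit
    have htop : szEig m ρ Z 0 = ⊤ := by
      apply Submodule.eq_top_of_finrank_eq
      rw [Module.finrank_fin_fun]; exact h0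
    have hZt : ∀ c, ρ (Z c) = 1 := by
      intro c
      apply LinearMap.ext
      intro v
      have hv : v ∈ szEig m ρ Z 0 := by rw [htop]; trivial
      have h2 := hv c
      rw [zero_mul, szPsi_zero, one_smul] at h2
      exact h2
    have hker : MonoidHom.ker ρ = ⊤ := by
      rcases (MonoidHom.normal_ker ρ).eq_bot_or_eq_top with h | h
      · exfalso
        apply hZ1
        have h3 : Z 1 ∈ MonoidHom.ker ρ := MonoidHom.mem_ker.2 (hZt 1)
        rw [h] at h3
        exact Subgroup.mem_bot.1 h3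
      · exact h
    have hall : ∀ g, ρ g = 1 := fun g => MonoidHom.mem_ker.1 (by rw [hker]; trivial)
    have h9 := finrank_le_one_of_trivial ρ hall hirr
    rw [Module.finrank_fin_fun] at h9
    omega
  · have hne : szEig m ρ Z 1 ≠ ⊥ := by
      intro h
      apply hd
      rw [h]; exact finrank_bot ℂ (Fin k → ℂ)
    have hge := szEig_finrank_ge hF ρ Z U hUZ hUU hne
    have h8 : 2 ^ m * (2 ^ (2 * m + 1) - 1) ≤
        (2 ^ (2 * m + 1) - 1) * Module.finrank ℂ (szEig m ρ Z 1) := by
      rw [mul_comm]; exact Nat.mul_le_mul_left _ hge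
    omega

end

end Cfsg.Agent.H8
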