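import Mathlib
import Cfsg.Agent.H8.SzRepC
import Cfsg.Agent.H8.SzLie
import Cfsg.Agent.H8.SzSubg5
import Cfsg.Agent.H8.SzTI
import Cfsg.Agent.H8.NilCover

set_option autoImplicit false

namespace Cfsg.Agent.H8

open Cfsg

section

variable {F : Type*} [Field F] [Fintype F] {m : ℕ}

/-- the minimal degree of a non-trivial irreducible complex representation of a Suzuki group -/
theorem lieSz_min_degree (hm : 1 ≤ m) (hF : Fintype.card F = 2 ^ (2 * m + 1))
    (k : ℕ) (ρ : Representation ℂ (Cfsg.Lie.Sz F (2 ^ (m + 1))) (Fin k → ℂ))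
    (hirr : ρ.IsIrreducible) (hk : 2 ≤ k) : 2 ^ m * (2 ^ (2 * m + 1) - 1) ≤ k := by
  have hchar := sz_charP hF
  have := sz_simple hm hF
  have : IsSimpleGroup ↥(Cfsg.Lie.Sz F (2 ^ (m + 1))) := (lieSzEquiv hm hF).symm.isSimpleGroup
  refine sz_rep_bound hF (fun c => lieSzEquiv hm hF (szUc hF c))
    (fun a => lieSzEquiv hm hF (szUM hF a 0 : Sz F m))
    (fun κ => lieSzEquiv hm hF (szHG hF κ)) ?_ ?_ ?_ ?_ ?_ ρ hirr hk
  · intro h
    have h1 : szUc (m := m) hF 1 = 1 := by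
      have h2 := congrArg (lieSzEquiv hm hF).symm h
      simpa using h2
    exact szUc_ne_one hF one_ne_zero h1
  · intro c c'
    show lieSzEquiv hm hF (szUc hF (c + c')) =
      lieSzEquiv hm hF (szUc hF c) * lieSzEquiv hm hF (szUc hF c')
    rw [← map_mul, szUc_mul]
  · intro a c
    show lieSzEquiv hm hF (szUM hF a 0 : Sz F m) * lieSzEquiv hm hF (szUc hF c) =
      lieSzEquiv hm hF (szUc hF c) * lieSzEquiv hm hF (szUM hF a 0 : Sz F m)
    rw [← map_mul, ← map_mul]
    congr 1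
    rw [szUc_eq_szUM, ← Subgroup.coe_mul, ← Subgroup.coe_mul, szUM_mul_zero, szUM_zero_mul]
  · intro a b
    show lieSzEquiv hm hF (szUM hF b 0 : Sz F m) * lieSzEquiv hm hF (szUM hF a 0 : Sz F m) =
      lieSzEquiv hm hF (szUc hF (szT m b * a + szT m a * b)) *
        (lieSzEquiv hm hF (szUM hF a 0 : Sz F m) * lieSzEquiv hm hF (szUM hF b 0 : Sz F m))
    rw [← map_mul, ← map_mul, ← map_mul]
    congr 1
    rw [szUc_eq_szUM, ← Subgroup.coe_mul, ← Subgroup.coe_mul, ← Subgroup.coe_mul]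
    congr 1
    rw [szUM_mul, szUM_mul, szUM_zero_mul]
    congr 1
    · ring
    · have e : szT m a * b + szT m a * b = 0 := CharTwo.add_self_eq_zero _
      linear_combination (-1 : F) * e
  · intro κ c
    show lieSzEquiv hm hF (szHG hF κ) * lieSzEquiv hm hF (szUc hF c) =
      lieSzEquiv hm hF (szUc hF ((κ : F) * szT m (κ : F) * c)) * lieSzEquiv hm hF (szHG hF κ)
    rw [← map_mul, ← map_mul]
    congr 1
    have h1 := szHG_szUM hF κ 0 c
    rw [szUc_eq_szUM, szUc_eq_szUM]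
    calc szHG hF κ * (szUM hF 0 c : Sz F m) =
          (szHG hF κ * (szUM hF 0 c : Sz F m) * (szHG hF κ)⁻¹) * szHG hF κ := by group
      _ = _ := by rw [h1, mul_zero]

end

end Cfsg.Agent.H8
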