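import Mathlib
import Cfsg.Agent.H8.SzSol8

set_option autoImplicit false

namespace Cfsg.Agent.H8

open Cfsg Matrix MulAction Module

section

variable {F : Type*} [Field F] [Fintype F] {m : ℕ}

/-- fixed-point-free elements inverted by `z` -/
def szInvd (z : Sz F m) : Set (Sz F m) := {a | szReg a ∧ z * a * z⁻¹ = a⁻¹}

theorem szInvd_card (hm : 1 ≤ m) (hF : Fintype.card F = 2 ^ (2 * m + 1)) {c : F} (hc : c ≠ 0) :
    2 * (szInvd (szUc (m := m) hF c)).ncard = (2 ^ (2 * m + 1)) ^ 3 := by
  rw [← szInvReg_card hm hF hc]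
  congr 1
  have hxx := szUc_sq (m := m) hF c
  have hxinv : (szUc (m := m) hF c)⁻¹ = szUc hF c := inv_of_invol hxx
  have hxinf := szUc_smul_inf (m := m) hF c
  have h : szInvd (szUc (m := m) hF c) =
      (fun t => szUc hF c * t) '' szInvReg (szUc (m := m) hF c) := by
    ext a
    constructor
    · rintro ⟨hreg, hinv⟩
      refine ⟨szUc hF c * a, ⟨⟨?_, ?_, ?_⟩, ?_⟩, ?_⟩
      · intro h
        have : a = szUc hF c := by
          rw [← hxinv]; exact (eq_inv_of_mul_eq_one_right h)
        exact hreg (szP F m none) (by rw [this, hxinf])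
      · have : szUc hF c * a * (szUc hF c * a) = (szUc hF c * a * (szUc hF c)⁻¹) * a := by
          rw [hxinv]; group
        rw [this, hinv, inv_mul_cancel]
      · intro h
        rw [mul_smul, smul_eq_iff_eq_inv_smul, hxinv, hxinf] at h
        exact hreg _ h
      · rw [← mul_assoc, hxx, one_mul]; exact hreg
      · show szUc hF c * (szUc hF c * a) = a
        rw [← mul_assoc, hxx, one_mul]
    · rintro ⟨t, ⟨⟨ht1, htt, htinf⟩, hreg⟩, rfl⟩
      refine ⟨hreg, ?_⟩
      show szUc hF c * (szUc hF c * t) * (szUc hF c)⁻¹ = (szUc hF c * t)⁻¹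
      rw [_root_.mul_inv_rev, hxinv, inv_of_invol htt, ← mul_assoc, hxx, one_mul]
  rw [h]
  exact Set.ncard_image_of_injective _ (mul_right_injective _)

/-- the number of tori normalised by an element of order four -/
theorem szTorSet_card (hm : 1 ≤ m) (hF : Fintype.card F = 2 ^ (2 * m + 1)) {a₀ : F}
    (ha₀ : a₀ ≠ 0) (b₀ : F) :
    (szTorSet (szUM hF a₀ b₀ : Sz F m)).ncard = (2 ^ (2 * m + 1)) ^ 2 := by
  classical
  let _ : Fintype (Sz F m) := Fintype.ofFinite _
  have hc₀ : a₀ * szT m a₀ ≠ 0 := mul_ne_zero ha₀ (fun h => ha₀ (szT_eq_zero.1 h))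
  set z : Sz F m := szUc hF (a₀ * szT m a₀) with hz
  have hzz : z * z = 1 := szUc_sq hF _
  have hzinv : z⁻¹ = z := inv_of_invol hzz
  have hz1 : z ≠ 1 := szUc_ne_one hF hc₀
  set Sq : Set (Sz F m) := {y | y * y = z} with hSqdef
  have hSq : Sq = Set.range (fun b' : F => (szUM hF a₀ b' : Sz F m)) := by
    ext y
    simp only [hSqdef, Set.mem_ofPred_eq, Set.mem_range]
    rw [sz_sqrt_central hm hF ha₀]
    constructor
    · rintro ⟨b', rfl⟩; exact ⟨b', rfl⟩
    · rintro ⟨b', rfl⟩; exact ⟨b', rfl⟩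
  have hSqcard : Sq.ncard = 2 ^ (2 * m + 1) := by
    have hinj : Function.Injective (fun b' : F => (szUM hF a₀ b' : Sz F m)) := by
      intro b b' h
      exact (szUM_inj hF (Subtype.ext h)).2
    rw [hSq, ← Set.image_univ, Set.ncard_image_of_injective _ hinj, Set.ncard_univ,
      Nat.card_eq_fintype_card, hF]
  have hdc := Finset.sum_card_bipartiteAbove_eq_sum_card_bipartiteBelow
    (s := (Finset.univ : Finset (Sz F m)).filter (· ∈ Sq))
    (t := (Finset.univ : Finset (Sz F m)).filter (· ∈ szInvd z))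
    (r := fun y a => y ∈ Subgroup.normalizer
      ((Subgroup.centralizer ({a} : Set (Sz F m)) : Subgroup (Sz F m)) : Set (Sz F m)))
  have hL : ∀ y ∈ (Finset.univ : Finset (Sz F m)).filter (· ∈ Sq),
      (((Finset.univ : Finset (Sz F m)).filter (· ∈ szInvd z)).bipartiteAbove
        (fun y a => y ∈ Subgroup.normalizer
          ((Subgroup.centralizer ({a} : Set (Sz F m)) : Subgroup (Sz F m)) : Set (Sz F m))) y).card =
        (szTorSet (szUM hF a₀ b₀ : Sz F m)).ncard := by
    intro y hy
    rw [Finset.mem_filter] at hy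
    have hyy : y * y = z := hy.2
    have e0 : ((Finset.univ : Finset (Sz F m)).filter (· ∈ szInvd z)).bipartiteAbove
        (fun y a => y ∈ Subgroup.normalizer
          ((Subgroup.centralizer ({a} : Set (Sz F m)) : Subgroup (Sz F m)) : Set (Sz F m))) y =
        (Finset.univ : Finset (Sz F m)).filter (· ∈ szTorSet y) := by
      ext a
      simp only [Finset.bipartiteAbove, Finset.mem_filter, Finset.mem_univ, true_and]
      constructor
      · rintro ⟨⟨hreg, hinv⟩, hn⟩
        exact ⟨szReg_ne_one hreg, szReg_odd hm hF hreg, hn⟩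
      · rintro ⟨ha1, hodd, hn⟩
        have hy4 : y ^ 4 = 1 := by
          have : y ^ 4 = (y * y) * (y * y) := by simp [pow_succ, mul_assoc]
          rw [this, hyy, hzz]
        have hreg := sz_reg_of_four hm hF ha1 hodd hn hy4 (by rw [hyy]; exact hz1)
        have hzn : z ∈ Subgroup.normalizer
            ((Subgroup.centralizer ({a} : Set (Sz F m)) : Subgroup (Sz F m)) : Set (Sz F m)) := by
          rw [← hyy]; exact Subgroup.mul_mem _ hn hn
        refine ⟨⟨hreg, ?_⟩, hn⟩
        exact sz_invol_inverts hm hF ha1 hodd hzn hz1 hzz (mem_cent_singleton.2 rfl)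
    rw [e0, card_filter_eq_ncard]
    obtain ⟨b', rfl⟩ := (sz_sqrt_central hm hF ha₀ y).1 hyy
    exact szTorSet_card_eq hm hF ha₀ b₀ b'
  have hR : ∀ a ∈ (Finset.univ : Finset (Sz F m)).filter (· ∈ szInvd z),
      (((Finset.univ : Finset (Sz F m)).filter (· ∈ Sq)).bipartiteBelow
        (fun y a => y ∈ Subgroup.normalizer
          ((Subgroup.centralizer ({a} : Set (Sz F m)) : Subgroup (Sz F m)) : Set (Sz F m))) a).card =
        2 := by
    intro a ha
    rw [Finset.mem_filter] at ha
    obtain ⟨hreg, hinv⟩ := ha.2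
    have ha1 := szReg_ne_one hreg
    have hodd := szReg_odd hm hF hreg
    have hzn : z ∈ Subgroup.normalizer
        ((Subgroup.centralizer ({a} : Set (Sz F m)) : Subgroup (Sz F m)) : Set (Sz F m)) := by
      apply sz_mem_norm_of_conj hm hF ha1 hodd
      rw [hinv]
      exact Subgroup.inv_mem _ (mem_cent_singleton.2 rfl)
    have e0 : ((Finset.univ : Finset (Sz F m)).filter (· ∈ Sq)).bipartiteBelow
        (fun y a => y ∈ Subgroup.normalizer
          ((Subgroup.centralizer ({a} : Set (Sz F m)) : Subgroup (Sz F m)) : Set (Sz F m))) a =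
        (Finset.univ : Finset (Sz F m)).filter (· ∈ {y : Sz F m | y ∈ Subgroup.normalizer
          ((Subgroup.centralizer ({a} : Set (Sz F m)) : Subgroup (Sz F m)) : Set (Sz F m)) ∧
            y * y = z}) := by
      ext y
      simp only [Finset.bipartiteBelow, Finset.mem_filter, Finset.mem_univ, true_and]
      constructor
      · rintro ⟨h1, h2⟩; exact ⟨h2, h1⟩
      · rintro ⟨h1, h2⟩; exact ⟨h2, h1⟩
    rw [e0, card_filter_eq_ncard]
    exact sz_sqrt_card hm hF hreg hzn hz1 hzz
  rw [Finset.sum_congr rfl hL, Finset.sum_congr rfl hR, Finset.sum_const, Finset.sum_const,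
    smul_eq_mul, smul_eq_mul, card_filter_eq_ncard, card_filter_eq_ncard, hSqcard] at hdc
  have h3 := szInvd_card hm hF hc₀
  rw [← hz] at h3
  have hq : 0 < 2 ^ (2 * m + 1) := by positivity
  apply Nat.eq_of_mul_eq_mul_left hq
  rw [hdc, mul_comm, h3]
  ring

end

end Cfsg.Agent.H8
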