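import Mathlib
import Cfsg.Agent.H8.SzSol9

set_option autoImplicit false

namespace Cfsg.Agent.H8

open Cfsg Matrix MulAction Module

section

variable {F : Type*} [Field F] [Fintype F] {m : ℕ}

/-- products of an element of order four with the elements of the tori it normalises -/
theorem sz_four_tor (hm : 1 ≤ m) (hF : Fintype.card F = 2 ^ (2 * m + 1)) {x : Sz F m}
    (hx4 : x ^ 4 = 1) (hxx : x * x ≠ 1) {a : Sz F m} (ha : a ∈ szTorSet x) :
    szReg a ∧
    (∀ c ∈ Subgroup.centralizer ({a} : Set (Sz F m)),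
      x * x * c ≠ 1 ∧ (x * x * c) * (x * x * c) = 1) ∧
    ((x * a) * (x * a) ≠ 1 ∧ (x * a) ^ 4 = 1) := by
  obtain ⟨ha1, hodd, hn⟩ := ha
  have hreg := sz_reg_of_four hm hF ha1 hodd hn hx4 hxx
  have hzz : (x * x) * (x * x) = 1 := by
    have : (x * x) * (x * x) = x ^ 4 := by simp [pow_succ, mul_assoc]
    rw [this, hx4]
  have hzn : x * x ∈ Subgroup.normalizer
      ((Subgroup.centralizer ({a} : Set (Sz F m)) : Subgroup (Sz F m)) : Set (Sz F m)) :=
    Subgroup.mul_mem _ hn hn
  have hinv : ∀ c ∈ Subgroup.centralizer ({a} : Set (Sz F m)), (x * x) * c * (x * x)⁻¹ = c⁻¹ :=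
    fun c hc => sz_invol_inverts hm hF ha1 hodd hzn hxx hzz hc
  have hC : ∀ c ∈ Subgroup.centralizer ({a} : Set (Sz F m)),
      x * x * c ≠ 1 ∧ (x * x * c) * (x * x * c) = 1 := by
    intro c hc
    constructor
    · intro h
      have h1 : c = (x * x)⁻¹ := eq_inv_of_mul_eq_one_right h
      have h2 : x * x ∈ Subgroup.centralizer ({a} : Set (Sz F m)) := by
        have := Subgroup.inv_mem _ hc
        rwa [h1, inv_inv] at this
      exact sz_two_not_mem_torus hm hF ha1 hodd hxx (sq_sq_of_invol hzz) h2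
    · have hg : ∀ z c : Sz F m, z * c * (z * c) = (z * c * z⁻¹) * (z * z) * c := by
        intro z c; group
      rw [hg, hinv c hc, hzz, mul_one, inv_mul_cancel]
  refine ⟨hreg, hC, ?_⟩
  have haC : a ∈ Subgroup.centralizer ({a} : Set (Sz F m)) := mem_cent_singleton.2 rfl
  have hcC : x⁻¹ * a * x * a ∈ Subgroup.centralizer ({a} : Set (Sz F m)) :=
    Subgroup.mul_mem _ ((Subgroup.mem_set_normalizer_iff''.1 hn a).1 haC) haC
  have e : (x * a) * (x * a) = x * x * (x⁻¹ * a * x * a) := by group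
  obtain ⟨h1, h2⟩ := hC _ hcC
  constructor
  · rw [e]; exact h1
  · have : (x * a) ^ 4 = ((x * a) * (x * a)) * ((x * a) * (x * a)) := by
      simp [pow_succ, mul_assoc]
    rw [this, e]; exact h2

/-- the solubilizer of an element of order four -/
theorem sz_sol_four (hm : 1 ≤ m) (hF : Fintype.card F = 2 ^ (2 * m + 1)) {x : Sz F m}
    (hx4 : x ^ 4 = 1) (hxx : x * x ≠ 1) (hxinf : x • szP F m none = szP F m none) :
    (szSolB x ∪ szSolT x).ncard = (2 ^ (2 * m + 1)) ^ 2 * (2 ^ (2 * m + 1) + 3) := by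
  classical
  obtain ⟨h8, -⟩ := sz_cards_facts hm
  have hx1 : x ≠ 1 := by rintro rfl; exact hxx (one_mul 1)
  have hxU : x ∈ szU (m := m) hF := sz_mem_szU_of_fix hm hF hxinf hx4
  obtain ⟨a₀, b₀, hab⟩ := szUM_surj hF ⟨x, hxU⟩
  have hxe : x = (szUM hF a₀ b₀ : Sz F m) := congrArg Subtype.val hab
  have ha₀ : a₀ ≠ 0 := by
    rintro rfl
    apply hxx
    rw [hxe, ← Subgroup.coe_mul, szUM_sq, zero_mul, szUM_zero]; rfl
  have hA : (szTorSet x).ncard = (2 ^ (2 * m + 1)) ^ 2 := by
    rw [hxe]; exact szTorSet_card hm hF ha₀ b₀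
  have hzz : (x * x) * (x * x) = 1 := by
    have : (x * x) * (x * x) = x ^ 4 := by simp [pow_succ, mul_assoc]
    rw [this, hx4]
  have hzinv : (x * x)⁻¹ = x * x := inv_of_invol hzz
  have hzinf : (x * x) • szP F m none = szP F m none := by rw [mul_smul, hxinf, hxinf]
  have hxi4 : x⁻¹ ^ 4 = 1 := by rw [inv_pow, hx4, inv_one]
  have hzi : x⁻¹ * x⁻¹ = x * x := by rw [← _root_.mul_inv_rev, hzinv]
  have hxixi : x⁻¹ * x⁻¹ ≠ 1 := by rw [hzi]; exact hxx
  have hxiinf : x⁻¹ • szP F m none = szP F m none := by rw [inv_smul_eq_iff, hxinf]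
  set B : Set (Sz F m) := (stabilizer (Sz F m) (szP F m none) : Set (Sz F m)) with hB
  set A : Set (Sz F m) := szTorSet x with hAdef
  set D₁ : Set (Sz F m) := (fun a => x * x * a) '' A with hD₁
  set D₂ : Set (Sz F m) := (fun a => x * a) '' A with hD₂
  set D₃ : Set (Sz F m) := (fun a => x⁻¹ * a) '' A with hD₃
  have hSolB : szSolB x = B := by
    ext y
    constructor
    · rintro ⟨p, hp, hyp⟩
      rw [szU_fix_unique hF hxU hx1 hp] at hyp
      exact hyp
    · intro hy
      exact ⟨_, hxinf, hy⟩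
  -- facts on the elements of `A`
  have hAi : szTorSet x⁻¹ = A := szTorSet_inv x
  have f1 : ∀ a ∈ A, szReg a := fun a ha => (sz_four_tor hm hF hx4 hxx ha).1
  have f2 : ∀ a ∈ A, x * x * a ≠ 1 ∧ (x * x * a) * (x * x * a) = 1 := fun a ha =>
    (sz_four_tor hm hF hx4 hxx ha).2.1 a (mem_cent_singleton.2 rfl)
  have f3 : ∀ a ∈ A, (x * a) * (x * a) ≠ 1 ∧ (x * a) ^ 4 = 1 := fun a ha =>
    (sz_four_tor hm hF hx4 hxx ha).2.2
  have f4 : ∀ a ∈ A, (x⁻¹ * a) * (x⁻¹ * a) ≠ 1 ∧ (x⁻¹ * a) ^ 4 = 1 := fun a ha =>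
    (sz_four_tor hm hF hxi4 hxixi (hAi ▸ ha)).2.2
  have hunion : szSolB x ∪ szSolT x = B ∪ A ∪ D₁ ∪ D₂ ∪ D₃ := by
    rw [hSolB]
    ext y
    constructor
    · rintro (hy | ⟨a, ha1, hodd, hxa, hya⟩)
      · exact Or.inl (Or.inl (Or.inl (Or.inl hy)))
      · by_cases hyB : y ∈ B
        · exact Or.inl (Or.inl (Or.inl (Or.inl hyB)))
        obtain ⟨hTI, -, -, -⟩ := sz_torus_of_odd hm hF ha1 hodd
        have haA : ∀ e ∈ Subgroup.centralizer ({a} : Set (Sz F m)), e ≠ 1 → e ∈ A :=
          fun e he he1 => ⟨he1, sz_torus_mem_odd hm hF ha1 hodd he, by rw [hTI e he he1]; exact hxa⟩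
        have hzn : x * x ∈ Subgroup.normalizer
            ((Subgroup.centralizer ({a} : Set (Sz F m)) : Subgroup (Sz F m)) : Set (Sz F m)) :=
          Subgroup.mul_mem _ hxa hxa
        rcases sz_elt_trich hm hF y with h | ⟨hy1, hy4, -⟩ | ⟨hy1, hyodd, -⟩
        · exfalso
          apply hyB
          rw [h]; exact Subgroup.one_mem _
        · by_cases hyy : y * y = 1
          · have hmem := sz_invol_mul_mem hm hF ha1 hodd hzn hxx hzz hya hy1 hyy
            refine Or.inl (Or.inl (Or.inr ⟨x * x * y, haA _ hmem ?_, ?_⟩))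
            · intro h
              apply hyB
              have : y = (x * x)⁻¹ := eq_inv_of_mul_eq_one_right h
              rw [this, hzinv]; exact hzinf
            · show x * x * (x * x * y) = y
              rw [← mul_assoc, hzz, one_mul]
          · have htt : (y * y) * (y * y) = 1 := by
              have : (y * y) * (y * y) = y ^ 4 := by simp [pow_succ, mul_assoc]
              rw [this, hy4]
            have htN := Subgroup.mul_mem _ hya hya
            obtain ⟨c, hc, hct⟩ := sz_torus_conj_invol hm hF ha1 hodd hzn hxx hzz htN hyy htt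
            have hreg := sz_reg_of_four hm hF ha1 hodd hxa hx4 hxx
            have hcN : c ∈ Subgroup.normalizer
                ((Subgroup.centralizer ({a} : Set (Sz F m)) : Subgroup (Sz F m)) : Set (Sz F m)) :=
              Subgroup.le_normalizer hc
            have hy'N : c⁻¹ * y * c ∈ Subgroup.normalizer
                ((Subgroup.centralizer ({a} : Set (Sz F m)) : Subgroup (Sz F m)) : Set (Sz F m)) :=
              Subgroup.mul_mem _ (Subgroup.mul_mem _ (Subgroup.inv_mem _ hcN) hya) hcN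
            have hy'y' : (c⁻¹ * y * c) * (c⁻¹ * y * c) = x * x := by
              calc (c⁻¹ * y * c) * (c⁻¹ * y * c) = c⁻¹ * (y * y) * c := by group
                _ = x * x := by rw [← hct]; group
            have hS := sz_sqrt_card hm hF hreg hzn hxx hzz
            have hsub : ({x, x⁻¹} : Set (Sz F m)) ⊆ {y : Sz F m | y ∈ Subgroup.normalizer
                ((Subgroup.centralizer ({a} : Set (Sz F m)) : Subgroup (Sz F m)) : Set (Sz F m)) ∧
                  y * y = x * x} := by
              rintro w (rfl | rfl)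
              · exact ⟨hxa, rfl⟩
              · exact ⟨Subgroup.inv_mem _ hxa, hzi⟩
            have hne : x ≠ x⁻¹ := by
              intro h
              apply hxx
              nth_rewrite 2 [h]
              exact mul_inv_cancel x
            have heq := Set.eq_of_subset_of_ncard_le hsub (by rw [hS, Set.ncard_pair hne])
              (Set.toFinite _)
            have hy'mem : c⁻¹ * y * c ∈ ({x, x⁻¹} : Set (Sz F m)) := by
              rw [heq]; exact ⟨hy'N, hy'y'⟩
            have hyc : y = c * (c⁻¹ * y * c) * c⁻¹ := by group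
            rcases hy'mem with h | h
            · have he : x⁻¹ * c * x * c⁻¹ ∈ Subgroup.centralizer ({a} : Set (Sz F m)) :=
                Subgroup.mul_mem _ ((Subgroup.mem_set_normalizer_iff''.1 hxa c).1 hc)
                  (Subgroup.inv_mem _ hc)
              have hyx : y = x * (x⁻¹ * c * x * c⁻¹) := by
                rw [hyc, h]; group
              refine Or.inl (Or.inr ⟨x⁻¹ * c * x * c⁻¹, haA _ he ?_, hyx.symm⟩)
              intro h1
              apply hyB
              rw [hyx, h1, mul_one]; exact hxinf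
            · have he : x * c * x⁻¹ * c⁻¹ ∈ Subgroup.centralizer ({a} : Set (Sz F m)) :=
                Subgroup.mul_mem _ ((Subgroup.mem_set_normalizer_iff.1 hxa c).1 hc)
                  (Subgroup.inv_mem _ hc)
              have hyx : y = x⁻¹ * (x * c * x⁻¹ * c⁻¹) := by
                rw [hyc, h]; group
              refine Or.inr ⟨x * c * x⁻¹ * c⁻¹, haA _ he ?_, hyx.symm⟩
              intro h1
              apply hyB
              rw [hyx, h1, mul_one]; exact hxiinf
        · exact Or.inl (Or.inl (Or.inl (Or.inr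
            (haA y (sz_mem_torus_of_odd hm hF ha1 hodd hya hyodd) hy1))))
    · rintro ((((hy | hy) | ⟨a, ha, rfl⟩) | ⟨a, ha, rfl⟩) | ⟨a, ha, rfl⟩)
      · exact Or.inl hy
      · exact Or.inr ⟨y, hy.1, hy.2.1, hy.2.2, Subgroup.le_normalizer (mem_cent_singleton.2 rfl)⟩
      · exact Or.inr ⟨a, ha.1, ha.2.1, ha.2.2, Subgroup.mul_mem _
          (Subgroup.mul_mem _ ha.2.2 ha.2.2) (Subgroup.le_normalizer (mem_cent_singleton.2 rfl))⟩
      · exact Or.inr ⟨a, ha.1, ha.2.1, ha.2.2, Subgroup.mul_mem _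
          ha.2.2 (Subgroup.le_normalizer (mem_cent_singleton.2 rfl))⟩
      · exact Or.inr ⟨a, ha.1, ha.2.1, ha.2.2, Subgroup.mul_mem _
          (Subgroup.inv_mem _ ha.2.2) (Subgroup.le_normalizer (mem_cent_singleton.2 rfl))⟩
  -- disjointness
  have hd1 : Disjoint B A := by
    rw [Set.disjoint_left]
    intro y hy hyA
    exact f1 y hyA _ hy
  have hd2 : Disjoint (B ∪ A) D₁ := by
    rw [Set.disjoint_union_left]
    constructor
    · rw [Set.disjoint_left]
      rintro y hy ⟨a, ha, rfl⟩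
      have h : (x * x * a) • szP F m none = szP F m none := hy
      rw [mul_smul, smul_eq_iff_eq_inv_smul, hzinv, hzinf] at h
      exact f1 a ha _ h
    · rw [Set.disjoint_left]
      rintro y hy ⟨a, ha, rfl⟩
      obtain ⟨h1, h2⟩ := f2 a ha
      apply h1
      have h3 : (x * x * a) ^ 2 ^ 1 = 1 := by rw [pow_one, pow_two]; exact h2
      exact eq_one_of_two_pow_of_odd (j := 1) h3 dvd_rfl hy.2.1
  have hd3 : Disjoint (B ∪ A ∪ D₁) D₂ := by
    rw [Set.disjoint_union_left, Set.disjoint_union_left]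
    refine ⟨⟨?_, ?_⟩, ?_⟩
    · rw [Set.disjoint_left]
      rintro y hy ⟨a, ha, rfl⟩
      have h : (x * a) • szP F m none = szP F m none := hy
      rw [mul_smul, smul_eq_iff_eq_inv_smul, hxiinf] at h
      exact f1 a ha _ h
    · rw [Set.disjoint_left]
      rintro y hy ⟨a, ha, rfl⟩
      obtain ⟨h1, h2⟩ := f3 a ha
      apply h1
      rw [eq_one_of_two_pow_of_odd (j := 2) h2 dvd_rfl hy.2.1, one_mul]
    · rw [Set.disjoint_left]
      rintro y ⟨a', ha', rfl⟩ ⟨a, ha, h⟩
      apply (f3 a ha).1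
      have h' : x * a = x * x * a' := h
      rw [h']; exact (f2 a' ha').2
  have hd4 : Disjoint (B ∪ A ∪ D₁ ∪ D₂) D₃ := by
    rw [Set.disjoint_union_left, Set.disjoint_union_left, Set.disjoint_union_left]
    refine ⟨⟨⟨?_, ?_⟩, ?_⟩, ?_⟩
    · rw [Set.disjoint_left]
      rintro y hy ⟨a, ha, rfl⟩
      have h : (x⁻¹ * a) • szP F m none = szP F m none := hy
      rw [mul_smul, smul_eq_iff_eq_inv_smul, inv_inv, hxinf] at h
      exact f1 a ha _ h
    · rw [Set.disjoint_left]
      rintro y hy ⟨a, ha, rfl⟩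
      obtain ⟨h1, h2⟩ := f4 a ha
      apply h1
      rw [eq_one_of_two_pow_of_odd (j := 2) h2 dvd_rfl hy.2.1, one_mul]
    · rw [Set.disjoint_left]
      rintro y ⟨a', ha', rfl⟩ ⟨a, ha, h⟩
      apply (f4 a ha).1
      have h' : x⁻¹ * a = x * x * a' := h
      rw [h']; exact (f2 a' ha').2
    · rw [Set.disjoint_left]
      rintro y ⟨a', ha', rfl⟩ ⟨a, ha, h⟩
      have h' : x⁻¹ * a = x * a' := h
      have h2 : a = x * x * a' := by
        calc a = x * (x⁻¹ * a) := by group
          _ = x * x * a' := by rw [h', mul_assoc]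
      obtain ⟨h3, h4⟩ := f2 a' ha'
      apply h3
      rw [← h2]
      have h5 : a ^ 2 ^ 1 = 1 := by rw [pow_one, pow_two, h2]; exact h4
      exact eq_one_of_two_pow_of_odd (j := 1) h5 dvd_rfl ha.2.1
  -- cardinalities
  have hcB : B.ncard = (2 ^ (2 * m + 1)) ^ 2 * (2 ^ (2 * m + 1) - 1) := by
    rw [hB, ← Nat.card_coe_set_eq]; exact sz_stab_card hm hF _
  have hcD₁ : D₁.ncard = (2 ^ (2 * m + 1)) ^ 2 := by
    rw [hD₁, Set.ncard_image_of_injective _ (mul_right_injective _), hA]
  have hcD₂ : D₂.ncard = (2 ^ (2 * m + 1)) ^ 2 := by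
    rw [hD₂, Set.ncard_image_of_injective _ (mul_right_injective _), hA]
  have hcD₃ : D₃.ncard = (2 ^ (2 * m + 1)) ^ 2 := by
    rw [hD₃, Set.ncard_image_of_injective _ (mul_right_injective _), hA]
  rw [hunion, Set.ncard_union_eq hd4, Set.ncard_union_eq hd3, Set.ncard_union_eq hd2,
    Set.ncard_union_eq hd1, hcB, hcD₁, hcD₂, hcD₃, hA]
  obtain ⟨Q', hQ'⟩ : ∃ Q', 2 ^ (2 * m + 1) = Q' + 1 := ⟨2 ^ (2 * m + 1) - 1, by omega⟩
  rw [hQ']
  have e1 : Q' + 1 - 1 = Q' := by omega
  rw [e1]
  ring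

end

end Cfsg.Agent.H8
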