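import Mathlib
import Cfsg.Agent.H8.SzSol10

set_option autoImplicit false

namespace Cfsg.Agent.H8

open Cfsg Matrix MulAction Module

section

variable {F : Type*} [Field F] [Fintype F] {m : ℕ}

/-- the sizes of the solubilizers in the model of the Suzuki group -/
theorem sz_solubilizer (hm : 1 ≤ m) (hp : (2 * m + 1).Prime)
    (hF : Fintype.card F = 2 ^ (2 * m + 1)) (x : Sz F m) :
    (orderOf x = 2 →
      Nat.card {y : Sz F m // Group.IsSolvable (Subgroup.closure ({x, y} : Set (Sz F m)))} =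
        (2 ^ (2 * m + 1)) ^ 2 * (4 * 2 ^ (2 * m + 1) - 3)) ∧
    (orderOf x = 4 →
      Nat.card {y : Sz F m // Group.IsSolvable (Subgroup.closure ({x, y} : Set (Sz F m)))} =
        (2 ^ (2 * m + 1)) ^ 2 * (2 ^ (2 * m + 1) + 3)) ∧
    (x ≠ 1 → orderOf x ∣ 2 ^ (2 * m + 1) - 1 →
      Nat.card {y : Sz F m // Group.IsSolvable (Subgroup.closure ({x, y} : Set (Sz F m)))} =
        2 * (2 ^ (2 * m + 1)) ^ 2 * (2 ^ (2 * m + 1) - 1)) ∧
    (x ≠ 1 → orderOf x ∣ 2 ^ (2 * m + 1) + 2 ^ (m + 1) + 1 →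
      Nat.card {y : Sz F m // Group.IsSolvable (Subgroup.closure ({x, y} : Set (Sz F m)))} =
        4 * (2 ^ (2 * m + 1) + 2 ^ (m + 1) + 1)) ∧
    (x ≠ 1 → orderOf x ∣ 2 ^ (2 * m + 1) - 2 ^ (m + 1) + 1 →
      Nat.card {y : Sz F m // Group.IsSolvable (Subgroup.closure ({x, y} : Set (Sz F m)))} =
        4 * (2 ^ (2 * m + 1) - 2 ^ (m + 1) + 1)) := by
  refine ⟨?_, ?_, ?_, ?_, ?_⟩
  · intro ho
    have hx1 : x ≠ 1 := by
      rintro rfl
      rw [orderOf_one] at ho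
      omega
    have hxx : x * x = 1 := by rw [← pow_two, ← ho, pow_orderOf_eq_one]
    obtain ⟨k, hk⟩ := sz_two_elt_conj hm hF hx1 (sq_sq_of_invol hxx)
    have hk1 : k⁻¹ * x * k ≠ 1 := by
      intro h
      apply hx1
      have : x = k * (k⁻¹ * x * k) * k⁻¹ := by group
      rw [this, h]; group
    have hkk : (k⁻¹ * x * k) * (k⁻¹ * x * k) = 1 := by
      calc (k⁻¹ * x * k) * (k⁻¹ * x * k) = k⁻¹ * (x * x) * k := by group
        _ = 1 := by rw [hxx]; group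
    obtain ⟨b, hb, hxb⟩ := sz_invol_eq_szUc hF hk hk1 hkk
    have e2 : (MulAut.conj k⁻¹) x = szUc hF b := by
      rw [MulAut.conj_apply, inv_inv]; exact hxb
    rw [card_solubilizer_congr (MulAut.conj k⁻¹) x, e2, sz_sol_card hm hp hF, sz_sol_invol hm hF hb]
  · intro ho
    have hx4 : x ^ 4 = 1 := by
      have := pow_orderOf_eq_one x
      rw [ho] at this
      exact this
    have hxx : x * x ≠ 1 := by
      intro h
      have h2 : orderOf x ∣ 2 := orderOf_dvd_of_pow_eq_one (by rw [pow_two]; exact h)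
      rw [ho] at h2
      omega
    have hx1 : x ≠ 1 := by rintro rfl; exact hxx (one_mul 1)
    obtain ⟨k, hk⟩ := sz_two_elt_conj hm hF hx1 hx4
    have e2 : (MulAut.conj k⁻¹) x = k⁻¹ * x * k := by
      rw [MulAut.conj_apply, inv_inv]
    rw [card_solubilizer_congr (MulAut.conj k⁻¹) x, e2, sz_sol_card hm hp hF]
    apply sz_sol_four hm hF
    · have h1 : (k⁻¹ * x * k) ^ 4 = k⁻¹ * x ^ 4 * k := by
        have := conj_pow (a := k⁻¹) (b := x) (i := 4)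
        rw [inv_inv] at this
        exact this
      rw [h1, hx4]; group
    · intro h
      apply hxx
      have h2 : x * x = k * ((k⁻¹ * x * k) * (k⁻¹ * x * k)) * k⁻¹ := by group
      rw [h2, h]; group
    · rw [sz_smul_szP]; exact szU_fix_inf hF hk
  · intro hx1 ho
    rcases sz_elt_trich hm hF x with h | ⟨-, h4, -⟩ | ⟨-, hodd, hreg | ⟨k, κ, hκ, hk⟩⟩
    · exact absurd h hx1
    · exfalso
      apply hx1
      exact eq_one_of_two_pow_of_odd (j := 2) h4 ho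
        (Nat.Even.sub_odd Nat.one_le_two_pow (Nat.even_pow.2 ⟨even_two, by omega⟩) odd_one)
    · exfalso
      have hc := sz_coprime_arith (2 ^ (2 * m + 1)) (Nat.even_pow.2 ⟨even_two, by omega⟩)
        Nat.one_le_two_pow
      have h1 := szReg_order hm hF hreg
      have h2 : orderOf x ∣ (2 ^ (2 * m + 1)) ^ 2 * (2 ^ (2 * m + 1) - 1) := Dvd.dvd.mul_left ho _
      have h3 := Nat.dvd_gcd h1 h2
      rw [Nat.Coprime.gcd_eq_one hc, Nat.dvd_one] at h3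
      exact hx1 (orderOf_eq_one_iff.1 h3)
    · have e2 : (MulAut.conj k⁻¹) x = szHG hF κ := by
        rw [MulAut.conj_apply, inv_inv]; exact hk
      rw [card_solubilizer_congr (MulAut.conj k⁻¹) x, e2, sz_sol_card hm hp hF,
        sz_sol_torus hm hF hκ]
  · intro hx1 ho
    rw [sz_sol_card hm hp hF, sz_sol_plus hm hF hx1 ho]
  · intro hx1 ho
    rw [sz_sol_card hm hp hF, sz_sol_minus hm hF hx1 ho]

/-- the sizes of the solubilizers in the Suzuki group -/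
theorem lieSz_solubilizer (hm : 1 ≤ m) (hp : (2 * m + 1).Prime)
    (hF : Fintype.card F = 2 ^ (2 * m + 1)) (x : ↥(Cfsg.Lie.Sz F (2 ^ (m + 1)))) :
    (orderOf x = 2 → Nat.card {y : ↥(Cfsg.Lie.Sz F (2 ^ (m + 1))) //
      Group.IsSolvable ↥(Subgroup.closure ({x, y} : Set (↥(Cfsg.Lie.Sz F (2 ^ (m + 1))))))} =
        (2 ^ (2 * m + 1)) ^ 2 * (4 * 2 ^ (2 * m + 1) - 3)) ∧
    (orderOf x = 4 → Nat.card {y : ↥(Cfsg.Lie.Sz F (2 ^ (m + 1))) //
      Group.IsSolvable ↥(Subgroup.closure ({x, y} : Set (↥(Cfsg.Lie.Sz F (2 ^ (m + 1))))))} =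
        (2 ^ (2 * m + 1)) ^ 2 * (2 ^ (2 * m + 1) + 3)) ∧
    (x ≠ 1 → orderOf x ∣ 2 ^ (2 * m + 1) - 1 →
      Nat.card {y : ↥(Cfsg.Lie.Sz F (2 ^ (m + 1))) //
        Group.IsSolvable ↥(Subgroup.closure ({x, y} : Set (↥(Cfsg.Lie.Sz F (2 ^ (m + 1))))))} =
          2 * (2 ^ (2 * m + 1)) ^ 2 * (2 ^ (2 * m + 1) - 1)) ∧
    (x ≠ 1 → orderOf x ∣ 2 ^ (2 * m + 1) + 2 ^ (m + 1) + 1 →
      Nat.card {y : ↥(Cfsg.Lie.Sz F (2 ^ (m + 1))) //
        Group.IsSolvable ↥(Subgroup.closure ({x, y} : Set (↥(Cfsg.Lie.Sz F (2 ^ (m + 1))))))} =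
          4 * (2 ^ (2 * m + 1) + 2 ^ (m + 1) + 1)) ∧
    (x ≠ 1 → orderOf x ∣ 2 ^ (2 * m + 1) - 2 ^ (m + 1) + 1 →
      Nat.card {y : ↥(Cfsg.Lie.Sz F (2 ^ (m + 1))) //
        Group.IsSolvable ↥(Subgroup.closure ({x, y} : Set (↥(Cfsg.Lie.Sz F (2 ^ (m + 1))))))} =
          4 * (2 ^ (2 * m + 1) - 2 ^ (m + 1) + 1)) := by
  have e := card_solubilizer_congr (lieSzEquiv hm hF).symm x
  have ho : orderOf ((lieSzEquiv hm hF).symm x) = orderOf x := MulEquiv.orderOf_eq _ _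
  have h1 : x ≠ 1 → (lieSzEquiv hm hF).symm x ≠ 1 := by
    intro hx h
    apply hx
    have := congrArg (lieSzEquiv hm hF) h
    rwa [MulEquiv.apply_symm_apply, map_one] at this
  obtain ⟨c1, c2, c3, c4, c5⟩ := sz_solubilizer hm hp hF ((lieSzEquiv hm hF).symm x)
  rw [ho, ← e] at c1 c2 c3 c4 c5
  exact ⟨c1, c2, fun hx => c3 (h1 hx), fun hx => c4 (h1 hx), fun hx => c5 (h1 hx)⟩

end

end Cfsg.Agent.H8
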