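import Mathlib
import Cfsg.Agent.H64.TmDefs

/-!
# TM-CC (helper8 for helper64, S3701)

The centralizer of `c` is `⟨c⟩ × ⟨a,b,x⟩`, of order 54, inside `H`; the other elements of `H`
invert `c`.
-/

set_option autoImplicit false

namespace Cfsg.Agent.H8.Tm

open Subgroup Cfsg.Agent.H64.Tm

universe u

theorem cc (hD : StD.{u}) : StCC.{u} := by
  intro G _ _ H T a b c x y cfg
  obtain ⟨hDel, hDc, -, hDcard⟩ := hD G H T a b c x y cfg
  obtain ⟨D, hDdef⟩ : ∃ D : Subgroup G, D = closure ({a, b, x} : Set G) := ⟨_, rfl⟩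
  rw [← hDdef] at hDel hDc hDcard ⊢
  have haD : a ∈ D := by rw [hDdef]; exact subset_closure (by simp)
  have hbD : b ∈ D := by rw [hDdef]; exact subset_closure (by simp)
  have hxD : x ∈ D := by rw [hDdef]; exact subset_closure (by simp)
  have hc1 : c ≠ 1 := by
    intro h
    have h1 := (cfg.indep 0 0 1 (by simp [h])).2.2
    omega
  have hc2 : c ^ 2 = c⁻¹ := by
    apply eq_inv_of_mul_eq_one_left
    rw [← pow_succ]; exact cfg.c3
  have hcc : c⁻¹ ≠ c := by
    intro h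
    apply hc1
    have h3 : c ^ 3 = c ^ 2 * c := pow_succ c 2
    rw [cfg.c3, hc2, h, ← pow_two, hc2, h] at h3
    exact h3.symm
  have hxm : ∀ m : ℕ, x ^ m = 1 ∨ x ^ m = x := by
    intro m
    have hx2 : x ^ 2 = 1 := by rw [pow_two]; exact cfg.x2
    rcases Nat.even_or_odd' m with ⟨q, hq | hq⟩
    · left; rw [hq, pow_mul, hx2, one_pow]
    · right; rw [hq, pow_succ, pow_mul, hx2, one_pow, one_mul]
  have hcD : ∀ k : ℕ, c ^ k ∈ D → 3 ∣ k := by
    intro k hk
    obtain ⟨i, j, m, hw⟩ := hDel _ hk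
    rcases hxm m with h | h
    · rw [h, mul_one] at hw
      have h1 : a ^ i * b ^ j * c ^ (2 * k) = 1 := by
        rw [← hw, ← pow_add, show k + 2 * k = 3 * k by ring, pow_mul, cfg.c3, one_pow]
      have h2 := (cfg.indep i j (2 * k) h1).2.2
      omega
    · exfalso
      rw [h] at hw
      apply cfg.xT
      have h1 : x = (a ^ i * b ^ j)⁻¹ * c ^ k := by rw [hw]; group
      rw [h1]
      exact T.mul_mem (T.inv_mem (T.mul_mem (T.pow_mem cfg.aT i) (T.pow_mem cfg.bT j)))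
        (T.pow_mem cfg.cT k)
  have hac : Commute a c := cfg.ac
  have hbc : Commute b c := cfg.bc
  have hTc : ∀ t ∈ T, t * c = c * t := by
    intro t ht
    obtain ⟨i, j, k, rfl⟩ := cfg.Telts t ht
    exact (((hac.pow_left i).mul_left (hbc.pow_left j)).mul_left
      ((Commute.refl c).pow_left k)).eq
  have hyc : y * c * y⁻¹ = c⁻¹ := by rw [cfg.yc]; group
  have hxc' : x * c⁻¹ * x⁻¹ = c⁻¹ := by
    have h : Commute x c := cfg.xc
    rw [h.inv_right.eq]; group
  have hTc' : ∀ t ∈ T, t * c⁻¹ * t⁻¹ = c⁻¹ := by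
    intro t ht
    have h : Commute t c := hTc t ht
    rw [h.inv_right.eq]; group
  have hcase : ∀ n ∈ H, (n * c = c * n ∧ ∃ t ∈ T, n = t ∨ n = t * x) ∨ n * c * n⁻¹ = c⁻¹ := by
    intro n hn
    obtain ⟨t, ht, h | h | h | h⟩ := cfg.Helts n hn
    · left; exact ⟨by rw [h]; exact hTc t ht, t, ht, Or.inl h⟩
    · left
      refine ⟨?_, t, ht, Or.inr h⟩
      rw [h, mul_assoc, cfg.xc, ← mul_assoc, hTc t ht, mul_assoc]
    · right
      rw [h]
      calc t * y * c * (t * y)⁻¹ = t * (y * c * y⁻¹) * t⁻¹ := by group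
        _ = t * c⁻¹ * t⁻¹ := by rw [hyc]
        _ = c⁻¹ := hTc' t ht
    · right
      rw [h]
      calc t * (x * y) * c * (t * (x * y))⁻¹ = t * (x * (y * c * y⁻¹) * x⁻¹) * t⁻¹ := by group
        _ = t * (x * c⁻¹ * x⁻¹) * t⁻¹ := by rw [hyc]
        _ = t * c⁻¹ * t⁻¹ := by rw [hxc']
        _ = c⁻¹ := hTc' t ht
  have hCH : centralizer ({c} : Set G) ≤ H := cfg.loc c cfg.cT hc1
  have hmemC : ∀ g : G, g ∈ centralizer ({c} : Set G) ↔ c * g = g * c := by
    intro g
    rw [mem_centralizer_iff]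
    constructor
    · intro h; exact h c rfl
    · intro h z hz; rw [Set.mem_singleton_iff.mp hz]; exact h
  have part1 : ∀ g ∈ centralizer ({c} : Set G), ∃ w ∈ D, g = w ∨ g = c * w ∨ g = c⁻¹ * w := by
    intro g hg
    have hgc : c * g = g * c := (hmemC g).mp hg
    rcases hcase g (hCH hg) with ⟨-, t, ht, h⟩ | h
    · obtain ⟨i, j, k, rfl⟩ := cfg.Telts t ht
      have hk : c ^ k = c ^ (k % 3) := pow_eq_pow_mod k cfg.c3
      have hcomm : a ^ i * b ^ j * c ^ k = c ^ k * (a ^ i * b ^ j) :=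
        (((hac.pow_left i).mul_left (hbc.pow_left j)).pow_right k).eq
      have hk3 : k % 3 = 0 ∨ k % 3 = 1 ∨ k % 3 = 2 := by omega
      rcases h with h | h
      · refine ⟨a ^ i * b ^ j, D.mul_mem (D.pow_mem haD i) (D.pow_mem hbD j), ?_⟩
        rw [h, hcomm, hk]
        rcases hk3 with h3 | h3 | h3
        · left; rw [h3, pow_zero, one_mul]
        · right; left; rw [h3, pow_one]
        · right; right; rw [h3, hc2]
      · refine ⟨a ^ i * b ^ j * x,
          D.mul_mem (D.mul_mem (D.pow_mem haD i) (D.pow_mem hbD j)) hxD, ?_⟩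
        rw [h, hcomm, hk]
        rcases hk3 with h3 | h3 | h3
        · left; rw [h3, pow_zero, one_mul]
        · right; left; rw [h3, pow_one, mul_assoc]
        · right; right; rw [h3, hc2, mul_assoc]
    · exfalso
      apply hcc
      rw [← h, ← hgc]; group
  have hcC : c ∈ centralizer ({c} : Set G) := (hmemC c).mpr rfl
  have hDC : D ≤ centralizer ({c} : Set G) := by
    intro w hw
    exact (hmemC w).mpr (hDc w hw).symm
  refine ⟨part1, ?_, hCH, ?_⟩
  · obtain ⟨φ, hφ⟩ : ∃ φ : Fin 3 × D → centralizer ({c} : Set G),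
        ∀ p, (φ p : G) = c ^ (p.1 : ℕ) * (p.2 : G) :=
      ⟨fun p => ⟨c ^ (p.1 : ℕ) * (p.2 : G), mul_mem (pow_mem hcC _) (hDC p.2.2)⟩, fun _ => rfl⟩
    have hinj : Function.Injective φ := by
      rintro ⟨k, w⟩ ⟨k', w'⟩ h
      have h1 : c ^ (k : ℕ) * (w : G) = c ^ (k' : ℕ) * (w' : G) := by
        have := congrArg Subtype.val h
        rwa [hφ, hφ] at this
      have h0 : c ^ (3 - (k' : ℕ)) * c ^ (k' : ℕ) = 1 := by
        rw [← pow_add, Nat.sub_add_cancel (by have := k'.2; omega), cfg.c3]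
      have h2 : c ^ (3 - (k' : ℕ) + (k : ℕ)) = (w' : G) * (w : G)⁻¹ := by
        calc c ^ (3 - (k' : ℕ) + (k : ℕ))
            = c ^ (3 - (k' : ℕ)) * (c ^ (k : ℕ) * (w : G)) * (w : G)⁻¹ := by
              rw [pow_add, mul_assoc, mul_assoc, mul_inv_cancel, mul_one]
          _ = c ^ (3 - (k' : ℕ)) * (c ^ (k' : ℕ) * (w' : G)) * (w : G)⁻¹ := by rw [h1]
          _ = (c ^ (3 - (k' : ℕ)) * c ^ (k' : ℕ)) * (w' : G) * (w : G)⁻¹ := by
              simp only [mul_assoc]
          _ = (w' : G) * (w : G)⁻¹ := by rw [h0, one_mul]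
      have h3 : 3 ∣ 3 - (k' : ℕ) + (k : ℕ) :=
        hcD _ (by rw [h2]; exact D.mul_mem w'.2 (D.inv_mem w.2))
      have hk : (k : ℕ) = (k' : ℕ) := by
        have := k.2
        have := k'.2
        omega
      have hk' : k = k' := Fin.ext hk
      subst hk'
      have hw : (w : G) = (w' : G) := mul_left_cancel h1
      exact Prod.ext rfl (Subtype.ext hw)
    have hsurj : Function.Surjective φ := by
      rintro ⟨g, hg⟩
      obtain ⟨w, hw, h | h | h⟩ := part1 g hg
      · refine ⟨(0, ⟨w, hw⟩), Subtype.ext ?_⟩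
        rw [hφ]
        show c ^ 0 * w = g
        rw [pow_zero, one_mul, h]
      · refine ⟨(1, ⟨w, hw⟩), Subtype.ext ?_⟩
        rw [hφ]
        show c ^ 1 * w = g
        rw [pow_one, h]
      · refine ⟨(2, ⟨w, hw⟩), Subtype.ext ?_⟩
        rw [hφ]
        show c ^ 2 * w = g
        rw [hc2, h]
    have hcard : Nat.card (centralizer ({c} : Set G)) = Nat.card (Fin 3 × D) :=
      (Nat.card_congr (Equiv.ofBijective φ ⟨hinj, hsurj⟩)).symm
    rw [hcard, Nat.card_prod, Nat.card_fin, hDcard]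
  · intro n hn hnC
    rcases hcase n hn with ⟨h, -⟩ | h
    · exact absurd ((hmemC n).mpr h.symm) hnC
    · exact h

example : StD.{u} → Cfsg.Agent.H64.Tm.StCC.{u} := cc

end Cfsg.Agent.H8.Tm
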